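import Mathlib

/-! S3330 (`Sym(8)` from 3-local data): definitions (helper54). -/

set_option autoImplicit false
set_option maxRecDepth 100000

namespace H54.RA

open Equiv Subgroup

abbrev PP := Perm (Fin 3) × Perm (Fin 5)

/-- `(0 1 2)` -/
def c3 : Perm (Fin 3) := swap 0 1 * swap 1 2
/-- `(1 2 3)` -/
def d5 : Perm (Fin 5) := swap 1 2 * swap 2 3
/-- `(0 4)` -/
def t5 : Perm (Fin 5) := swap 0 4

/-- `⟨z, w⟩` with `z = ψ (c3, 1)`, `w = ψ (1, d5)`. -/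
def DD {G : Type*} [Group G] (ψ : PP →* G) : Subgroup G := zpowers (ψ (c3, 1)) ⊔ zpowers (ψ (1, d5))

/-- the data -/
structure RD {G : Type*} [Group G] (ψ : PP →* G) (n : G) : Prop where
  inj : Function.Injective ψ
  rng : ∀ g : G, g ∈ normalizer (zpowers (ψ (c3, 1)) : Set G) → ∃ k, ψ k = g
  n1 : n * ψ (c3, 1) * n⁻¹ = ψ (1, d5)
  n2 : n * ψ (1, d5) * n⁻¹ = ψ (c3, 1)
  nt : n * ψ (1, t5) = ψ (1, t5) * n
  nn : n * n = 1
  cy : Nat.card (centralizer ({ψ (c3, d5)} : Set G)) = 36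
  cyt : ∀ g : G, g * ψ (c3, d5) = ψ (c3, d5) * g → g * ψ (1, t5) = ψ (1, t5) * g
  cyD : ∀ g : G, g * ψ (c3, d5) = ψ (c3, d5) * g → g ∈ normalizer (DD ψ : Set G)
  h27 : ¬ 27 ∣ Nat.card G

/-- untwisted case -/
structure UD {G : Type*} [Group G] (ψ : PP →* G) (n : G) : Prop extends RD ψ n where
  n3 : n * ψ (1, swap 1 2) * n⁻¹ = ψ (swap 0 1, 1)

/-- twisted case -/
structure TD {G : Type*} [Group G] (ψ : PP →* G) (n : G) : Prop extends RD ψ n where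
  n3 : n * ψ (1, swap 1 2) * n⁻¹ = ψ (swap 0 1, t5)

/-- `C(t)/⟨t⟩ ≃ Sym(6)` -/
def S6 {G : Type*} [Group G] (t : G) : Prop :=
  ∃ π : centralizer ({t} : Set G) →* Perm (Fin 6), Function.Surjective π ∧
    ∀ g, π g = 1 ↔ ((g : G) = 1 ∨ (g : G) = t)

/-- the embedding `Sym(3) × Sym(5) → Sym(8)`, `i ∈ Fin 5 ↦ 3 + i` -/
def emb : PP →* Perm (Fin 8) :=
  (Equiv.permCongrHom (finSumFinEquiv (m := 3) (n := 5))).toMonoidHom.comp (Perm.sumCongrHom (Fin 3) (Fin 5))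

/-- pairs of permutations of the same sign -/
def EE : Subgroup (Perm (Fin 5) × Perm (Fin 5)) where
  carrier := {x | Perm.sign x.1 = Perm.sign x.2}
  one_mem' := by simp
  mul_mem' := by
    intro a b ha hb
    simp only [Set.mem_setOf_eq, Prod.fst_mul, Prod.snd_mul, map_mul] at ha hb ⊢
    rw [ha, hb]
  inv_mem' := by
    intro a ha
    simp only [Set.mem_setOf_eq, Prod.fst_inv, Prod.snd_inv, map_inv] at ha ⊢
    rw [ha]

/-- the element of `EE` given by a pair -/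
def mkE (a b : Perm (Fin 5)) (h : Perm.sign a = Perm.sign b) : EE := ⟨(a, b), h⟩

/-- `(t5, t5)` -/
def tE : EE := mkE t5 t5 rfl

/-- the data of the twisted case: `EE ⟨n⟩` in `G`. -/
structure TM {G : Type*} [Group G] (Φ : EE →* G) (n : G) : Prop where
  inj : Function.Injective Φ
  nn : n * n = 1
  nr : n ∉ Φ.range
  nc : ∀ (a b : Perm (Fin 5)) (h : Perm.sign a = Perm.sign b), n * Φ (mkE a b h) * n⁻¹ = Φ (mkE b a h.symm)
  /-- `C(t) ≤ M` -/
  ct : ∀ g : G, g * Φ tE = Φ tE * g → g ∈ Φ.range ∨ g * n ∈ Φ.range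
  /-- `C(w) ≤ M` for `w = Φ (d5, 1)` -/
  cw : ∀ g : G, g * Φ (mkE d5 1 (by decide +kernel)) = Φ (mkE d5 1 (by decide +kernel)) * g → g ∈ Φ.range
  /-- `t` is not conjugate to elements of `M` of another type -/
  fus : ∀ g : G, (g * Φ tE * g⁻¹ ∈ Φ.range ∨ g * Φ tE * g⁻¹ * n ∈ Φ.range) → g ∈ Φ.range ∨ g * n ∈ Φ.range

end H54.RA
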