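import Mathlib
import Cfsg.Agent.Lib.H54.RA0

set_option autoImplicit false

namespace H54.RA

open Equiv

/-- `b0 = (0 4)(1 2)`, centralized by `t5` -/
def b0 : Perm (Fin 5) := swap 0 4 * swap 1 2

theorem sb0 : Perm.sign b0 = Perm.sign (1 : Perm (Fin 5)) := by decide +kernel

end H54.RA
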