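import Mathlib
import Cfsg.Agent.Lib.H54.ThreeCyc2
import Cfsg.Agent.Lib.H42.SylowTwoPerm
import Cfsg.Agent.Lib.H63.MarggrafThm

set_option autoImplicit false
set_option linter.unusedSectionVars false
set_option linter.dupNamespace false

/-! Permutation groups containing the products of pairs of swaps of a near perfect matching:
the combinatorial part. -/

namespace H54.TwoCyc

open Equiv Equiv.Perm Subgroup

variable {α : Type} [Fintype α] [DecidableEq α]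

/-- `ν` is a near perfect matching and `H` contains the products of two of its swaps -/
structure Mt (H : Subgroup (Perm α)) (ν : Perm α) : Prop where
  invol : ∀ a, ν (ν a) = a
  fix : ∀ a b, ν a = a → ν b = b → a = b
  mem : ∀ a b, ν a ≠ a → ν b ≠ b → swap a (ν a) * swap b (ν b) ∈ H

theorem ap_inv (g : Perm α) (a : α) : g (g⁻¹ a) = a := g.apply_symm_apply a
theorem inv_ap (g : Perm α) (a : α) : g⁻¹ (g a) = a := g.symm_apply_apply a

theorem Mt.conj {H : Subgroup (Perm α)} {ν : Perm α} (h : Mt H ν) {g : Perm α} (hg : g ∈ H) :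
    Mt H (g * ν * g⁻¹) where
  invol a := by simp [h.invol]
  fix a b ha hb := by
    simp only [Perm.mul_apply] at ha hb
    have h1 : ν (g⁻¹ a) = g⁻¹ a := by rw [Perm.eq_inv_iff_eq, ha]
    have h2 : ν (g⁻¹ b) = g⁻¹ b := by rw [Perm.eq_inv_iff_eq, hb]
    have := h.fix _ _ h1 h2
    exact (g⁻¹).injective this
  mem a b ha hb := by
    simp only [Perm.mul_apply] at ha hb
    have h1 : ν (g⁻¹ a) ≠ g⁻¹ a := by
      intro h1; apply ha; rw [h1, ap_inv]
    have h2 : ν (g⁻¹ b) ≠ g⁻¹ b := by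
      intro h1; apply hb; rw [h1, ap_inv]
    have h3 := mul_mem (mul_mem hg (h.mem _ _ h1 h2)) (inv_mem hg)
    have e : g * (swap (g⁻¹ a) (ν (g⁻¹ a)) * swap (g⁻¹ b) (ν (g⁻¹ b))) * g⁻¹ =
        (g * swap (g⁻¹ a) (ν (g⁻¹ a)) * g⁻¹) * (g * swap (g⁻¹ b) (ν (g⁻¹ b)) * g⁻¹) := by group
    rw [e, H42.SylowTwoPerm.conj_swap, H42.SylowTwoPerm.conj_swap, ap_inv, ap_inv] at h3
    exact h3

/-- the set of points in a pair of blocks is disjoint ... -/
theorem three_of {H : Subgroup (Perm α)} {ν1 ν2 : Perm α} (h1 : Mt H ν1) (h2 : Mt H ν2) {x u w : α}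
    (hp : ν1 x ≠ x) (hq : ν2 x ≠ x) (hpq : ν1 x ≠ ν2 x) (hu : ν1 u ≠ u) (hw : ν2 w ≠ w)
    (hu1 : u ≠ x) (hu2 : u ≠ ν1 x) (hu3 : u ≠ ν2 x) (hu4 : ν1 u ≠ ν2 x)
    (hw1 : w ≠ x) (hw2 : w ≠ ν1 x) (hw3 : w ≠ ν2 x) (hw4 : ν2 w ≠ ν1 x)
    (hd1 : u ≠ w) (hd2 : u ≠ ν2 w) (hd3 : ν1 u ≠ w) (hd4 : ν1 u ≠ ν2 w) :
    ∃ c ∈ H, IsThreeCycle c ∧ c x ≠ x := by
  have hu5 : ν1 u ≠ x := by intro h; apply hu2; rw [← h, h1.invol]
  have hw5 : ν2 w ≠ x := by intro h; apply hw3; rw [← h, h2.invol]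
  set g1 := swap x (ν1 x) * swap u (ν1 u) with hg1
  set g2 := swap x (ν2 x) * swap w (ν2 w) with hg2
  have e1 : g1 x = ν1 x := by
    rw [hg1, Perm.mul_apply, swap_apply_of_ne_of_ne hu1.symm hu5.symm, swap_apply_left]
  have e2 : g2 x = ν2 x := by
    rw [hg2, Perm.mul_apply, swap_apply_of_ne_of_ne hw1.symm hw5.symm, swap_apply_left]
  have s1 : ∀ z, g1 z ≠ z → z = x ∨ z = ν1 x ∨ z = u ∨ z = ν1 u := by
    intro z hz
    by_contra hcon
    push Not at hcon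
    apply hz
    rw [hg1, Perm.mul_apply, swap_apply_of_ne_of_ne hcon.2.2.1 hcon.2.2.2,
      swap_apply_of_ne_of_ne hcon.1 hcon.2.1]
  have s2 : ∀ z, g2 z ≠ z → z = x ∨ z = ν2 x ∨ z = w ∨ z = ν2 w := by
    intro z hz
    by_contra hcon
    push Not at hcon
    apply hz
    rw [hg2, Perm.mul_apply, swap_apply_of_ne_of_ne hcon.2.2.1 hcon.2.2.2,
      swap_apply_of_ne_of_ne hcon.1 hcon.2.1]
  have hk : ∀ z, g1 z ≠ z → g2 z ≠ z → z = x := by
    intro z hz1 hz2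
    rcases s1 z hz1 with h | h | h | h <;> rcases s2 z hz2 with h' | h' | h' | h' <;>
      first
        | exact h
        | exact h'
        | (exfalso; rw [h] at h'; first
            | exact hpq h' | exact hw2 h'.symm | exact hw4 h'.symm | exact hu3 h' | exact hd1 h'
            | exact hd2 h' | exact hu4 h' | exact hd3 h' | exact hd4 h')
  have ha : g1 x ≠ x := by rw [e1]; exact hp
  have hb : g2 x ≠ x := by rw [e2]; exact hq
  refine ⟨g1 * g2 * g1⁻¹ * g2⁻¹, ?_, H63.Marggraf.isThreeCycle_commutator hk ha hb, ?_⟩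
  · have m1 : g1 ∈ H := h1.mem _ _ hp hu
    have m2 : g2 ∈ H := h2.mem _ _ hq hw
    exact mul_mem (mul_mem (mul_mem m1 m2) (inv_mem m1)) (inv_mem m2)
  · rw [(H63.Marggraf.support_commutator hk ha hb).1]
    exact ha

theorem card_fix {ν : Perm α} (i : ∀ a, ν (ν a) = a) (f : ∀ a b, ν a = a → ν b = b → a = b) :
    (Finset.univ \ ν.support).card ≤ 1 ∧
      (Fintype.card α = 8 → (Finset.univ \ ν.support).card = 0) := by
  have h1 : (Finset.univ \ ν.support).card ≤ 1 := by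
    rw [Finset.card_le_one]
    intro a ha b hb
    rw [Finset.mem_sdiff, Perm.mem_support, not_not] at ha hb
    exact f a b ha.2 hb.2
  refine ⟨h1, fun h8 => ?_⟩
  have h2 : ν ^ 2 = 1 := by
    ext a
    rw [pow_two, Perm.mul_apply, i, Perm.one_apply]
  have h3 := Equiv.Perm.two_dvd_card_support h2
  have h4 := Finset.card_sdiff_of_subset (Finset.subset_univ ν.support)
  rw [Finset.card_univ, h8] at h4
  have h5 := Finset.card_le_card (Finset.subset_univ ν.support)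
  rw [Finset.card_univ, h8] at h5
  omega

section pair

variable {ν1 ν2 : Perm α} {x : α}

def U (ν1 ν2 : Perm α) (x : α) : Finset α :=
  Finset.univ.filter fun u => ν1 u ≠ u ∧ u ≠ x ∧ u ≠ ν1 x ∧ u ≠ ν2 x ∧ ν1 u ≠ ν2 x

theorem mem_U {u : α} : u ∈ U ν1 ν2 x ↔ ν1 u ≠ u ∧ u ≠ x ∧ u ≠ ν1 x ∧ u ≠ ν2 x ∧ ν1 u ≠ ν2 x := by
  simp [U]

theorem card_U (h8 : 8 ≤ Fintype.card α) (i1 : ∀ a, ν1 (ν1 a) = a)
    (f1 : ∀ a b, ν1 a = a → ν1 b = b → a = b) :
    4 ≤ (U ν1 ν2 x).card ∧ Fintype.card α ≤ (U ν1 ν2 x).card + 5 ∧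
      (ν1 (ν2 x) = ν2 x → Fintype.card α ≤ (U ν1 ν2 x).card + 3) := by
  have hsub : (Finset.univ : Finset α) ⊆ U ν1 ν2 x ∪ ({x, ν1 x, ν2 x, ν1 (ν2 x)} ∪
      (Finset.univ \ ν1.support)) := by
    intro y _
    rw [Finset.mem_union, Finset.mem_union, mem_U, Finset.mem_sdiff, Perm.mem_support]
    by_contra hcon
    push Not at hcon
    obtain ⟨hc1, hc2, hc3⟩ := hcon
    simp only [Finset.mem_insert, Finset.mem_singleton, not_or] at hc2
    have h1 := hc3 (Finset.mem_univ _)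
    have h2 := hc1 h1 hc2.1 hc2.2.1 hc2.2.2.1
    apply hc2.2.2.2
    rw [← h2, i1]
  have h4 : ({x, ν1 x, ν2 x, ν1 (ν2 x)} : Finset α).card ≤ 4 := Finset.card_le_four
  have h5 := Finset.card_le_card hsub
  have h6 := Finset.card_union_le (U ν1 ν2 x) ({x, ν1 x, ν2 x, ν1 (ν2 x)} ∪
      (Finset.univ \ ν1.support))
  have h7 := Finset.card_union_le ({x, ν1 x, ν2 x, ν1 (ν2 x)} : Finset α)
      (Finset.univ \ ν1.support)
  rw [Finset.card_univ] at h5
  obtain ⟨h9, h10⟩ := card_fix i1 f1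
  refine ⟨?_, by omega, ?_⟩
  · rcases Nat.lt_or_ge 8 (Fintype.card α) with h | h
    · omega
    · have := h10 (by omega)
      omega
  · intro hq
    have hsub' : (Finset.univ : Finset α) ⊆ U ν1 ν2 x ∪ {x, ν1 x, ν2 x} := by
      intro y _
      rw [Finset.mem_union, mem_U]
      by_contra hcon
      push Not at hcon
      obtain ⟨hc1, hc2⟩ := hcon
      simp only [Finset.mem_insert, Finset.mem_singleton, not_or] at hc2
      have h1 : ν1 y ≠ y := fun h => hc2.2.2 (f1 _ _ h hq)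
      have h2 := hc1 h1 hc2.1 hc2.2.1 hc2.2.2
      apply hc2.2.2
      have h3 : y = ν1 (ν2 x) := by rw [← h2, i1]
      rw [h3, hq]
    have h11 := Finset.card_le_card hsub'
    have h12 := Finset.card_union_le (U ν1 ν2 x) {x, ν1 x, ν2 x}
    have h13 : ({x, ν1 x, ν2 x} : Finset α).card ≤ 3 := Finset.card_le_three
    rw [Finset.card_univ] at h11
    omega

theorem U_sub_aux (i1 : ∀ a, ν1 (ν1 a) = a) (i2 : ∀ a, ν2 (ν2 a) = a)
    (hno : ∀ u ∈ U ν1 ν2 x, ∀ w ∈ U ν2 ν1 x, u = w ∨ u = ν2 w ∨ ν1 u = w ∨ ν1 u = ν2 w) {u : α}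
    (hu : u ∈ U ν1 ν2 x) : U ν2 ν1 x ⊆ {u, ν2 u, ν1 u, ν2 (ν1 u)} := by
  intro w hw
  simp only [Finset.mem_insert, Finset.mem_singleton]
  rcases hno u hu w hw with h | h | h | h
  · left; exact h.symm
  · right; left; rw [h, i2]
  · right; right; left; exact h.symm
  · right; right; right; rw [h, i2]

theorem pair_or (i1 : ∀ a, ν1 (ν1 a) = a) (i2 : ∀ a, ν2 (ν2 a) = a)
    (f1 : ∀ a b, ν1 a = a → ν1 b = b → a = b) (f2 : ∀ a b, ν2 a = a → ν2 b = b → a = b)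
    (h8 : 8 ≤ Fintype.card α) (hp : ν1 x ≠ x) (hq : ν2 x ≠ x) (hpq : ν1 x ≠ ν2 x) :
    (∃ u ∈ U ν1 ν2 x, ∃ w ∈ U ν2 ν1 x, u ≠ w ∧ u ≠ ν2 w ∧ ν1 u ≠ w ∧ ν1 u ≠ ν2 w) ∨
    (Fintype.card α ≤ 9 ∧ ν1 (ν2 x) ≠ ν2 x ∧ ν2 (ν1 x) ≠ ν1 x ∧
      (ν2 (ν1 x) = ν1 (ν2 x) ∨ ν1 (ν2 (ν1 x)) = ν2 (ν1 x)) ∧ ∀ y, ν1 y ≠ y → ν1 y ≠ ν2 y) := by
  by_cases hno : ∃ u ∈ U ν1 ν2 x, ∃ w ∈ U ν2 ν1 x, u ≠ w ∧ u ≠ ν2 w ∧ ν1 u ≠ w ∧ ν1 u ≠ ν2 w
  · left; exact hno
  right
  have hno1 : ∀ u ∈ U ν1 ν2 x, ∀ w ∈ U ν2 ν1 x, u = w ∨ u = ν2 w ∨ ν1 u = w ∨ ν1 u = ν2 w := by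
    intro u hu w hw
    by_contra hcon
    push Not at hcon
    exact hno ⟨u, hu, w, hw, hcon⟩
  have hno2 : ∀ u ∈ U ν2 ν1 x, ∀ w ∈ U ν1 ν2 x, u = w ∨ u = ν1 w ∨ ν2 u = w ∨ ν2 u = ν1 w := by
    intro u hu w hw
    rcases hno1 w hw u hu with h | h | h | h
    · left; exact h.symm
    · right; right; left; exact h.symm
    · right; left; exact h.symm
    · right; right; right; exact h.symm
  obtain ⟨a1, a2, a3⟩ := card_U (ν2 := ν2) (x := x) h8 i1 f1
  obtain ⟨b1, b2, b3⟩ := card_U (ν2 := ν1) (x := x) h8 i2 f2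
  have hsub1 : U ν1 ν2 x ⊆ U ν2 ν1 x := by
    intro u hu
    have h1 := U_sub_aux i1 i2 hno1 hu
    have h2 : ({u, ν2 u, ν1 u, ν2 (ν1 u)} : Finset α).card ≤ 4 := Finset.card_le_four
    have h3 := Finset.eq_of_subset_of_card_le h1 (by omega)
    rw [h3]
    simp
  have hsub2 : U ν2 ν1 x ⊆ U ν1 ν2 x := by
    intro u hu
    have h1 := U_sub_aux i2 i1 hno2 hu
    have h2 : ({u, ν1 u, ν2 u, ν1 (ν2 u)} : Finset α).card ≤ 4 := Finset.card_le_four
    have h3 := Finset.eq_of_subset_of_card_le h1 (by omega)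
    rw [h3]
    simp
  have hU : U ν1 ν2 x = U ν2 ν1 x := Finset.Subset.antisymm hsub1 hsub2
  obtain ⟨u0, hu0⟩ : (U ν1 ν2 x).Nonempty := by
    rw [← Finset.card_pos]; omega
  have h4 : (U ν2 ν1 x).card ≤ 4 := (Finset.card_le_card (U_sub_aux i1 i2 hno1 hu0)).trans
    Finset.card_le_four
  have hr : ν1 (ν2 x) ≠ ν2 x := by
    intro h
    have := a3 h
    rw [hU] at this
    omega
  have hs : ν2 (ν1 x) ≠ ν1 x := by
    intro h
    have := b3 h
    omega
  have ix1 : ∀ {a b}, ν1 a = b → a = ν1 b := fun {a b} h => by rw [← h, i1]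
  have ix2 : ∀ {a b}, ν2 a = b → a = ν2 b := fun {a b} h => by rw [← h, i2]
  refine ⟨by rw [hU] at a2; omega, hr, hs, ?_, ?_⟩
  · have h5 : ν2 (ν1 x) ∉ U ν1 ν2 x := by
      rw [hU, mem_U]
      rintro ⟨-, -, -, -, h⟩
      exact h (i2 _)
    rw [mem_U] at h5
    by_contra hcon
    push Not at hcon
    apply h5
    refine ⟨hcon.2, ?_, hs, ?_, ?_⟩
    · intro h
      exact hpq (ix2 h)
    · intro h
      exact hp (ν2.injective h)
    · intro h
      exact hcon.1 (ix1 h)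
  · intro y hy1 hy2
    by_cases hyU : y ∈ U ν1 ν2 x
    · have h6 := U_sub_aux i1 i2 hno1 hyU
      rw [← hy2, hy2, i2] at h6
      have h7 : ({y, ν2 y, ν2 y, y} : Finset α) ⊆ {y, ν2 y} := by
        intro z hz
        simp only [Finset.mem_insert, Finset.mem_singleton] at hz ⊢
        tauto
      have h8 := Finset.card_le_card (h6.trans h7)
      have h9 : ({y, ν2 y} : Finset α).card ≤ 2 := Finset.card_le_two
      omega
    · rw [mem_U] at hyU
      have h6 : y ≠ x := by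
        rintro rfl; exact hpq hy2
      have h7 : y ≠ ν1 x := by
        rintro rfl
        rw [i1] at hy2
        exact hpq (ix2 hy2.symm)
      have h8 : y ≠ ν2 x := by
        rintro rfl
        rw [i2] at hy2
        exact hpq (ix1 hy2).symm
      have h9 : ν1 y ≠ ν2 x := by
        rw [hy2]
        intro h
        exact h6 (ν2.injective h)
      exact hyU ⟨hy1, h6, h7, h8, h9⟩

end pair

/-- without 3-cycles on `x` two matchings are related -/
theorem rel_of {H : Subgroup (Perm α)} {ν1 ν2 : Perm α} (h1 : Mt H ν1) (h2 : Mt H ν2)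
    (h8 : 8 ≤ Fintype.card α) {x : α} (hx : ¬ ∃ c ∈ H, IsThreeCycle c ∧ c x ≠ x)
    (hp : ν1 x ≠ x) (hq : ν2 x ≠ x) (hpq : ν1 x ≠ ν2 x) :
    Fintype.card α ≤ 9 ∧ ν1 (ν2 x) ≠ ν2 x ∧ ν2 (ν1 x) ≠ ν1 x ∧
      (ν2 (ν1 x) = ν1 (ν2 x) ∨ ν1 (ν2 (ν1 x)) = ν2 (ν1 x)) ∧ ∀ y, ν1 y ≠ y → ν1 y ≠ ν2 y := by
  rcases pair_or h1.invol h2.invol h1.fix h2.fix h8 hp hq hpq with ⟨u, hu, w, hw, h3⟩ | h
  · exfalso
    apply hx
    rw [mem_U] at hu hw
    exact three_of h1 h2 hp hq hpq hu.1 hw.1 hu.2.1 hu.2.2.1 hu.2.2.2.1 hu.2.2.2.2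
      hw.2.1 hw.2.2.2.1 hw.2.2.1 hw.2.2.2.2 h3.1 h3.2.1 h3.2.2.1 h3.2.2.2
  · exact h

/-- an element of order dividing 4 -/
theorem four_of' {μ ν e : Perm α} (h9 : Fintype.card α ≤ 9) (iμ : ∀ a, μ (μ a) = a)
    (iν : ∀ a, ν (ν a) = a) (hcomm : ∀ a, μ (ν a) = ν (μ a)) (hne : ∀ y, μ y ≠ y → μ y ≠ ν y)
    (hfix : ∀ y, ν y = y → μ y = y) (e1 : ∀ a, e (μ a) = μ (e a)) (e2 : ∀ a, e (ν a) = ν (e a))
    {x : α} (hx : μ x ≠ x) : e (e (e (e x))) = x := by
  let orb : α → Finset α := fun a => {a, μ a, ν a, μ (ν a)}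
  have hmem : ∀ a b, b ∈ orb a ↔ b = a ∨ b = μ a ∨ b = ν a ∨ b = μ (ν a) := by
    intro a b; simp [orb]
  have hcard : ∀ a, μ a ≠ a → (orb a).card = 4 := by
    intro a ha
    have h1 : a ≠ ν a := fun h => ha (hfix a h.symm)
    have h2 : a ≠ μ (ν a) := by
      intro h
      apply hne a ha
      rw [h, iμ, ← h]
    have h3 : μ a ≠ μ (ν a) := fun h => h1 (μ.injective h)
    have h4 : ν a ≠ μ (ν a) := by
      rw [hcomm]; exact fun h => ha (ν.injective h).symm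
    show ({a, μ a, ν a, μ (ν a)} : Finset α).card = 4
    rw [Finset.card_insert_of_notMem, Finset.card_insert_of_notMem, Finset.card_insert_of_notMem,
      Finset.card_singleton]
    · simpa using h4
    · simp only [Finset.mem_insert, Finset.mem_singleton, not_or]
      exact ⟨hne a ha, h3⟩
    · simp only [Finset.mem_insert, Finset.mem_singleton, not_or]
      exact ⟨ha.symm, h1, h2⟩
  have hsymm : ∀ a b, b ∈ orb a → a ∈ orb b := by
    intro a b hb
    rw [hmem] at hb ⊢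
    rcases hb with rfl | rfl | rfl | rfl
    · left; rfl
    · right; left; rw [iμ]
    · right; right; left; rw [iν]
    · right; right; right; rw [← hcomm, iν, iμ]
  have htrans : ∀ a b c, b ∈ orb a → c ∈ orb b → c ∈ orb a := by
    intro a b c hb hc
    rw [hmem] at hb hc ⊢
    rcases hb with rfl | rfl | rfl | rfl <;> rcases hc with rfl | rfl | rfl | rfl <;>
      simp [← hcomm, iμ, iν]
  have hdis : ∀ a b, b ∉ orb a → Disjoint (orb a) (orb b) := by
    intro a b hab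
    rw [Finset.disjoint_left]
    intro c hc1 hc2
    exact hab (htrans a c b hc1 (hsymm b c hc2))
  have hmv : ∀ a, μ a ≠ a → μ (e a) ≠ e a := by
    intro a ha h
    rw [← e1] at h
    exact ha (e.injective h)
  have heo : ∀ a b, e b ∈ orb (e a) → b ∈ orb a := by
    intro a b hb
    rw [hmem] at hb ⊢
    rw [← e1, ← e2, ← e1] at hb
    rcases hb with h | h | h | h
    · left; exact e.injective h
    · right; left; exact e.injective h
    · right; right; left; exact e.injective h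
    · right; right; right; exact e.injective h
  by_cases hy : e x ∈ orb x
  · have h1 : e (e x) = x := by
      rw [hmem] at hy
      rcases hy with h | h | h | h
      · rw [h, h]
      · rw [h, e1, h, iμ]
      · rw [h, e2, h, iν]
      · rw [h, e1, e2, h, ← hcomm, iν, iμ]
    rw [h1, h1]
  · have hy2 : e (e x) ∉ orb (e x) := fun h => hy (heo _ _ h)
    have hy3 : e (e x) ∈ orb x := by
      by_contra hcon
      have d1 := hdis _ _ hy
      have d2 := hdis _ _ hy2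
      have d3 := hdis _ _ hcon
      have h1 := hcard x hx
      have h2 := hcard _ (hmv x hx)
      have h3 := hcard _ (hmv _ (hmv x hx))
      have h4 : (orb x ∪ orb (e x) ∪ orb (e (e x))).card = 12 := by
        rw [Finset.card_union_of_disjoint, Finset.card_union_of_disjoint d1, h1, h2, h3]
        rw [Finset.disjoint_union_left]
        exact ⟨d3, d2⟩
      have h5 := Finset.card_le_card (Finset.subset_univ (orb x ∪ orb (e x) ∪ orb (e (e x))))
      rw [h4, Finset.card_univ] at h5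
      omega
    rw [hmem] at hy3
    rcases hy3 with h | h | h | h
    · rw [h, h]
    · rw [h, e1, e1, h, iμ]
    · rw [h, e2, e2, h, iν]
    · rw [h, e1, e1, e2, e2, h, ← hcomm, iν, iμ]

end H54.TwoCyc
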