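import Mathlib
import Cfsg.Agent.Lib.H54.TwoCyc1

set_option autoImplicit false
set_option linter.unusedSectionVars false
set_option linter.dupNamespace false

/-! Permutation groups with quasisimple generalized Fitting subgroup containing a Sylow 2-subgroup
of the alternating group. -/

namespace H54.TwoCyc

open Equiv Equiv.Perm Cfsg Subgroup H54.ThreeCyc

variable {α : Type} [Fintype α] [DecidableEq α] {H : Subgroup (Perm α)}

/-- moved by a 3-cycle of `H` -/
def Mv (H : Subgroup (Perm α)) (x : α) : Prop := ∃ c ∈ H, IsThreeCycle c ∧ c x ≠ x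

theorem Mv.apply {x : α} (hx : Mv H x) {h : Perm α} (hh : h ∈ H) : Mv H (h x) := by
  obtain ⟨c, hc, h3, hcx⟩ := hx
  refine ⟨h * c * h⁻¹, mul_mem (mul_mem hh hc) (inv_mem hh), ?_, ?_⟩
  · rw [← card_support_eq_three_iff, card_support_conj, card_support_eq_three_iff]
    exact h3
  · rw [Perm.mul_apply, Perm.mul_apply, inv_ap]
    exact fun h' => hcx (h.injective h')

theorem mv_apply_iff {x : α} {h : Perm α} (hh : h ∈ H) : Mv H (h x) ↔ Mv H x := by
  constructor
  · intro hx
    have := hx.apply (inv_mem hh)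
    rwa [inv_ap] at this
  · exact fun hx => hx.apply hh

/-- if all classes are small, `F*(H)` centralises the 3-cycles of `H` -/
theorem cen_of_small (hF : IsQuasisimple (generalizedFittingSubgroup H))
    (hcon : ∀ x, Mv H x → (cmp H x).ncard < 5) :
    ∀ e ∈ generalizedFittingSubgroup H, ∀ c ∈ H, IsThreeCycle c → ∀ x,
      (e : Perm α) (c x) = c ((e : Perm α) x) := by
  intro e he c hc h3 x
  obtain ⟨y, hy⟩ : ∃ y, c y ≠ y := by
    by_contra hall
    push Not at hall
    have : c = 1 := Perm.ext hall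
    rw [this] at h3
    have h6 := h3.orderOf
    rw [orderOf_one] at h6
    norm_num at h6
  have h4 : (cmp H y).ncard ≤ 4 := by
    have := hcon y ⟨c, hc, h3, hy⟩
    omega
  have h5 : (⟨c, hc⟩ : H) ∈ (altOn (cmp H y)).subgroupOf H :=
    mem_subgroupOf.mpr ⟨mem_alternatingGroup.mpr h3.sign, supp_le hc h3 (self_mem y) hy⟩
  have h6 := mem_centralizer_iff.mp ((small hF ⟨c, hc, h3, hy⟩ h4).1 h5) e he
  have h7 := congrArg (fun g : H => (g : Perm α) x) h6
  simpa using h7

/-- if all classes are small, `F*(H)` is trivial on the points moved by 3-cycles -/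
theorem fix_of_small (hF : IsQuasisimple (generalizedFittingSubgroup H))
    (hcon : ∀ x, Mv H x → (cmp H x).ncard < 5) :
    ∀ e ∈ generalizedFittingSubgroup H, ∀ x, Mv H x → (e : Perm α) x = x := by
  have hcen := cen_of_small hF hcon
  let T : Subgroup (generalizedFittingSubgroup H) :=
    { carrier := {e | ∀ x, Mv H x → ((e : H) : Perm α) x = x}
      one_mem' := fun _ _ => rfl
      mul_mem' := by
        intro a b ha hb x hx
        show ((a : H) : Perm α) (((b : H) : Perm α) x) = x
        rw [hb x hx, ha x hx]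
      inv_mem' := by
        intro a ha x hx
        show ((a : H) : Perm α)⁻¹ x = x
        rw [Perm.inv_eq_iff_eq, ha x hx] }
  have hT : T = ⊤ := by
    rw [eq_top_iff, ← H26.Quasisimple.commutator_eq_top hF, commutator_def, commutator_le]
    intro e _ f _ x hx
    have key : ∀ y, Mv H y → ((e : H) : Perm α) (((f : H) : Perm α) y) =
        ((f : H) : Perm α) (((e : H) : Perm α) y) := by
      rintro y ⟨c, hc, h3, hcy⟩
      exact comm_pow h3 (hcen e e.2 c hc h3) (hcen f f.2 c hc h3) hcy
    have hy : Mv H (((e : H) : Perm α)⁻¹ (((f : H) : Perm α)⁻¹ x)) :=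
      (hx.apply (inv_mem (f : H).2)).apply (inv_mem (e : H).2)
    have := key _ hy
    show ((e : H) : Perm α) (((f : H) : Perm α) (((e : H) : Perm α)⁻¹ (((f : H) : Perm α)⁻¹ x))) = x
    rw [this, ap_inv, ap_inv]
  intro e he x hx
  have : (⟨e, he⟩ : generalizedFittingSubgroup H) ∈ T := by rw [hT]; exact mem_top _
  exact this x hx

/-- the elements of `F*(H)` cannot all have order dividing 4 -/
theorem not_four (hF : IsQuasisimple (generalizedFittingSubgroup H)) :
    ¬ ∀ e ∈ generalizedFittingSubgroup H, ∀ x, (e : Perm α) ((e : Perm α) ((e : Perm α)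
      ((e : Perm α) x))) = x := by
  intro h
  apply H26.Quasisimple.not_isNilpotent hF
  have h2 : IsPGroup 2 (generalizedFittingSubgroup H) := by
    intro e
    refine ⟨2, ?_⟩
    apply Subtype.ext
    apply Subtype.ext
    ext x
    have := h e e.2 x
    show (((e : H) : Perm α) ^ 4) x = x
    simpa [pow_succ, Perm.mul_apply] using this
  exact h2.isNilpotent

/-- an `H`-invariant matching -/
theorem four_of (hF : IsQuasisimple (generalizedFittingSubgroup H)) (ν : Perm α)
    (hν : ∀ a, ν (ν a) = a) (hc : ∀ h ∈ H, ∀ a, h (ν a) = ν (h a))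
    (hm : ∀ a b, ν a ≠ a → ν b ≠ b → swap a (ν a) * swap b (ν b) ∈ H) {e : H}
    (he : e ∈ generalizedFittingSubgroup H) {x : α} (hx : ν x ≠ x) :
    (e : Perm α) ((e : Perm α) ((e : Perm α) ((e : Perm α) x))) = x := by
  set D := (H42.SylowTwoPerm.matchSub ν hν).subgroupOf H with hD
  have hn : D.Normal := by
    constructor
    rintro n hn g
    rw [hD, mem_subgroupOf, H42.SylowTwoPerm.mem_matchSub] at hn ⊢
    intro a
    show (g : Perm α) ((n : Perm α) ((g : Perm α)⁻¹ a)) = a ∨
      (g : Perm α) ((n : Perm α) ((g : Perm α)⁻¹ a)) = ν a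
    rcases hn ((g : Perm α)⁻¹ a) with h | h
    · left; rw [h, ap_inv]
    · right; rw [h, hc g g.2, ap_inv]
  have hs : Group.IsSolvable D := by
    have h1 : IsPGroup 2 D :=
      (H42.SylowTwoPerm.matchSub_isPGroup ν hν).comap_subtype
    have h2 : Group.IsNilpotent D := h1.isNilpotent
    infer_instance
  have hcen := (solv_le hF hn.isSubnormal hs).1
  have hce : ∀ a, (e : Perm α) (ν a) = ν ((e : Perm α) a) := hc e e.2
  obtain ⟨b, hb⟩ : ∃ b, b = (e : Perm α) x := ⟨_, rfl⟩
  have hbν : ν b ≠ b := by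
    rw [hb, ← hce]
    exact fun h => hx ((e : Perm α).injective h)
  rw [← hb]
  by_cases h1 : b = x
  · rw [h1, ← hb, h1, ← hb, h1, ← hb, h1]
  by_cases h2 : b = ν x
  · have h3 : (e : Perm α) b = x := by rw [h2, hce, ← hb, h2, hν]
    rw [h3, ← hb, h3]
  have hd : swap x (ν x) * swap b (ν b) ∈ H := hm x b hx hbν
  have hdD : (⟨_, hd⟩ : H) ∈ D := by
    rw [hD, mem_subgroupOf]
    exact mul_mem (H42.SylowTwoPerm.swap_mem_matchSub ν hν x)
      (H42.SylowTwoPerm.swap_mem_matchSub ν hν b)
  have h3 := mem_centralizer_iff.mp (hcen hdD) e he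
  have h4 := congrArg (fun g : H => (g : Perm α) b) h3
  have h5 : (e : Perm α) ((swap x (ν x) * swap b (ν b) : Perm α) b) =
      (swap x (ν x) * swap b (ν b) : Perm α) ((e : Perm α) b) := h4
  have h6 : (swap x (ν x) * swap b (ν b) : Perm α) b = ν b := by
    rw [Perm.mul_apply, swap_apply_left, swap_apply_of_ne_of_ne]
    · intro h; apply h2; rw [← h, hν]
    · intro h; exact h1 (ν.injective h)
  rw [h6, hce] at h5
  have h7 : (e : Perm α) b = x ∨ (e : Perm α) b = ν x := by
    by_contra hcon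
    push Not at hcon
    by_cases h8 : (e : Perm α) b = b
    · apply h1
      rw [hb] at h8 ⊢
      exact (e : Perm α).injective h8
    by_cases h9 : (e : Perm α) b = ν b
    · apply h2
      apply (e : Perm α).injective
      rw [h9, hce, ← hb]
    rw [Perm.mul_apply, swap_apply_of_ne_of_ne h8 h9, swap_apply_of_ne_of_ne hcon.1 hcon.2,
      ← hce] at h5
    exact hbν ((e : Perm α).injective h5)
  rcases h7 with h7 | h7
  · rw [h7, ← hb, h7]
  · rw [h7, hce, ← hb, hce, h7, hν]

section big

/-- invariance under the matching -/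
theorem Mt.exists_mem {ν : Perm α} (hν : Mt H ν) (h8 : 8 ≤ Fintype.card α) (x : α) :
    ∃ h ∈ H, h x = ν x := by
  by_cases hx : ν x = x
  · exact ⟨1, one_mem _, by rw [hx]; rfl⟩
  obtain ⟨c, -, hc, -, h1, h2, -⟩ :=
    H42.SylowTwoPerm.exists_other_pairs hν.fix (by omega) x
  refine ⟨_, hν.mem x c hx hc, ?_⟩
  rw [Perm.mul_apply, swap_apply_of_ne_of_ne h1.symm, swap_apply_left]
  intro h
  apply h2
  rw [h, hν.invol]

theorem Mt.mv_iff {ν : Perm α} (hν : Mt H ν) (h8 : 8 ≤ Fintype.card α) (x : α) :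
    Mv H (ν x) ↔ Mv H x := by
  obtain ⟨h, hh, e⟩ := hν.exists_mem h8 x
  rw [← e, mv_apply_iff hh]

/-- two matchings agree outside the moved points, in the large case -/
theorem agree {ν1 ν2 : Perm α} (h1 : Mt H ν1) (h2 : Mt H ν2) (h8 : 10 ≤ Fintype.card α) {x : α}
    (hx : ¬ Mv H x) : ν1 x = ν2 x := by
  have key : ∀ y, ¬ Mv H y → ν1 y ≠ y → ν2 y ≠ y → ν1 y = ν2 y := by
    intro y hy ha hb
    by_contra hcon
    have := (rel_of h1 h2 (by omega) hy ha hb hcon).1
    omega
  by_cases ha : ν1 x = x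
  · by_cases hb : ν2 x = x
    · rw [ha, hb]
    · exfalso
      have h3 : ¬ Mv H (ν2 x) := by rwa [h2.mv_iff (by omega)]
      have h4 : ν1 (ν2 x) ≠ ν2 x := by
        intro h
        exact hb (h1.fix _ _ h ha)
      have h5 := key _ h3 h4 (by rw [h2.invol]; exact Ne.symm hb)
      rw [h2.invol] at h5
      apply hb
      rw [← h1.invol (ν2 x), h5, ha]
  · by_cases hb : ν2 x = x
    · exfalso
      have h3 : ¬ Mv H (ν1 x) := by rwa [h1.mv_iff (by omega)]
      have h4 : ν2 (ν1 x) ≠ ν1 x := by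
        intro h
        exact ha (h2.fix _ _ h hb)
      have h5 := key _ h3 (by rw [h1.invol]; exact Ne.symm ha) h4
      rw [h1.invol] at h5
      apply ha
      rw [← h2.invol (ν1 x), ← h5, hb]
    · exact key x hx ha hb

theorem exists_big_ten (hF : IsQuasisimple (generalizedFittingSubgroup H)) {μ : Perm α}
    (hμ : Mt H μ) (h10 : 10 ≤ Fintype.card α) :
    ∃ x, Mv H x ∧ 5 ≤ (cmp H x).ncard := by
  classical
  by_contra hcon
  push Not at hcon
  have hfix := fix_of_small hF hcon
  have hmv := hμ.mv_iff (H := H) (by omega)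
  have hii : ∀ a, (fun a => if Mv H a then a else μ a) ((fun a => if Mv H a then a else μ a) a) = a := by
    intro a
    by_cases ha : Mv H a
    · simp [ha]
    · simp [ha, hmv, hμ.invol]
  let ν : Perm α := ⟨fun a => if Mv H a then a else μ a, fun a => if Mv H a then a else μ a, hii, hii⟩
  have hν1 : ∀ a, Mv H a → ν a = a := fun a ha => if_pos ha
  have hν2 : ∀ a, ¬ Mv H a → ν a = μ a := fun a ha => if_neg ha
  have hc : ∀ h ∈ H, ∀ a, h (ν a) = ν (h a) := by
    intro h hh a
    by_cases ha : Mv H a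
    · rw [hν1 a ha, hν1 _ (ha.apply hh)]
    · rw [hν2 a ha, hν2 _ (by rwa [mv_apply_iff hh])]
      have h1 := agree hμ (hμ.conj (inv_mem hh)) h10 ha
      rw [inv_inv, Perm.mul_apply, Perm.mul_apply] at h1
      rw [h1, ap_inv]
  have hm : ∀ a b, ν a ≠ a → ν b ≠ b → swap a (ν a) * swap b (ν b) ∈ H := by
    intro a b ha hb
    have ha' : ¬ Mv H a := fun h => ha (hν1 a h)
    have hb' : ¬ Mv H b := fun h => hb (hν1 b h)
    rw [hν2 a ha'] at ha ⊢
    rw [hν2 b hb'] at hb ⊢
    exact hμ.mem a b ha hb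
  apply not_four hF
  intro e he x
  by_cases hx : Mv H x
  · have h1 := hfix e he x hx
    rw [h1, h1, h1, h1]
  · by_cases hx2 : μ x = x
    · have h1 := hc e e.2 x
      rw [hν2 x hx, hx2, hν2 _ (by rwa [mv_apply_iff e.2])] at h1
      have h2 := hμ.fix _ _ h1.symm hx2
      rw [h2, h2, h2, h2]
    · exact four_of hF ν hii hc hm he (by rw [hν2 x hx]; exact hx2)

end big

end H54.TwoCyc
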