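import Mathlib
import Cfsg.Agent.Lib.H54.TwoCyc2

set_option autoImplicit false
set_option linter.unusedSectionVars false
set_option linter.dupNamespace false

/-! A proper subgroup of the alternating group containing all proper overgroups (stabilisers of
equivalence relations) of a Sylow 3-subgroup. -/

namespace H54.AltMin

open Equiv Equiv.Perm H54.ThreeCyc H54.TwoCyc

variable {α : Type} [Fintype α] [DecidableEq α]

/-- the hypothesis on `S` and `H` -/
structure Hyp (S H : Subgroup (Perm α)) : Prop where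
  pg : IsPGroup 3 S
  le : ∀ r : Setoid α, (∀ g ∈ S, ∀ x y, r x y → r (g x) (g y)) →
    (∃ u v w, u ≠ v ∧ r u v ∧ ¬ r u w) → ∀ g ∈ alternatingGroup α,
    (∀ x y, r x y ↔ r (g x) (g y)) → g ∈ H
  proper : ¬ alternatingGroup α ≤ H
  five : 5 ≤ Fintype.card α
  rho : 3 ∣ Fintype.card α → ∃ (ρ : Perm α) (h3 : ∀ a, ρ (ρ (ρ a)) = a), (∀ a, ρ a ≠ a) ∧
    rhoSub ρ h3 ≤ S

variable {S H : Subgroup (Perm α)}

theorem Hyp.not_all (h : Hyp S H) {x : α} (hx : Mv H x) : ¬ ∀ y, y ∈ cmp H x := by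
  intro hall
  apply h.proper
  refine le_trans ?_ (altOn_cmp_le hx)
  intro g hg
  exact ⟨hg, fun y hy => absurd (hall y) hy⟩

/-- a 3-cycle with given support -/
theorem cyc_facts {x y z : α} (hxy : x ≠ y) (hxz : x ≠ z) (hyz : y ≠ z) :
    IsThreeCycle (swap x z * swap x y) ∧ (swap x z * swap x y) x = y ∧
      (swap x z * swap x y) y = z ∧ (swap x z * swap x y) z = x ∧
      ∀ w, w ≠ x → w ≠ y → w ≠ z → (swap x z * swap x y) w = w := by
  refine ⟨isThreeCycle_swap_mul_swap_same hxz hxy hyz.symm, ?_, ?_, ?_, ?_⟩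
  · rw [Perm.mul_apply, swap_apply_left, swap_apply_of_ne_of_ne hxy.symm hyz]
  · rw [Perm.mul_apply, swap_apply_right, swap_apply_left]
  · rw [Perm.mul_apply, swap_apply_of_ne_of_ne hxz.symm hyz.symm, swap_apply_right]
  · intro w w1 w2 w3
    rw [Perm.mul_apply, swap_apply_of_ne_of_ne w1 w2, swap_apply_of_ne_of_ne w1 w3]

/-- points in a class of an invariant relation are moved by a common 3-cycle -/
theorem Hyp.rel (h : Hyp S H) (r : Setoid α) (hr : ∀ g ∈ S, ∀ x y, r x y → r (g x) (g y))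
    {x y z w : α} (hxy : x ≠ y) (hxz : x ≠ z) (hyz : y ≠ z) (r1 : r x y) (r2 : r x z)
    (r3 : ¬ r x w) : Rel H x y := by
  obtain ⟨c3, cx, cy, cz, cw⟩ := cyc_facts hxy hxz hyz
  generalize swap x z * swap x y = c at *
  have key : ∀ a, r a (c a) := by
    intro a
    by_cases ax : a = x
    · rw [ax, cx]; exact r1
    by_cases ay : a = y
    · rw [ay, cy]; exact r.trans (r.symm r1) r2
    by_cases az : a = z
    · rw [az, cz]; exact r.symm r2
    rw [cw a ax ay az]
  refine ⟨c, ?_, c3, by rw [cx]; exact hxy.symm, by rw [cy]; exact hyz.symm⟩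
  apply h.le r hr ⟨x, y, w, hxy, r1, r3⟩ c (mem_alternatingGroup.mpr c3.sign)
  intro a b
  constructor
  · intro hab
    exact r.trans (r.symm (key a)) (r.trans hab (key b))
  · intro hab
    exact r.trans (key a) (r.trans hab (r.symm (key b)))

/-- the relation with classes `Ω` and its complement -/
def rS (Ω : Set α) : Setoid α where
  r x y := (x ∈ Ω ↔ y ∈ Ω)
  iseqv := ⟨fun _ => Iff.rfl, fun h => h.symm, fun h h' => h.trans h'⟩

theorem rS_iff {Ω : Set α} {x y : α} : rS Ω x y ↔ (x ∈ Ω ↔ y ∈ Ω) := Iff.rfl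

theorem Hyp.rel_set (h : Hyp S H) {Ω : Set α} (hΩ : ∀ g ∈ S, ∀ x, g x ∈ Ω ↔ x ∈ Ω)
    {x y z w : α} (hxy : x ≠ y) (hxz : x ≠ z) (hyz : y ≠ z) (hx : x ∈ Ω) (hy : y ∈ Ω) (hz : z ∈ Ω)
    (hw : w ∉ Ω) : Rel H x y := by
  apply h.rel (rS Ω) _ hxy hxz hyz (w := w)
  · rw [rS_iff]; tauto
  · rw [rS_iff]; tauto
  · rw [rS_iff]; tauto
  · intro g hg a b hab
    rw [rS_iff] at hab ⊢
    rw [hΩ g hg, hΩ g hg, hab]

theorem exists_notMem {s : Finset α} (hs : s.card < Fintype.card α) : ∃ z, z ∉ s := by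
  by_contra hcon
  push Not at hcon
  have : s = Finset.univ := Finset.eq_univ_iff_forall.mpr hcon
  rw [this, Finset.card_univ] at hs
  omega

/-- points different from a fixed point are related -/
theorem Hyp.rel_fix (h : Hyp S H) {i : α} (hi : ∀ g ∈ S, g i = i) {x y : α} (hxy : x ≠ y)
    (hx : x ≠ i) (hy : y ≠ i) : Rel H x y := by
  have h5 := h.five
  obtain ⟨z, hz⟩ : ∃ z, z ∉ ({x, y, i} : Finset α) := by
    apply exists_notMem
    have : ({x, y, i} : Finset α).card ≤ 3 := Finset.card_le_three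
    omega
  simp only [Finset.mem_insert, Finset.mem_singleton, not_or] at hz
  apply h.rel_set (Ω := {i}ᶜ) _ hxy (Ne.symm hz.1) (Ne.symm hz.2.1) hx hy hz.2.2 (w := i)
  · simp
  · intro g hg a
    simp only [Set.mem_compl_iff, Set.mem_singleton_iff, not_iff_not]
    constructor
    · intro h'
      apply g.injective
      rw [h', hi g hg]
    · rintro rfl; exact hi g hg

theorem Hyp.cmp_fix (h : Hyp S H) {i : α} (hi : ∀ g ∈ S, g i = i) {x y : α} 
    (hx : x ≠ i) (hy : y ≠ i) : y ∈ cmp H x := by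
  by_cases hxy : x = y
  · rw [hxy]; exact self_mem y
  · exact mem_cmp_of_rel (self_mem x) (h.rel_fix hi hxy hx hy)

theorem mv_of_rel {x y : α} (h : Rel H x y) : Mv H x := by
  obtain ⟨c, hc, h3, hx, -⟩ := h
  exact ⟨c, hc, h3, hx⟩

theorem Hyp.fix_unique (h : Hyp S H) {i j : α} (hi : ∀ g ∈ S, g i = i) (hj : ∀ g ∈ S, g j = j) :
    i = j := by
  by_contra hij
  have h5 := h.five
  obtain ⟨x, hx⟩ : ∃ x, x ∉ ({i, j} : Finset α) := by
    apply exists_notMem
    have : ({i, j} : Finset α).card ≤ 2 := Finset.card_le_two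
    omega
  obtain ⟨y, hy⟩ : ∃ y, y ∉ ({x, i, j} : Finset α) := by
    apply exists_notMem
    have : ({x, i, j} : Finset α).card ≤ 3 := Finset.card_le_three
    omega
  simp only [Finset.mem_insert, Finset.mem_singleton, not_or] at hx hy
  apply h.not_all (mv_of_rel (h.rel_fix hi (Ne.symm hy.1) hx.1 hy.2.1))
  intro z
  by_cases hz : z = i
  · apply h.cmp_fix hj hx.2
    rw [hz]; exact hij
  · exact h.cmp_fix hi hx.1 hz

theorem Hyp.orbit_card (h : Hyp S H) (x : α) : ∃ k, (MulAction.orbit S x).ncard = 3 ^ k := by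
  have := Fact.mk Nat.prime_three
  obtain ⟨k, hk⟩ := h.pg.index (MulAction.stabilizer S x)
  exact ⟨k, by rw [← hk, MulAction.index_stabilizer]⟩

theorem mem_orbit_iff {x y : α} : y ∈ MulAction.orbit S x ↔ ∃ g ∈ S, g x = y := by
  rw [MulAction.mem_orbit_iff]
  constructor
  · rintro ⟨g, hg⟩; exact ⟨g, g.2, hg⟩
  · rintro ⟨g, hg, e⟩; exact ⟨⟨g, hg⟩, e⟩

theorem orbit_inv (x : α) {g : Perm α} (hg : g ∈ S) (y : α) :
    g y ∈ MulAction.orbit S x ↔ y ∈ MulAction.orbit S x := by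
  rw [mem_orbit_iff, mem_orbit_iff]
  constructor
  · rintro ⟨k, hk, e⟩
    exact ⟨g⁻¹ * k, mul_mem (inv_mem hg) hk, by rw [Perm.mul_apply, e, inv_ap]⟩
  · rintro ⟨k, hk, e⟩
    exact ⟨g * k, mul_mem hg hk, by rw [Perm.mul_apply, e]⟩

theorem Hyp.of_fix (h : Hyp S H) {i : α} (hi : ∀ g ∈ S, g i = i) :
    ∃ a : ℕ, 2 ≤ a ∧ Fintype.card α = 3 ^ a + 1 := by
  have h5 := h.five
  obtain ⟨x, hx⟩ : ∃ x, x ∉ ({i} : Finset α) := by
    apply exists_notMem
    rw [Finset.card_singleton]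
    omega
  rw [Finset.mem_singleton] at hx
  have hiΩ : i ∉ MulAction.orbit S x := by
    rw [mem_orbit_iff]
    rintro ⟨g, hg, e⟩
    apply hx
    apply g.injective
    rw [e, hi g hg]
  have key : ∀ j, j ≠ i → j ∈ MulAction.orbit S x := by
    intro j hj
    by_contra hjΩ
    obtain ⟨g, hg, hgj⟩ : ∃ g ∈ S, g j ≠ j := by
      by_contra hcon
      push Not at hcon
      exact hj (h.fix_unique hcon hi)
    have hgi : g j ≠ i := by
      intro e
      apply hj
      apply g.injective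
      rw [e, hi g hg]
    have hxΩ : x ∈ MulAction.orbit S x := MulAction.mem_orbit_self x
    have hrel : Rel H i j := by
      apply h.rel_set (Ω := (MulAction.orbit S x)ᶜ) _ (Ne.symm hj) (Ne.symm hgi) (Ne.symm hgj) hiΩ
        hjΩ _ (w := x) (fun hcon => hcon hxΩ)
      · intro k hk y
        rw [Set.mem_compl_iff, Set.mem_compl_iff, orbit_inv x hk]
      · rw [Set.mem_compl_iff, orbit_inv x hg]; exact hjΩ
    apply h.not_all (mv_of_rel hrel.symm)
    intro y
    by_cases hy : y = i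
    · rw [hy]; exact mem_cmp_of_rel (self_mem j) hrel.symm
    · exact h.cmp_fix hi hj hy
  have hΩ : MulAction.orbit S x = {i}ᶜ := by
    ext y
    rw [Set.mem_compl_iff, Set.mem_singleton_iff]
    exact ⟨fun hy e => hiΩ (e ▸ hy), key y⟩
  obtain ⟨k, hk⟩ := h.orbit_card x
  rw [hΩ] at hk
  have h6 := Set.ncard_add_ncard_compl ({i} : Set α)
  rw [hk, Set.ncard_singleton, Nat.card_eq_fintype_card] at h6
  refine ⟨k, ?_, by omega⟩
  by_contra hcon
  have : k = 0 ∨ k = 1 := by omega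
  rcases this with rfl | rfl
  · norm_num at h6; omega
  · norm_num at h6; omega

end H54.AltMin
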