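import Mathlib
import Cfsg.Agent.Lib.H54.AltMin1

set_option autoImplicit false
set_option linter.unusedSectionVars false
set_option linter.dupNamespace false

/-! A proper subgroup of the alternating group containing all proper overgroups (stabilisers of
equivalence relations) of a Sylow 3-subgroup: no fixed points. -/

namespace H54.AltMin

open Equiv Equiv.Perm H54.ThreeCyc H54.TwoCyc

variable {α : Type} [Fintype α] [DecidableEq α]

variable {S H : Subgroup (Perm α)}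

/-- in a 3-group, two 3-cycles with a common point have the same support -/
theorem three_unique (hS : IsPGroup 3 S) {c c' : Perm α} (hc : c ∈ S) (h3 : IsThreeCycle c)
    (hc' : c' ∈ S) (h3' : IsThreeCycle c') {z w : α} (hz : c z ≠ z) (hz' : c' z ≠ z)
    (hw : c w ≠ w) : c' w ≠ w := by
  intro hcon
  obtain ⟨n1, n2, n3, -⟩ := three_eq h3' hz'
  have m1 : c' (c' z) ≠ c' z := n3
  have m2 : c' (c' (c' z)) ≠ c' (c' z) := fun h => n3 (c'.injective h)
  have w1 : w ≠ z := by rintro rfl; exact hz' hcon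
  have w2 : w ≠ c' z := by rintro rfl; exact m1 hcon
  have w3 : w ≠ c' (c' z) := by rintro rfl; exact m2 hcon
  have hz0 : z ∈ cmp S z := self_mem z
  have hp1 : c' z ∈ cmp S z := mem_cmp_of_rel hz0 ⟨c', hc', h3', hz', m1⟩
  have hp2 : c' (c' z) ∈ cmp S z := mem_cmp_of_rel hz0 ⟨c', hc', h3', hz', m2⟩
  have hw0 : w ∈ cmp S z := mem_cmp_of_rel hz0 ⟨c, hc, h3, hz, hw⟩
  have hd : swap z w * swap (c' z) (c' (c' z)) ∈ S := by
    apply altOn_cmp_le ⟨c, hc, h3, hz⟩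
    refine ⟨H42.SylowTwoPerm.swap_swap_mem_alt w1.symm m1.symm, ?_⟩
    intro x hx
    have e1 : x ≠ z := fun h => hx (h ▸ hz0)
    have e2 : x ≠ w := fun h => hx (h ▸ hw0)
    have e3 : x ≠ c' z := fun h => hx (h ▸ hp1)
    have e4 : x ≠ c' (c' z) := fun h => hx (h ▸ hp2)
    rw [Perm.mul_apply, swap_apply_of_ne_of_ne e3 e4, swap_apply_of_ne_of_ne e1 e2]
  have hdz : (swap z w * swap (c' z) (c' (c' z))) z = w := by
    rw [Perm.mul_apply, swap_apply_of_ne_of_ne n2 n1, swap_apply_left]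
  have hdd : (swap z w * swap (c' z) (c' (c' z))) ^ 2 = 1 := by
    have hdis : Disjoint (swap z w) (swap (c' z) (c' (c' z))) := by
      intro x
      by_cases h1 : x = z
      · right; rw [h1, swap_apply_of_ne_of_ne n2 n1]
      · by_cases h2 : x = w
        · right; rw [h2, swap_apply_of_ne_of_ne w2 w3]
        · left; rw [swap_apply_of_ne_of_ne h1 h2]
    rw [(hdis.commute).mul_pow, pow_two, pow_two, swap_mul_self, swap_mul_self, one_mul]
  obtain ⟨k, hk⟩ := hS ⟨_, hd⟩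
  have hk' : (swap z w * swap (c' z) (c' (c' z))) ^ 3 ^ k = 1 := congrArg Subtype.val hk
  have h4 : orderOf (swap z w * swap (c' z) (c' (c' z))) ∣ Nat.gcd 2 (3 ^ k) :=
    Nat.dvd_gcd (orderOf_dvd_of_pow_eq_one hdd) (orderOf_dvd_of_pow_eq_one hk')
  have h5 : Nat.gcd 2 (3 ^ k) = 1 := Nat.Coprime.pow_right k (by norm_num)
  rw [h5, Nat.dvd_one, orderOf_eq_one_iff] at h4
  rw [h4] at hdz
  exact w1 hdz.symm

/-- the relation "same orbit of `ρ`" -/
def rρ (ρ : Perm α) (h3 : ∀ a, ρ (ρ (ρ a)) = a) : Setoid α where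
  r x y := y = x ∨ y = ρ x ∨ y = ρ (ρ x)
  iseqv := by
    refine ⟨fun x => Or.inl rfl, ?_, ?_⟩
    · rintro x y (rfl | rfl | rfl)
      · left; rfl
      · right; right; rw [h3]
      · right; left; rw [h3]
    · rintro x y z (rfl | rfl | rfl) (rfl | rfl | rfl) <;> simp [h3]

theorem rρ_iff {ρ : Perm α} {h3 : ∀ a, ρ (ρ (ρ a)) = a} {x y : α} :
    rρ ρ h3 x y ↔ y = x ∨ y = ρ x ∨ y = ρ (ρ x) := Iff.rfl

section rho

variable {ρ : Perm α} (h3 : ∀ a, ρ (ρ (ρ a)) = a) (hne : ∀ a, ρ a ≠ a)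

include h3 hne

theorem ne_two (a : α) : ρ (ρ a) ≠ a := by
  intro h
  apply hne a
  conv_lhs => rw [← h]
  rw [h3]

omit h3 in
theorem ne_three (a : α) : ρ (ρ a) ≠ ρ a := fun h => hne a (ρ.injective h)

theorem cyc_rho (a : α) : ∃ c ∈ rhoSub ρ h3, IsThreeCycle c ∧ c a = ρ a ∧
    (∀ y, c y ≠ y ↔ rρ ρ h3 a y) := by
  obtain ⟨c3, ca, cb, cc, co⟩ := cyc_facts (hne a).symm (ne_two h3 hne a).symm (ne_three hne a).symm
  generalize swap a (ρ (ρ a)) * swap a (ρ a) = c at *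
  refine ⟨c, ⟨?_, ?_⟩, c3, ca, ?_⟩
  · intro x
    by_cases x1 : x = a
    · rw [x1, cb, ca]
    by_cases x2 : x = ρ a
    · rw [x2, cc, cb, h3]
    by_cases x3 : x = ρ (ρ a)
    · rw [x3, h3, ca, cc]
    rw [co x x1 x2 x3]
    apply co
    · intro h; apply x3; rw [← h, h3]
    · intro h; exact x1 (ρ.injective h)
    · intro h; exact x2 (ρ.injective h)
  · intro x
    by_cases x1 : x = a
    · right; left; rw [x1, ca]
    by_cases x2 : x = ρ a
    · right; left; rw [x2, cb]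
    by_cases x3 : x = ρ (ρ a)
    · right; left; rw [x3, cc, h3]
    left; exact co x x1 x2 x3
  · intro y
    rw [rρ_iff]
    constructor
    · intro h
      by_contra hcon
      push Not at hcon
      exact h (co y hcon.1 hcon.2.1 hcon.2.2)
    · rintro (rfl | rfl | rfl)
      · rw [ca]; exact hne y
      · rw [cb]; exact ne_three hne a
      · rw [cc]; exact (ne_two h3 hne a).symm

/-- `ρ`-equivariant even permutation moving one orbit to another and fixing a third -/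
theorem exists_g {b b1 y b2 : α} (nby : ¬ rρ ρ h3 b y) (nb1 : ¬ rρ ρ h3 b b1)
    (ny1 : ¬ rρ ρ h3 y b1) (nb2 : ¬ rρ ρ h3 b b2) (ny2 : ¬ rρ ρ h3 y b2) (n12 : ¬ rρ ρ h3 b1 b2) :
    ∃ g ∈ alternatingGroup α, (∀ x, g (ρ x) = ρ (g x)) ∧ g b = y ∧ g b2 = b2 := by
  have e1 : b ≠ y := fun h => nby (h ▸ (rρ ρ h3).refl b)
  have e2 : b ≠ b1 := fun h => nb1 (h ▸ (rρ ρ h3).refl b)
  have e3 : y ≠ b1 := fun h => ny1 (h ▸ (rρ ρ h3).refl y)
  obtain ⟨c3, cb, cy, c1, co⟩ := cyc_facts e1 e2 e3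
  generalize swap b b1 * swap b y = c0 at *
  -- the set {b, y, b1}
  have hT : ∀ u v, (u = b ∨ u = y ∨ u = b1) → (v = b ∨ v = y ∨ v = b1) → rρ ρ h3 u v → u = v := by
    intro u v hu hv huv
    rcases hu with rfl | rfl | rfl <;> rcases hv with rfl | rfl | rfl <;>
      first
        | rfl
        | exact absurd huv nby | exact absurd huv nb1 | exact absurd huv ny1
        | exact absurd ((rρ ρ h3).symm huv) nby | exact absurd ((rρ ρ h3).symm huv) nb1
        | exact absurd ((rρ ρ h3).symm huv) ny1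
  have m0 : ∀ x, c0 x ≠ x → (x = b ∨ x = y ∨ x = b1) := by
    intro x hx
    by_contra hcon
    push Not at hcon
    exact hx (co x hcon.1 hcon.2.1 hcon.2.2)
  have m1 : ∀ x, (ρ * c0 * ρ⁻¹) x ≠ x → ∃ u, (u = b ∨ u = y ∨ u = b1) ∧ x = ρ u := by
    intro x hx
    refine ⟨ρ⁻¹ x, m0 _ ?_, (ap_inv ρ x).symm⟩
    intro h
    apply hx
    rw [Perm.mul_apply, Perm.mul_apply, h, ap_inv]
  have m2 : ∀ x, (ρ * (ρ * c0 * ρ⁻¹) * ρ⁻¹) x ≠ x →
      ∃ u, (u = b ∨ u = y ∨ u = b1) ∧ x = ρ (ρ u) := by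
    intro x hx
    have h4 : (ρ * c0 * ρ⁻¹) (ρ⁻¹ x) ≠ ρ⁻¹ x := by
      intro h
      apply hx
      rw [Perm.mul_apply, Perm.mul_apply, h, ap_inv]
    obtain ⟨u, hu, e⟩ := m1 _ h4
    exact ⟨u, hu, by rw [← e, ap_inv]⟩
  have hconj : ρ * (ρ * (ρ * c0 * ρ⁻¹) * ρ⁻¹) * ρ⁻¹ = c0 := by
    have hρ3 : ρ * ρ * ρ = 1 := by
      ext x
      exact h3 x
    have : ρ * (ρ * (ρ * c0 * ρ⁻¹) * ρ⁻¹) * ρ⁻¹ = (ρ * ρ * ρ) * c0 * (ρ * ρ * ρ)⁻¹ := by group
    rw [this, hρ3]; simp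
  have d01 : Disjoint c0 (ρ * c0 * ρ⁻¹) := by
    intro x
    by_contra hcon
    push Not at hcon
    obtain ⟨u, hu, e⟩ := m1 x hcon.2
    have hx := m0 x hcon.1
    have := hT u x hu hx (by rw [rρ_iff]; right; left; exact e)
    rw [← this] at e
    exact hne u e.symm
  have d02 : Disjoint c0 (ρ * (ρ * c0 * ρ⁻¹) * ρ⁻¹) := by
    intro x
    by_contra hcon
    push Not at hcon
    obtain ⟨u, hu, e⟩ := m2 x hcon.2
    have hx := m0 x hcon.1
    have := hT u x hu hx (by rw [rρ_iff]; right; right; exact e)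
    rw [← this] at e
    exact ne_two h3 hne u e.symm
  have f1 : ∀ x, (∀ u, (u = b ∨ u = y ∨ u = b1) → x ≠ ρ u) → (ρ * c0 * ρ⁻¹) x = x := by
    intro x hx
    by_contra h
    obtain ⟨u, hu, e⟩ := m1 x h
    exact hx u hu e
  have f2 : ∀ x, (∀ u, (u = b ∨ u = y ∨ u = b1) → x ≠ ρ (ρ u)) →
      (ρ * (ρ * c0 * ρ⁻¹) * ρ⁻¹) x = x := by
    intro x hx
    by_contra h
    obtain ⟨u, hu, e⟩ := m2 x h
    exact hx u hu e
  refine ⟨c0 * (ρ * c0 * ρ⁻¹) * (ρ * (ρ * c0 * ρ⁻¹) * ρ⁻¹), ?_, ?_, ?_, ?_⟩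
  · rw [mem_alternatingGroup]
    simp only [map_mul, map_inv, c3.sign]
    have : sign ρ * (sign ρ)⁻¹ = 1 := mul_inv_cancel _
    simp
  · generalize hc1 : ρ * c0 * ρ⁻¹ = k1 at *
    generalize hc2 : ρ * k1 * ρ⁻¹ = k2 at *
    have h5 : ρ * (c0 * k1 * k2) * ρ⁻¹ = c0 * k1 * k2 := by
      have h6 : ρ * (c0 * k1 * k2) * ρ⁻¹ = (ρ * c0 * ρ⁻¹) * (ρ * k1 * ρ⁻¹) * (ρ * k2 * ρ⁻¹) := by
        group
      rw [h6, hc1, hc2, hconj]
      have h7 := d01.commute
      have h8 := d02.commute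
      rw [mul_assoc, ← h8.eq, ← mul_assoc, ← h7.eq]
    intro x
    conv_lhs => rw [← h5]
    rw [Perm.mul_apply, Perm.mul_apply, inv_ap]
  · have g1 : (ρ * (ρ * c0 * ρ⁻¹) * ρ⁻¹) b = b := by
      apply f2
      intro u hu e
      have := hT u b hu (Or.inl rfl) (by rw [rρ_iff]; right; right; exact e)
      rw [← this] at e
      exact ne_two h3 hne u e.symm
    have g2 : (ρ * c0 * ρ⁻¹) b = b := by
      apply f1
      intro u hu e
      have := hT u b hu (Or.inl rfl) (by rw [rρ_iff]; right; left; exact e)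
      rw [← this] at e
      exact hne u e.symm
    rw [Perm.mul_apply, Perm.mul_apply, g1, g2, cb]
  · have hb2 : ∀ u, (u = b ∨ u = y ∨ u = b1) → ¬ rρ ρ h3 u b2 := by
      rintro u (rfl | rfl | rfl)
      · exact nb2
      · exact ny2
      · exact n12
    have g1 : (ρ * (ρ * c0 * ρ⁻¹) * ρ⁻¹) b2 = b2 := by
      apply f2
      intro u hu e
      exact hb2 u hu (by rw [rρ_iff]; right; right; exact e)
    have g2 : (ρ * c0 * ρ⁻¹) b2 = b2 := by
      apply f1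
      intro u hu e
      exact hb2 u hu (by rw [rρ_iff]; right; left; exact e)
    have g3 : c0 b2 = b2 := by
      apply co
      · intro e; exact nb2 (by rw [rρ_iff]; left; exact e)
      · intro e; exact ny2 (by rw [rρ_iff]; left; exact e)
      · intro e; exact n12 (by rw [rρ_iff]; left; exact e)
    rw [Perm.mul_apply, Perm.mul_apply, g1, g2, g3]

end rho

section nofix

variable {ρ : Perm α} (h3 : ∀ a, ρ (ρ (ρ a)) = a) (hne : ∀ a, ρ a ≠ a)

theorem Hyp.inv_rho (h : Hyp S H) (hne : ∀ a, ρ a ≠ a) (hS : rhoSub ρ h3 ≤ S) :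
    ∀ g ∈ S, ∀ x y, rρ ρ h3 x y → rρ ρ h3 (g x) (g y) := by
  intro g hg x y hxy
  obtain ⟨c, hc, c3, cx, cm⟩ := cyc_rho h3 hne x
  obtain ⟨c', hc', c3', cx', cm'⟩ := cyc_rho h3 hne (g x)
  have h1 : g * c * g⁻¹ ∈ S := mul_mem (mul_mem hg (hS hc)) (inv_mem hg)
  have h2 : IsThreeCycle (g * c * g⁻¹) := by
    rw [← card_support_eq_three_iff, card_support_conj, card_support_eq_three_iff]
    exact c3
  have h4 : ∀ z, c z ≠ z → (g * c * g⁻¹) (g z) ≠ g z := by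
    intro z hz
    rw [Perm.mul_apply, Perm.mul_apply, inv_ap]
    exact fun e => hz (g.injective e)
  rw [← cm']
  apply three_unique h.pg h1 h2 (hS hc') c3' (z := g x) (w := g y)
  · apply h4
    rw [cm]
  · rw [cm']
  · apply h4
    rw [cm]; exact hxy

theorem card_class (a : α) : ({a, ρ a, ρ (ρ a)} : Finset α).card ≤ 3 := Finset.card_le_three

/-- a set containing a point outside of two classes -/
theorem exists_out {Ω : Set α} (h9 : 9 ≤ Ω.ncard) (a b : α) :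
    ∃ c ∈ Ω, ¬ rρ ρ h3 a c ∧ ¬ rρ ρ h3 b c := by
  classical
  by_contra hcon
  push Not at hcon
  have hsub : Ω ⊆ (({a, ρ a, ρ (ρ a)} ∪ {b, ρ b, ρ (ρ b)} : Finset α) : Set α) := by
    intro c hc
    rw [Finset.mem_coe, Finset.mem_union]
    simp only [Finset.mem_insert, Finset.mem_singleton]
    by_cases h : rρ ρ h3 a c
    · left; exact h
    · right; exact hcon c hc h
  have h1 := Set.ncard_le_ncard hsub (Finset.finite_toSet _)
  rw [Set.ncard_coe_finset] at h1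
  have h2 := Finset.card_union_le ({a, ρ a, ρ (ρ a)} : Finset α) {b, ρ b, ρ (ρ b)}
  have h4 := card_class (ρ := ρ) a
  have h5 := card_class (ρ := ρ) b
  omega

theorem Hyp.contra (h : Hyp S H) (hne : ∀ a, ρ a ≠ a) (hS : rhoSub ρ h3 ≤ S)
    {Ω : Set α} (hρΩ : ∀ x ∈ Ω, ρ x ∈ Ω) (h9 : 9 ≤ Ω.ncard)
    (hrel : ∀ x ∈ Ω, ∀ y ∈ Ω, x ≠ y → Rel H x y) : False := by
  obtain ⟨b, hb⟩ : Ω.Nonempty := by
    rw [← Set.ncard_pos (Set.toFinite _)]; omega
  obtain ⟨b1, hb1, nb1, -⟩ := exists_out h3 h9 b b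
  obtain ⟨b2, hb2, nb2, n12⟩ := exists_out h3 h9 b b1
  have hbb2 : b ≠ b2 := fun e => nb2 (e ▸ (rρ ρ h3).refl b)
  obtain ⟨c, hc, c3, cb, cb2⟩ := hrel b hb b2 hb2 hbb2
  apply h.not_all (x := b2) ⟨c, hc, c3, cb2⟩
  intro y
  by_cases hy : y ∈ Ω
  · by_cases hyb : b2 = y
    · rw [hyb]; exact self_mem y
    · exact mem_cmp_of_rel (self_mem b2) (hrel b2 hb2 y hy hyb)
  · have hcl : ∀ z ∈ Ω, ¬ rρ ρ h3 z y := by
      intro z hz hzy
      rw [rρ_iff] at hzy
      rcases hzy with e | e | e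
      · exact hy (e ▸ hz)
      · exact hy (e ▸ hρΩ z hz)
      · exact hy (e ▸ hρΩ _ (hρΩ z hz))
    obtain ⟨g, hga, hgc, gb, gb2⟩ := exists_g h3 hne (hcl b hb) nb1
      (fun e => hcl b1 hb1 ((rρ ρ h3).symm e)) nb2 (fun e => hcl b2 hb2 ((rρ ρ h3).symm e)) n12
    have hgH : g ∈ H := by
      apply h.le (rρ ρ h3) (h.inv_rho h3 hne hS) ⟨b, ρ b, b1, (hne b).symm, Or.inr (Or.inl rfl), nb1⟩
        g hga
      intro x z
      rw [rρ_iff, rρ_iff, ← hgc, ← hgc]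
      simp only [g.injective.eq_iff]
    apply mem_cmp_of_rel (self_mem b2)
    refine ⟨g * c * g⁻¹, mul_mem (mul_mem hgH hc) (inv_mem hgH), ?_, ?_, ?_⟩
    · rw [← card_support_eq_three_iff, card_support_conj, card_support_eq_three_iff]
      exact c3
    · have e : g⁻¹ b2 = b2 := by rw [Perm.inv_eq_iff_eq, gb2]
      rw [Perm.mul_apply, Perm.mul_apply, e]
      intro e'
      apply cb2
      apply g.injective
      rw [e', gb2]
    · have e : g⁻¹ y = b := by rw [Perm.inv_eq_iff_eq, gb]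
      rw [Perm.mul_apply, Perm.mul_apply, e]
      intro e'
      apply cb
      apply g.injective
      rw [e', gb]

end nofix

end H54.AltMin
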