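import Mathlib
import Cfsg.Agent.Lib.H54.AltMin2

set_option autoImplicit false
set_option linter.unusedSectionVars false
set_option linter.dupNamespace false

/-! A proper subgroup of the alternating group containing all proper overgroups (stabilisers of
equivalence relations) of a Sylow 3-subgroup: the conclusion. -/

namespace H54.AltMin

open Equiv Equiv.Perm H54.ThreeCyc H54.TwoCyc

variable {α : Type} [Fintype α] [DecidableEq α]

variable {S H : Subgroup (Perm α)}

/-- relation given by cosets of `T` -/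
theorem Hyp.block (h : Hyp S H) (htr : ∀ x y, ∃ g ∈ S, g x = y) (h12 : 12 ≤ Fintype.card α)
    {ρ : Perm α} (h3 : ∀ a, ρ (ρ (ρ a)) = a) (hne : ∀ a, ρ a ≠ a) (hS : rhoSub ρ h3 ≤ S) (a : α) :
    ∃ Ω : Set α, Ω.ncard = 9 ∧ (∀ x ∈ Ω, ρ x ∈ Ω) ∧
      ∀ x ∈ Ω, ∀ y ∈ Ω, x ≠ y → Rel H x y := by
  classical
  have := Fact.mk Nat.prime_three
  -- orders
  obtain ⟨m, hm⟩ := IsPGroup.iff_card.mp h.pg
  obtain ⟨k, hk⟩ := h.pg.index (MulAction.stabilizer S a)
  have hk' := hk
  rw [MulAction.index_stabilizer] at hk'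
  have horb : MulAction.orbit S a = Set.univ := by
    ext y
    rw [mem_orbit_iff]
    simp [htr a y]
  rw [horb, Set.ncard_univ, Nat.card_eq_fintype_card] at hk'
  have hk3 : 3 ≤ k := by
    by_contra hcon
    have : k = 0 ∨ k = 1 ∨ k = 2 := by omega
    rcases this with rfl | rfl | rfl <;> norm_num at hk' <;> omega
  have hcs : Nat.card (MulAction.stabilizer S a) * 3 ^ k = 3 ^ m := by
    rw [← hk, ← hm, Subgroup.card_mul_index]
  have hkm : k ≤ m := by
    have : 3 ^ k ∣ 3 ^ m := ⟨_, by rw [mul_comm]; exact hcs.symm⟩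
    exact (Nat.pow_dvd_pow_iff_le_right (by norm_num)).mp this
  have hcs2 : Nat.card (MulAction.stabilizer S a) = 3 ^ (m - k) := by
    have h1 : 3 ^ m = 3 ^ (m - k) * 3 ^ k := by rw [← pow_add]; congr 1; omega
    rw [h1] at hcs
    exact Nat.eq_of_mul_eq_mul_right (by positivity) hcs
  obtain ⟨T, hT, hle⟩ := Sylow.exists_subgroup_card_pow_prime_le 3 (n := m - k) (m := m - k + 2)
    (by rw [hm]; exact pow_dvd_pow 3 (by omega)) (MulAction.stabilizer S a) hcs2 (by omega)
  -- the set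
  have hΩc : (MulAction.orbit T a).ncard = 9 := by
    rw [← MulAction.index_stabilizer]
    have e1 : MulAction.stabilizer T a = (MulAction.stabilizer S a).subgroupOf T := by
      ext t
      rw [Subgroup.mem_subgroupOf, MulAction.mem_stabilizer_iff, MulAction.mem_stabilizer_iff]
      rfl
    rw [e1]
    have e2 := Subgroup.card_mul_index ((MulAction.stabilizer S a).subgroupOf T)
    have e3 : Nat.card ((MulAction.stabilizer S a).subgroupOf T) = 3 ^ (m - k) := by
      rw [Nat.card_congr (Subgroup.subgroupOfEquivOfLe hle).toEquiv, hcs2]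
    rw [e3, hT, pow_add] at e2
    have := Nat.eq_of_mul_eq_mul_left (by positivity) e2
    rw [this]; norm_num
  have hmem : ∀ y, y ∈ MulAction.orbit T a ↔ ∃ g : S, g ∈ T ∧ (g : Perm α) a = y := by
    intro y
    rw [MulAction.mem_orbit_iff]
    constructor
    · rintro ⟨g, hg⟩; exact ⟨g, g.2, hg⟩
    · rintro ⟨g, hg, e⟩; exact ⟨⟨g, hg⟩, e⟩
  have hinv : ∀ t : S, t ∈ T → ∀ y ∈ MulAction.orbit T a, (t : Perm α) y ∈ MulAction.orbit T a := by
    intro t ht y hy
    rw [hmem] at hy ⊢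
    obtain ⟨g, hg, e⟩ := hy
    exact ⟨t * g, mul_mem ht hg, by rw [← e]; rfl⟩
  have ha : a ∈ MulAction.orbit T a := MulAction.mem_orbit_self a
  -- the relation
  have hch : ∀ x, ∃ g : S, (g : Perm α) a = x := fun x => by
    obtain ⟨g, hg, e⟩ := htr a x; exact ⟨⟨g, hg⟩, e⟩
  choose s hs using hch
  have hst : ∀ g : S, ∀ x, (g : Perm α) a = x → (s x)⁻¹ * g ∈ T := by
    intro g x hx
    apply hle
    rw [MulAction.mem_stabilizer_iff]
    show ((s x : S) : Perm α)⁻¹ ((g : Perm α) a) = a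
    rw [hx, Perm.inv_eq_iff_eq, hs]
  let r : Setoid α := (QuotientGroup.leftRel T).comap s
  have hr : ∀ x y, r x y ↔ (s x)⁻¹ * s y ∈ T := by
    intro x y
    exact QuotientGroup.leftRel_apply
  have hrS : ∀ g ∈ S, ∀ x y, r x y → r (g x) (g y) := by
    intro g hg x y hxy
    rw [hr] at hxy ⊢
    have h1 := hst (⟨g, hg⟩ * s x) (g x) (by
      show g ((s x : Perm α) a) = g x
      rw [hs])
    have h2 := hst (⟨g, hg⟩ * s y) (g y) (by
      show g ((s y : Perm α) a) = g y
      rw [hs])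
    have e : (s (g x))⁻¹ * s (g y) = ((s (g x))⁻¹ * (⟨g, hg⟩ * s x)) * ((s x)⁻¹ * s y) *
        ((s (g y))⁻¹ * (⟨g, hg⟩ * s y))⁻¹ := by group
    rw [e]
    exact mul_mem (mul_mem h1 hxy) (inv_mem h2)
  have hrΩ : ∀ y, y ∈ MulAction.orbit T a ↔ s y ∈ T := by
    intro y
    rw [hmem]
    constructor
    · rintro ⟨g, hg, e⟩
      have h1 := hst g y e
      have : s y = g * ((s y)⁻¹ * g)⁻¹ := by group
      rw [this]
      exact mul_mem hg (inv_mem h1)
    · intro hy
      exact ⟨s y, hy, hs y⟩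
  have hsub : ∀ x ∈ MulAction.orbit T a, ∀ y, r x y ↔ y ∈ MulAction.orbit T a := by
    intro x hx y
    rw [hrΩ] at hx ⊢
    rw [hr]
    exact ⟨fun h1 => by simpa using mul_mem hx h1, fun h1 => mul_mem (inv_mem hx) h1⟩
  obtain ⟨w, hw⟩ : ∃ w, w ∉ MulAction.orbit T a := by
    by_contra hcon
    push Not at hcon
    have : MulAction.orbit T a = Set.univ := Set.eq_univ_iff_forall.mpr hcon
    rw [this, Set.ncard_univ, Nat.card_eq_fintype_card] at hΩc
    omega
  refine ⟨MulAction.orbit T a, hΩc, ?_, ?_⟩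
  · intro x hx
    obtain ⟨y, hy, hy1, -⟩ := exists_out h3 hΩc.ge a a
    obtain ⟨c, hc, c3, cy, cm⟩ := cyc_rho h3 hne y
    have hcT : (⟨c, hS hc⟩ : S) ∈ T := by
      apply hle
      rw [MulAction.mem_stabilizer_iff]
      show c a = a
      by_contra hca
      exact hy1 ((rρ ρ h3).symm ((cm a).mp hca))
    -- move y to x by an element of T
    obtain ⟨u, hu, huy⟩ : ∃ u : S, u ∈ T ∧ (u : Perm α) y = x := by
      obtain ⟨t, ht, e⟩ := (hmem y).mp hy
      obtain ⟨t', ht', e'⟩ := (hmem x).mp hx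
      refine ⟨t' * t⁻¹, mul_mem ht' (inv_mem ht), ?_⟩
      show (t' : Perm α) ((t : Perm α)⁻¹ y) = x
      rw [← e, inv_ap, e']
    have hc'T : u * ⟨c, hS hc⟩ * u⁻¹ ∈ T := mul_mem (mul_mem hu hcT) (inv_mem hu)
    have hc'3 : IsThreeCycle ((u : Perm α) * c * (u : Perm α)⁻¹) := by
      rw [← card_support_eq_three_iff, card_support_conj, card_support_eq_three_iff]
      exact c3
    have hc'x : ((u : Perm α) * c * (u : Perm α)⁻¹) x ≠ x := by
      rw [← huy, Perm.mul_apply, Perm.mul_apply, inv_ap, cy]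
      intro e
      exact hne y ((u : Perm α).injective e)
    have hc'S : (u : Perm α) * c * (u : Perm α)⁻¹ ∈ S := (u * ⟨c, hS hc⟩ * u⁻¹ : S).2
    obtain ⟨d, hd, d3, dx, dm⟩ := cyc_rho h3 hne x
    have h1 : ((u : Perm α) * c * (u : Perm α)⁻¹) (ρ x) ≠ ρ x := by
      apply three_unique h.pg (hS hd) d3 hc'S hc'3 (z := x) (w := ρ x)
      · rw [dx]; exact hne x
      · exact hc'x
      · rw [dm, rρ_iff]; right; left; rfl
    rcases three_cases hc'3 hc'x h1 with h2 | h2 | h2
    · exact absurd h2 (hne x)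
    · rw [h2]
      exact hinv _ hc'T x hx
    · rw [h2]
      exact hinv _ hc'T _ (hinv _ hc'T x hx)
  · intro x hx y hy hxy
    obtain ⟨z, hz, hzx, hzy⟩ : ∃ z ∈ MulAction.orbit T a, x ≠ z ∧ y ≠ z := by
      obtain ⟨z, hz, h1, h2⟩ := exists_out h3 hΩc.ge x y
      refine ⟨z, hz, ?_, ?_⟩
      · rintro rfl; exact h1 ((rρ ρ h3).refl _)
      · rintro rfl; exact h2 ((rρ ρ h3).refl _)
    exact h.rel r hrS hxy hzx hzy ((hsub x hx y).mpr hy) ((hsub x hx z).mpr hz)
      (fun h1 => hw ((hsub x hx w).mp h1))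

theorem Hyp.concl (h : Hyp S H) : Fintype.card α = 6 ∨ Fintype.card α = 9 ∨
    ∃ a : ℕ, 2 ≤ a ∧ Fintype.card α = 3 ^ a + 1 := by
  classical
  by_cases hfix : ∃ i : α, ∀ g ∈ S, g i = i
  · obtain ⟨i, hi⟩ := hfix
    exact Or.inr (Or.inr (h.of_fix hi))
  have := Fact.mk Nat.prime_three
  have h5 := h.five
  have hdvd : 3 ∣ Fintype.card α := by
    have h1 := h.pg.card_modEq_card_fixedPoints α
    have h2 : MulAction.fixedPoints S α = ∅ := by
      rw [Set.eq_empty_iff_forall_notMem]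
      intro i hi
      apply hfix
      refine ⟨i, fun g hg => ?_⟩
      exact (MulAction.mem_fixedPoints.mp hi) ⟨g, hg⟩
    rw [h2] at h1
    rw [Nat.card_eq_fintype_card] at h1
    have h3 : Nat.card (∅ : Set α) = 0 := by simp
    rw [h3] at h1
    exact (Nat.modEq_zero_iff_dvd).mp h1
  obtain ⟨ρ, h3, hne, hS⟩ := h.rho hdvd
  by_contra hcon
  push Not at hcon
  have h12 : 12 ≤ Fintype.card α := by
    obtain ⟨q, hq⟩ := hdvd
    have := hcon.1
    have := hcon.2.1
    omega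
  have hρS : ρ ∈ S := by
    apply hS
    exact ⟨fun _ => rfl, fun _ => Or.inr (Or.inl rfl)⟩
  by_cases htr : ∀ x y, ∃ g ∈ S, g x = y
  · obtain ⟨a⟩ : Nonempty α := by
      rw [← Fintype.card_pos_iff]; omega
    obtain ⟨Ω, h1, h2, h4⟩ := h.block htr h12 h3 hne hS a
    exact h.contra h3 hne hS h2 h1.ge h4
  · push Not at htr
    obtain ⟨x, w, hxw⟩ := htr
    have hw : w ∉ MulAction.orbit S x := by
      rw [mem_orbit_iff]
      rintro ⟨g, hg, e⟩
      exact hxw g hg e
    have key : ∀ Ω : Set α, (∀ g ∈ S, ∀ y, g y ∈ Ω ↔ y ∈ Ω) → 9 ≤ Ω.ncard → (∃ v, v ∉ Ω) → False := by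
      intro Ω hΩ h9 ⟨v, hv⟩
      apply h.contra h3 hne hS (fun y hy => (hΩ ρ hρS y).mpr hy) h9
      intro y hy z hz hyz
      obtain ⟨t, ht, h1, h2⟩ := exists_out h3 h9 y z
      apply h.rel_set hΩ hyz (z := t) _ _ hy hz ht hv
      · rintro rfl; exact h1 ((rρ ρ h3).refl _)
      · rintro rfl; exact h2 ((rρ ρ h3).refl _)
    have hc := Set.ncard_add_ncard_compl (MulAction.orbit S x)
    rw [Nat.card_eq_fintype_card] at hc
    rcases Nat.lt_or_ge (MulAction.orbit S x).ncard 9 with h9 | h9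
    · apply key (MulAction.orbit S x)ᶜ
      · intro g hg y
        rw [Set.mem_compl_iff, Set.mem_compl_iff, orbit_inv x hg]
      · obtain ⟨k, hk⟩ := h.orbit_card x
        have hk2 : k < 2 := by
          by_contra hcon2
          have : 3 ^ 2 ≤ 3 ^ k := Nat.pow_le_pow_right (by norm_num) (by omega)
          omega
        have : k = 0 ∨ k = 1 := by omega
        rcases this with rfl | rfl
        · rw [pow_zero] at hk; omega
        · rw [pow_one] at hk; omega
      · exact ⟨x, fun h1 => h1 (MulAction.mem_orbit_self x)⟩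
    · exact key (MulAction.orbit S x) (fun g hg y => orbit_inv x hg y) h9 ⟨w, hw⟩

end H54.AltMin
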