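import Mathlib
import Cfsg.Agent.Lib.H54.AltMin3
import Cfsg.Agent.Lib.H73.AutAltOdd
import Cfsg.Prelude.Def_LocalEven

set_option autoImplicit false
set_option linter.unusedSectionVars false
set_option linter.dupNamespace false

/-! 3-minimal groups with `F*(X)` alternating. -/

namespace H54.AltMin

open Equiv Equiv.Perm H54.ThreeCyc H54.TwoCyc Cfsg Subgroup

section abs

variable {X : Type*} [Group X] [Finite X]

theorem mem_of_pow {n : ℕ} (hn : 5 ≤ n) (e : generalizedFittingSubgroup X ≃* alternatingGroup (Fin n))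
    {s : X} {k : ℕ} (hs : s ^ 3 ^ k = 1) : s ∈ generalizedFittingSubgroup X := by
  have hN : (generalizedFittingSubgroup X).Normal := H26.Components.gFitting_normal
  set φ : MulAut (alternatingGroup (Fin n)) := MulAut.congr e (MulAut.conjNormal s) with hφ
  have hφ3 : φ ^ 3 ^ k = 1 := by
    rw [hφ, ← map_pow, ← map_pow, hs, map_one, map_one]
  obtain ⟨σ, hσ⟩ := H73.AutAltOdd.exists_of_odd n hn φ (m := 3 ^ k)
    (Nat.odd_iff.mp (Odd.pow (by decide))) hφ3
  have hσ3 : σ ^ 3 ^ k = 1 := by
    apply H40.AutAlt.injective_conjNormal (α := Fin n) (by simp; omega)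
    rw [map_pow, hσ, hφ3, map_one]
  have hsg : sign σ = 1 := by
    have h1 := congrArg sign hσ3
    rw [map_pow, map_one] at h1
    rcases Int.units_eq_one_or (sign σ) with h | h
    · exact h
    · exfalso
      rw [h, Odd.neg_one_pow (Odd.pow (by decide))] at h1
      exact absurd h1 (by decide)
  set t : generalizedFittingSubgroup X := e.symm ⟨σ, mem_alternatingGroup.mpr hsg⟩ with ht
  have key : ∀ f : generalizedFittingSubgroup X, s * f * s⁻¹ = t * f * (t : X)⁻¹ := by
    intro f
    have h1 : e (MulAut.conjNormal s f) = e (t * f * t⁻¹) := by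
      have h2 : φ (e f) = e (MulAut.conjNormal s f) := by
        rw [hφ, MulAut.congr_apply]
        simp
      rw [← h2, ← hσ, map_mul, map_mul, map_inv, ht, MulEquiv.apply_symm_apply]
      apply Subtype.ext
      simp
    have h3 := congrArg (fun x : generalizedFittingSubgroup X => (x : X)) (e.injective h1)
    simpa using h3
  have hc : (t : X)⁻¹ * s ∈ centralizer (generalizedFittingSubgroup X : Set X) := by
    rw [mem_centralizer_iff]
    intro f hf
    have h1 := key ⟨f, hf⟩
    have h2 : s * f * s⁻¹ = t * f * (t : X)⁻¹ := h1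
    have h3 : s * f = t * f * (t : X)⁻¹ * s := by rw [← h2]; group
    calc f * ((t : X)⁻¹ * s) = (t : X)⁻¹ * (t * f * (t : X)⁻¹ * s) := by group
      _ = (t : X)⁻¹ * (s * f) := by rw [h3]
      _ = (t : X)⁻¹ * s * f := by group
  have h1 := H26.Components.centralizer_gFitting_le hc
  have h2 := mul_mem t.2 h1
  rwa [mul_inv_cancel_left] at h2

theorem gF_top (hX : IsPMinimal 3 X) {n : ℕ} (hn : 5 ≤ n)
    (e : generalizedFittingSubgroup X ≃* alternatingGroup (Fin n)) :
    generalizedFittingSubgroup X = ⊤ := by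
  have := Fact.mk Nat.prime_three
  have hN : (generalizedFittingSubgroup X).Normal := H26.Components.gFitting_normal
  obtain ⟨S⟩ : Nonempty (Sylow 3 X) := inferInstance
  obtain ⟨hSn, M, ⟨hM, hSM⟩, hun⟩ := hX S
  have hSF : (S : Subgroup X) ≤ generalizedFittingSubgroup X := by
    intro s hs
    obtain ⟨k, hk⟩ := S.isPGroup' ⟨s, hs⟩
    exact mem_of_pow hn e (congrArg Subtype.val hk)
  rcases IsCoatomic.eq_top_or_exists_le_coatom (generalizedFittingSubgroup X) with h | ⟨N, hN1, hN2⟩
  · exact h
  · exfalso
    rcases IsCoatomic.eq_top_or_exists_le_coatom (normalizer ((S : Subgroup X) : Set X)) with h | ⟨L, hL1, hL2⟩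
    · exact hSn (normalizer_eq_top_iff.mp h)
    · have e1 := hun N ⟨hN1, hSF.trans hN2⟩
      have e2 := hun L ⟨hL1, le_normalizer.trans hL2⟩
      have h3 := Sylow.normalizer_sup_eq_top' S hSF
      apply hM.1
      rw [eq_top_iff, ← h3, sup_le_iff]
      constructor
      · rw [← e2]; exact hL2
      · rw [← e1]; exact hN2

/-- stabiliser of a relation -/
def Y {α : Type} [Fintype α] [DecidableEq α] (r : Setoid α) : Subgroup (Perm α) where
  carrier := {g | ∀ x y, r x y ↔ r (g x) (g y)}
  one_mem' := fun _ _ => Iff.rfl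
  mul_mem' := by
    intro a b ha hb x y
    rw [hb x y, ha]; rfl
  inv_mem' := by
    intro a ha x y
    rw [ha (a⁻¹ x) (a⁻¹ y), ap_inv, ap_inv]

theorem concl (hX : IsPMinimal 3 X) {n : ℕ} (hn : 5 ≤ n) (e : X ≃* alternatingGroup (Fin n)) :
    n = 6 ∨ n = 9 ∨ ∃ a : ℕ, 2 ≤ a ∧ n = 3 ^ a + 1 := by
  classical
  have := Fact.mk Nat.prime_three
  obtain ⟨S⟩ : Nonempty (Sylow 3 X) := inferInstance
  obtain ⟨hSn, M, ⟨hM, hSM⟩, hun⟩ := hX S
  set ι : X →* Perm (Fin n) := (alternatingGroup (Fin n)).subtype.comp e.toMonoidHom with hι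
  have hιe : ∀ x, ι x = (e x : Perm (Fin n)) := fun _ => rfl
  have hιa : ∀ x, ι x ∈ alternatingGroup (Fin n) := fun x => (e x).2
  have hιinj : Function.Injective ι := by
    intro a b hab
    exact e.injective (Subtype.ext hab)
  have hιsurj : ∀ g ∈ alternatingGroup (Fin n), ∃ x, ι x = g := by
    intro g hg
    exact ⟨e.symm ⟨g, hg⟩, by rw [hιe, MulEquiv.apply_symm_apply]⟩
  have hyp : Hyp ((S : Subgroup X).map ι) (M.map ι) := by
    refine ⟨?_, ?_, ?_, by simpa using hn, ?_⟩
    · exact S.isPGroup'.map ι
    · intro r hr hrn g hg hgr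
      have hYne : (Y r).comap ι ≠ ⊤ := by
        intro hcon
        obtain ⟨u, v, w, huv, h1, h2⟩ := hrn
        have huw : u ≠ w := fun h => h2 (h ▸ r.refl u)
        have hvw : v ≠ w := fun h => h2 (h ▸ h1)
        obtain ⟨c3, cu, cv, -⟩ := cyc_facts huv huw hvw
        obtain ⟨x, hx⟩ := hιsurj _ (mem_alternatingGroup.mpr c3.sign)
        have h3 : x ∈ (Y r).comap ι := by rw [hcon]; exact mem_top x
        have h4 := (h3 : ∀ a b, r a b ↔ r (ι x a) (ι x b)) u v
        rw [hx, cu, cv] at h4
        exact h2 (r.trans h1 (h4.mp h1))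
      rcases IsCoatomic.eq_top_or_exists_le_coatom ((Y r).comap ι) with h | ⟨N, hN1, hN2⟩
      · exact absurd h hYne
      · have hSY : (S : Subgroup X) ≤ (Y r).comap ι := by
          intro s hs x y
          constructor
          · intro hxy
            exact hr _ (mem_map_of_mem ι hs) x y hxy
          · intro hxy
            have h1 := hr _ (mem_map_of_mem ι (inv_mem hs)) _ _ hxy
            rwa [map_inv, inv_ap, inv_ap] at h1
        have e1 := hun N ⟨hN1, hSY.trans hN2⟩
        obtain ⟨x, rfl⟩ := hιsurj g hg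
        apply mem_map_of_mem
        rw [← e1]
        exact hN2 hgr
    · intro hcon
      apply hM.1
      rw [eq_top_iff]
      intro x _
      obtain ⟨y, hy, hyx⟩ := hcon (hιa x)
      rwa [← hιinj hyx]
    · intro hdvd
      obtain ⟨ρ, h3, hc⟩ := exists_rho (α := Fin n)
      have hρ3 : ρ ^ 3 ^ 1 = 1 := by
        ext x
        simp [pow_succ, Perm.mul_apply, h3]
      have hc0 : (Finset.univ \ ρ.support).card = 0 := by
        have h1 := Equiv.Perm.card_compl_support_modEq (p := 3) (n := 1) hρ3
        have h2 : (3 : ℕ) ∣ ρ.supportᶜ.card :=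
          (Nat.modEq_zero_iff_dvd).mp (h1.trans ((Nat.modEq_zero_iff_dvd).mpr hdvd))
        rw [Finset.compl_eq_univ_sdiff] at h2
        obtain ⟨q, hq⟩ := h2
        omega
      have hne : ∀ a, ρ a ≠ a := by
        intro a ha
        rw [Finset.card_eq_zero] at hc0
        have : a ∈ Finset.univ \ ρ.support := by
          rw [Finset.mem_sdiff, Perm.mem_support, not_not]
          exact ⟨Finset.mem_univ _, ha⟩
        rw [hc0] at this
        simp at this
      have hR : IsPGroup 3 ((rhoSub ρ h3).comap ι) := by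
        intro g
        refine ⟨1, ?_⟩
        apply Subtype.ext
        apply hιinj
        rw [pow_one]
        show ι ((g : X) ^ 3) = ι 1
        rw [map_pow, map_one]
        exact rhoSub_cube (h3 := h3) g.2
      obtain ⟨Q, hQ⟩ := hR.exists_le_sylow
      obtain ⟨g, hg⟩ := MulAction.exists_smul_eq X Q S
      have h3' : ∀ a, (ι g * ρ * (ι g)⁻¹) ((ι g * ρ * (ι g)⁻¹) ((ι g * ρ * (ι g)⁻¹) a)) = a := by
        intro a
        simp only [Perm.mul_apply, inv_ap, h3, ap_inv]
      refine ⟨ι g * ρ * (ι g)⁻¹, h3', ?_, ?_⟩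
      · intro a ha
        rw [Perm.mul_apply, Perm.mul_apply] at ha
        apply hne ((ι g)⁻¹ a)
        apply (ι g).injective
        rw [ha, ap_inv]
      · rintro c ⟨hc1, hc2⟩
        have hd : (ι g)⁻¹ * c * ι g ∈ rhoSub ρ h3 := by
          constructor
          · intro a
            have := hc1 (ι g a)
            simp only [Perm.mul_apply, inv_ap] at this ⊢
            rw [this, inv_ap]
          · intro a
            rcases hc2 (ι g a) with h | h | h
            · left
              rw [Perm.mul_apply, Perm.mul_apply, h, inv_ap]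
            · right; left
              rw [Perm.mul_apply, Perm.mul_apply, h]
              simp only [Perm.mul_apply, inv_ap]
            · right; right
              rw [Perm.mul_apply, Perm.mul_apply, h]
              simp only [Perm.mul_apply, inv_ap]
        have hdev : (ι g)⁻¹ * c * ι g ∈ alternatingGroup (Fin n) := by
          rw [mem_alternatingGroup]
          have h1 := congrArg sign (rhoSub_cube hd)
          rw [map_pow, map_one] at h1
          rcases Int.units_eq_one_or (sign ((ι g)⁻¹ * c * ι g)) with h | h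
          · exact h
          · rw [h] at h1
            exact absurd h1 (by decide)
        obtain ⟨x, hx⟩ := hιsurj _ hdev
        have hxQ : x ∈ Q := by
          apply hQ
          rw [mem_comap, hx]
          exact hd
        refine ⟨g * x * g⁻¹, ?_, ?_⟩
        · rw [← hg]
          exact Subgroup.smul_mem_pointwise_smul x (MulAut.conj g) (Q : Subgroup X) hxQ
        · rw [map_mul, map_mul, map_inv, hx]; group
  simpa using hyp.concl

end abs

end H54.AltMin
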