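import Cfsg.Agent.Lib.H1.Coprime2
import Cfsg.Agent.Lib.H54.Basic

set_option autoImplicit false

/-! Coprime commutator containment: `[P,B] ≤ [P,A]` forces `[P,B] = 1`. -/

namespace H54.CopComm

open Subgroup H1.Coprime H1.Coprime2
open scoped commutatorElement

variable {G : Type*} [Group G]

theorem isSolvable_of_isPGroup [Finite G] {p : ℕ} [Fact p.Prime] {P : Subgroup G}
    (hP : IsPGroup p P) : Group.IsSolvable P := by
  have := hP.isNilpotent
  infer_instance

theorem coprime_card [Finite G] {p : ℕ} [hp : Fact p.Prime] {P B : Subgroup G} (hP : IsPGroup p P)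
    (hB : ¬ p ∣ Nat.card B) : (Nat.card B).Coprime (Nat.card P) := by
  obtain ⟨n, hn⟩ := IsPGroup.iff_card.mp hP
  rw [hn]
  exact Nat.Coprime.pow_right _ ((Nat.Prime.coprime_iff_not_dvd hp.out).mpr hB).symm

theorem comm_of_bot {A B : Subgroup G} (h : ⁅A, B⁆ = ⊥) {a b : G} (ha : a ∈ A) (hb : b ∈ B) :
    a * b = b * a := by
  rw [commutator_eq_bot_iff_le_centralizer] at h
  exact (mem_centralizer_iff.mp (h ha) b hb).symm

theorem le_normalizer_of_commutator_eq_bot {A B : Subgroup G} (h : ⁅A, B⁆ = ⊥) :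
    A ≤ normalizer (B : Set G) := by
  apply H54.Basic.le_normalizer_of_conj
  intro a ha b hb
  rw [comm_of_bot h ha hb]
  simpa using hb

theorem commutator_eq_bot [Finite G] {p : ℕ} [Fact p.Prime] (P A B : Subgroup G)
    (hP : IsPGroup p P) (hA : IsPGroup p A) (hB : ¬ p ∣ Nat.card B)
    (hnA : A ≤ normalizer (P : Set G)) (hnB : B ≤ normalizer (P : Set G)) (hAB : ⁅A, B⁆ = ⊥)
    (hcomm : ⁅P, B⁆ ≤ ⁅P, A⁆) : ⁅P, B⁆ = ⊥ := by
  by_contra hne
  have hcop := coprime_card hP hB
  have hsol : Group.IsSolvable B ∨ Group.IsSolvable P := Or.inr (isSolvable_of_isPGroup hP)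
  set Q : Subgroup G := ⁅P, B⁆ with hQ
  have hQP : Q ≤ P := H1.Coprime2.commutator_le_left hnB
  have hPA : IsPGroup p (P ⊔ A : Subgroup G) := by
    rw [sup_comm]
    exact hA.to_sup_of_normal_right' hP hnA
  have hAB' : A ≤ normalizer (B : Set G) := le_normalizer_of_commutator_eq_bot hAB
  have hQn : P ⊔ A ≤ normalizer (Q : Set G) := by
    refine sup_le (le_normalizer_commutator_left P B) ?_
    exact le_normalizer_commutator hnA hAB'
  have hQp : IsPGroup p Q := hP.to_le hQP
  have hlt := commutator_lt_of_isPGroup hPA hQp hQn hne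
  set N : Subgroup G := ⁅Q, P ⊔ A⁆ with hN
  apply hlt.not_ge
  have hQQ : ⁅Q, B⁆ = Q := commutator_commutator_eq B P hnB hcop hsol
  have hNn : P ⊔ A ≤ normalizer (N : Set G) := le_normalizer_commutator_right _ _
  have hNB : B ≤ normalizer (N : Set G) := by
    refine le_normalizer_commutator (le_normalizer_commutator_right P B) ?_
    refine le_normalizer_sup hnB ?_
    exact le_normalizer_of_commutator_eq_bot (by rw [commutator_comm]; exact hAB)
  set C : Subgroup G := P ⊓ centralizer (B : Set G) with hC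
  have hCn : C ≤ normalizer (N : Set G) := fun x hx => hNn (mem_sup_left hx.1)
  -- [P,A] ≤ C N
  have h1 : ⁅P, A⁆ ≤ N ⊔ C := by
    rw [commutator_le]
    intro x hx a ha
    obtain ⟨q, hq, c, hc, rfl⟩ := exists_mul_of_mem B P hnB hcop hsol hx
    rw [commutatorElement_mul_left]
    have hca : ⁅c, a⁆ ∈ C := by
      refine Subgroup.mem_inf.mpr ⟨H1.Coprime2.commutator_le_left hnA (commutator_mem_commutator hc.1 ha), ?_⟩
      rw [commutatorElement_def]
      have haB : a ∈ centralizer (B : Set G) := by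
        rw [mem_centralizer_iff]; intro b hb; exact (comm_of_bot hAB ha hb).symm
      have hcB : c ∈ centralizer (B : Set G) := hc.2
      exact mul_mem (mul_mem (mul_mem hcB haB) (inv_mem hcB)) (inv_mem haB)
    have h2 : q * ⁅c, a⁆ * q⁻¹ = ⁅q, ⁅c, a⁆⁆ * ⁅c, a⁆ := by
      rw [commutatorElement_def q]; group
    rw [h2]
    refine mul_mem (mul_mem ?_ (mem_sup_right hca)) ?_
    · exact mem_sup_left (commutator_mem_commutator hq (mem_sup_left hca.1))
    · exact mem_sup_left (commutator_mem_commutator hq (mem_sup_right ha))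
  have h3 : Q ≤ N ⊔ C := hcomm.trans h1
  rw [← hQQ, commutator_le]
  intro g hg b hb
  obtain ⟨n, hn, c, hc, rfl⟩ := (H54.Basic.mem_sup_iff hCn).mp (h3 hg)
  rw [commutatorElement_mul_left]
  have h4 : ⁅c, b⁆ = 1 := by
    rw [commutatorElement_eq_one_iff_mul_comm]
    exact (mem_centralizer_iff.mp hc.2 b hb).symm
  rw [h4, mul_one, mul_inv_cancel, one_mul, commutatorElement_def]
  have : n * b * n⁻¹ * b⁻¹ = n * (b * n⁻¹ * b⁻¹) := by group
  rw [this]
  exact mul_mem hn (H54.Basic.mul_inv_mem_of_mem_normalizer (hNB hb) (inv_mem hn))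

end H54.CopComm
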