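import Mathlib
import Cfsg.Agent.Lib.H18.CharCentral
import Cfsg.Agent.Lib.H5.CharSmallNorm

/-!
A class function supported on the 2-section of an involution `t` whose centralizer modulo its core is
`2 × A₄`: the induced function.
-/

set_option autoImplicit false
set_option linter.unusedSectionVars false

open Cfsg Subgroup
open scoped ComplexConjugate

universe u

namespace H54.E8

open H18.CharBasic H18.CharOrtho H18.CharInd

variable {G : Type u} [Group G]

abbrev Cn (t : G) : Subgroup G := centralizer ({t} : Set G)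

/-- the involution as an element of its centralizer -/
def tt (t : G) : Cn t := ⟨t, mem_centralizer_singleton_iff.mpr rfl⟩

/-- the hypothesis: linear characters of the centralizer -/
structure Hyp (t : G) (σ w : Cn t →* ℂˣ) : Prop where
  ht : orderOf t = 2
  st : σ (tt t) = -1
  s2 : ∀ c, σ c ^ 2 = 1
  w3 : ∀ c, w c ^ 3 = 1
  wne : ∃ c, w c ≠ 1
  odd : ∀ c, w c ≠ 1 → Odd (orderOf c) ∨ Odd (orderOf (tt t * c))

variable {t : G} {σ w : Cn t →* ℂˣ}

theorem comm_tt (c : Cn t) : Commute (tt t) c := by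
  have := mem_centralizer_singleton_iff.mp c.2
  exact (Subtype.ext this : c * tt t = tt t * c).symm

theorem tt_sq (ht : orderOf t = 2) : tt t * tt t = 1 := by
  apply Subtype.ext
  show t * t = 1
  rw [← pow_two, ← ht]; exact pow_orderOf_eq_one t

theorem Hyp.sigma (h : Hyp t σ w) (c : Cn t) : σ c = 1 ∨ σ c = -1 := by
  have h1 := h.s2 c
  have h2 : ((σ c : ℂ) - 1) * ((σ c : ℂ) + 1) = 0 := by
    have := congrArg (fun u : ℂˣ => (u : ℂ)) h1
    push_cast at this
    linear_combination this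
  rcases mul_eq_zero.mp h2 with e | e
  · left; apply Units.ext; push_cast; linear_combination e
  · right; apply Units.ext; push_cast; linear_combination e

theorem neg_ne : (-1 : ℂˣ) ≠ 1 := by
  intro e
  have := congrArg (fun u : ℂˣ => (u : ℂ)) e
  push_cast at this
  norm_num at this

theorem Hyp.wt (h : Hyp t σ w) {u : Cn t} (hu : u * u = 1) : w u = 1 := by
  have h1 : w u ^ 2 = 1 := by rw [← map_pow, pow_two, hu, map_one]
  have h2 := h.w3 u
  calc w u = w u ^ 3 * (w u ^ 2)⁻¹ := by group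
    _ = 1 := by rw [h1, h2]; group

theorem Hyp.odd_sigma (h : Hyp t σ w) {c : Cn t} (hc : Odd (orderOf c)) : σ c = 1 := by
  rcases h.sigma c with e | e
  · exact e
  · exfalso
    have h1 : σ c ^ orderOf c = 1 := by rw [← map_pow, pow_orderOf_eq_one, map_one]
    rw [e, hc.neg_one_pow] at h1
    exact neg_ne h1

/-- the class function -/
noncomputable def al (σ w : Cn t →* ℂˣ) : Cn t → ℂ := fun c => (1 - (σ c : ℂ)) * (1 - (w c : ℂ))

theorem Hyp.supp (h : Hyp t σ w) {c : Cn t} (hc : al σ w c ≠ 0) :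
    σ c = -1 ∧ w c ≠ 1 ∧ Odd (orderOf (tt t * c)) := by
  have h1 : σ c ≠ 1 := by
    intro e; apply hc; rw [al, e]; simp
  have h2 : w c ≠ 1 := by
    intro e; apply hc; rw [al, e]; simp
  refine ⟨(h.sigma c).resolve_left h1, h2, ?_⟩
  rcases h.odd c h2 with e | e
  · exact absurd (h.odd_sigma e) h1
  · exact e

theorem Hyp.pow_eq (h : Hyp t σ w) {c : Cn t} {m : ℕ} (hm : Odd m) (hd : orderOf (tt t * c) ∣ m) :
    c ^ m = tt t := by
  have h1 : c = tt t * (tt t * c) := by rw [← mul_assoc, tt_sq h.ht, one_mul]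
  have h2 : Commute (tt t) (tt t * c) := (Commute.refl _).mul_right (comm_tt c)
  conv_lhs => rw [h1]
  rw [h2.mul_pow, orderOf_dvd_iff_pow_eq_one.mp hd, mul_one]
  obtain ⟨k, rfl⟩ := hm
  rw [pow_succ, pow_mul, pow_two, tt_sq h.ht, one_pow, one_mul]

/-- elements of the support which are conjugate in `G` are conjugate in the centralizer -/
theorem Hyp.mem_of_conj (h : Hyp t σ w) {c c' : Cn t} (hc : al σ w c ≠ 0) (hc' : al σ w c' ≠ 0) {x : G}
    (hx : x⁻¹ * (c : G) * x = c') : x ∈ Cn t := by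
  obtain ⟨-, -, ho⟩ := h.supp hc
  obtain ⟨-, -, ho'⟩ := h.supp hc'
  set m := orderOf (tt t * c) * orderOf (tt t * c') with hm
  have hmo : Odd m := ho.mul ho'
  have h1 := h.pow_eq (c := c) hmo (Dvd.intro _ rfl)
  have h2 := h.pow_eq (c := c') hmo (Dvd.intro_left _ rfl)
  have h1' : (c : G) ^ m = t := congrArg Subtype.val h1
  have h2' : (c' : G) ^ m = t := congrArg Subtype.val h2
  have h3 : x⁻¹ * t * x = t := by
    rw [← hx] at h2'
    have h4 : (x⁻¹ * (c : G) * x) ^ m = x⁻¹ * (c : G) ^ m * x := by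
      have := conj_pow (i := m) (a := x⁻¹) (b := (c : G))
      rwa [inv_inv] at this
    rw [h4, h1'] at h2'
    exact h2'
  rw [mem_centralizer_singleton_iff]
  calc x * t = x * (x⁻¹ * t * x) := by rw [h3]
    _ = t * x := by group

theorem al_class (σ w : Cn t →* ℂˣ) : IsClassFunction (Cn t) (al σ w) := by
  intro g x
  have h1 : ∀ f : Cn t →* ℂˣ, f (x * g * x⁻¹) = f g := fun f => by
    rw [map_mul, map_mul, map_inv, mul_comm (f x), mul_inv_cancel_right]
  rw [al, h1, h1]; rfl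

variable [Finite G]

section
variable [Fintype G]

theorem Hyp.ind_val (h : Hyp t σ w) {c : Cn t} (hc : al σ w c ≠ 0) :
    indFun (Cn t) (al σ w) (c : G) = al σ w c := by
  classical
  rw [indFun_apply]
  have h1 : ∀ x : G, extendByZero (Cn t) (al σ w) (x⁻¹ * (c : G) * x) =
      if x ∈ Cn t then al σ w c else 0 := by
    intro x
    by_cases hx : x ∈ Cn t
    · rw [if_pos hx, ext_conj_mem' _ (al_class σ w) hx, ext_coe]
    · rw [if_neg hx]
      by_contra hne
      have hm : x⁻¹ * (c : G) * x ∈ Cn t := by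
        by_contra hm
        exact hne (ext_notMem _ _ hm)
      rw [ext_mem _ _ hm] at hne
      exact hx (h.mem_of_conj hc hne (c' := ⟨_, hm⟩) rfl)
  rw [Finset.sum_congr rfl fun x _ => h1 x, ← Finset.sum_filter, Finset.sum_const, nsmul_eq_mul]
  have h2 : ((Finset.univ.filter (· ∈ Cn t)).card : ℂ) = (Nat.card (Cn t) : ℂ) := by
    congr 1
    rw [Nat.card_eq_fintype_card, Fintype.card_subtype]
  rw [h2, ← mul_assoc, inv_mul_cancel₀, one_mul]
  exact_mod_cast Nat.card_pos.ne'

/-- a nonzero value comes from the support -/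
theorem ind_ne_zero {g : G} (hg : indFun (Cn t) (al σ w) g ≠ 0) :
    ∃ (x : G) (c : Cn t), x⁻¹ * g * x = c ∧ al σ w c ≠ 0 := by
  by_contra hcon
  push Not at hcon
  apply hg
  rw [indFun_apply, Finset.sum_eq_zero, mul_zero]
  intro x _
  by_cases hm : x⁻¹ * g * x ∈ Cn t
  · rw [ext_mem _ _ hm]; exact hcon x ⟨_, hm⟩ rfl
  · exact ext_notMem _ _ hm

theorem Hyp.ind_one (h : Hyp t σ w) : indFun (Cn t) (al σ w) 1 = 0 := by
  rw [indFun_one]; simp [al]

theorem Hyp.ind_t (h : Hyp t σ w) : indFun (Cn t) (al σ w) t = 0 := by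
  by_contra hne
  obtain ⟨x, c, hx, hc⟩ := ind_ne_zero hne
  apply (h.supp hc).2.1
  apply h.wt
  apply Subtype.ext
  show (c : G) * c = 1
  rw [← hx]
  have h2 : t * t = 1 := congrArg Subtype.val (tt_sq h.ht)
  calc x⁻¹ * t * x * (x⁻¹ * t * x) = x⁻¹ * (t * t) * x := by group
    _ = 1 := by rw [h2]; group

/-- elements of the support are not products of two conjugates of `t` -/
theorem Hyp.no_prod (h : Hyp t σ w) {g u v : G} (hg : indFun (Cn t) (al σ w) g ≠ 0)
    (hu : IsConj t u) (hv : IsConj t v) : u * v ≠ g := by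
  rintro rfl
  obtain ⟨x, c, hx, hc⟩ := ind_ne_zero hg
  obtain ⟨a, rfl⟩ := isConj_iff.mp hu
  obtain ⟨b, rfl⟩ := isConj_iff.mp hv
  have h2 : t * t = 1 := congrArg Subtype.val (tt_sq h.ht)
  -- conjugate involutions
  obtain ⟨u, hu⟩ : ∃ u, u = x⁻¹ * (a * t * a⁻¹) * x := ⟨_, rfl⟩
  obtain ⟨v, hv⟩ : ∃ v, v = x⁻¹ * (b * t * b⁻¹) * x := ⟨_, rfl⟩
  have huu : u * u = 1 := by
    rw [hu]
    calc x⁻¹ * (a * t * a⁻¹) * x * (x⁻¹ * (a * t * a⁻¹) * x) = x⁻¹ * a * (t * t) * a⁻¹ * x := by group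
      _ = 1 := by rw [h2]; group
  have hvv : v * v = 1 := by
    rw [hv]
    calc x⁻¹ * (b * t * b⁻¹) * x * (x⁻¹ * (b * t * b⁻¹) * x) = x⁻¹ * b * (t * t) * b⁻¹ * x := by group
      _ = 1 := by rw [h2]; group
  have huv : (c : G) = u * v := by rw [← hx, hu, hv]; group
  obtain ⟨-, hw, ho⟩ := h.supp hc
  have hp := h.pow_eq (c := c) ho (dvd_refl _)
  have hp' : (c : G) ^ orderOf (tt t * c) = t := congrArg Subtype.val hp
  have huinv : u⁻¹ = u := inv_eq_of_mul_eq_one_left huu
  have hvinv : v⁻¹ = v := inv_eq_of_mul_eq_one_left hvv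
  have hinv : u * (c : G) * u⁻¹ = (c : G)⁻¹ := by
    rw [huv, mul_inv_rev, huinv, hvinv]
    calc u * (u * v) * u = (u * u) * v * u := by group
      _ = v * u := by rw [huu, one_mul]
  have hut : u * t * u⁻¹ = t := by
    conv_lhs => rw [← hp']
    rw [← conj_pow, hinv, inv_pow, hp']
    exact inv_eq_of_mul_eq_one_left h2
  have hum : u ∈ Cn t := mem_centralizer_singleton_iff.mpr (mul_inv_eq_iff_eq_mul.mp hut)
  have hvm : v ∈ Cn t := by
    have : v = u * (c : G) := by rw [huv, ← mul_assoc, huu, one_mul]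
    rw [this]; exact (Cn t).mul_mem hum c.2
  have hce : c = ⟨u, hum⟩ * ⟨v, hvm⟩ := Subtype.ext huv
  apply hw
  rw [hce, map_mul, h.wt (Subtype.ext huu), h.wt (Subtype.ext hvv), one_mul]

end

end H54.E8
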