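import Mathlib
import Cfsg.Agent.Lib.H54.E8a

/-!
Inner products of the induced class function.
-/

set_option autoImplicit false
set_option linter.unusedSectionVars false

open Cfsg Subgroup
open scoped ComplexConjugate

universe u

namespace H54.E8

open H18.CharBasic H18.CharOrtho H18.CharInd

/-- linear character as a function -/
noncomputable def lin {C : Type u} [Group C] (f : C →* ℂˣ) : C → ℂ := fun c => (f c : ℂ)

theorem lin_irr {C : Type u} [Group C] (f : C →* ℂˣ) : IsIrrCharacter C (lin f) :=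
  isIrrCharacter_of_hom f

theorem lin_inj {C : Type u} [Group C] {f g : C →* ℂˣ} (h : lin f = lin g) : f = g := by
  ext c
  exact congrFun h c

theorem inner_lin {C : Type u} [Group C] [Fintype C] [DecidableEq (C →* ℂˣ)] (f g : C →* ℂˣ) :
    classInner (lin f) (lin g) = if f = g then 1 else 0 := by
  classical
  rw [inner_irr (lin_irr f) (lin_irr g)]
  by_cases h : f = g
  · rw [h]; simp
  · rw [if_neg h, if_neg (fun e => h (lin_inj e))]

variable {G : Type u} [Group G] {t : G} {σ w : Cn t →* ℂˣ}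

theorem al_eq (σ w : Cn t →* ℂˣ) : al σ w = lin 1 - lin σ - lin w + lin (σ * w) := by
  funext c
  simp only [al, lin, Pi.add_apply, Pi.sub_apply, MonoidHom.one_apply, MonoidHom.mul_apply, Units.val_one,
    Units.val_mul]
  ring

theorem conj_unit [Finite G] (f : Cn t →* ℂˣ) (c : Cn t) : conj ((f c : ℂˣ) : ℂ) = ((f⁻¹ c : ℂˣ) : ℂ) := by
  have h1 : ((f c : ℂˣ) : ℂ) ^ orderOf c = 1 := by
    have : f c ^ orderOf c = 1 := by rw [← map_pow, pow_orderOf_eq_one, map_one]
    have h2 := congrArg (fun u : ℂˣ => (u : ℂ)) this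
    simpa using h2
  have h2 : ‖((f c : ℂˣ) : ℂ)‖ = 1 := Complex.norm_eq_one_of_pow_eq_one h1 (orderOf_pos c).ne'
  rw [← Complex.inv_eq_conj h2]
  simp

theorem conj_al [Finite G] (hs : ∀ c, σ c ^ 2 = 1) (c : Cn t) : conj (al σ w c) = al σ w⁻¹ c := by
  rw [al, al, map_mul, map_sub, map_sub, map_one, conj_unit, conj_unit]
  have : σ⁻¹ c = σ c := by
    rw [MonoidHom.inv_apply, inv_eq_iff_mul_eq_one, ← pow_two, hs c]
  rw [this]

theorem Hyp.inv (h : Hyp t σ w) : Hyp t σ w⁻¹ where
  ht := h.ht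
  st := h.st
  s2 := h.s2
  w3 := fun c => by rw [MonoidHom.inv_apply, inv_pow, h.w3, inv_one]
  wne := by
    obtain ⟨c, hc⟩ := h.wne
    exact ⟨c, by rw [MonoidHom.inv_apply]; exact inv_ne_one.mpr hc⟩
  odd := fun c hc => h.odd c (fun e => hc (by rw [MonoidHom.inv_apply, e, inv_one]))

section ne
variable (h : Hyp t σ w)
include h

theorem Hyp.w_t : w (tt t) = 1 := h.wt (tt_sq h.ht)

theorem Hyp.n1 : σ ≠ 1 := by
  intro e
  have := h.st
  rw [e] at this
  exact neg_ne this.symm

theorem Hyp.n2 : w ≠ 1 := by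
  intro e
  obtain ⟨c, hc⟩ := h.wne
  exact hc (by rw [e]; rfl)

theorem Hyp.n3 : σ * w ≠ 1 := by
  intro e
  have := congrArg (fun f : Cn t →* ℂˣ => f (tt t)) e
  simp only [MonoidHom.mul_apply, h.st, h.w_t, MonoidHom.one_apply, mul_one] at this
  exact neg_ne this

theorem Hyp.n4 : w ≠ σ := by
  intro e
  have := h.w_t
  rw [e, h.st] at this
  exact neg_ne this

theorem Hyp.n5 : σ * w ≠ σ := by
  intro e
  apply h.n2
  ext c
  have := congrArg (fun f : Cn t →* ℂˣ => f c) e
  simp only [MonoidHom.mul_apply] at this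
  rw [mul_eq_left.mp this, MonoidHom.one_apply]

theorem Hyp.n6 : σ * w ≠ w := by
  intro e
  apply h.n1
  ext c
  have := congrArg (fun f : Cn t →* ℂˣ => f c) e
  simp only [MonoidHom.mul_apply] at this
  rw [mul_eq_right.mp this, MonoidHom.one_apply]

theorem Hyp.n7 : w⁻¹ ≠ w := by
  intro e
  obtain ⟨c, hc⟩ := h.wne
  apply hc
  have h1 : w c * w c = 1 := by
    have := congrArg (fun f : Cn t →* ℂˣ => f c) e
    simp only [MonoidHom.inv_apply] at this
    calc w c * w c = w c * (w c)⁻¹ := by rw [this]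
      _ = 1 := mul_inv_cancel _
  have h2 := h.w3 c
  rw [pow_succ, pow_two, h1, one_mul] at h2
  exact h2

theorem Hyp.n8 : σ * w⁻¹ ≠ w := by
  intro e
  have := congrArg (fun f : Cn t →* ℂˣ => f (tt t)) e
  simp only [MonoidHom.mul_apply, h.st, h.w_t, MonoidHom.inv_apply, inv_one, mul_one] at this
  exact neg_ne this

theorem Hyp.n9 : σ * w ≠ w⁻¹ := by
  intro e
  have := congrArg (fun f : Cn t →* ℂˣ => f (tt t)) e
  simp only [MonoidHom.mul_apply, h.st, h.w_t, MonoidHom.inv_apply, inv_one, mul_one] at this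
  exact neg_ne this

theorem Hyp.n10 : σ * w ≠ σ * w⁻¹ := by
  intro e
  apply h.n7
  ext c
  have := congrArg (fun f : Cn t →* ℂˣ => f c) e
  simp only [MonoidHom.mul_apply] at this
  rw [mul_left_cancel this]

end ne

variable [Finite G] [Fintype (Cn t)]

theorem Hyp.inner_al (h : Hyp t σ w) : classInner (al σ w) (al σ w) = 4 := by
  classical
  rw [al_eq]
  simp only [H18.CharOrtho.inner_add_left, H18.CharOrtho.inner_sub_left, H18.CharOrtho.inner_add_right, H18.CharOrtho.inner_sub_right, inner_lin]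
  have e1 := h.n1
  have e2 := h.n2
  have e3 := h.n3
  have e4 := h.n4
  have e5 := h.n5
  have e6 := h.n6
  simp only [if_true, if_neg e1, if_neg e2, if_neg e3, if_neg e4, if_neg e5, if_neg e6, if_neg e1.symm,
    if_neg e2.symm, if_neg e3.symm, if_neg e4.symm, if_neg e5.symm, if_neg e6.symm]
  norm_num

theorem Hyp.inner_al_conj (h : Hyp t σ w) : classInner (al σ w) (al σ w⁻¹) = 2 := by
  classical
  rw [al_eq, al_eq]
  simp only [H18.CharOrtho.inner_add_left, H18.CharOrtho.inner_sub_left, H18.CharOrtho.inner_add_right, H18.CharOrtho.inner_sub_right, inner_lin]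
  have e1 := h.n1
  have e2 := h.n2
  have e3 := h.n3
  have e4 := h.n4
  have e5 := h.n5
  have f2 := h.inv.n2
  have f3 := h.inv.n3
  have f4 := h.inv.n4
  have f5 := h.inv.n5
  have e7 := h.n7
  have e8 := h.n8
  have f8 := h.n9
  have e9 := h.n10
  simp only [if_true, if_neg e1, if_neg e2, if_neg e3, if_neg e4, if_neg e5, if_neg e1.symm,
    if_neg e2.symm, if_neg e3.symm, if_neg e4.symm, if_neg e5.symm, if_neg f2, if_neg f3, if_neg f4, if_neg f5,
    if_neg f2.symm, if_neg f3.symm, if_neg f4.symm, if_neg f5.symm, if_neg e7, if_neg e7.symm, if_neg e8,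
    if_neg e8.symm, if_neg f8, if_neg f8.symm, if_neg e9]
  norm_num

theorem Hyp.inner_al_one (h : Hyp t σ w) : classInner (al σ w) (lin 1) = 1 := by
  classical
  rw [al_eq]
  simp only [H18.CharOrtho.inner_add_left, H18.CharOrtho.inner_sub_left, inner_lin]
  have e1 := h.n1
  have e2 := h.n2
  have e3 := h.n3
  simp only [if_true, if_neg e1, if_neg e2, if_neg e3]
  norm_num

variable [Fintype G]

/-- the induced function -/
noncomputable def Th (σ w : Cn t →* ℂˣ) : G → ℂ := indFun (Cn t) (al σ w)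

theorem isGen_Th (σ w : Cn t →* ℂˣ) : IsGeneralizedCharacter G (Th σ w) := by
  apply isGen_ind
  rw [al_eq]
  exact isGen_add (isGen_sub (isGen_sub (isGen_of_isIrr (lin_irr _)) (isGen_of_isIrr (lin_irr _)))
    (isGen_of_isIrr (lin_irr _))) (isGen_of_isIrr (lin_irr _))

theorem Th_class (σ w : Cn t →* ℂˣ) : IsClassFunction G (Th σ w) := isClassFunction_of_isGen (isGen_Th σ w)

theorem Th_conj (hs : ∀ c, σ c ^ 2 = 1) (g : G) : conj (Th σ w g) = Th σ w⁻¹ g := by
  rw [Th, Th, indFun_apply, indFun_apply, map_mul, map_sum]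
  congr 1
  · simp
  · apply Finset.sum_congr rfl
    intro x _
    by_cases hm : x⁻¹ * g * x ∈ Cn t
    · rw [ext_mem _ _ hm, ext_mem _ _ hm, conj_al hs]
    · rw [ext_notMem _ _ hm, ext_notMem _ _ hm, map_zero]

theorem Hyp.inner_Th (h : Hyp t σ w) : classInner (Th σ w) (Th σ w) = 4 := by
  rw [Th, H18.CharInd.frobenius _ _ (isClassFunction_indFun _ _), ← h.inner_al]
  unfold classInner
  congr 1
  apply Finset.sum_congr rfl
  intro c _
  by_cases hc : al σ w c = 0
  · rw [hc, zero_mul, zero_mul]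
  · have := h.ind_val hc
    simp only [this]

theorem Hyp.inner_Th_conj (h : Hyp t σ w) : classInner (Th σ w) (Th σ w⁻¹) = 2 := by
  rw [Th, H18.CharInd.frobenius _ _ (Th_class _ _), ← h.inner_al_conj]
  unfold classInner
  congr 1
  apply Finset.sum_congr rfl
  intro c _
  by_cases hc : al σ w c = 0
  · rw [hc, zero_mul, zero_mul]
  · have hc' : al σ w⁻¹ c ≠ 0 := by
      rw [← conj_al h.s2]; exact (map_ne_zero _).mpr hc
    have := h.inv.ind_val hc'
    simp only [Th, this]

theorem Hyp.inner_Th_one (h : Hyp t σ w) : classInner (Th σ w) (fun _ => (1 : ℂ)) = 1 := by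
  have := h.inner_al_one
  rw [Th, H18.CharInd.frobenius _ _ (isClassFunction_const 1)]
  exact this

end H54.E8
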