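import Mathlib
import Cfsg.Agent.Lib.H54.E8b
import Cfsg.Agent.Lib.H78.PrincReal

/-!
Three irreducible characters attached to the induced class function.
-/

set_option autoImplicit false
set_option linter.unusedSectionVars false

open Cfsg Subgroup
open scoped ComplexConjugate

universe u

namespace H54.E8

open H18.CharBasic H18.CharOrtho H18.CharInd H78.PrincReal

theorem real_pick {ι : Type*} [DecidableEq ι] {bar : ι → ι} (hb : ∀ x, bar (bar x) = x) {a b c : ι}
    (hab : a ≠ b) (hac : a ≠ c) (hbc : b ≠ c) {ea eb ec : ℤ} (ha : ea = 1 ∨ ea = -1)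
    (hb' : eb = 1 ∨ eb = -1) (hc : ec = 1 ∨ ec = -1)
    (hsum : ea * ea * (if a = bar a then 1 else 0) + eb * eb * (if b = bar b then 1 else 0) +
      ec * ec * (if c = bar c then 1 else 0) + 2 * (ea * eb * (if a = bar b then 1 else 0)) +
      2 * (ea * ec * (if a = bar c then 1 else 0)) + 2 * (eb * ec * (if b = bar c then 1 else 0)) = 1) :
    (bar a = a ∧ bar b ≠ b ∧ bar c ≠ c ∧ bar b ≠ c) ∨ (bar b = b ∧ bar a ≠ a ∧ bar c ≠ c ∧ bar a ≠ c) ∨
      (bar c = c ∧ bar a ≠ a ∧ bar b ≠ b ∧ bar a ≠ b) := by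
  have i1 : a = bar b → bar a = b := fun e => by rw [e, hb]
  have i2 : a = bar c → bar a = c := fun e => by rw [e, hb]
  have i3 : b = bar c → bar b = c := fun e => by rw [e, hb]
  have sa : ea * ea = 1 := by rcases ha with h | h <;> rw [h] <;> norm_num
  have sb : eb * eb = 1 := by rcases hb' with h | h <;> rw [h] <;> norm_num
  have sc : ec * ec = 1 := by rcases hc with h | h <;> rw [h] <;> norm_num
  rw [sa, sb, sc] at hsum
  by_cases h1 : a = bar a
  · have n1 : a ≠ bar b := fun e => hab (h1.trans (i1 e))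
    have n2 : a ≠ bar c := fun e => hac (h1.trans (i2 e))
    rw [if_pos h1, if_neg n1, if_neg n2] at hsum
    by_cases h2 : b = bar b
    · have n3 : b ≠ bar c := fun e => hbc (h2.trans (i3 e))
      rw [if_pos h2, if_neg n3] at hsum
      split_ifs at hsum <;> omega
    · by_cases h3 : c = bar c
      · have n3 : b ≠ bar c := fun e => hbc (e.trans h3.symm)
        rw [if_neg h2, if_pos h3, if_neg n3] at hsum
        omega
      · rw [if_neg h2, if_neg h3] at hsum
        by_cases h4 : b = bar c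
        · rw [if_pos h4] at hsum
          rcases hb' with e | e <;> rcases hc with e' | e' <;> rw [e, e'] at hsum <;> omega
        · left
          exact ⟨h1.symm, fun e => h2 e.symm, fun e => h3 e.symm, fun e => h4 (by rw [← e, hb])⟩
  · by_cases h2 : b = bar b
    · have n1 : a ≠ bar b := fun e => hab (e.trans h2.symm)
      have n3 : b ≠ bar c := fun e => hbc (h2.trans (i3 e))
      rw [if_neg h1, if_pos h2, if_neg n1, if_neg n3] at hsum
      by_cases h3 : c = bar c
      · have n2 : a ≠ bar c := fun e => hac (e.trans h3.symm)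
        rw [if_pos h3, if_neg n2] at hsum
        omega
      · rw [if_neg h3] at hsum
        by_cases h4 : a = bar c
        · rw [if_pos h4] at hsum
          rcases ha with e | e <;> rcases hc with e' | e' <;> rw [e, e'] at hsum <;> omega
        · right; left
          exact ⟨h2.symm, fun e => h1 e.symm, fun e => h3 e.symm, fun e => h4 (by rw [← e, hb])⟩
    · by_cases h3 : c = bar c
      · have n2 : a ≠ bar c := fun e => hac (e.trans h3.symm)
        have n3 : b ≠ bar c := fun e => hbc (e.trans h3.symm)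
        rw [if_neg h1, if_neg h2, if_pos h3, if_neg n2, if_neg n3] at hsum
        by_cases h4 : a = bar b
        · rw [if_pos h4] at hsum
          rcases ha with e | e <;> rcases hb' with e' | e' <;> rw [e, e'] at hsum <;> omega
        · right; right
          exact ⟨h3.symm, fun e => h1 e.symm, fun e => h2 e.symm, fun e => h4 (by rw [← e, hb])⟩
      · rw [if_neg h1, if_neg h2, if_neg h3] at hsum
        omega

variable {G : Type u} [Group G] {t : G} {σ w : Cn t →* ℂˣ} [Fintype G]

theorem Hyp.sum_mult [Fintype (IrrCharacter G)] (h : Hyp t σ w) :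
    ∑ χ : IrrCharacter G, classInner (Th σ w) (χ : G → ℂ) *
      ((χ : G → ℂ) t * (χ : G → ℂ) t / (χ : G → ℂ) 1) = 0 := by
  classical
  have key : ∀ g : G, Th σ w g * ∑ χ : IrrCharacter G, (χ : G → ℂ) t * (χ : G → ℂ) t *
      conj ((χ : G → ℂ) g) / (χ : G → ℂ) 1 = 0 := by
    intro g
    by_cases hg : Th σ w g = 0
    · rw [hg, zero_mul]
    · have h1 := H18.CharCentral.class_mult t t g
      have h2 : Nat.card {p : G × G // IsConj t p.1 ∧ IsConj t p.2 ∧ p.1 * p.2 = g} = 0 := by
        have : IsEmpty {p : G × G // IsConj t p.1 ∧ IsConj t p.2 ∧ p.1 * p.2 = g} :=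
          ⟨fun p => h.no_prod hg p.2.1 p.2.2.1 p.2.2.2⟩
        exact Nat.card_of_isEmpty
      rw [h2, Nat.cast_zero] at h1
      have h3 : (Nat.card {x : G // IsConj t x} : ℂ) ≠ 0 := by
        have : Nonempty {x : G // IsConj t x} := ⟨⟨t, IsConj.refl t⟩⟩
        exact_mod_cast Nat.card_pos.ne'
      have h4 : (Nat.card G : ℂ) ≠ 0 := by exact_mod_cast Nat.card_pos.ne'
      rcases mul_eq_zero.mp h1.symm with e | e
      · exact absurd e (div_ne_zero (mul_ne_zero h3 h3) h4)
      · rw [e, mul_zero]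
  have h5 : ∀ χ : IrrCharacter G, classInner (Th σ w) (χ : G → ℂ) *
      ((χ : G → ℂ) t * (χ : G → ℂ) t / (χ : G → ℂ) 1) = (Nat.card G : ℂ)⁻¹ * ∑ g : G,
        Th σ w g * ((χ : G → ℂ) t * (χ : G → ℂ) t * conj ((χ : G → ℂ) g) / (χ : G → ℂ) 1) := by
    intro χ
    rw [classInner, mul_assoc, Finset.sum_mul]
    congr 1
    apply Finset.sum_congr rfl
    intro g _
    ring
  rw [Finset.sum_congr rfl fun χ _ => h5 χ, ← Finset.mul_sum, Finset.sum_comm]
  have h6 : ∑ g : G, ∑ χ : IrrCharacter G, Th σ w g *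
      ((χ : G → ℂ) t * (χ : G → ℂ) t * conj ((χ : G → ℂ) g) / (χ : G → ℂ) 1) = 0 := by
    apply Finset.sum_eq_zero
    intro g _
    rw [← Finset.mul_sum]
    exact key g
  rw [h6, mul_zero]

theorem sum_val [Fintype (IrrCharacter G)] (σ w : Cn t →* ℂˣ) (g : G) :
    ∑ χ : IrrCharacter G, classInner (Th σ w) (χ : G → ℂ) * (χ : G → ℂ) g = Th σ w g := by
  have : Fintype (Cn t) := Fintype.ofFinite _
  have h1 := congrFun (mem_classFun_expand (Th_class σ w)) g
  rw [h1, Finset.sum_apply]
  rfl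

/-- the principal character -/
noncomputable def oneIrr (G : Type u) [Group G] : IrrCharacter G := ⟨fun _ => 1, isIrrCharacter_one⟩

theorem Hyp.norm_beta (h : Hyp t σ w) :
    classInner (Th σ w - (oneIrr G : G → ℂ)) (Th σ w - (oneIrr G : G → ℂ)) = 3 := by
  have : Fintype (Cn t) := Fintype.ofFinite _
  have h1 := h.inner_Th_one
  have h2 : classInner (Th σ w) (oneIrr G : G → ℂ) = 1 := h1
  have h3 : classInner (oneIrr G : G → ℂ) (Th σ w) = 1 := by
    rw [← H18.CharOrtho.inner_conj_symm, h2, map_one]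
  have h4 : classInner (oneIrr G : G → ℂ) (oneIrr G : G → ℂ) = 1 := inner_irr_self (oneIrr G).2
  rw [H18.CharOrtho.inner_sub_left, H18.CharOrtho.inner_sub_right, H18.CharOrtho.inner_sub_right, h.inner_Th,
    h2, h3, h4]
  norm_num

theorem Hyp.norm_beta_conj (h : Hyp t σ w) :
    classInner (Th σ w - (oneIrr G : G → ℂ)) (Th σ w⁻¹ - (oneIrr G : G → ℂ)) = 1 := by
  have : Fintype (Cn t) := Fintype.ofFinite _
  have h2 : classInner (Th σ w) (oneIrr G : G → ℂ) = 1 := h.inner_Th_one
  have h2' : classInner (Th σ w⁻¹) (oneIrr G : G → ℂ) = 1 := h.inv.inner_Th_one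
  have h3 : classInner (oneIrr G : G → ℂ) (Th σ w⁻¹) = 1 := by
    rw [← H18.CharOrtho.inner_conj_symm, h2', map_one]
  have h4 : classInner (oneIrr G : G → ℂ) (oneIrr G : G → ℂ) = 1 := inner_irr_self (oneIrr G).2
  rw [H18.CharOrtho.inner_sub_left, H18.CharOrtho.inner_sub_right, H18.CharOrtho.inner_sub_right,
    h.inner_Th_conj, h2, h3, h4]
  norm_num

theorem bar_fun (χ : IrrCharacter G) : (bar χ : G → ℂ) = fun g => conj ((χ : G → ℂ) g) := by
  funext g
  rw [bar_apply, char_inv (isCharacter_of_isIrr χ.2)]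

/-- the three characters -/
structure Three (t : G) (σ w : Cn t →* ℂˣ) (a b c : IrrCharacter G) (ea eb ec : ℤ) : Prop where
  ab : a ≠ b
  ac : a ≠ c
  bc : b ≠ c
  sa : ea = 1 ∨ ea = -1
  sb : eb = 1 ∨ eb = -1
  sc : ec = 1 ∨ ec = -1
  eq : Th σ w - (oneIrr G : G → ℂ) = (ea : ℂ) • (a : G → ℂ) + (eb : ℂ) • (b : G → ℂ) +
    (ec : ℂ) • (c : G → ℂ)
  cr : bar c = c
  ar : bar a ≠ a
  br : bar b ≠ b
  abr : bar a ≠ b

theorem Hyp.exists_three (h : Hyp t σ w) : ∃ a b c ea eb ec, Three t σ w a b c ea eb ec := by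
  classical
  have : Fintype (Cn t) := Fintype.ofFinite _
  obtain ⟨s, ε, hs, hε, hβ⟩ := H5.CharSmallNorm.exists_signed (n := 3)
    (isGen_sub (isGen_Th σ w) (isGen_of_isIrr (oneIrr G).2)) le_rfl (by rw [h.norm_beta]; norm_num)
  obtain ⟨a, b, c, hab, hac, hbc, rfl⟩ := Finset.card_eq_three.mp hs
  have hβ' : Th σ w - (oneIrr G : G → ℂ) = (ε a : ℂ) • (a : G → ℂ) + (ε b : ℂ) • (b : G → ℂ) +
      (ε c : ℂ) • (c : G → ℂ) := by
    rw [hβ, Finset.sum_insert (by simp [hab, hac]), Finset.sum_insert (by simp [hbc]), Finset.sum_singleton,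
      add_assoc]
  have hconj : Th σ w⁻¹ - (oneIrr G : G → ℂ) = (ε a : ℂ) • (bar a : G → ℂ) + (ε b : ℂ) • (bar b : G → ℂ) +
      (ε c : ℂ) • (bar c : G → ℂ) := by
    funext g
    have h1 := congrArg conj (congrFun hβ' g)
    simp only [Pi.sub_apply, Pi.add_apply, Pi.smul_apply, smul_eq_mul, map_sub, map_add, map_mul,
      map_intCast, Th_conj h.s2] at h1
    simp only [Pi.sub_apply, Pi.add_apply, Pi.smul_apply, smul_eq_mul, bar_fun]
    rw [← h1]
    simp [oneIrr]
  have hin := h.norm_beta_conj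
  rw [hβ', hconj] at hin
  simp only [H18.CharOrtho.inner_add_left, H18.CharOrtho.inner_add_right, H18.CharOrtho.inner_smul_left,
    H18.CharOrtho.inner_smul_right, map_intCast] at hin
  have hi : ∀ x y : IrrCharacter G, classInner (x : G → ℂ) (bar y : G → ℂ) =
      ((if x = bar y then 1 else 0 : ℤ) : ℂ) := by
    intro x y
    rw [inner_irr x.2 (bar y).2]
    by_cases e : x = bar y
    · rw [if_pos e, if_pos (by rw [e])]; norm_num
    · rw [if_neg e, if_neg (fun e' => e (Subtype.ext e'))]; norm_num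
  simp only [hi] at hin
  have hsym : ∀ x y : IrrCharacter G, (y = bar x) = (x = bar y) := by
    intro x y
    apply propext
    constructor
    · intro e; rw [e, bar_bar]
    · intro e; rw [e, bar_bar]
  have hsum : ε a * ε a * (if a = bar a then 1 else 0) + ε b * ε b * (if b = bar b then 1 else 0) +
      ε c * ε c * (if c = bar c then 1 else 0) + 2 * (ε a * ε b * (if a = bar b then 1 else 0)) +
      2 * (ε a * ε c * (if a = bar c then 1 else 0)) + 2 * (ε b * ε c * (if b = bar c then 1 else 0)) = 1 := by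
    have e1 : (if b = bar a then (1 : ℤ) else 0) = if a = bar b then 1 else 0 := by
      simp only [hsym a b]
    have e2 : (if c = bar a then (1 : ℤ) else 0) = if a = bar c then 1 else 0 := by
      simp only [hsym a c]
    have e3 : (if c = bar b then (1 : ℤ) else 0) = if b = bar c then 1 else 0 := by
      simp only [hsym b c]
    rw [e1, e2, e3] at hin
    have : ((ε a * ε a * (if a = bar a then 1 else 0) + ε b * ε b * (if b = bar b then 1 else 0) +
      ε c * ε c * (if c = bar c then 1 else 0) + 2 * (ε a * ε b * (if a = bar b then 1 else 0)) +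
      2 * (ε a * ε c * (if a = bar c then 1 else 0)) +
      2 * (ε b * ε c * (if b = bar c then 1 else 0)) : ℤ) : ℂ) = (1 : ℤ) := by
      push_cast
      push_cast at hin
      linear_combination hin
    exact_mod_cast this
  rcases real_pick bar_bar hab hac hbc (hε a) (hε b) (hε c) hsum with ⟨r1, r2, r3, r4⟩ | ⟨r1, r2, r3, r4⟩ | ⟨r1, r2, r3, r4⟩
  · refine ⟨b, c, a, ε b, ε c, ε a, hbc, hab.symm, hac.symm, hε b, hε c, hε a, ?_, r1, r2, r3, r4⟩
    rw [hβ']; abel
  · refine ⟨a, c, b, ε a, ε c, ε b, hac, hab, hbc.symm, hε a, hε c, hε b, ?_, r1, r2, r3, r4⟩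
    rw [hβ']; abel
  · exact ⟨a, b, c, ε a, ε b, ε c, hab, hac, hbc, hε a, hε b, hε c, hβ', r1, r2, r3, r4⟩

end H54.E8
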