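import Mathlib
import Cfsg.Agent.Lib.H54.E8c
import Cfsg.Agent.Lib.H20.Klein
import Cfsg.Agent.Lib.H20.Col2

/-!
The three characters lie in the principal 2-block; degree bound.
-/

set_option autoImplicit false
set_option linter.unusedSectionVars false
set_option linter.style.haveILetI false

open Cfsg Subgroup
open scoped ComplexConjugate

universe u

namespace H54.E8

open H18.CharBasic H18.CharOrtho H18.CharInd H78.PrincReal H20.Loc H20.Blk H20.Col H20.Col2 H20.Orth

section gen

variable {C : Type u} [Group C] [Finite C] {M : Ideal AlgInt}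

/-- linear characters as irreducible characters -/
noncomputable def linI (f : C →* ℂˣ) : IrrCharacter C := ⟨lin f, lin_irr f⟩

theorem lin_mem (hM : IsPModular 2 M) (f : C →* ℂˣ)
    (hf : ∀ c, f c = 1 ∨ f c = -1 ∨ 2 ∣ (centralizer ({c} : Set C)).index) :
    linI f ∈ principalBlock M C := by
  haveI := pm_isPrime hM
  intro g
  show MemLocalIdeal M (centralChar (fun _ : C => (1 : ℂ)) g - centralChar (lin f) g)
  have h1 : centralChar (fun _ : C => (1 : ℂ)) g - centralChar (lin f) g =
      ((centralizer ({g} : Set C)).index : ℂ) * (1 - (f g : ℂ)) := by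
    simp only [centralChar, lin, map_one, Units.val_one, div_one]
    ring
  rw [h1]
  have hR : MemLocalRing M (1 - (f g : ℂ)) :=
    locR_sub locR_one (isIntegral_mem (char_isIntegral (isCharacter_of_isIrr (lin_irr f)) g))
  rcases hf g with e | e | e
  · rw [e, Units.val_one, sub_self, mul_zero]; exact locI_zero
  · have : (1 - (f g : ℂ)) = ((2 : ℕ) : ℂ) := by rw [e]; push_cast; norm_num
    rw [this]
    exact locI_mul_left (locR_natCast _) (locI_p hM)
  · exact locI_mul_right ((locI_natCast_iff hM).mpr e) hR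

/-- degrees of a set of characters with `N` in their kernels -/
theorem sum_sq_le (N : Subgroup C) [N.Normal] [Fintype (IrrCharacter C)] (B : Set (IrrCharacter C))
    [DecidablePred (· ∈ B)] (hB : ∀ ψ ∈ B, ∀ n ∈ N, (ψ : C → ℂ) n = (ψ : C → ℂ) 1) :
    ∑ ψ : IrrCharacter C, (if ψ ∈ B then ‖(ψ : C → ℂ) 1‖ ^ 2 else 0) ≤ (N.index : ℝ) := by
  classical
  letI := Fintype.ofFinite C
  letI := Fintype.ofFinite N
  have hd : ∀ ψ : IrrCharacter C, ∃ d : ℕ, (ψ : C → ℂ) 1 = d := fun ψ => exists_degree (isCharacter_of_isIrr ψ.2)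
  choose d hd using hd
  have hk : ∀ ψ : IrrCharacter C, ∃ k : ℕ, classInner (fun x : N => (ψ : C → ℂ) x) (fun _ => 1) = k := fun ψ =>
    inner_char_natCast (isCharacter_restrict N (isCharacter_of_isIrr ψ.2)) isCharacter_one
  choose k hk using hk
  have hN : (Nat.card N : ℂ) ≠ 0 := by exact_mod_cast Nat.card_pos.ne'
  have hS : ∀ ψ : IrrCharacter C, ∑ n : N, (ψ : C → ℂ) n = Nat.card N * k ψ := by
    intro ψ
    have h1 := hk ψ
    rw [classInner] at h1
    simp only [map_one, mul_one] at h1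
    rw [← h1, ← mul_assoc, mul_inv_cancel₀ hN, one_mul]
  have hkB : ∀ ψ ∈ B, k ψ = d ψ := by
    intro ψ hψ
    have h1 := hS ψ
    have h2 : ∑ n : N, (ψ : C → ℂ) n = Nat.card N * d ψ := by
      rw [Finset.sum_congr rfl fun (n : N) _ => hB ψ hψ (n : C) n.2, Finset.sum_const, hd, nsmul_eq_mul,
        Finset.card_univ, Nat.card_eq_fintype_card]
    rw [h1] at h2
    have := mul_left_cancel₀ hN h2
    exact_mod_cast this
  have htot : ∑ ψ : IrrCharacter C, (d ψ : ℂ) * (Nat.card N * k ψ) = Nat.card C := by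
    have h1 : ∀ ψ : IrrCharacter C, (d ψ : ℂ) * (Nat.card N * k ψ) =
        ∑ n : N, (ψ : C → ℂ) 1 * conj ((ψ : C → ℂ) n) := by
      intro ψ
      rw [← Finset.mul_sum, ← map_sum, hS, hd]
      simp
    rw [Finset.sum_congr rfl fun ψ _ => h1 ψ, Finset.sum_comm]
    simp only [column_orthogonality]
    rw [Finset.sum_eq_single (1 : N)]
    · rw [if_pos (by simp [IsConj.refl])]
      have h1 : centralizer ({1} : Set C) = ⊤ := by
        rw [eq_top_iff]
        intro x _
        rw [mem_centralizer_singleton_iff]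
        simp
      rw [h1, Subgroup.card_top]
    · intro n _ hn
      rw [if_neg]
      intro h
      apply hn
      have := isConj_one_right.mp h
      exact Subtype.ext this
    · intro h; exact absurd (Finset.mem_univ _) h
  have htot' : (Nat.card N : ℝ) * ∑ ψ : IrrCharacter C, (d ψ : ℝ) * k ψ = Nat.card N * N.index := by
    have h1 : (Nat.card N : ℂ) * ∑ ψ : IrrCharacter C, (d ψ : ℂ) * k ψ = Nat.card N * N.index := by
      rw [← Nat.cast_mul, Subgroup.card_mul_index, ← htot, Finset.mul_sum]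
      apply Finset.sum_congr rfl
      intro ψ _
      ring
    exact_mod_cast h1
  have hN' : (Nat.card N : ℝ) ≠ 0 := by exact_mod_cast Nat.card_pos.ne'
  rw [← mul_left_cancel₀ hN' htot']
  apply Finset.sum_le_sum
  intro ψ _
  by_cases hψ : ψ ∈ B
  · rw [if_pos hψ, hkB ψ hψ, hd]
    simp [pow_two]
  · rw [if_neg hψ]
    positivity

end gen

variable {G : Type u} [Group G] {t : G} {σ w : Cn t →* ℂˣ} [Fintype G] {M : Ideal AlgInt}

/-- further hypotheses -/
structure BHyp (M : Ideal AlgInt) (t : G) (σ w : Cn t →* ℂˣ) : Prop extends Hyp t σ w where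
  hM : IsPModular 2 M
  idx : ∀ c, w c ≠ 1 → 2 ∣ (centralizer ({c} : Set (Cn t))).index
  h24 : (pPrimeCore 2 (Cn t)).index ≤ 24

theorem BHyp.hx (h : BHyp M t σ w) : ∃ k : ℕ, orderOf t = 2 ^ k := ⟨1, by rw [h.ht, pow_one]⟩

theorem BHyp.m1 (h : BHyp M t σ w) : linI (1 : Cn t →* ℂˣ) ∈ principalBlock M (Cen t) :=
  lin_mem h.hM 1 fun _ => Or.inl rfl

theorem BHyp.m2 (h : BHyp M t σ w) : linI σ ∈ principalBlock M (Cen t) :=
  lin_mem h.hM σ fun c => (h.sigma c).elim Or.inl fun e => Or.inr (Or.inl e)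

theorem BHyp.m3 (h : BHyp M t σ w) : linI w ∈ principalBlock M (Cen t) := by
  apply lin_mem h.hM w
  intro c
  by_cases hc : w c = 1
  · exact Or.inl hc
  · exact Or.inr (Or.inr (h.idx c hc))

theorem BHyp.m4 (h : BHyp M t σ w) : linI (σ * w) ∈ principalBlock M (Cen t) := by
  apply lin_mem h.hM
  intro c
  by_cases hc : w c = 1
  · rw [MonoidHom.mul_apply, hc, mul_one]
    exact (h.sigma c).elim Or.inl fun e => Or.inr (Or.inl e)
  · exact Or.inr (Or.inr (h.idx c hc))

theorem BHyp.inner_eq_zero (h : BHyp M t σ w) {χ : IrrCharacter G} (hχ : χ ∉ principalBlock M G) :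
    classInner (Th σ w) (χ : G → ℂ) = 0 := by
  classical
  letI : Fintype (Cn t) := Fintype.ofFinite _
  haveI := pm_isPrime h.hM
  rw [Th, H18.CharInd.frobenius _ _ (isClassFunction_of_isIrr χ.2)]
  -- the companion function
  obtain ⟨ps, hps⟩ : ∃ ps : Cn t → ℂ, ps = lin 1 + lin σ - lin w - lin (σ * w) := ⟨_, rfl⟩
  have hpsa : ∀ y : Cn t, al σ w (tt t * y) = ps y := by
    intro y
    rw [al, hps]
    simp only [lin, Pi.add_apply, Pi.sub_apply, MonoidHom.one_apply, MonoidHom.mul_apply, Units.val_one,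
      Units.val_mul, map_mul, h.st, h.w_t]
    push_cast
    ring
  have hreg : ∀ y : Cn t, ps y ≠ 0 → ¬ 2 ∣ orderOf y := by
    intro y hy
    rw [← hpsa] at hy
    have h1 := (h.supp hy).2.2
    rw [← mul_assoc, tt_sq h.ht, one_mul] at h1
    exact fun h2 => (Nat.not_even_iff_odd.mpr h1) (even_iff_two_dvd.mpr h2)
  have h1 : classInner (al σ w) (fun x : Cn t => (χ : G → ℂ) x) = classInner ps (tr t (χ : G → ℂ)) := by
    rw [classInner, classInner]
    congr 1
    rw [← Equiv.sum_comp (Equiv.mulLeft (tt t))]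
    apply Finset.sum_congr rfl
    intro y _
    rw [Equiv.coe_mulLeft, hpsa]
    rfl
  rw [h1]
  -- projection
  have h2 : classInner ps (proj (principalBlock M (Cen t)) (tr t (χ : G → ℂ))) = 0 := by
    rw [classInner, Finset.sum_eq_zero, mul_zero]
    intro y _
    by_cases hy : ps y = 0
    · rw [hy, zero_mul]
    · have := proj_principal h.hM h.hx χ (hreg y hy)
      rw [if_neg hχ] at this
      rw [this, map_zero, mul_zero]
  have h3 : ∀ ψ : IrrCharacter (Cn t), ψ ∈ principalBlock M (Cen t) →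
      classInner (ψ : Cn t → ℂ) (proj (principalBlock M (Cen t)) (tr t (χ : G → ℂ))) =
        classInner (ψ : Cn t → ℂ) (tr t (χ : G → ℂ)) := by
    intro ψ hψ
    rw [← H18.CharOrtho.inner_conj_symm, inner_proj, if_pos hψ, H18.CharOrtho.inner_conj_symm]
  rw [hps] at h2 ⊢
  rw [H18.CharOrtho.inner_sub_left, H18.CharOrtho.inner_sub_left, H18.CharOrtho.inner_add_left] at h2 ⊢
  have e1 := h3 _ h.m1
  have e2 := h3 _ h.m2
  have e3 := h3 _ h.m3
  have e4 := h3 _ h.m4
  simp only [linI] at e1 e2 e3 e4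
  rw [e1, e2, e3, e4] at h2
  exact h2

theorem BHyp.sum_le (h : BHyp M t σ w) [Fintype (IrrCharacter G)]
    [DecidablePred (· ∈ principalBlock M G)] :
    ∑ ζ : IrrCharacter G, (if ζ ∈ principalBlock M G then ‖(ζ : G → ℂ) t‖ ^ 2 else 0) ≤ (24 : ℝ) := by
  classical
  letI : Fintype (IrrCharacter (Cen t)) := Fintype.ofFinite _
  have h1 := column h.hM h.hx (y := 1) (y' := 1) (by rw [orderOf_one]; norm_num) (by rw [orderOf_one]; norm_num)
  rw [OneMemClass.coe_one, mul_one, ← ofReal_sum_norm, ← ofReal_sum_norm] at h1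
  rw [Complex.ofReal_injective h1]
  have h2 := sum_sq_le (pPrimeCore 2 (Cen t)) (principalBlock M (Cen t)) fun ψ hψ n hn =>
    principal_trivial h.hM hψ hn
  refine h2.trans ?_
  exact_mod_cast h.h24

theorem Three.ne_one (h : Hyp t σ w) {a b c : IrrCharacter G} {ea eb ec : ℤ}
    (T : Three t σ w a b c ea eb ec) : a ≠ oneIrr G ∧ b ≠ oneIrr G ∧ c ≠ oneIrr G := by
  classical
  letI : Fintype (Cn t) := Fintype.ofFinite _
  have h1 : classInner (Th σ w - (oneIrr G : G → ℂ)) (oneIrr G : G → ℂ) = 0 := by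
    rw [H18.CharOrtho.inner_sub_left, inner_irr_self (oneIrr G).2]
    have : classInner (Th σ w) (oneIrr G : G → ℂ) = 1 := h.inner_Th_one
    rw [this, sub_self]
  rw [T.eq, H18.CharOrtho.inner_add_left, H18.CharOrtho.inner_add_left, H18.CharOrtho.inner_smul_left,
    H18.CharOrtho.inner_smul_left, H18.CharOrtho.inner_smul_left, inner_irr a.2 (oneIrr G).2,
    inner_irr b.2 (oneIrr G).2, inner_irr c.2 (oneIrr G).2] at h1
  have ab := T.ab
  have ac := T.ac
  have bc := T.bc
  have ne : ∀ x y : IrrCharacter G, x ≠ y → (x : G → ℂ) ≠ (y : G → ℂ) := fun x y hxy e => hxy (Subtype.ext e)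
  refine ⟨?_, ?_, ?_⟩
  · rintro rfl
    rw [if_pos rfl, if_neg (ne _ _ ab.symm), if_neg (ne _ _ ac.symm)] at h1
    have h2 : (ea : ℂ) = 0 := by linear_combination h1
    have h3 : ea = 0 := by exact_mod_cast h2
    rcases T.sa with e | e <;> rw [e] at h3 <;> omega
  · rintro rfl
    rw [if_pos rfl, if_neg (ne _ _ ab), if_neg (ne _ _ bc.symm)] at h1
    have h2 : (eb : ℂ) = 0 := by linear_combination h1
    have h3 : eb = 0 := by exact_mod_cast h2
    rcases T.sb with e | e <;> rw [e] at h3 <;> omega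
  · rintro rfl
    rw [if_pos rfl, if_neg (ne _ _ ac), if_neg (ne _ _ bc)] at h1
    have h2 : (ec : ℂ) = 0 := by linear_combination h1
    have h3 : ec = 0 := by exact_mod_cast h2
    rcases T.sc with e | e <;> rw [e] at h3 <;> omega

theorem Three.inner (h : Hyp t σ w) {a b c : IrrCharacter G} {ea eb ec : ℤ}
    (T : Three t σ w a b c ea eb ec) (x : IrrCharacter G) : classInner (Th σ w) (x : G → ℂ) =
      (if oneIrr G = x then 1 else 0) + ea * (if a = x then 1 else 0) + eb * (if b = x then 1 else 0) +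
        ec * (if c = x then 1 else 0) := by
  classical
  have hi : ∀ y : IrrCharacter G, classInner (y : G → ℂ) (x : G → ℂ) = if y = x then 1 else 0 := by
    intro y
    rw [inner_irr y.2 x.2]
    by_cases e : y = x
    · rw [if_pos e, if_pos (by rw [e])]
    · rw [if_neg e, if_neg (fun e' => e (Subtype.ext e'))]
  have h1 : Th σ w = (oneIrr G : G → ℂ) + ((ea : ℂ) • (a : G → ℂ) + (eb : ℂ) • (b : G → ℂ) +
    (ec : ℂ) • (c : G → ℂ)) := by rw [← T.eq]; abel
  rw [h1]
  simp only [H18.CharOrtho.inner_add_left, H18.CharOrtho.inner_smul_left, hi]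
  ring

end H54.E8
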