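import Mathlib

/-!
The arithmetic: no solutions.
-/

set_option autoImplicit false

namespace H54.E8

def Pb (X M : ℤ) : Bool :=
  decide ((X - M) % 8 = 0) && decide (X % 16 ≠ 0) &&
    ((decide (2 ≤ X) && decide (0 ≤ X + 7 * M)) || (decide (X ≤ -2) && decide (X + 7 * M ≤ 0)))

def Bb (a b c : ℤ) : Bool :=
  decide (2 * (a * a + b * b + c * c) ≤ 23 + a * a) || decide (2 * (a * a + b * b + c * c) ≤ 23 + b * b) ||
    decide (2 * (a * a + b * b + c * c) ≤ 23 + c * c)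

def inner3 (Ma Mb Mc Xa : ℤ) (l : ℕ) : Bool :=
  let Xb := 8 * ((l : ℤ) - 66) + Mb
  let Xc := -1 - Xa - Xb
  !(decide (Ma * Ma * (Xb * Xc) + Mb * Mb * (Xa * Xc) + Mc * Mc * (Xa * Xb) + Xa * (Xb * Xc) = 0) &&
    (Pb Xb Mb && Pb Xc Mc))

def chkAll : Bool :=
  (List.range 9).all fun i => (List.range 9).all fun j =>
    let Ma := (i : ℤ) - 4
    let Mb := (j : ℤ) - 4
    let Mc := -1 - Ma - Mb
    !(Bb Ma Mb Mc) || (List.range 7).all fun k =>
      let Xa := 8 * ((k : ℤ) - 3) + Ma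
      !(Pb Xa Ma) || (List.range 133).all fun l => inner3 Ma Mb Mc Xa l

theorem chkAll_eq : chkAll = true := by decide +kernel

theorem Pb_iff {X M : ℤ} : Pb X M = true ↔ (X - M) % 8 = 0 ∧ X % 16 ≠ 0 ∧
    ((2 ≤ X ∧ 0 ≤ X + 7 * M) ∨ (X ≤ -2 ∧ X + 7 * M ≤ 0)) := by
  simp only [Pb, Bool.and_eq_true, Bool.or_eq_true, decide_eq_true_eq]
  tauto

theorem Bb_iff {a b c : ℤ} : Bb a b c = true ↔ 2 * (a * a + b * b + c * c) ≤ 23 + a * a ∨
    2 * (a * a + b * b + c * c) ≤ 23 + b * b ∨ 2 * (a * a + b * b + c * c) ≤ 23 + c * c := by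
  simp only [Bb, Bool.or_eq_true, decide_eq_true_eq]
  tauto

theorem fin_check {i j k l : ℕ} (hi : i < 9) (hj : j < 9) (hk : k < 7) (hl : l < 133) {Ma Mb Mc Xa Xb Xc : ℤ}
    (eMa : Ma = (i : ℤ) - 4) (eMb : Mb = (j : ℤ) - 4) (eMc : Mc = -1 - Ma - Mb)
    (eXa : Xa = 8 * ((k : ℤ) - 3) + Ma) (eXb : Xb = 8 * ((l : ℤ) - 66) + Mb) (eXc : Xc = -1 - Xa - Xb)
    (hB : Bb Ma Mb Mc = true) (ha : Pb Xa Ma = true) (hb : Pb Xb Mb = true) (hc : Pb Xc Mc = true)
    (he : Ma * Ma * (Xb * Xc) + Mb * Mb * (Xa * Xc) + Mc * Mc * (Xa * Xb) + Xa * (Xb * Xc) = 0) : False := by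
  have h := chkAll_eq
  unfold chkAll at h
  rw [List.all_eq_true] at h
  have h1 := h i (List.mem_range.mpr hi)
  rw [List.all_eq_true] at h1
  have h2 := h1 j (List.mem_range.mpr hj)
  simp only [Bool.or_eq_true, Bool.not_eq_true'] at h2
  subst eMa eMb eMc
  rw [hB] at h2
  have h3 := h2.resolve_left (by simp)
  rw [List.all_eq_true] at h3
  have h4 := h3 k (List.mem_range.mpr hk)
  simp only [Bool.or_eq_true, Bool.not_eq_true'] at h4
  subst eXa
  rw [ha] at h4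
  have h5 := h4.resolve_left (by simp)
  rw [List.all_eq_true] at h5
  have h6 := h5 l (List.mem_range.mpr hl)
  subst eXb eXc
  rw [inner3] at h6
  simp only [hb, hc, he, decide_true, Bool.and_self, Bool.not_true] at h6
  exact Bool.false_ne_true h6

theorem core {Ma Mb Mc Xa Xb Xc : ℤ} (eM : 1 + Ma + Mb + Mc = 0) (eX : 1 + Xa + Xb + Xc = 0)
    (hB : Bb Ma Mb Mc = true) (ha : Pb Xa Ma = true) (hb : Pb Xb Mb = true) (hc : Pb Xc Mc = true)
    (he : Ma * Ma * (Xb * Xc) + Mb * Mb * (Xa * Xc) + Mc * Mc * (Xa * Xb) + Xa * (Xb * Xc) = 0)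
    (hab : |Xa| ≤ |Xb|) (hbc : |Xb| ≤ |Xc|) : False := by
  have hB' := Bb_iff.mp hB
  have ha' := Pb_iff.mp ha
  have hb' := Pb_iff.mp hb
  have hc' := Pb_iff.mp hc
  have sa := mul_self_nonneg Ma
  have sb := mul_self_nonneg Mb
  have sc := mul_self_nonneg Mc
  have hS : Ma * Ma + Mb * Mb + Mc * Mc ≤ 23 := by
    rcases hB' with h | h | h <;> linarith
  have mb : ∀ M : ℤ, M * M ≤ 23 → -4 ≤ M ∧ M ≤ 4 := by
    intro M hM
    constructor
    · by_contra hcon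
      push Not at hcon
      nlinarith
    · by_contra hcon
      push Not at hcon
      nlinarith
  obtain ⟨a1, a2⟩ := mb Ma (by linarith)
  obtain ⟨b1, b2⟩ := mb Mb (by linarith)
  have pa : 0 < |Xa| := abs_pos.mpr (by intro e; rw [e] at ha'; omega)
  have pb : 0 < |Xb| := lt_of_lt_of_le pa hab
  have pc : 0 < |Xc| := lt_of_lt_of_le pb hbc
  have g1 : |Xa| ≤ Ma * Ma + Mb * Mb + Mc * Mc := by
    have h1 : Xa * (Xb * Xc) = -(Ma * Ma * (Xb * Xc) + Mb * Mb * (Xa * Xc) + Mc * Mc * (Xa * Xb)) := by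
      linarith
    have h2 : |Xa| * (|Xb| * |Xc|) ≤ Ma * Ma * (|Xb| * |Xc|) + Mb * Mb * (|Xa| * |Xc|) +
        Mc * Mc * (|Xa| * |Xb|) := by
      calc |Xa| * (|Xb| * |Xc|) = |Xa * (Xb * Xc)| := by rw [abs_mul, abs_mul]
        _ = |Ma * Ma * (Xb * Xc) + Mb * Mb * (Xa * Xc) + Mc * Mc * (Xa * Xb)| := by rw [h1, abs_neg]
        _ ≤ |Ma * Ma * (Xb * Xc) + Mb * Mb * (Xa * Xc)| + |Mc * Mc * (Xa * Xb)| := abs_add_le _ _
        _ ≤ |Ma * Ma * (Xb * Xc)| + |Mb * Mb * (Xa * Xc)| + |Mc * Mc * (Xa * Xb)| := by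
          have := abs_add_le (Ma * Ma * (Xb * Xc)) (Mb * Mb * (Xa * Xc))
          linarith
        _ = _ := by
          rw [abs_mul (Ma * Ma), abs_mul (Mb * Mb), abs_mul (Mc * Mc), abs_mul Xb, abs_mul Xa Xc,
            abs_mul Xa Xb, abs_of_nonneg sa, abs_of_nonneg sb, abs_of_nonneg sc]
    have h3 : |Xa| * |Xc| ≤ |Xb| * |Xc| := mul_le_mul_of_nonneg_right hab pc.le
    have h4 : |Xa| * |Xb| ≤ |Xb| * |Xc| := by
      calc |Xa| * |Xb| ≤ |Xb| * |Xb| := mul_le_mul_of_nonneg_right hab pb.le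
        _ ≤ |Xb| * |Xc| := mul_le_mul_of_nonneg_left hbc pb.le
    have h5 : |Xa| * (|Xb| * |Xc|) ≤ (Ma * Ma + Mb * Mb + Mc * Mc) * (|Xb| * |Xc|) := by
      have := mul_le_mul_of_nonneg_left h3 sb
      have := mul_le_mul_of_nonneg_left h4 sc
      linarith
    exact le_of_mul_le_mul_right h5 (mul_pos pb pc)
  have g2 : Xa + Ma * Ma ≠ 0 := by
    intro e
    have h1 : (Xa - Ma) % 8 = 0 := ha'.1
    have h2 : Xa = -(Ma * Ma) := by linarith
    have h3 : Ma = -4 ∨ Ma = -3 ∨ Ma = -2 ∨ Ma = -1 ∨ Ma = 0 ∨ Ma = 1 ∨ Ma = 2 ∨ Ma = 3 ∨ Ma = 4 := by omega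
    rcases h3 with r | r | r | r | r | r | r | r | r <;> rw [h2, r] at ha' <;> norm_num at ha'
  have g3 : |Xb| ≤ |Xa| * (Mb * Mb + Mc * Mc) := by
    have h1 : (Xa + Ma * Ma) * (Xb * Xc) = -(Xa * (Mb * Mb * Xc + Mc * Mc * Xb)) := by linarith
    have h2 : |Xb| * |Xc| ≤ |Xa| * (Mb * Mb * |Xc| + Mc * Mc * |Xb|) := by
      have h3 : 1 ≤ |Xa + Ma * Ma| := Int.one_le_abs g2
      calc |Xb| * |Xc| = 1 * (|Xb| * |Xc|) := (one_mul _).symm
        _ ≤ |Xa + Ma * Ma| * (|Xb| * |Xc|) := mul_le_mul_of_nonneg_right h3 (mul_pos pb pc).le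
        _ = |(Xa + Ma * Ma) * (Xb * Xc)| := by rw [abs_mul, abs_mul Xb]
        _ = |Xa| * |Mb * Mb * Xc + Mc * Mc * Xb| := by rw [h1, abs_neg, abs_mul]
        _ ≤ |Xa| * (|Mb * Mb * Xc| + |Mc * Mc * Xb|) :=
          mul_le_mul_of_nonneg_left (abs_add_le _ _) pa.le
        _ = _ := by rw [abs_mul (Mb * Mb), abs_mul (Mc * Mc), abs_of_nonneg sb, abs_of_nonneg sc]
    have h4 : Mc * Mc * |Xb| ≤ Mc * Mc * |Xc| := mul_le_mul_of_nonneg_left hbc sc
    have h5 : |Xb| * |Xc| ≤ (|Xa| * (Mb * Mb + Mc * Mc)) * |Xc| := by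
      have := mul_le_mul_of_nonneg_left h4 pa.le
      linarith
    exact le_of_mul_le_mul_right h5 pc
  have g4 : |Xa| ≤ 23 := g1.trans hS
  have g5 : |Xb| ≤ 529 := by
    have h1 : |Xa| * (Mb * Mb + Mc * Mc) ≤ 23 * 23 :=
      mul_le_mul g4 (by linarith) (by linarith) (by norm_num)
    linarith
  obtain ⟨x1, x2⟩ := abs_le.mp g4
  obtain ⟨y1, y2⟩ := abs_le.mp g5
  obtain ⟨ka, hka⟩ : ∃ k, Xa - Ma = 8 * k := ⟨(Xa - Ma) / 8, by have := ha'.1; omega⟩
  obtain ⟨kb, hkb⟩ : ∃ k, Xb - Mb = 8 * k := ⟨(Xb - Mb) / 8, by have := hb'.1; omega⟩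
  refine fin_check (i := (Ma + 4).toNat) (j := (Mb + 4).toNat) (k := (ka + 3).toNat) (l := (kb + 66).toNat)
    (by omega) (by omega) (by omega) (by omega) (Ma := Ma) (Mb := Mb) (Mc := Mc) (Xa := Xa) (Xb := Xb)
    (Xc := Xc) ?_ ?_ ?_ ?_ ?_ ?_ hB ha hb hc he
  · omega
  · omega
  · omega
  · omega
  · omega
  · omega

theorem no_sol {Ma Mb Mc Xa Xb Xc : ℤ} (eM : 1 + Ma + Mb + Mc = 0) (eX : 1 + Xa + Xb + Xc = 0)
    (hB : Bb Ma Mb Mc = true) (ha : Pb Xa Ma = true) (hb : Pb Xb Mb = true) (hc : Pb Xc Mc = true)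
    (he : Ma * Ma * (Xb * Xc) + Mb * Mb * (Xa * Xc) + Mc * Mc * (Xa * Xb) + Xa * (Xb * Xc) = 0) : False := by
  have hB' := Bb_iff.mp hB
  rcases le_total |Xa| |Xb| with h1 | h1
  · rcases le_total |Xb| |Xc| with h2 | h2
    · exact core eM eX hB ha hb hc he h1 h2
    · rcases le_total |Xa| |Xc| with h3 | h3
      · -- a ≤ c ≤ b
        exact core (Ma := Ma) (Mb := Mc) (Mc := Mb) (by linarith) (by linarith)
          (Bb_iff.mpr (by rcases hB' with h | h | h <;> [left; (right; right); (right; left)] <;> linarith))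
          ha hc hb (by linarith) h3 h2
      · -- c ≤ a ≤ b
        exact core (Ma := Mc) (Mb := Ma) (Mc := Mb) (by linarith) (by linarith)
          (Bb_iff.mpr (by rcases hB' with h | h | h <;> [(right; left); (right; right); left] <;> linarith))
          hc ha hb (by linarith) h3 h1
  · rcases le_total |Xa| |Xc| with h2 | h2
    · -- b ≤ a ≤ c
      exact core (Ma := Mb) (Mb := Ma) (Mc := Mc) (by linarith) (by linarith)
        (Bb_iff.mpr (by rcases hB' with h | h | h <;> [(right; left); left; (right; right)] <;> linarith))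
        hb ha hc (by linarith) h1 h2
    · rcases le_total |Xb| |Xc| with h3 | h3
      · -- b ≤ c ≤ a
        exact core (Ma := Mb) (Mb := Mc) (Mc := Ma) (by linarith) (by linarith)
          (Bb_iff.mpr (by rcases hB' with h | h | h <;> [(right; right); left; (right; left)] <;> linarith))
          hb hc ha (by linarith) h3 h2
      · -- c ≤ b ≤ a
        exact core (Ma := Mc) (Mb := Mb) (Mc := Ma) (by linarith) (by linarith)
          (Bb_iff.mpr (by rcases hB' with h | h | h <;> [(right; right); (right; left); left] <;> linarith))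
          hc hb ha (by linarith) h3 h1

end H54.E8
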