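import Mathlib
import Cfsg.Agent.Lib.H54.E8d
import Cfsg.Agent.Lib.H54.E8e

/-!
The contradiction.
-/

set_option autoImplicit false
set_option linter.unusedSectionVars false
set_option linter.style.haveILetI false

open Cfsg Subgroup
open scoped ComplexConjugate

universe u

namespace H54.E8

open H18.CharBasic H18.CharOrtho H18.CharInd H78.PrincReal H20.Loc H20.Blk H20.Col H20.Col2 H20.Orth

variable {G : Type u} [Group G] {t : G} {σ w : Cn t →* ℂˣ} [Fintype G] {M : Ideal AlgInt}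

theorem Three.sum (h : Hyp t σ w) {a b c : IrrCharacter G} {ea eb ec : ℤ}
    (T : Three t σ w a b c ea eb ec) [Fintype (IrrCharacter G)] (f : IrrCharacter G → ℂ) :
    ∑ χ : IrrCharacter G, classInner (Th σ w) (χ : G → ℂ) * f χ =
      f (oneIrr G) + ea * f a + eb * f b + ec * f c := by
  classical
  have h1 : ∀ χ : IrrCharacter G, classInner (Th σ w) (χ : G → ℂ) * f χ =
      (if oneIrr G = χ then f χ else 0) + ea * (if a = χ then f χ else 0) + eb * (if b = χ then f χ else 0) +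
        ec * (if c = χ then f χ else 0) := by
    intro χ
    rw [T.inner h χ]
    split_ifs <;> ring
  rw [Finset.sum_congr rfl fun χ _ => h1 χ, Finset.sum_add_distrib, Finset.sum_add_distrib,
    Finset.sum_add_distrib, ← Finset.mul_sum, ← Finset.mul_sum, ← Finset.mul_sum,
    Finset.sum_ite_eq, Finset.sum_ite_eq, Finset.sum_ite_eq, Finset.sum_ite_eq]
  simp

theorem Three.bound (h : BHyp M t σ w) {a b c : IrrCharacter G} {ea eb ec : ℤ}
    (T : Three t σ w a b c ea eb ec) :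
    1 + 2 * ‖(a : G → ℂ) t‖ ^ 2 + 2 * ‖(b : G → ℂ) t‖ ^ 2 + ‖(c : G → ℂ) t‖ ^ 2 ≤ (24 : ℝ) := by
  classical
  letI : Fintype (IrrCharacter G) := Fintype.ofFinite _
  haveI := pm_isPrime h.hM
  obtain ⟨na, nb, nc⟩ := T.ne_one h.toHyp
  have hmem : ∀ x : IrrCharacter G, classInner (Th σ w) (x : G → ℂ) ≠ 0 → x ∈ principalBlock M G := by
    intro x hx
    by_contra hcon
    exact hx (h.inner_eq_zero hcon)
  have ab := T.ab
  have ac := T.ac
  have bc := T.bc
  have ma : a ∈ principalBlock M G := by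
    apply hmem
    rw [T.inner h.toHyp a, if_neg na.symm, if_pos rfl, if_neg ab.symm, if_neg ac.symm]
    rcases T.sa with e | e <;> rw [e] <;> norm_num
  have mb : b ∈ principalBlock M G := by
    apply hmem
    rw [T.inner h.toHyp b, if_neg nb.symm, if_pos rfl, if_neg ab, if_neg bc.symm]
    rcases T.sb with e | e <;> rw [e] <;> norm_num
  have mc : c ∈ principalBlock M G := by
    apply hmem
    rw [T.inner h.toHyp c, if_neg nc.symm, if_pos rfl, if_neg ac, if_neg bc]
    rcases T.sc with e | e <;> rw [e] <;> norm_num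
  have m1 : oneIrr G ∈ principalBlock M G := H20.Klein.one_mem
  have hbo : bar (oneIrr G) = oneIrr G := by
    apply Subtype.ext
    funext g
    rw [bar_apply]
    rfl
  have hinj : ∀ x y : IrrCharacter G, bar x = bar y → x = y := by
    intro x y e
    rw [← bar_bar x, e, bar_bar]
  have n1 : bar a ≠ oneIrr G := fun e => na (hinj _ _ (e.trans hbo.symm))
  have n2 : bar b ≠ oneIrr G := fun e => nb (hinj _ _ (e.trans hbo.symm))
  have n3 : bar a ≠ c := fun e => ac (hinj _ _ (e.trans T.cr.symm))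
  have n4 : bar b ≠ c := fun e => bc (hinj _ _ (e.trans T.cr.symm))
  have n5 : bar b ≠ a := fun e => T.abr (by rw [← e, bar_bar])
  have n6 : bar a ≠ bar b := fun e => ab (hinj _ _ e)
  have hbt : ∀ x : IrrCharacter G, (bar x : G → ℂ) t = (x : G → ℂ) t := by
    intro x
    have h2 : t * t = 1 := congrArg Subtype.val (tt_sq h.ht)
    have h3 : t⁻¹ = t := inv_eq_of_mul_eq_one_left h2
    rw [bar_apply, h3]
  obtain ⟨F, hF⟩ : ∃ F : Finset (IrrCharacter G), F = {oneIrr G, a, b, c, bar a, bar b} := ⟨_, rfl⟩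
  have hFm : ∀ x ∈ F, x ∈ principalBlock M G := by
    intro x hx
    rw [hF] at hx
    simp only [Finset.mem_insert, Finset.mem_singleton] at hx
    rcases hx with rfl | rfl | rfl | rfl | rfl | rfl
    · exact m1
    · exact ma
    · exact mb
    · exact mc
    · exact bar_mem_principal ma
    · exact bar_mem_principal mb
  have h1 : ∑ x ∈ F, ‖(x : G → ℂ) t‖ ^ 2 ≤ 24 := by
    refine le_trans ?_ h.sum_le
    rw [← Finset.sum_filter]
    apply Finset.sum_le_sum_of_subset_of_nonneg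
    · intro x hx
      rw [Finset.mem_filter]
      exact ⟨Finset.mem_univ _, hFm x hx⟩
    · intro x _ _
      positivity
  have h2 : ∑ x ∈ F, ‖(x : G → ℂ) t‖ ^ 2 = 1 + 2 * ‖(a : G → ℂ) t‖ ^ 2 + 2 * ‖(b : G → ℂ) t‖ ^ 2 +
      ‖(c : G → ℂ) t‖ ^ 2 := by
    rw [hF, Finset.sum_insert, Finset.sum_insert, Finset.sum_insert, Finset.sum_insert,
      Finset.sum_insert, Finset.sum_singleton, hbt, hbt]
    · have : (oneIrr G : G → ℂ) t = 1 := rfl
      rw [this, norm_one]
      ring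
    · simp [n6]
    · simp [n3.symm, n4.symm]
    · simp [bc, T.abr.symm, T.br.symm]
    · simp [ab, ac, T.ar.symm, n5.symm]
    · simp [na.symm, nb.symm, nc.symm, n1.symm, n2.symm]
  linarith

theorem BHyp.contra (h : BHyp M t σ w)
    (hm : ∀ χ : IrrCharacter G, ∃ (n : ℕ) (m : ℤ), (χ : G → ℂ) 1 = n ∧ (χ : G → ℂ) t = m ∧
      ((n : ℤ) - m) % 8 = 0 ∧ 0 ≤ (n : ℤ) + 7 * m ∧ ¬ 16 ∣ n ∧ (χ ≠ oneIrr G → 2 ≤ n)) : False := by
  classical
  letI : Fintype (IrrCharacter G) := Fintype.ofFinite _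
  obtain ⟨a, b, c, ea, eb, ec, T⟩ := h.toHyp.exists_three
  obtain ⟨na, nb, nc⟩ := T.ne_one h.toHyp
  obtain ⟨xa, ya, a1, a2, a3, a4, a5, a6⟩ := hm a
  obtain ⟨xb, yb, b1, b2, b3, b4, b5, b6⟩ := hm b
  obtain ⟨xc, yc, c1, c2, c3, c4, c5, c6⟩ := hm c
  have pa := a6 na
  have pb := b6 nb
  have pc := c6 nc
  have hb := T.bound h
  rw [a2, b2, c2] at hb
  simp only [Complex.norm_intCast, sq_abs] at hb
  have hb' : 1 + 2 * ya ^ 2 + 2 * yb ^ 2 + yc ^ 2 ≤ (24 : ℤ) := by exact_mod_cast hb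
  -- sums
  have s1 := T.sum h.toHyp (fun χ => (χ : G → ℂ) 1)
  rw [sum_val, Th, h.ind_one] at s1
  have s2 := T.sum h.toHyp (fun χ => (χ : G → ℂ) t)
  rw [sum_val, Th, h.ind_t] at s2
  have s3 := T.sum h.toHyp (fun χ => (χ : G → ℂ) t * (χ : G → ℂ) t / (χ : G → ℂ) 1)
  rw [h.toHyp.sum_mult] at s3
  have o1 : (oneIrr G : G → ℂ) 1 = 1 := rfl
  have o2 : (oneIrr G : G → ℂ) t = 1 := rfl
  simp only [o1, o2, a1, b1, c1, a2, b2, c2] at s1 s2 s3
  have eX : 1 + ea * xa + eb * xb + ec * xc = (0 : ℤ) := by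
    have : ((1 + ea * xa + eb * xb + ec * xc : ℤ) : ℂ) = 0 := by push_cast; exact s1.symm
    exact_mod_cast this
  have eM : 1 + ea * ya + eb * yb + ec * yc = (0 : ℤ) := by
    have : ((1 + ea * ya + eb * yb + ec * yc : ℤ) : ℂ) = 0 := by push_cast; exact s2.symm
    exact_mod_cast this
  have za : (xa : ℂ) ≠ 0 := by
    have : xa ≠ 0 := by omega
    exact_mod_cast this
  have zb : (xb : ℂ) ≠ 0 := by
    have : xb ≠ 0 := by omega
    exact_mod_cast this
  have zc : (xc : ℂ) ≠ 0 := by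
    have : xc ≠ 0 := by omega
    exact_mod_cast this
  have e3 : (xa * xb * xc + ea * ya * ya * xb * xc + eb * yb * yb * xa * xc + ec * yc * yc * xa * xb : ℤ) = 0 := by
    have : ((xa * xb * xc + ea * ya * ya * xb * xc + eb * yb * yb * xa * xc + ec * yc * yc * xa * xb : ℤ) : ℂ) = 0 := by
      push_cast
      field_simp at s3
      linear_combination -s3
    exact_mod_cast this
  have sa : ea * ea = 1 := by rcases T.sa with h | h <;> rw [h] <;> norm_num
  have sb : eb * eb = 1 := by rcases T.sb with h | h <;> rw [h] <;> norm_num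
  have sc : ec * ec = 1 := by rcases T.sc with h | h <;> rw [h] <;> norm_num
  have hP : ∀ (e : ℤ) (x : ℕ) (y : ℤ), (e = 1 ∨ e = -1) → ((x : ℤ) - y) % 8 = 0 → 0 ≤ (x : ℤ) + 7 * y →
      ¬ 16 ∣ x → 2 ≤ x → Pb (e * x) (e * y) = true := by
    intro e x y he h1 h2 h3 h4
    rw [Pb_iff]
    rcases he with e | e
    · rw [e]; refine ⟨by omega, by omega, Or.inl ⟨by omega, by omega⟩⟩
    · rw [e]; refine ⟨by omega, by omega, Or.inr ⟨by omega, by omega⟩⟩
  refine no_sol (Ma := ea * ya) (Mb := eb * yb) (Mc := ec * yc) (Xa := ea * xa) (Xb := eb * xb)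
    (Xc := ec * xc) eM eX ?_ (hP ea xa ya T.sa a3 a4 a5 pa) (hP eb xb yb T.sb b3 b4 b5 pb)
    (hP ec xc yc T.sc c3 c4 c5 pc) ?_
  · rw [Bb_iff]
    right; right
    have e1 : ea * ya * (ea * ya) = ya * ya := by linear_combination (ya * ya) * sa
    have e2 : eb * yb * (eb * yb) = yb * yb := by linear_combination (yb * yb) * sb
    have e3' : ec * yc * (ec * yc) = yc * yc := by linear_combination (yc * yc) * sc
    rw [e1, e2, e3']
    nlinarith
  · have e4 : ea * ya * (ea * ya) * (eb * xb * (ec * xc)) + eb * yb * (eb * yb) * (ea * xa * (ec * xc)) +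
        ec * yc * (ec * yc) * (ea * xa * (eb * xb)) + ea * xa * (eb * xb * (ec * xc)) =
        (ea * eb * ec) * (xa * xb * xc + ea * ya * ya * xb * xc + eb * yb * yb * xa * xc + ec * yc * yc * xa * xb) := by
      ring
    rw [e4, e3, mul_zero]

end H54.E8
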