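import Mathlib
import Cfsg.Agent.Lib.H54.E8f
import Cfsg.Agent.Lib.H4.Integral
import Cfsg.Agent.Lib.H82.Deg

/-!
Values of irreducible characters on an elementary abelian subgroup of order 8 whose involutions are
conjugate.
-/

set_option autoImplicit false
set_option linter.unusedSectionVars false
set_option linter.style.haveILetI false

open Cfsg Subgroup
open scoped ComplexConjugate

universe u

namespace H54.E8

open H18.CharBasic H18.CharOrtho H18.CharInd

variable {G : Type u} [Group G] [Finite G] {t : G}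

theorem val_int (S : Subgroup G) (hS : Nat.card S = 8) (hc : ∀ s ∈ S, s ≠ 1 → IsConj s t)
    (χ : IrrCharacter G) : ∃ m : ℤ, (χ : G → ℂ) t = m ∧
      ((charDegree (χ : G → ℂ) : ℤ) - m) % 8 = 0 ∧ 0 ≤ (charDegree (χ : G → ℂ) : ℤ) + 7 * m := by
  classical
  letI := Fintype.ofFinite G
  letI := Fintype.ofFinite S
  have hch := isCharacter_of_isIrr χ.2
  obtain ⟨k, hk⟩ := inner_char_natCast (isCharacter_restrict S hch) isCharacter_one
  rw [classInner] at hk
  simp only [map_one, mul_one] at hk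
  have h1 : ∑ s : S, (χ : G → ℂ) s = (charDegree (χ : G → ℂ) : ℂ) + 7 * (χ : G → ℂ) t := by
    rw [← Finset.add_sum_erase Finset.univ _ (Finset.mem_univ (1 : S)), OneMemClass.coe_one,
      H82.Deg.coe_charDegree' χ]
    congr 1
    rw [Finset.sum_congr rfl (g := fun _ => (χ : G → ℂ) t), Finset.sum_const,
      Finset.card_erase_of_mem (Finset.mem_univ _), Finset.card_univ, ← Nat.card_eq_fintype_card, hS, nsmul_eq_mul]
    · norm_num
    · intro s hs
      exact classFunction_isConj (isClassFunction_of_isIrr χ.2)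
        (hc s s.2 fun e => Finset.ne_of_mem_erase hs (Subtype.ext e))
  rw [h1, hS] at hk
  have h2 : (χ : G → ℂ) t = (((8 * k - charDegree (χ : G → ℂ)) / 7 : ℚ) : ℂ) := by
    push_cast at hk ⊢
    linear_combination (8 / 7 : ℂ) * hk
  have h3 : IsIntegral ℤ ((((8 * k - charDegree (χ : G → ℂ)) / 7 : ℚ) : ℂ)) := by
    rw [← h2]; exact char_isIntegral hch t
  obtain ⟨m, hm⟩ := H4.Integral.exists_int_of_isIntegral_rat h3
  have h4 : (χ : G → ℂ) t = m := by rw [h2, hm]; norm_num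
  have h5 : (charDegree (χ : G → ℂ) : ℤ) + 7 * m = 8 * k := by
    have : (((charDegree (χ : G → ℂ) : ℤ) + 7 * m : ℤ) : ℂ) = ((8 * k : ℤ) : ℂ) := by
      rw [h4] at hk
      push_cast at hk ⊢
      linear_combination 8 * hk
    exact_mod_cast this
  exact ⟨m, h4, by omega, by omega⟩

theorem vals (hperf : _root_.commutator G = ⊤) (h16 : ¬ 16 ∣ Nat.card G) (S : Subgroup G)
    (hS : Nat.card S = 8) (hc : ∀ s ∈ S, s ≠ 1 → IsConj s t) (χ : IrrCharacter G) :
    ∃ (n : ℕ) (m : ℤ), (χ : G → ℂ) 1 = n ∧ (χ : G → ℂ) t = m ∧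
      ((n : ℤ) - m) % 8 = 0 ∧ 0 ≤ (n : ℤ) + 7 * m ∧ ¬ 16 ∣ n ∧ (χ ≠ oneIrr G → 2 ≤ n) := by
  obtain ⟨m, h1, h2, h3⟩ := val_int S hS hc χ
  refine ⟨charDegree (χ : G → ℂ), m, (H82.Deg.coe_charDegree' χ).symm, h1, h2, h3,
    fun h => h16 (h.trans (H82.Deg.degree_dvd_card χ)), ?_⟩
  intro hχ
  have h4 := H82.Deg.charDegree_pos χ
  by_contra hcon
  have h5 : charDegree (χ : G → ℂ) = 1 := by omega
  have h6 := H82.Deg.coe_charDegree' χ
  rw [h5, Nat.cast_one] at h6
  obtain ⟨f, hf⟩ := H18.CharQuot.exists_hom_of_degree_one (isCharacter_of_isIrr χ.2) h6.symm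
  apply hχ
  apply Subtype.ext
  rw [hf]
  funext g
  have h7 : g ∈ _root_.commutator G := by rw [hperf]; trivial
  have h8 : f g = 1 := MonoidHom.mem_ker.1 (Abelianization.commutator_subset_ker f h7)
  rw [h8]
  rfl

/-- the final statement of the character theoretic part -/
theorem main (hperf : _root_.commutator G = ⊤) (h16 : ¬ 16 ∣ Nat.card G) (S : Subgroup G)
    (hS : Nat.card S = 8) (hc : ∀ s ∈ S, s ≠ 1 → IsConj s t) {σ w : Cn t →* ℂˣ} (h : Hyp t σ w)
    (idx : ∀ c, w c ≠ 1 → 2 ∣ (centralizer ({c} : Set (Cn t))).index)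
    (h24 : (pPrimeCore 2 (Cn t)).index ≤ 24) : False := by
  letI := Fintype.ofFinite G
  obtain ⟨M, hM⟩ := H78.Cong.exists_isPModular Nat.prime_two
  exact BHyp.contra (M := M) { toHyp := h, hM := hM, idx := idx, h24 := h24 } (vals hperf h16 S hS hc)

end H54.E8
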