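import Mathlib
import Cfsg.Agent.Lib.H1.Solv
import Cfsg.Agent.Lib.H21.SylowTools

/-!
Solvable groups with a central involution and elementary abelian Sylow 2-subgroup of order 8 with
automizer of order 3.
-/

set_option autoImplicit false
set_option linter.unusedSectionVars false
set_option linter.style.haveILetI false

open Cfsg Subgroup
open scoped Pointwise

universe u

namespace H54.E8

section fix
variable {H : Type u} [Group H] [Finite H]

theorem comm_of_sq {S : Subgroup H} (hS2 : ∀ s ∈ S, s * s = 1) : ∀ x ∈ S, ∀ y ∈ S, x * y = y * x := by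
  intro x hx y hy
  have h1 : x⁻¹ = x := inv_eq_of_mul_eq_one_left (hS2 x hx)
  have h2 : y⁻¹ = y := inv_eq_of_mul_eq_one_left (hS2 y hy)
  have h3 : (x * y)⁻¹ = x * y := inv_eq_of_mul_eq_one_left (hS2 _ (S.mul_mem hx hy))
  rw [mul_inv_rev, h1, h2] at h3
  exact h3.symm

theorem three_le_card {F : Subgroup H} {t s : H} (ht : t ∈ F) (hs : s ∈ F) (ht1 : t ≠ 1) (hs1 : s ≠ 1)
    (hst : s ≠ t) : 3 ≤ Nat.card F := by
  have h1 : ({1, t, s} : Set H).ncard = 3 := Set.ncard_eq_three.mpr ⟨1, t, s, ht1.symm, hs1.symm, hst.symm, rfl⟩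
  have h2 : ({1, t, s} : Set H) ⊆ (F : Set H) := by
    intro x hx
    simp only [Set.mem_insert_iff, Set.mem_singleton_iff] at hx
    rcases hx with rfl | rfl | rfl
    · exact F.one_mem
    · exact ht
    · exact hs
  have h3 := Set.ncard_le_ncard h2 (Set.toFinite _)
  rw [h1] at h3
  exact h3

/-- an automorphism of odd order of `E₈` fixing two involutions is trivial -/
theorem fix_all {S : Subgroup H} (hS8 : Nat.card S = 8) (hS2 : ∀ s ∈ S, s * s = 1)
    {n : H} (hn : n ∈ normalizer (S : Set H)) {k : ℕ} (hk : Odd k) (hnk : ∀ s ∈ S, n ^ k * s = s * n ^ k)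
    {t s : H} (ht : t ∈ S) (hs : s ∈ S) (ht1 : t ≠ 1) (hs1 : s ≠ 1) (hst : s ≠ t)
    (h1 : n * t = t * n) (h2 : n * s = s * n) : ∀ x ∈ S, n * x = x * n := by
  have hcomm := comm_of_sq hS2
  obtain ⟨F, hF⟩ : ∃ F : Subgroup H, F = S ⊓ centralizer ({n} : Set H) := ⟨_, rfl⟩
  have hmem : ∀ x, x ∈ F ↔ x ∈ S ∧ n * x = x * n := by
    intro x
    rw [hF, Subgroup.mem_inf, mem_centralizer_singleton_iff]
    constructor
    · rintro ⟨a, b⟩; exact ⟨a, b.symm⟩
    · rintro ⟨a, b⟩; exact ⟨a, b.symm⟩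
  have hFS : F ≤ S := by rw [hF]; exact inf_le_left
  have hd : Nat.card F ∣ 8 := by rw [← hS8]; exact Subgroup.card_dvd_of_le hFS
  have h3 : 3 ≤ Nat.card F := three_le_card ((hmem t).mpr ⟨ht, h1⟩) ((hmem s).mpr ⟨hs, h2⟩) ht1 hs1 hst
  have h48 : Nat.card F = 4 ∨ Nat.card F = 8 := by
    have h4 : Nat.card F ≤ 8 := Nat.le_of_dvd (by norm_num) hd
    interval_cases (Nat.card F) <;> simp_all
  rcases h48 with h4 | h8
  · intro x hx
    by_contra hcon
    have hxF : x ∉ F := fun h => hcon ((hmem x).mp h).2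
    have hidx : (F.subgroupOf S).index = 2 := by
      have := Subgroup.card_mul_index (F.subgroupOf S)
      rw [hS8, Nat.card_congr (Subgroup.subgroupOfEquivOfLe hFS).toEquiv, h4] at this
      omega
    obtain ⟨y, hy⟩ : ∃ y, y = n * x * n⁻¹ := ⟨_, rfl⟩
    have hyS : y ∈ S := by rw [hy]; exact (mem_normalizer_iff.mp hn x).mp hx
    have hyF : y ∉ F := by
      intro h
      have h5 := ((hmem y).mp h).2
      apply hcon
      rw [hy] at h5
      have h6 : n * (n * x) = n * (x * n) := by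
        calc n * (n * x) = (n * (n * x * n⁻¹)) * n := by group
          _ = (n * x * n⁻¹ * n) * n := by rw [h5]
          _ = n * (x * n) := by group
      exact mul_left_cancel h6
    have hf : y * x ∈ F := by
      have h5 := Subgroup.mul_mem_iff_of_index_two hidx (a := ⟨y, hyS⟩) (b := ⟨x, hx⟩)
      simp only [Subgroup.mem_subgroupOf] at h5
      exact h5.mpr ⟨fun h => absurd h hyF, fun h => absurd h hxF⟩
    obtain ⟨f, hfe⟩ : ∃ f, f = y * x := ⟨_, rfl⟩
    rw [← hfe] at hf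
    obtain ⟨hfS, hfn⟩ := (hmem f).mp hf
    have hyf : n * x * n⁻¹ = f * x := by
      rw [← hy, hfe, mul_assoc, hS2 x hx, mul_one]
    have hpow : ∀ j : ℕ, n ^ j * x = f ^ j * x * n ^ j := by
      intro j
      induction j with
      | zero => simp
      | succ j ih =>
        have h6 : n * x = f * x * n := by rw [← hyf]; group
        have h7 : n * f ^ j = f ^ j * n := (Commute.pow_right (hfn : Commute n f) j).eq
        calc n ^ (j + 1) * x = n * (n ^ j * x) := by rw [pow_succ']; group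
          _ = n * (f ^ j * x * n ^ j) := by rw [ih]
          _ = (n * f ^ j) * x * n ^ j := by group
          _ = f ^ j * (n * x) * n ^ j := by rw [h7]; group
          _ = f ^ j * (f * x * n) * n ^ j := by rw [h6]
          _ = (f ^ j * f) * x * (n * n ^ j) := by group
          _ = f ^ (j + 1) * x * n ^ (j + 1) := by rw [← pow_succ, ← pow_succ']
    have h8 := hpow k
    rw [hnk x hx] at h8
    have h9 : f ^ k = 1 := by
      have : x = f ^ k * x := mul_right_cancel h8
      exact (mul_eq_right.mp this.symm)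
    have h10 : f = 1 := by
      obtain ⟨m, rfl⟩ := hk
      rw [pow_succ, pow_mul, pow_two, hS2 f hfS, one_pow, one_mul] at h9
      exact h9
    apply hcon
    rw [h10, one_mul] at hyf
    calc n * x = (n * x * n⁻¹) * n := by group
      _ = x * n := by rw [hyf]
  · have h9 : F = S := Subgroup.eq_of_le_of_card_ge hFS (by rw [hS8, h8])
    intro x hx
    rw [← h9] at hx
    exact ((hmem x).mp hx).2

end fix

section C
variable {C : Type u} [Group C] [Finite C]

structure CD (S : Sylow 2 C) (t : C) : Prop where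
  sol : Group.IsSolvable C
  h8 : Nat.card S = 8
  h2 : ∀ s ∈ S, s * s = 1
  t1 : t ≠ 1
  t2 : t * t = 1
  tc : ∀ c, t * c = c * t
  h3 : (centralizer ((S : Subgroup C) : Set C)).relIndex (normalizer ((S : Subgroup C) : Set C)) = 3

variable {S : Sylow 2 C} {t : C}

theorem CD.comm (h : CD S t) : ∀ x ∈ S, ∀ y ∈ S, x * y = y * x := comm_of_sq (S := (S : Subgroup C)) h.h2

theorem CD.tS (h : CD S t) : t ∈ S := by
  have h1 : IsPGroup 2 (zpowers t) := by
    apply IsPGroup.of_card (n := 1)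
    rw [Nat.card_zpowers, orderOf_eq_prime (by rw [pow_two]; exact h.t2) h.t1, pow_one]
  have h2 : (zpowers t).Normal := by
    constructor
    intro n hn g
    have h3 : g * n = n * g := by
      obtain ⟨k, rfl⟩ := mem_zpowers_iff.mp hn
      exact (Commute.zpow_right (show Commute g t from (h.tc g).symm) k).eq
    rw [h3, mul_inv_cancel_right]
    exact hn
  exact H1.Cores.pCore_le_sylow S (H1.Cores.le_pCore h2 h1 (mem_zpowers t))

theorem conj_mem_smul (g : C) (Q : Sylow 2 C) (y : C) : y ∈ Q ↔ g * y * g⁻¹ ∈ (g • Q : Sylow 2 C) := by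
  have h1 : g * y * g⁻¹ ∈ (g • Q : Sylow 2 C) ↔ g * y * g⁻¹ ∈ MulAut.conj g • (Q : Subgroup C) := Iff.rfl
  rw [h1, Subgroup.mem_pointwise_smul_iff_inv_smul_mem, ← map_inv, MulAut.smul_def,
    MulAut.conj_apply, inv_inv]
  have h2 : g⁻¹ * (g * y * g⁻¹) * g = y := by group
  rw [h2]
  rfl

theorem exists_sylow_le' (K : Subgroup C) (hK : ¬ 2 ∣ K.index) : ∃ S : Sylow 2 C, (S : Subgroup C) ≤ K := by
  obtain ⟨U⟩ : Nonempty (Sylow 2 K) := inferInstance
  have h1 : IsPGroup 2 ((U : Subgroup K).map K.subtype) := U.2.map _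
  have h2 : ¬ 2 ∣ ((U : Subgroup K).map K.subtype).index := by
    rw [Subgroup.index_map_subtype]
    intro h
    rcases (Nat.Prime.dvd_mul Nat.prime_two).mp h with h | h
    · exact U.not_dvd_index h
    · exact hK h
  exact ⟨h1.toSylow h2, Subgroup.map_subtype_le _⟩

theorem CD.comap_eq (h : CD S t) : (S : Subgroup C) ⊔ pPrimeCore 2 C =
    (pCore 2 (C ⧸ pPrimeCore 2 C)).comap (QuotientGroup.mk' (pPrimeCore 2 C)) ∧
    (S : Subgroup C).map (QuotientGroup.mk' (pPrimeCore 2 C)) = pCore 2 (C ⧸ pPrimeCore 2 C) := by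
  have := h.sol
  set N := pPrimeCore 2 C with hN
  set Q : Sylow 2 (C ⧸ N) := S.mapSurjective (QuotientGroup.mk'_surjective N) with hQ
  have hP : IsMulCommutative (S : Subgroup C) :=
    ⟨⟨fun a b => Subtype.ext (h.comm a a.2 b b.2)⟩⟩
  have hQc : (Q : Subgroup (C ⧸ N)) = (S : Subgroup C).map (QuotientGroup.mk' N) :=
    Sylow.coe_mapSurjective _ _
  have h1 : centralizer (pCore 2 (C ⧸ N) : Set (C ⧸ N)) ≤ pCore 2 (C ⧸ N) :=
    H1.Solv.centralizer_pCore_le inferInstance 2 (H1.Cores.pPrimeCore_quotient_pPrimeCore 2)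
  have h2 : (Q : Subgroup (C ⧸ N)) ≤ centralizer ((Q : Subgroup (C ⧸ N)) : Set (C ⧸ N)) := by
    rw [hQc, Subgroup.le_centralizer_iff_isMulCommutative]
    infer_instance
  have h3 : pCore 2 (C ⧸ N) ≤ (Q : Subgroup (C ⧸ N)) := H1.Cores.pCore_le_sylow Q
  have h4 : (Q : Subgroup (C ⧸ N)) = pCore 2 (C ⧸ N) :=
    le_antisymm ((h2.trans (Subgroup.centralizer_le h3)).trans h1) h3
  refine ⟨?_, ?_⟩
  · rw [← h4, hQc, QuotientGroup.comap_map_mk', sup_comm]
  · rw [← h4, hQc]

/-- `O(C) S` -/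
abbrev KK (S : Sylow 2 C) : Subgroup C := (S : Subgroup C) ⊔ pPrimeCore 2 C

theorem CD.K_normal (h : CD S t) : (KK S).Normal := by
  rw [KK, h.comap_eq.1]
  infer_instance

theorem CD.cent_le (h : CD S t) : centralizer ((S : Subgroup C) : Set C) ≤ KK S := by
  have := h.sol
  intro c hc
  rw [KK, h.comap_eq.1, mem_comap]
  apply H1.Solv.centralizer_pCore_le inferInstance 2 (H1.Cores.pPrimeCore_quotient_pPrimeCore 2)
  rw [← h.comap_eq.2]
  rw [mem_centralizer_iff]
  rintro y ⟨s, hs, rfl⟩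
  rw [← map_mul, ← map_mul, mem_centralizer_iff.mp hc s hs]

theorem CD.inf (S : Sylow 2 C) : (S : Subgroup C) ⊓ pPrimeCore 2 C = ⊥ := by
  apply Subgroup.inf_eq_bot_of_coprime
  obtain ⟨k, hk⟩ := IsPGroup.iff_card.mp S.2
  rw [hk]
  exact (H1.Cores.coprime_card_pPrimeCore 2).symm.pow_left _

/-- odd elements normalizing `S` centralize it -/
theorem CD.odd_cent (h : CD S t) {o : C} (ho : o ∈ pPrimeCore 2 C)
    (hn : o ∈ normalizer ((S : Subgroup C) : Set C)) : ∀ s ∈ S, o * s = s * o := by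
  intro s hs
  have h1 : o * s * o⁻¹ * s⁻¹ ∈ (S : Subgroup C) ⊓ pPrimeCore 2 C := by
    refine Subgroup.mem_inf.mpr ⟨?_, ?_⟩
    · exact mul_mem ((mem_normalizer_iff.mp hn s).mp hs) (inv_mem hs)
    · have h2 : s * o⁻¹ * s⁻¹ ∈ pPrimeCore 2 C :=
        (inferInstance : (pPrimeCore 2 C).Normal).conj_mem _ (inv_mem ho) s
      have h3 : o * s * o⁻¹ * s⁻¹ = o * (s * o⁻¹ * s⁻¹) := by group
      rw [h3]
      exact mul_mem ho h2
  rw [CD.inf, mem_bot] at h1
  calc o * s = (o * s * o⁻¹ * s⁻¹) * (s * o) := by group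
    _ = s * o := by rw [h1, one_mul]

theorem CD.inf_K (h : CD S t) : KK S ⊓ normalizer ((S : Subgroup C) : Set C) =
    centralizer ((S : Subgroup C) : Set C) := by
  apply le_antisymm
  · rintro k ⟨hk, hn⟩
    obtain ⟨s, hs, o, ho, rfl⟩ := Subgroup.mem_sup_of_normal_right.mp hk
    have ho' : o ∈ normalizer ((S : Subgroup C) : Set C) := by
      have h1 : s⁻¹ * (s * o) ∈ normalizer ((S : Subgroup C) : Set C) :=
        mul_mem (inv_mem (le_normalizer hs)) hn
      rwa [inv_mul_cancel_left] at h1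
    have h1 := h.odd_cent ho ho'
    rw [mem_centralizer_iff]
    intro x hx
    calc x * (s * o) = (x * s) * o := by group
      _ = s * (x * o) := by rw [h.comm x hx s hs]; group
      _ = (s * o) * x := by rw [← h1 x hx]; group
  · exact le_inf h.cent_le (centralizer_le_normalizer _)

theorem CD.sup_top (h : CD S t) : KK S ⊔ normalizer ((S : Subgroup C) : Set C) = ⊤ := by
  have := h.K_normal
  rw [sup_comm]
  exact Sylow.normalizer_sup_eq_top' S le_sup_left

theorem CD.index_K (h : CD S t) : (KK S).index = 3 := by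
  have := h.K_normal
  rw [← Subgroup.relIndex_top_right, ← h.sup_top, sup_comm, Subgroup.relIndex_sup_right,
    ← Subgroup.inf_relIndex_right, h.inf_K, h.h3]

theorem CD.index_core (h : CD S t) : (pPrimeCore 2 C).index ≤ 24 := by
  have h1 : (pPrimeCore 2 C).relIndex (KK S) * (KK S).index = (pPrimeCore 2 C).index :=
    Subgroup.relIndex_mul_index le_sup_right
  rw [← h1, h.index_K, KK, Subgroup.relIndex_sup_right]
  have h2 : (pPrimeCore 2 C).relIndex (S : Subgroup C) ∣ Nat.card S := Subgroup.relIndex_dvd_card _ _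
  have h3 := Nat.le_of_dvd Nat.card_pos h2
  rw [h.h8] at h3
  omega

/-- decomposition -/
theorem CD.decomp (h : CD S t) (c : C) : ∃ o ∈ pPrimeCore 2 C, ∃ n ∈ normalizer ((S : Subgroup C) : Set C),
    c = o * n := by
  have h1 : c ∈ pPrimeCore 2 C ⊔ normalizer ((S : Subgroup C) : Set C) := by
    have h2 : pPrimeCore 2 C ⊔ normalizer ((S : Subgroup C) : Set C) = ⊤ := by
      rw [eq_top_iff, ← h.sup_top]
      apply sup_le
      · apply sup_le
        · exact le_normalizer.trans le_sup_right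
        · exact le_sup_left
      · exact le_sup_right
    rw [h2]; trivial
  obtain ⟨o, ho, n, hn, e⟩ := Subgroup.mem_sup_of_normal_left.mp h1
  exact ⟨o, ho, n, hn, e.symm⟩

/-- the fixed points of `c` on `S` -/
theorem CD.fix (h : CD S t) {c : C} (hc : c ∉ KK S) {s : C} (hs : s ∈ S) (hcs : c * s = s * c) :
    s = 1 ∨ s = t := by
  have hKn := h.K_normal
  obtain ⟨o, ho, n, hn, rfl⟩ := h.decomp c
  have hnK : n ∉ KK S := fun hn' => hc (mul_mem (mem_sup_right ho) hn')
  have h1 : n * s * n⁻¹ ∈ S := (mem_normalizer_iff.mp hn s).mp hs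
  have h2 : n * s = s * n := by
    obtain ⟨s', hs'⟩ : ∃ s', s' = n * s * n⁻¹ := ⟨_, rfl⟩
    rw [← hs'] at h1
    have h3 : o * s' * o⁻¹ = s := by
      rw [hs']
      calc o * (n * s * n⁻¹) * o⁻¹ = (o * n * s) * (n⁻¹ * o⁻¹) := by group
        _ = s * (o * n) * (n⁻¹ * o⁻¹) := by rw [hcs]
        _ = s := by group
    have h4 : s * s'⁻¹ ∈ (S : Subgroup C) ⊓ pPrimeCore 2 C := by
      refine Subgroup.mem_inf.mpr ⟨mul_mem hs (inv_mem h1), ?_⟩
      have h5 : s' * o⁻¹ * s'⁻¹ ∈ pPrimeCore 2 C :=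
        (inferInstance : (pPrimeCore 2 C).Normal).conj_mem _ (inv_mem ho) s'
      have h6 : s * s'⁻¹ = o * (s' * o⁻¹ * s'⁻¹) := by rw [← h3]; group
      rw [h6]
      exact mul_mem ho h5
    rw [CD.inf, mem_bot, mul_inv_eq_one] at h4
    calc n * s = (n * s * n⁻¹) * n := by group
      _ = s * n := by rw [← hs', ← h4]
  by_contra hcon
  push Not at hcon
  have h3 : ∀ x ∈ (S : Subgroup C), n * x = x * n := by
    refine fix_all (S := (S : Subgroup C)) h.h8 h.h2 hn (k := 3) (by decide) ?_ h.tS hs h.t1 hcon.1 hcon.2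
      (h.tc n).symm h2
    have h4 : n ^ 3 ∈ centralizer ((S : Subgroup C) : Set C) := by
      have h5 : ((centralizer ((S : Subgroup C) : Set C)).subgroupOf
          (normalizer ((S : Subgroup C) : Set C))).Normal := inferInstance
      have h6 := Subgroup.pow_index_mem ((centralizer ((S : Subgroup C) : Set C)).subgroupOf
          (normalizer ((S : Subgroup C) : Set C))) ⟨n, hn⟩
      have h7 : ((centralizer ((S : Subgroup C) : Set C)).subgroupOf
          (normalizer ((S : Subgroup C) : Set C))).index = 3 := h.h3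
      rw [h7] at h6
      exact h6
    intro s hs
    exact (mem_centralizer_iff.mp h4 s hs).symm
  apply hnK
  apply h.cent_le
  rw [mem_centralizer_iff]
  intro x hx
  exact (h3 x hx).symm

theorem CD.t_odd (h : CD S t) {m : ℕ} (hm : Odd m) : t ^ m = t := by
  obtain ⟨k, rfl⟩ := hm
  rw [pow_succ, pow_mul, pow_two, h.t2, one_pow, one_mul]

/-- elements outside `O(C) S` -/
theorem CD.odd (h : CD S t) {c : C} (hc : c ∉ KK S) : Odd (orderOf c) ∨ Odd (orderOf (t * c)) := by
  have hKn := h.K_normal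
  obtain ⟨k, m, hm, hd⟩ := Nat.exists_eq_two_pow_mul_odd (orderOf_pos c).ne'
  have h1 : orderOf (c ^ m) = 2 ^ k := by
    rw [orderOf_pow_of_dvd hm.pos.ne' (by rw [hd]; exact Dvd.intro_left _ rfl), hd]
    exact Nat.mul_div_cancel _ hm.pos
  have h2 : IsPGroup 2 (zpowers (c ^ m)) := IsPGroup.of_card (n := k) (by rw [Nat.card_zpowers, h1])
  obtain ⟨Q, hQ⟩ := h2.exists_le_sylow
  obtain ⟨g, hg⟩ := MulAction.exists_smul_eq C Q S
  have h3 : g * c ^ m * g⁻¹ ∈ S := by
    rw [← hg]; exact (conj_mem_smul g Q _).mp (hQ (mem_zpowers _))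
  obtain ⟨c', hc'⟩ : ∃ c', c' = g * c * g⁻¹ := ⟨_, rfl⟩
  have h4 : c' ∉ KK S := by
    intro h5
    apply hc
    have := hKn.conj_mem _ h5 g⁻¹
    rw [hc'] at this
    have e : g⁻¹ * (g * c * g⁻¹) * g⁻¹⁻¹ = c := by group
    rwa [e] at this
  have h5 : g * c ^ m * g⁻¹ = c' ^ m := by rw [hc', conj_pow]
  rw [h5] at h3
  rcases h.fix h4 h3 (Commute.self_pow c' m).eq with e | e
  · left
    have h6 : c ^ m = 1 := by
      rw [← h5] at e
      calc c ^ m = g⁻¹ * (g * c ^ m * g⁻¹) * g := by group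
        _ = 1 := by rw [e]; group
    exact hm.of_dvd_nat (orderOf_dvd_of_pow_eq_one h6)
  · right
    have h6 : c ^ m = t := by
      rw [← h5] at e
      calc c ^ m = g⁻¹ * (g * c ^ m * g⁻¹) * g := by group
        _ = g⁻¹ * (t * g) := by rw [e]; group
        _ = t := by rw [h.tc g, inv_mul_cancel_left]
    have h7 : (t * c) ^ m = 1 := by
      rw [(show Commute t c from h.tc c).mul_pow, h.t_odd hm, h6, h.t2]
    exact hm.of_dvd_nat (orderOf_dvd_of_pow_eq_one h7)

theorem CD.idx (h : CD S t) {c : C} (hc : c ∉ KK S) : 2 ∣ (centralizer ({c} : Set C)).index := by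
  have hKn := h.K_normal
  by_contra hcon
  obtain ⟨Q, hQ⟩ := exists_sylow_le' _ hcon
  obtain ⟨g, hg⟩ := MulAction.exists_smul_eq C S Q
  obtain ⟨c', hc'⟩ : ∃ c', c' = g⁻¹ * c * g := ⟨_, rfl⟩
  have h4 : c' ∉ KK S := by
    intro h5
    apply hc
    have := hKn.conj_mem _ h5 g
    rw [hc'] at this
    have e : g * (g⁻¹ * c * g) * g⁻¹ = c := by group
    rwa [e] at this
  have h5 : ∀ s ∈ S, s = 1 ∨ s = t := by
    intro s hs
    apply h.fix h4 hs
    have h6 : g * s * g⁻¹ ∈ Q := by rw [← hg]; exact (conj_mem_smul g S s).mp hs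
    have h7 := mem_centralizer_singleton_iff.mp (hQ h6)
    rw [hc']
    calc g⁻¹ * c * g * s = g⁻¹ * (c * (g * s * g⁻¹)) * g := by group
      _ = g⁻¹ * (g * s * g⁻¹ * c) * g := by rw [h7]
      _ = s * (g⁻¹ * c * g) := by group
  have h6 : ((S : Subgroup C) : Set C) ⊆ {1, t} := by
    intro s hs
    rcases h5 s hs with e | e <;> simp [e]
  have h7 := Set.ncard_le_ncard h6 (Set.toFinite _)
  have h8 : (((S : Subgroup C) : Set C)).ncard = 8 := h.h8
  rw [h8] at h7
  have h9 := Set.ncard_insert_le (1 : C) {t}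
  rw [Set.ncard_singleton] at h9
  omega

/-- the character of order 3 -/
theorem CD.exists_w (h : CD S t) : ∃ w : C →* ℂˣ, (∀ c, w c ^ 3 = 1) ∧ (∃ c, w c ≠ 1) ∧
    ∀ c, w c ≠ 1 → c ∉ KK S := by
  have hKn := h.K_normal
  have hcard : Nat.card (C ⧸ KK S) = 3 := h.index_K
  haveI : Fact (Nat.Prime 3) := ⟨Nat.prime_three⟩
  letI : CommGroup (C ⧸ KK S) := (isCyclic_of_prime_card hcard).commGroup
  have hnt : Nontrivial (C ⧸ KK S) := by
    rw [← Finite.one_lt_card_iff_nontrivial, hcard]; norm_num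
  obtain ⟨g, hg⟩ := exists_ne (1 : C ⧸ KK S)
  obtain ⟨φ, hφ⟩ := CommGroup.exists_apply_ne_one_of_hasEnoughRootsOfUnity (C ⧸ KK S) ℂ hg
  refine ⟨φ.comp (QuotientGroup.mk' (KK S)), ?_, ?_, ?_⟩
  · intro c
    rw [← map_pow, MonoidHom.comp_apply, map_pow, ← hcard, pow_card_eq_one', map_one]
  · obtain ⟨c, hc⟩ := QuotientGroup.mk'_surjective (KK S) g
    exact ⟨c, by rw [MonoidHom.comp_apply, hc]; exact hφ⟩
  · intro c hc hcK
    apply hc
    rw [MonoidHom.comp_apply, (QuotientGroup.eq_one_iff c).mpr hcK |> fun e => (show (QuotientGroup.mk' (KK S)) c = 1 from e),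
      map_one]

end C

end H54.E8
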