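import Mathlib
import Cfsg.Agent.Lib.H54.E8h

/-!
Sign character from transfer; automizers of odd order.
-/

set_option autoImplicit false
set_option linter.unusedSectionVars false
set_option linter.style.haveILetI false

open Cfsg Subgroup
open scoped Pointwise

universe u

namespace H54.E8

section C
variable {C : Type u} [Group C] [Finite C] {S : Sylow 2 C} {t : C}

theorem CD.exists_sigma (h : CD S t) : ∃ σ : C →* ℂˣ, σ t = -1 ∧ ∀ c, σ c ^ 2 = 1 := by
  letI : CommGroup (S : Subgroup C) :=
    { (inferInstance : Group (S : Subgroup C)) with mul_comm := fun a b => Subtype.ext (h.comm a a.2 b b.2) }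
  have ht : (⟨t, h.tS⟩ : (S : Subgroup C)) ≠ 1 := fun e => h.t1 (congrArg Subtype.val e)
  obtain ⟨φ, hφ⟩ := CommGroup.exists_apply_ne_one_of_hasEnoughRootsOfUnity (S : Subgroup C) ℂ ht
  have hsq : ∀ s : (S : Subgroup C), φ s ^ 2 = 1 := by
    intro s
    rw [← map_pow, pow_two]
    have : s * s = 1 := Subtype.ext (h.h2 s s.2)
    rw [this, map_one]
  let φ' : (S : Subgroup C) →* rootsOfUnity 2 ℂ := φ.codRestrict (rootsOfUnity 2 ℂ) fun s => by
    rw [mem_rootsOfUnity]; exact hsq s
  refine ⟨(rootsOfUnity 2 ℂ).subtype.comp (MonoidHom.transfer φ'), ?_, ?_⟩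
  · have hodd : Odd (S : Subgroup C).index := by
      rw [← Nat.not_even_iff_odd, even_iff_two_dvd]
      exact S.not_dvd_index
    have h1 := MonoidHom.transfer_eq_pow φ' t (by
      intro k g₀ _
      have : t ^ k * g₀ = g₀ * t ^ k := ((show Commute t g₀ from h.tc g₀).pow_left k).eq
      rw [mul_assoc, this, inv_mul_cancel_left])
    rw [MonoidHom.comp_apply, h1]
    have h2 : (⟨t ^ (S : Subgroup C).index, MonoidHom.transfer_eq_pow_aux t (by
      intro k g₀ _
      have : t ^ k * g₀ = g₀ * t ^ k := ((show Commute t g₀ from h.tc g₀).pow_left k).eq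
      rw [mul_assoc, this, inv_mul_cancel_left])⟩ : (S : Subgroup C)) = ⟨t, h.tS⟩ := Subtype.ext (h.t_odd hodd)
    rw [h2]
    show φ ⟨t, h.tS⟩ = -1
    have h3 := hsq ⟨t, h.tS⟩
    have h4 : ((φ ⟨t, h.tS⟩ : ℂ) - 1) * ((φ ⟨t, h.tS⟩ : ℂ) + 1) = 0 := by
      have := congrArg (fun u : ℂˣ => (u : ℂ)) h3
      push_cast at this
      linear_combination this
    rcases mul_eq_zero.mp h4 with e | e
    · exact absurd (Units.ext (by push_cast; linear_combination e)) hφ
    · apply Units.ext; push_cast; linear_combination e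
  · intro c
    have h1 := (MonoidHom.transfer φ' c).2
    rw [mem_rootsOfUnity] at h1
    exact h1

end C

end H54.E8
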