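import Mathlib
import Cfsg.Agent.Lib.H54.E8h

/-!
Automizer of an elementary abelian Sylow 2-subgroup of order 8 without fixed points.
-/

set_option autoImplicit false
set_option linter.unusedSectionVars false
set_option linter.style.haveILetI false

open Cfsg Subgroup
open scoped Pointwise

universe u

namespace H54.E8

variable {G : Type u} [Group G] [Finite G]

/-- conjugates under a subgroup -/
def orb (N : Subgroup G) (r : G) : Set G := {x | ∃ n ∈ N, n * r * n⁻¹ = x}

theorem self_mem_orb (N : Subgroup G) (r : G) : r ∈ orb N r := ⟨1, N.one_mem, by group⟩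

theorem orb_card (N : Subgroup G) (r : G) : (orb N r).ncard = (centralizer ({r} : Set G)).relIndex N := by
  letI : MulAction N G := MulAction.compHom G ((MulAut.conj : G →* MulAut G).comp N.subtype)
  have h1 : orb N r = MulAction.orbit N r := by
    ext x
    constructor
    · rintro ⟨n, hn, rfl⟩; exact ⟨⟨n, hn⟩, rfl⟩
    · rintro ⟨n, rfl⟩; exact ⟨n, n.2, rfl⟩
  have h2 : (centralizer ({r} : Set G)).subgroupOf N = MulAction.stabilizer N r := by
    ext n
    rw [mem_subgroupOf, mem_centralizer_singleton_iff, MulAction.mem_stabilizer_iff]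
    have h3 : n • r = (n : G) * r * (n : G)⁻¹ := rfl
    rw [h3, mul_inv_eq_iff_eq_mul]
  rw [h1, relIndex, h2, MulAction.index_stabilizer]

theorem orb_disjoint {N : Subgroup G} {r s : G} (h : s ∉ orb N r) : Disjoint (orb N r) (orb N s) := by
  rw [Set.disjoint_left]
  rintro x ⟨n, hn, h1⟩ ⟨m, hm, h2⟩
  apply h
  refine ⟨m⁻¹ * n, N.mul_mem (N.inv_mem hm) hn, ?_⟩
  calc m⁻¹ * n * r * (m⁻¹ * n)⁻¹ = m⁻¹ * (n * r * n⁻¹) * m := by group
    _ = m⁻¹ * (m * s * m⁻¹) * m := by rw [h1, h2]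
    _ = s := by group

/-- hypotheses -/
structure FD (S : Sylow 2 G) : Prop where
  h8 : Nat.card S = 8
  h2 : ∀ s ∈ S, s * s = 1
  fx : ∀ r ∈ S, (∀ n ∈ normalizer ((S : Subgroup G) : Set G), n * r = r * n) → r = 1

variable {S : Sylow 2 G}

abbrev NN (S : Sylow 2 G) : Subgroup G := normalizer ((S : Subgroup G) : Set G)
abbrev ZZ (S : Sylow 2 G) : Subgroup G := centralizer ((S : Subgroup G) : Set G)

theorem FD.comm (h : FD S) : ∀ x ∈ S, ∀ y ∈ S, x * y = y * x := comm_of_sq (S := (S : Subgroup G)) h.h2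

theorem FD.S_le (h : FD S) {r : G} (hr : r ∈ S) : (S : Subgroup G) ≤ centralizer ({r} : Set G) :=
  fun x hx => mem_centralizer_singleton_iff.mpr (h.comm x hx r hr)

theorem FD.S_le_Z (h : FD S) : (S : Subgroup G) ≤ ZZ S :=
  fun x hx => mem_centralizer_iff.mpr fun y hy => (h.comm x hx y hy).symm

theorem FD.index_odd (S : Sylow 2 G) : Odd (S : Subgroup G).index := by
  rw [← Nat.not_even_iff_odd, even_iff_two_dvd]
  exact S.not_dvd_index

theorem FD.odd_rel {H K : Subgroup G} (hH : (S : Subgroup G) ≤ H) (hK : (S : Subgroup G) ≤ K) :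
    Odd (H.relIndex K) := by
  have h1 : H.relIndex K ∣ (S : Subgroup G).relIndex K := Subgroup.relIndex_dvd_of_le_left K hH
  have h2 : (S : Subgroup G).relIndex K ∣ (S : Subgroup G).index := Subgroup.relIndex_dvd_index_of_le hK
  exact (FD.index_odd S).of_dvd_nat (h1.trans h2)

theorem orb_sub (S : Sylow 2 G) {N : Subgroup G} (hN : N ≤ NN S) {r : G} (hr : r ∈ S) (hr1 : r ≠ 1) :
    orb N r ⊆ ((S : Subgroup G) : Set G) \ {1} := by
  rintro x ⟨n, hn, rfl⟩
  refine ⟨(mem_normalizer_iff.mp (hN hn) r).mp hr, ?_⟩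
  intro e
  apply hr1
  have e' : n * r * n⁻¹ = 1 := e
  calc r = n⁻¹ * (n * r * n⁻¹) * n := by group
    _ = 1 := by rw [e']; group

theorem FD.card_sdiff (h : FD S) : (((S : Subgroup G) : Set G) \ {1}).ncard = 7 := by
  have h1 : (((S : Subgroup G) : Set G)).ncard = 8 := h.h8
  rw [Set.ncard_sdiff_singleton_of_mem (S : Subgroup G).one_mem, h1]

theorem FD.orb_odd (h : FD S) {r : G} (hr : r ∈ S) : Odd (orb (NN S) r).ncard := by
  rw [orb_card]
  exact FD.odd_rel (h.S_le hr) le_normalizer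

theorem FD.orb_ge (h : FD S) {r : G} (hr : r ∈ S) (hr1 : r ≠ 1) : 3 ≤ (orb (NN S) r).ncard := by
  have h1 := h.orb_odd hr
  have h2 : (orb (NN S) r).ncard ≠ 1 := by
    intro h3
    apply hr1
    apply h.fx r hr
    intro n hn
    obtain ⟨a, ha⟩ := Set.ncard_eq_one.mp h3
    have h4 : n * r * n⁻¹ = a := by
      have : n * r * n⁻¹ ∈ orb (NN S) r := ⟨n, hn, rfl⟩
      rw [ha] at this; exact this
    have h5 : r = a := by
      have := self_mem_orb (NN S) r
      rw [ha] at this; exact this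
    rw [← h5] at h4
    exact mul_inv_eq_iff_eq_mul.mp h4
  obtain ⟨k, hk⟩ := h1
  omega

theorem FD.trans (h : FD S) {t : G} (ht : t ∈ S) (ht1 : t ≠ 1) :
    orb (NN S) t = ((S : Subgroup G) : Set G) \ {1} := by
  apply Set.Subset.antisymm (orb_sub S le_rfl ht ht1)
  intro s hs
  by_contra hcon
  have hs1 : s ≠ 1 := fun e => hs.2 e
  have hd := orb_disjoint hcon
  have hsub : orb (NN S) t ∪ orb (NN S) s ⊆ ((S : Subgroup G) : Set G) \ {1} :=
    Set.union_subset (orb_sub S le_rfl ht ht1) (orb_sub S le_rfl hs.1 hs1)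
  have hc : (orb (NN S) t ∪ orb (NN S) s).ncard = (orb (NN S) t).ncard + (orb (NN S) s).ncard :=
    Set.ncard_union_eq hd (Set.toFinite _) (Set.toFinite _)
  have h7 := h.card_sdiff
  obtain ⟨a, ha⟩ := h.orb_odd ht
  obtain ⟨b, hb⟩ := h.orb_odd hs.1
  have h3 := h.orb_ge ht ht1
  have h4 := h.orb_ge hs.1 hs1
  by_cases he : orb (NN S) t ∪ orb (NN S) s = ((S : Subgroup G) : Set G) \ {1}
  · rw [he, h7] at hc
    omega
  · obtain ⟨r, hr, hr'⟩ := Set.exists_of_ssubset (hsub.ssubset_of_ne he)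
    have hr1 : r ≠ 1 := fun e => hr.2 e
    have d1 : Disjoint (orb (NN S) t) (orb (NN S) r) := orb_disjoint fun e => hr' (Or.inl e)
    have d2 : Disjoint (orb (NN S) s) (orb (NN S) r) := orb_disjoint fun e => hr' (Or.inr e)
    have d3 : Disjoint (orb (NN S) t ∪ orb (NN S) s) (orb (NN S) r) := Set.disjoint_union_left.mpr ⟨d1, d2⟩
    have hc2 : ((orb (NN S) t ∪ orb (NN S) s) ∪ orb (NN S) r).ncard =
        (orb (NN S) t ∪ orb (NN S) s).ncard + (orb (NN S) r).ncard :=
      Set.ncard_union_eq d3 (Set.toFinite _) (Set.toFinite _)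
    have h5 := h.orb_ge hr.1 hr1
    have h6 : ((orb (NN S) t ∪ orb (NN S) s) ∪ orb (NN S) r).ncard ≤ 7 := by
      rw [← h7]
      exact Set.ncard_le_ncard (Set.union_subset hsub (orb_sub S le_rfl hr.1 hr1)) (Set.toFinite _)
    omega

theorem FD.rel_seven (h : FD S) {t : G} (ht : t ∈ S) (ht1 : t ≠ 1) :
    (centralizer ({t} : Set G)).relIndex (NN S) = 7 := by
  rw [← orb_card, h.trans ht ht1, h.card_sdiff]

theorem FD.rel_mul (h : FD S) {t : G} (ht : t ∈ S) (ht1 : t ≠ 1) :
    (ZZ S).relIndex (NN S) = (ZZ S).relIndex (NN S ⊓ centralizer ({t} : Set G)) * 7 := by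
  have h1 : ZZ S ≤ NN S ⊓ centralizer ({t} : Set G) :=
    le_inf (centralizer_le_normalizer _) (fun x hx => mem_centralizer_singleton_iff.mpr
      (mem_centralizer_iff.mp hx t ht).symm)
  have h2 := Subgroup.relIndex_mul_relIndex _ _ _ h1 (inf_le_left : NN S ⊓ centralizer ({t} : Set G) ≤ NN S)
  rw [← h2, inf_comm, Subgroup.inf_relIndex_right, h.rel_seven ht ht1]

theorem FD.semi (h : FD S) {t s : G} (ht : t ∈ S) (ht1 : t ≠ 1) (hs : s ∈ S) (hs1 : s ≠ 1) (hst : s ≠ t) :
    (orb (NN S ⊓ centralizer ({t} : Set G)) s).ncard =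
      (ZZ S).relIndex (NN S ⊓ centralizer ({t} : Set G)) := by
  rw [orb_card, ← Subgroup.inf_relIndex_right]
  congr 1
  apply le_antisymm
  · rintro x ⟨hxs, hxN, hxt⟩
    have hxs' := mem_centralizer_singleton_iff.mp hxs
    have hxt' := mem_centralizer_singleton_iff.mp hxt
    have hodd : Odd ((ZZ S).relIndex (NN S)) := FD.odd_rel h.S_le_Z le_normalizer
    have hpow : x ^ ((ZZ S).relIndex (NN S)) ∈ ZZ S := by
      have h5 : ((ZZ S).subgroupOf (NN S)).Normal := inferInstance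
      exact Subgroup.pow_index_mem ((ZZ S).subgroupOf (NN S)) ⟨x, hxN⟩
    have key := fix_all (S := (S : Subgroup G)) h.h8 h.h2 hxN hodd
      (fun y hy => (mem_centralizer_iff.mp hpow y hy).symm) ht hs ht1 hs1 hst hxt' hxs'
    exact mem_centralizer_iff.mpr fun y hy => (key y hy).symm
  · intro x hx
    refine ⟨mem_centralizer_singleton_iff.mpr (mem_centralizer_iff.mp hx s hs).symm,
      centralizer_le_normalizer _ hx, mem_centralizer_singleton_iff.mpr (mem_centralizer_iff.mp hx t ht).symm⟩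

theorem FD.one_or_three (h : FD S) {t : G} (ht : t ∈ S) (ht1 : t ≠ 1) :
    (ZZ S).relIndex (NN S ⊓ centralizer ({t} : Set G)) = 1 ∨
      (ZZ S).relIndex (NN S ⊓ centralizer ({t} : Set G)) = 3 := by
  obtain ⟨B, hB⟩ : ∃ B, B = NN S ⊓ centralizer ({t} : Set G) := ⟨_, rfl⟩
  have hBN : B ≤ NN S := by rw [hB]; exact inf_le_left
  have hodd : Odd ((ZZ S).relIndex B) := by
    apply FD.odd_rel h.S_le_Z
    rw [hB]
    exact le_inf le_normalizer (h.S_le ht)
  -- the set of the other involutions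
  obtain ⟨X, hX⟩ : ∃ X : Set G, X = (((S : Subgroup G) : Set G) \ {1}) \ {t} := ⟨_, rfl⟩
  have hXc : X.ncard = 6 := by
    have hm : t ∈ ((S : Subgroup G) : Set G) \ {1} := ⟨ht, ht1⟩
    rw [hX, Set.ncard_sdiff_singleton_of_mem hm, h.card_sdiff]
  have hsub : ∀ s ∈ X, orb B s ⊆ X := by
    intro s hs
    rw [hX] at hs ⊢
    rintro x ⟨n, hn, rfl⟩
    refine ⟨orb_sub S hBN hs.1.1 (fun e => hs.1.2 e) ⟨n, hn, rfl⟩, ?_⟩
    intro e
    apply hs.2
    rw [hB] at hn
    have h1 := mem_centralizer_singleton_iff.mp hn.2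
    have e' : n * s * n⁻¹ = t := e
    show s = t
    calc s = n⁻¹ * (n * s * n⁻¹) * n := by group
      _ = n⁻¹ * (t * n) := by rw [e']; group
      _ = t := by rw [← h1, inv_mul_cancel_left]
  have hcard : ∀ s ∈ X, (orb B s).ncard = (ZZ S).relIndex B := by
    intro s hs
    rw [hX] at hs
    rw [hB]
    exact h.semi ht ht1 hs.1.1 (fun e => hs.1.2 e) (fun e => hs.2 e)
  obtain ⟨s, hs⟩ : X.Nonempty := by
    rw [← Set.ncard_pos (Set.toFinite _), hXc]; norm_num
  have h1 := hcard s hs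
  have h2 : (orb B s).ncard ≤ 6 := by
    rw [← hXc]; exact Set.ncard_le_ncard (hsub s hs) (Set.toFinite _)
  rw [← hB]
  obtain ⟨k, hk⟩ := hodd
  by_cases h5 : (ZZ S).relIndex B = 5
  · exfalso
    have hne : orb B s ≠ X := by
      intro e
      rw [e, hXc, h5] at h1
      omega
    obtain ⟨r, hr, hr'⟩ := Set.exists_of_ssubset ((hsub s hs).ssubset_of_ne hne)
    have d := orb_disjoint hr'
    have hc : (orb B s ∪ orb B r).ncard = (orb B s).ncard + (orb B r).ncard :=
      Set.ncard_union_eq d (Set.toFinite _) (Set.toFinite _)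
    have h6 : (orb B s ∪ orb B r).ncard ≤ 6 := by
      rw [← hXc]; exact Set.ncard_le_ncard (Set.union_subset (hsub s hs) (hsub r hr)) (Set.toFinite _)
    rw [hc, hcard s hs, hcard r hr, h5] at h6
    omega
  · omega

end H54.E8
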