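import Mathlib
import Cfsg.Agent.Lib.H54.E8g
import Cfsg.Agent.Lib.H54.E8i
import Cfsg.Agent.Lib.H54.E8j

/-!
Assembly.
-/

set_option autoImplicit false
set_option linter.unusedSectionVars false
set_option linter.style.haveILetI false

open Cfsg Subgroup
open scoped Pointwise

universe u

namespace H54.E8

variable {G : Type u} [Group G] [Finite G] {S : Sylow 2 G}

theorem FD.cd (h : FD S) {t : G} (ht : t ∈ S) (ht1 : t ≠ 1)
    (h3 : (ZZ S).relIndex (NN S ⊓ centralizer ({t} : Set G)) = 3) (hsol : Group.IsSolvable (Cn t)) :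
    CD (S.subtype (h.S_le ht)) (tt t) := by
  have hle := h.S_le ht
  have hmem : ∀ s : Cn t, s ∈ S.subtype hle ↔ (s : G) ∈ S := by
    intro s
    have : s ∈ S.subtype hle ↔ s ∈ ((S.subtype hle : Sylow 2 (Cn t)) : Subgroup (Cn t)) := Iff.rfl
    rw [this, Sylow.coe_subtype, mem_subgroupOf]
    rfl
  have h4 : (centralizer (((S.subtype hle : Sylow 2 (Cn t)) : Subgroup (Cn t)) : Set (Cn t))) =
      (ZZ S).subgroupOf (Cn t) := by
    ext c
    rw [mem_subgroupOf, mem_centralizer_iff, mem_centralizer_iff]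
    constructor
    · intro h5 x hx
      exact congrArg Subtype.val (h5 ⟨x, hle hx⟩ ((hmem _).mpr hx))
    · intro h5 x hx
      exact Subtype.ext (h5 x ((hmem x).mp hx))
  have h5 : (normalizer (((S.subtype hle : Sylow 2 (Cn t)) : Subgroup (Cn t)) : Set (Cn t))) =
      (NN S).subgroupOf (Cn t) := by
    ext c
    rw [mem_subgroupOf, mem_normalizer_iff, mem_normalizer_iff]
    constructor
    · intro h6 x
      constructor
      · intro hx
        exact (hmem _).mp ((h6 ⟨x, hle hx⟩).mp ((hmem _).mpr hx))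
      · intro hx
        have h7 : (c : G) * x * (c : G)⁻¹ ∈ Cn t := hle hx
        have h8 : x ∈ Cn t := by
          have := (Cn t).mul_mem ((Cn t).mul_mem ((Cn t).inv_mem c.2) h7) c.2
          have e : (c : G)⁻¹ * ((c : G) * x * (c : G)⁻¹) * (c : G) = x := by group
          rwa [e] at this
        exact (hmem _).mp ((h6 ⟨x, h8⟩).mpr ((hmem _).mpr hx))
    · intro h6 x
      exact (hmem x).trans ((h6 x).trans (hmem (c * x * c⁻¹)).symm)
  have h9 : Nat.card (S.subtype hle : Sylow 2 (Cn t)) = 8 := by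
    have e : ((S.subtype hle : Sylow 2 (Cn t)) : Subgroup (Cn t)) = (S : Subgroup G).subgroupOf (Cn t) :=
      Sylow.coe_subtype ..
    have : Nat.card ((S.subtype hle : Sylow 2 (Cn t)) : Subgroup (Cn t)) = 8 := by
      rw [e, Nat.card_congr (Subgroup.subgroupOfEquivOfLe hle).toEquiv]
      exact h.h8
    exact this
  refine { sol := hsol, h8 := h9, h2 := ?_, t1 := ?_, t2 := ?_, tc := fun c => comm_tt c, h3 := ?_ }
  · intro s hs
    exact Subtype.ext (h.h2 s ((hmem s).mp hs))
  · intro e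
    exact ht1 (congrArg Subtype.val e)
  · exact Subtype.ext (h.h2 t ht)
  · rw [h4, h5]
    have h10 : ((ZZ S).subgroupOf (Cn t)).relIndex ((NN S).subgroupOf (Cn t)) =
        (ZZ S).relIndex (((NN S).subgroupOf (Cn t)).map (Cn t).subtype) :=
      Subgroup.relIndex_comap (f := (Cn t).subtype) (ZZ S) ((NN S).subgroupOf (Cn t))
    rw [h10, Subgroup.subgroupOf_map_subtype]
    exact h3

theorem FD.seven (h : FD S) (hperf : _root_.commutator G = ⊤) {t : G} (ht : t ∈ S) (ht1 : t ≠ 1)
    (hsol : Group.IsSolvable (Cn t)) : (ZZ S).relIndex (NN S) = 7 := by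
  rcases h.one_or_three ht ht1 with h1 | h3
  · rw [h.rel_mul ht ht1, h1]
  · exfalso
    have D := h.cd ht ht1 h3 hsol
    obtain ⟨σ, s1, s2⟩ := D.exists_sigma
    obtain ⟨w, w1, w2, w3⟩ := D.exists_w
    have h16 : ¬ 16 ∣ Nat.card G := by
      intro hd
      have h4 := (S : Subgroup G).card_mul_index
      have h5 : Nat.card (S : Subgroup G) = 8 := h.h8
      rw [h5] at h4
      obtain ⟨k, hk⟩ := FD.index_odd S
      omega
    have ho : orderOf t = 2 := orderOf_eq_prime (by rw [pow_two]; exact h.h2 t ht) ht1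
    refine main hperf h16 (S : Subgroup G) h.h8 ?_ (t := t) (σ := σ) (w := w) ?_ ?_ D.index_core
    · intro s hs hs1
      have h6 : s ∈ orb (NN S) t := by
        rw [h.trans ht ht1]; exact ⟨hs, hs1⟩
      obtain ⟨n, _, hn⟩ := h6
      exact IsConj.symm (isConj_iff.mpr ⟨n, hn⟩)
    · exact { ht := ho, st := s1, s2 := s2, w3 := w1, wne := w2, odd := fun c hc => D.odd (w3 c hc) }
    · intro c hc
      exact D.idx (w3 c hc)

end H54.E8
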