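import Mathlib
import Cfsg.Prelude.Def_SylowControl
import Cfsg.Agent.Lib.H54.Basic
import Cfsg.Agent.Lib.H28.RelSyl

/-!
Conjugation-closed families and the members meeting a Sylow subgroup in a Sylow subgroup.
-/
set_option autoImplicit false

open Subgroup H28.Cj H28.RelSyl

namespace H54.SylFam

variable {G : Type*} [Group G]

theorem mem_conjRight {g x : G} {X : Subgroup G} :
    x ∈ Cfsg.subgroupConjRight g X ↔ g * x * g⁻¹ ∈ X := by
  unfold Cfsg.subgroupConjRight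
  rw [H54.Basic.mem_map_conj, inv_inv]

theorem conjRight_eq_cj (g : G) (X : Subgroup G) : Cfsg.subgroupConjRight g X = cj g⁻¹ X := rfl

theorem cj_eq_conjRight (g : G) (X : Subgroup G) : cj g X = Cfsg.subgroupConjRight g⁻¹ X := by
  rw [conjRight_eq_cj, inv_inv]

theorem cj_mem {𝓕 : Set (Subgroup G)} (h : Cfsg.IsNormalSet 𝓕) {X : Subgroup G} (hX : X ∈ 𝓕)
    (g : G) : cj g X ∈ 𝓕 := by
  rw [cj_eq_conjRight]
  exact h X hX g⁻¹

theorem mem_sylowMembers_iff [Finite G] {p : ℕ} [Fact p.Prime] {𝓕 : Set (Subgroup G)}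
    {S X : Subgroup G} : X ∈ Cfsg.sylowMembers p 𝓕 S ↔ X ∈ 𝓕 ∧ IsSyl p (S ⊓ X) X := by
  unfold Cfsg.sylowMembers
  rw [isSyl_iff_exists]
  rfl

theorem cj_mem_sylowMembers [Finite G] {p : ℕ} [Fact p.Prime] {𝓕 : Set (Subgroup G)}
    (h : Cfsg.IsNormalSet 𝓕) {S X : Subgroup G} (hX : X ∈ Cfsg.sylowMembers p 𝓕 S) (g : G) :
    cj g X ∈ Cfsg.sylowMembers p 𝓕 (cj g S) := by
  rw [mem_sylowMembers_iff] at hX ⊢
  refine ⟨cj_mem h hX.1 g, ?_⟩
  rw [← cj_inf]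
  exact hX.2.cj g

/-- `H(S)`: the subgroup generated by the members of `𝓕(S)` and the normalizer of `S`. -/
def hull (p : ℕ) (𝓕 : Set (Subgroup G)) (S : Subgroup G) : Subgroup G :=
  (⨆ X ∈ Cfsg.sylowMembers p 𝓕 S, X) ⊔ normalizer (S : Set G)

theorem cj_hull_le [Finite G] {p : ℕ} [Fact p.Prime] {𝓕 : Set (Subgroup G)}
    (h : Cfsg.IsNormalSet 𝓕) (S : Subgroup G) (g : G) :
    cj g (hull p 𝓕 S) ≤ hull p 𝓕 (cj g S) := by
  unfold hull
  rw [cj_sup]
  refine sup_le_sup ?_ ?_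
  · rw [cj, Subgroup.map_iSup]
    refine iSup_le fun X => ?_
    rw [Subgroup.map_iSup]
    refine iSup_le fun hX => ?_
    exact le_iSup₂_of_le (cj g X) (cj_mem_sylowMembers h hX g) le_rfl
  · rw [cj_normalizer]

theorem cj_hull [Finite G] {p : ℕ} [Fact p.Prime] {𝓕 : Set (Subgroup G)}
    (h : Cfsg.IsNormalSet 𝓕) (S : Subgroup G) (g : G) :
    cj g (hull p 𝓕 S) = hull p 𝓕 (cj g S) := by
  refine le_antisymm (cj_hull_le h S g) ?_
  have := cj_hull_le h (p := p) (cj g S) g⁻¹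
  rw [cj_inv_cj] at this
  rw [cj_le_iff, inv_inv] at this
  exact this

end H54.SylFam
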