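import Mathlib
import Cfsg.Prelude.Def_SylowControl
import Cfsg.Prelude.Def_SylowChains
import Cfsg.Agent.Lib.H54.SylFam

/-!
Control of Sylow `p`-intersections in terms of a symmetric linking relation on Sylow subgroups.
-/
set_option autoImplicit false

open Subgroup H28.Cj H28.RelSyl H54.SylFam

namespace H54.SylChain

/-- from a `ReflTransGen` chain to a chain indexed by `Fin` -/
theorem exists_fin_chain {α : Type*} {r : α → α → Prop} {a b : α}
    (h : Relation.ReflTransGen r a b) :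
    ∃ (n : ℕ) (c : Fin (n + 1) → α), c 0 = a ∧ c (Fin.last n) = b ∧
      ∀ i : Fin n, r (c i.castSucc) (c i.succ) := by
  induction h with
  | refl => exact ⟨0, fun _ => a, rfl, rfl, fun i => i.elim0⟩
  | @tail b c hab hbc ih =>
    obtain ⟨n, d, h0, hn, hd⟩ := ih
    refine ⟨n + 1, Fin.snoc d c, ?_, ?_, ?_⟩
    · have h1 : (0 : Fin (n + 2)) = Fin.castSucc (0 : Fin (n + 1)) := rfl
      rw [h1, Fin.snoc_castSucc, h0]
    · rw [Fin.snoc_last]
    · intro i
      induction i using Fin.lastCases with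
      | last =>
        rw [Fin.snoc_castSucc, Fin.succ_last, Fin.snoc_last, hn]
        exact hbc
      | cast j =>
        rw [Fin.snoc_castSucc, Fin.succ_castSucc, Fin.snoc_castSucc]
        exact hd j

theorem reflTransGen_of_fin_chain {α : Type*} {r : α → α → Prop} {n : ℕ}
    (c : Fin (n + 1) → α) (h : ∀ i : Fin n, r (c i.castSucc) (c i.succ)) :
    Relation.ReflTransGen r (c 0) (c (Fin.last n)) := by
  have : ∀ i : Fin (n + 1), Relation.ReflTransGen r (c 0) (c i) := by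
    intro i
    induction i using Fin.induction with
    | zero => exact Relation.ReflTransGen.refl
    | succ i ih => exact ih.tail (h i)
  exact this _

variable {G : Type*} [Group G]

/-- the symmetric linking relation of Sylow subgroups containing `D` -/
def Link (p : ℕ) (𝓕 : Set (Subgroup G)) (D : Subgroup G) (A B : Sylow p G) : Prop :=
  D ≤ (A : Subgroup G) ∧ D ≤ (B : Subgroup G) ∧
    ∃ X : Subgroup G, X ∈ Cfsg.sylowMembers p 𝓕 (A : Subgroup G) ∧
      X ∈ Cfsg.sylowMembers p 𝓕 (B : Subgroup G) ∧ D ≤ X ∧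
      ∃ x ∈ X, cj x (A : Subgroup G) = (B : Subgroup G)

theorem Link.symm {p : ℕ} {𝓕 : Set (Subgroup G)} {D : Subgroup G} {A B : Sylow p G}
    (h : Link p 𝓕 D A B) : Link p 𝓕 D B A := by
  obtain ⟨h1, h2, X, hA, hB, hD, x, hx, hAB⟩ := h
  exact ⟨h2, h1, X, hB, hA, hD, x⁻¹, inv_mem hx, by rw [← hAB, cj_inv_cj]⟩

theorem Link.mono {p : ℕ} {𝓕 𝓖 : Set (Subgroup G)} (h𝓕 : 𝓕 ⊆ 𝓖) {D E : Subgroup G}
    (hDE : E ≤ D) {A B : Sylow p G} (h : Link p 𝓕 D A B) : Link p 𝓖 E A B := by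
  obtain ⟨h1, h2, X, hA, hB, hD, x, hx, hAB⟩ := h
  exact ⟨hDE.trans h1, hDE.trans h2, X, ⟨h𝓕 hA.1, hA.2⟩, ⟨h𝓕 hB.1, hB.2⟩, hDE.trans hD, x, hx, hAB⟩

/-- the generated relation -/
def Linked (p : ℕ) (𝓕 : Set (Subgroup G)) (D : Subgroup G) (A B : Sylow p G) : Prop :=
  Relation.ReflTransGen (Link p 𝓕 D) A B

theorem Linked.refl {p : ℕ} {𝓕 : Set (Subgroup G)} {D : Subgroup G} (A : Sylow p G) :
    Linked p 𝓕 D A A := Relation.ReflTransGen.refl

theorem Linked.symm {p : ℕ} {𝓕 : Set (Subgroup G)} {D : Subgroup G} {A B : Sylow p G}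
    (h : Linked p 𝓕 D A B) : Linked p 𝓕 D B A := by
  induction h with
  | refl => exact Relation.ReflTransGen.refl
  | tail _ hbc ih => exact Relation.ReflTransGen.head hbc.symm ih

theorem Linked.trans {p : ℕ} {𝓕 : Set (Subgroup G)} {D : Subgroup G} {A B C : Sylow p G}
    (h : Linked p 𝓕 D A B) (h' : Linked p 𝓕 D B C) : Linked p 𝓕 D A C :=
  Relation.ReflTransGen.trans h h'

theorem Linked.mono {p : ℕ} {𝓕 𝓖 : Set (Subgroup G)} (h𝓕 : 𝓕 ⊆ 𝓖) {D E : Subgroup G}
    (hDE : E ≤ D) {A B : Sylow p G} (h : Linked p 𝓕 D A B) : Linked p 𝓖 E A B := by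
  induction h with
  | refl => exact Relation.ReflTransGen.refl
  | tail _ hbc ih => exact Relation.ReflTransGen.tail ih (hbc.mono h𝓕 hDE)

theorem controls_iff {p : ℕ} {𝓕 : Set (Subgroup G)} :
    Cfsg.ControlsSylowIntersections p 𝓕 ↔ ∀ S T : Sylow p G, S ≠ T →
      (S : Subgroup G) ⊓ (T : Subgroup G) ≠ ⊥ →
        Linked p 𝓕 ((S : Subgroup G) ⊓ (T : Subgroup G)) S T := by
  constructor
  · intro h S T hne hint
    obtain ⟨n, c, X, x, h0, hn, hc⟩ := h S T hne hint
    have hD : ∀ i : Fin (n + 1), (S : Subgroup G) ⊓ (T : Subgroup G) ≤ (c i : Subgroup G) := by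
      intro i
      induction i using Fin.cases with
      | zero => rw [h0]; exact inf_le_left
      | succ i => exact (hc i).2.2.2.2.trans inf_le_left
    have := reflTransGen_of_fin_chain (r := Link p 𝓕 ((S : Subgroup G) ⊓ (T : Subgroup G))) c (by
      intro i
      obtain ⟨h1, h2, h3, h4, h5⟩ := hc i
      refine ⟨hD _, hD _, X i, h1, h2, h5.trans inf_le_right, x i, h3, ?_⟩
      rw [← h4, conjRight_eq_cj, cj_cj_inv])
    rw [h0, hn] at this
    exact this
  · intro h S T hne hint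
    obtain ⟨n, c, h0, hn, hc⟩ := exists_fin_chain (h S T hne hint)
    choose h1 h2 X h3 h4 h5 x h6 h7 using hc
    refine ⟨n, c, X, x, h0, hn, fun i => ⟨h3 i, h4 i, h6 i, ?_, le_inf (h2 i) (h5 i)⟩⟩
    rw [← h7 i, conjRight_eq_cj, cj_inv_cj]

end H54.SylChain
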