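import Mathlib
import Cfsg.Prelude.Def_SylowControl
import Cfsg.Prelude.Def_SylowChains
import Cfsg.Agent.Lib.H54.SylChain

/-!
Regularity of a subgroup for a normalizer functor, in terms of relative Sylow subgroups of the
ambient group.
-/
set_option autoImplicit false

open Subgroup H28.Cj H28.RelSyl H54.SylFam H54.SylChain

namespace H54.FunReg

variable {G : Type*} [Group G]

/-- the linking relation inside `M` with all subgroups living in `G` -/
def RLink (p : ℕ) (f : Subgroup G → Set (Subgroup G)) (M D A B : Subgroup G) : Prop :=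
  IsSyl p A M ∧ IsSyl p B M ∧ D ≤ A ∧ D ≤ B ∧
    ∃ P F : Subgroup G, IsSyl p P M ∧ F ∈ f P ∧ A ≤ normalizer (F : Set G) ∧
      B ≤ normalizer (F : Set G)

def RLinked (p : ℕ) (f : Subgroup G → Set (Subgroup G)) (M D A B : Subgroup G) : Prop :=
  Relation.ReflTransGen (RLink p f M D) A B

theorem RLink.symm {p : ℕ} {f : Subgroup G → Set (Subgroup G)} {M D A B : Subgroup G}
    (h : RLink p f M D A B) : RLink p f M D B A := by
  obtain ⟨h1, h2, h3, h4, P, F, h5, h6, h7, h8⟩ := h
  exact ⟨h2, h1, h4, h3, P, F, h5, h6, h8, h7⟩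

theorem RLinked.symm {p : ℕ} {f : Subgroup G → Set (Subgroup G)} {M D A B : Subgroup G}
    (h : RLinked p f M D A B) : RLinked p f M D B A := by
  induction h with
  | refl => exact Relation.ReflTransGen.refl
  | tail _ hbc ih => exact Relation.ReflTransGen.head hbc.symm ih

theorem RLinked.trans {p : ℕ} {f : Subgroup G → Set (Subgroup G)} {M D A B C : Subgroup G}
    (h : RLinked p f M D A B) (h' : RLinked p f M D B C) : RLinked p f M D A C :=
  Relation.ReflTransGen.trans h h'

theorem RLinked.mono {p : ℕ} {f : Subgroup G → Set (Subgroup G)} {M N D E A B : Subgroup G}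
    (hMN : ∀ P, IsSyl p P M → IsSyl p P N) (hDE : E ≤ D)
    (h : RLinked p f M D A B) : RLinked p f N E A B := by
  induction h with
  | refl => exact Relation.ReflTransGen.refl
  | tail _ hbc ih =>
    obtain ⟨h1, h2, h3, h4, P, F, h5, h6, h7, h8⟩ := hbc
    exact Relation.ReflTransGen.tail ih
      ⟨hMN _ h1, hMN _ h2, hDE.trans h3, hDE.trans h4, P, F, hMN _ h5, h6, h7, h8⟩

theorem functor_cj {p : ℕ} {f : Subgroup G → Set (Subgroup G)} (hf : Cfsg.IsNormalizerFunctor p f)
    {P F : Subgroup G} (hP : IsPGroup p P) (hF : F ∈ f P) (g : G) : cj g F ∈ f (cj g P) := by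
  have := (hf P hP).2 g
  rw [show cj g P = P.map (MulAut.conj g).toMonoidHom from rfl, this]
  exact ⟨F, hF, rfl⟩

theorem RLinked.cj {p : ℕ} {f : Subgroup G → Set (Subgroup G)} (hf : Cfsg.IsNormalizerFunctor p f)
    {M D A B : Subgroup G} (h : RLinked p f M D A B) (g : G) :
    RLinked p f (H28.Cj.cj g M) (H28.Cj.cj g D) (H28.Cj.cj g A) (H28.Cj.cj g B) := by
  induction h with
  | refl => exact Relation.ReflTransGen.refl
  | tail _ hbc ih =>
    obtain ⟨h1, h2, h3, h4, P, F, h5, h6, h7, h8⟩ := hbc
    refine Relation.ReflTransGen.tail ih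
      ⟨h1.cj g, h2.cj g, cj_le_cj.mpr h3, cj_le_cj.mpr h4, _, _, h5.cj g,
        functor_cj hf h5.isPGroup h6 g, ?_, ?_⟩
    · rw [← cj_normalizer]; exact cj_le_cj.mpr h7
    · rw [← cj_normalizer]; exact cj_le_cj.mpr h8

/-- relative version of regularity -/
def RReg (p : ℕ) (f : Subgroup G → Set (Subgroup G)) (M : Subgroup G) : Prop :=
  ∀ A B : Subgroup G, IsSyl p A M → IsSyl p B M → A ⊓ B ≠ ⊥ → RLinked p f M (A ⊓ B) A B

theorem map_subtype_inf {M : Subgroup G} (A B : Subgroup ↥M) :
    (A ⊓ B).map M.subtype = A.map M.subtype ⊓ B.map M.subtype :=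
  Subgroup.map_inf _ _ _ M.subtype_injective

theorem mem_family_iff [Finite G] {p : ℕ} [Fact p.Prime] {f : Subgroup G → Set (Subgroup G)}
    {M X : Subgroup G} : X ∈ Cfsg.functorFamily p f M ↔
      ∃ P F : Subgroup G, IsSyl p P M ∧ F ∈ f P ∧ X = M ⊓ normalizer (F : Set G) := by
  unfold Cfsg.functorFamily
  constructor
  · rintro ⟨P, F, hF, hX⟩
    exact ⟨_, F, isSyl_map P, hF, hX⟩
  · rintro ⟨P, F, hP, hF, hX⟩
    obtain ⟨Q, rfl⟩ := isSyl_iff_exists.mp hP
    exact ⟨Q, F, hF, hX⟩

/-- For `X` in the family of `M` and a Sylow subgroup `A` of `M`: `A ⊓ X` is Sylow in `X` iff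
`A ≤ X`. -/
theorem isSyl_inf_iff [Finite G] {p : ℕ} [Fact p.Prime] {f : Subgroup G → Set (Subgroup G)}
    (hf : Cfsg.IsNormalizerFunctor p f)
    {M A P F : Subgroup G} (hA : IsSyl p A M) (hP : IsSyl p P M) (hF : F ∈ f P) :
    IsSyl p (A ⊓ (M ⊓ normalizer (F : Set G))) (M ⊓ normalizer (F : Set G)) ↔
      A ≤ normalizer (F : Set G) := by
  have hPF : P ≤ normalizer (F : Set G) :=
    le_normalizer.trans ((hf P hP.isPGroup).1 F hF).2
  have hPX : IsSyl p P (M ⊓ normalizer (F : Set G)) :=
    hP.of_le_of_le (le_inf hP.le hPF) inf_le_left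
  constructor
  · intro h
    have h1 := h.card_eq_card hPX
    have h2 := hA.card_eq_card hP
    have h3 : A ⊓ (M ⊓ normalizer (F : Set G)) = A :=
      Subgroup.eq_of_le_of_card_ge inf_le_left (by rw [h1, h2])
    rw [← h3]
    exact inf_le_right.trans inf_le_right
  · intro h
    have h3 : A ⊓ (M ⊓ normalizer (F : Set G)) = A := inf_eq_left.mpr (le_inf hA.le h)
    rw [h3]
    exact hA.of_le_of_le (le_inf hA.le h) inf_le_left

theorem regular_iff [Finite G] {p : ℕ} [Fact p.Prime] {f : Subgroup G → Set (Subgroup G)}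
    (hf : Cfsg.IsNormalizerFunctor p f) {M : Subgroup G} :
    Cfsg.IsFunctorRegular p f M ↔ RReg p f M := by
  unfold Cfsg.IsFunctorRegular
  rw [controls_iff]
  constructor
  · intro h A B hA hB hAB
    by_cases hne : A = B
    · subst hne; exact Relation.ReflTransGen.refl
    obtain ⟨A', rfl⟩ := isSyl_iff_exists.mp hA
    obtain ⟨B', rfl⟩ := isSyl_iff_exists.mp hB
    have hne' : A' ≠ B' := fun h => hne (by rw [h])
    rw [← map_subtype_inf] at hAB ⊢
    have hAB' : (A' : Subgroup ↥M) ⊓ (B' : Subgroup ↥M) ≠ ⊥ := by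
      intro h; apply hAB; rw [h, Subgroup.map_bot]
    have key := h A' B' hne' hAB'
    generalize (A' : Subgroup ↥M) ⊓ (B' : Subgroup ↥M) = D at key
    clear hAB hAB' hne hne' hA hB
    induction key with
    | refl => exact Relation.ReflTransGen.refl
    | @tail b c _ hbc ih =>
      refine Relation.ReflTransGen.tail ih ?_
      obtain ⟨h1, h2, X, hXb, hXc, -, -⟩ := hbc
      obtain ⟨⟨Y, hY, rfl⟩, hXb'⟩ := (mem_sylowMembers_iff.mp hXb)
      obtain ⟨-, hXc'⟩ := (mem_sylowMembers_iff.mp hXc)
      obtain ⟨P, F, hP, hF, rfl⟩ := mem_family_iff.mp hY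
      have hconv : ∀ C : Sylow p ↥M, IsSyl p ((C : Subgroup ↥M) ⊓
          (M ⊓ normalizer (F : Set G)).subgroupOf M) ((M ⊓ normalizer (F : Set G)).subgroupOf M) →
          (C : Subgroup ↥M).map M.subtype ≤ normalizer (F : Set G) := by
        intro C hC
        rw [← isSyl_inf_iff hf (isSyl_map C) hP hF]
        obtain ⟨h3, h4, h5⟩ := hC
        have heq : ((C : Subgroup ↥M) ⊓ (M ⊓ normalizer (F : Set G)).subgroupOf M).map M.subtype =
            (C : Subgroup ↥M).map M.subtype ⊓ (M ⊓ normalizer (F : Set G)) := by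
          rw [map_subtype_inf, Subgroup.subgroupOf_map_subtype]
          congr 1
          exact inf_eq_left.mpr inf_le_left
        have heq2 : ((M ⊓ normalizer (F : Set G)).subgroupOf M).map M.subtype =
            M ⊓ normalizer (F : Set G) := by
          rw [Subgroup.subgroupOf_map_subtype]
          exact inf_eq_left.mpr inf_le_left
        refine ⟨inf_le_right, ?_, ?_⟩
        · rw [← heq]; exact h4.map _
        · have h6 := Subgroup.relIndex_map_map_of_injective ((C : Subgroup ↥M) ⊓
              (M ⊓ normalizer (F : Set G)).subgroupOf M) ((M ⊓ normalizer (F : Set G)).subgroupOf M)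
              M.subtype_injective
          rw [heq, heq2] at h6
          rw [h6]
          exact h5
      exact ⟨isSyl_map b, isSyl_map c, Subgroup.map_mono h1, Subgroup.map_mono h2, P, F, hP, hF,
        hconv b hXb', hconv c hXc'⟩
  · intro h A B hne hAB
    have hAB' : (A : Subgroup ↥M).map M.subtype ⊓ (B : Subgroup ↥M).map M.subtype ≠ ⊥ := by
      rw [← map_subtype_inf]
      intro h
      apply hAB
      rwa [Subgroup.map_eq_bot_iff_of_injective _ M.subtype_injective] at h
    have key := h _ _ (isSyl_map A) (isSyl_map B) hAB'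
    rw [← map_subtype_inf] at key
    generalize (A : Subgroup ↥M) ⊓ (B : Subgroup ↥M) = D at key
    -- induct on the chain, lifting each member
    have : ∀ C : Subgroup G, RLinked p f M (D.map M.subtype) ((A : Subgroup ↥M).map M.subtype) C →
        ∀ C' : Sylow p ↥M, (C' : Subgroup ↥M).map M.subtype = C →
        Linked p ((fun X : Subgroup G => X.subgroupOf M) '' Cfsg.functorFamily p f M) D A C' := by
      intro C hC
      induction hC with
      | refl =>
        intro C' hC'
        have : C' = A := by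
          apply Sylow.ext
          exact Subgroup.map_injective M.subtype_injective hC'
        rw [this]
        exact Linked.refl A
      | @tail b c _ hbc ih =>
        intro C' hC'
        obtain ⟨h1, h2, h3, h4, P, F, h5, h6, h7, h8⟩ := hbc
        obtain ⟨b', rfl⟩ := isSyl_iff_exists.mp h1
        subst hC'
        refine Relation.ReflTransGen.tail (ih b' rfl) ?_
        have hDb : D ≤ (b' : Subgroup ↥M) :=
          (Subgroup.map_le_map_iff_of_injective M.subtype_injective).mp h3
        have hDc : D ≤ (C' : Subgroup ↥M) :=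
          (Subgroup.map_le_map_iff_of_injective M.subtype_injective).mp h4
        have hXfam : (M ⊓ normalizer (F : Set G)).subgroupOf M ∈
            ((fun X : Subgroup G => X.subgroupOf M) '' Cfsg.functorFamily p f M) :=
          ⟨_, mem_family_iff.mpr ⟨P, F, h5, h6, rfl⟩, rfl⟩
        have hconv : ∀ C : Sylow p ↥M, (C : Subgroup ↥M).map M.subtype ≤ normalizer (F : Set G) →
            (C : Subgroup ↥M) ≤ (M ⊓ normalizer (F : Set G)).subgroupOf M := by
          intro C hC x hx
          rw [Subgroup.mem_subgroupOf]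
          exact ⟨x.2, hC ⟨x, hx, rfl⟩⟩
        have hconv2 : ∀ C : Sylow p ↥M, (C : Subgroup ↥M).map M.subtype ≤ normalizer (F : Set G) →
            (M ⊓ normalizer (F : Set G)).subgroupOf M ∈ Cfsg.sylowMembers p
              ((fun X : Subgroup G => X.subgroupOf M) '' Cfsg.functorFamily p f M)
              (C : Subgroup ↥M) := by
          intro C hC
          rw [mem_sylowMembers_iff]
          refine ⟨hXfam, ?_⟩
          rw [inf_eq_left.mpr (hconv C hC)]
          exact (isSyl_top C).of_le_of_le (hconv C hC) le_top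
        have hb := (isSyl_top b').of_le_of_le (hconv b' h7) le_top
        have hc := (isSyl_top C').of_le_of_le (hconv C' h8) le_top
        obtain ⟨x, hx, hbx⟩ := hb.exists_conj_eq hc
        exact ⟨hDb, hDc, _, hconv2 b' h7, hconv2 C' h8, hDb.trans (hconv b' h7), x, hx, hbx.symm⟩
    exact this _ key B rfl

end H54.FunReg
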