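import Cfsg.Agent.Lib.H53.PMin
import Cfsg.Agent.Lib.H51.PMinimal
import Cfsg.Agent.Lib.H52.Syl
import Cfsg.Agent.Lib.H26.Components
import Cfsg.Agent.Lib.H26.OPPrime
import Cfsg.Agent.Lib.H27.GenSub
import Cfsg.Agent.Lib.H1.Coprime2
import Cfsg.Agent.Lib.H54.Basic
import Cfsg.Agent.Lib.H54.CopComm

set_option autoImplicit false

/-! Components of `p`-minimal groups with `O_p = 1` (S2906). -/

namespace H54.PMinComp

open Subgroup Cfsg H52.Syl
open scoped commutatorElement

section general

variable {G : Type*} [Group G] [Finite G] {p : ℕ} [hp : Fact p.Prime]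

/-- a `p`-element of `K C_G(K)` lies in `(S ∩ K) C_G(K)` if it normalizes `S ∩ K` -/
theorem mem_sup_centralizer {K S C : Subgroup G} (hS : SylIn p S K) (hC : C ≤ centralizer (K : Set G))
    (hC' : K ⊓ centralizer (K : Set G) ≤ C) {x : G} (hx : x ∈ K ⊔ C) (hxp : ∃ n : ℕ, x ^ p ^ n = 1)
    (hxn : x ∈ normalizer (S : Set G)) : x ∈ S ⊔ C := by
  have hCK : C ≤ normalizer (K : Set G) := hC.trans (centralizer_le_normalizer K)
  obtain ⟨k, hk, c, hc, rfl⟩ := (H54.Basic.mem_sup_iff hCK).mp hx
  obtain ⟨n, hn⟩ := hxp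
  have hkc : Commute k c := (mem_centralizer_iff.mp (hC hc) k hk)
  have hkn : k ^ p ^ n ∈ centralizer (K : Set G) := by
    rw [hkc.mul_pow] at hn
    rw [eq_inv_of_mul_eq_one_left hn]
    exact inv_mem (pow_mem (hC hc) _)
  -- lift
  obtain ⟨u, hu1, hu2⟩ := H26.OPPrime.exists_pElement_lift (p := p)
    (MulAut.conj : ↥K →* MulAut ↥K) (x := ⟨k, hk⟩) ⟨n, by
      rw [← map_pow]
      ext y
      have h1 : y.1 * k ^ p ^ n = k ^ p ^ n * y.1 := mem_centralizer_iff.mp hkn y.1 y.2
      simp only [MulAut.conj_apply, MulAut.one_apply, Subgroup.coe_mul, Subgroup.coe_pow,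
        InvMemClass.coe_inv]
      rw [← h1, mul_inv_cancel_right]⟩
  set k' : G := k ^ u with hk'
  have hk'K : k' ∈ K := pow_mem hk u
  have hk'p : ∃ m : ℕ, k' ^ p ^ m = 1 := by
    obtain ⟨m, hm⟩ := hu2
    exact ⟨m, congrArg Subtype.val hm⟩
  have hkk' : k'⁻¹ * k ∈ centralizer (K : Set G) := by
    rw [mem_centralizer_iff]
    intro y hy
    have h1 := congrArg (fun f : MulAut ↥K => (f ⟨y, hy⟩ : G)) hu1
    simp only [MulAut.conj_apply, Subgroup.coe_mul, Subgroup.coe_pow, InvMemClass.coe_inv] at h1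
    -- k^u y k^-u = k y k^-1
    have h2 : k' * y * k'⁻¹ = k * y * k⁻¹ := h1
    calc y * (k'⁻¹ * k) = k'⁻¹ * (k' * y * k'⁻¹) * k := by group
      _ = k'⁻¹ * (k * y * k⁻¹) * k := by rw [h2]
      _ = k'⁻¹ * k * y := by group
  have hkk'C : k'⁻¹ * k ∈ C := hC' (Subgroup.mem_inf.mpr ⟨mul_mem (inv_mem hk'K) hk, hkk'⟩)
  -- k' normalizes S
  have hk'n : k' ∈ normalizer (S : Set G) := by
    have hCS : C ≤ normalizer (S : Set G) := hC.trans ((centralizer_le hS.le).trans
      (centralizer_le_normalizer S))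
    have h1 : k' = (k * c) * (c⁻¹ * (k'⁻¹ * k)⁻¹) := by group
    rw [h1]
    exact mul_mem hxn (hCS (mul_mem (inv_mem hc) (inv_mem hkk'C)))
  have hk'S : k' ∈ S := by
    have h1 : IsPGroup p (zpowers k') := by
      obtain ⟨m, hm⟩ := hk'p
      rintro ⟨y, i, rfl⟩
      refine ⟨m, Subtype.ext ?_⟩
      change (k' ^ i) ^ p ^ m = 1
      rw [← zpow_natCast, ← zpow_mul, mul_comm, zpow_mul, zpow_natCast, hm, one_zpow]
    have h2 : IsPGroup p (zpowers k' ⊔ S : Subgroup G) :=
      h1.to_sup_of_normal_right' hS.isPGroup (by rwa [zpowers_le])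
    have h3 := hS.max (sup_le (by rwa [zpowers_le]) hS.le) h2 le_sup_right
    rw [← h3]
    exact mem_sup_left (mem_zpowers k')
  have h4 : k * c = k' * ((k'⁻¹ * k) * c) := by group
  rw [h4]
  exact mul_mem (mem_sup_left hk'S) (mem_sup_right (mul_mem hkk'C hc))

end general

section pmin

universe u

variable {P : Type u} [Group P] [Finite P] {p : ℕ} [hp : Fact p.Prime]

theorem core_le_fitting (hP : IsPMinimal p P) (hOp : pCore p P = ⊥) {S : Sylow p P} {M : Subgroup P}
    (hM : IsCoatom M) (hSM : (S : Subgroup P) ≤ M) : M.normalCore ≤ fittingSubgroup P := by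
  set N := M.normalCore with hN
  have hNn : N.Normal := by rw [hN]; infer_instance
  have hNM : N ≤ M := normalCore_le M
  have h1 : N ⊓ (S : Subgroup P) = ⊥ := by
    have := H53.PMin.core_inf_sylow_le_pCore hP hM hSM
    rwa [hOp, le_bot_iff] at this
  have h2 : SylIn p ((S : Subgroup P) ⊓ N) N := (sylIn_top S).inf_subnormal hNn.isSubnormal
  rw [inf_comm, h1] at h2
  have hNp : ¬ p ∣ Nat.card N := by
    have := h2.relIndex
    rwa [relIndex_bot_left] at this
  have hSN : (S : Subgroup P) ≤ normalizer (N : Set P) := by rw [normalizer_eq_top]; exact le_top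
  have hcop : (Nat.card (S : Subgroup P)).Coprime (Nat.card N) :=
    H27.GenSub.coprime_of_isPGroup S.isPGroup' hNp
  have hsol : Group.IsSolvable (S : Subgroup P) := H27.GenSub.isSolvable_of_isPGroup S.isPGroup'
  apply H27.GenSub.le_of_forall_sylow
  intro q hq
  haveI : Fact q.Prime := ⟨hq⟩
  obtain ⟨Q, hQ, hSQ⟩ := H1.Coprime2.exists_invariant_sylow (S : Subgroup P) N hSN hcop
    (Or.inl hsol) q
  refine ⟨Q, hQ, ?_⟩
  rcases H53.PMin.eq_top_or_le hP hM hSM hSQ with h | h
  · have hQn : Q.Normal := normalizer_eq_top_iff.mp h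
    exact (H1.Cores.le_pCore hQn hQ.isPGroup).trans (H1.Cores.pCore_le_fittingSubgroup q)
  · exfalso
    apply hM.1
    obtain ⟨T, hT⟩ := hQ.exists_sylow
    have hfr := Sylow.normalizer_sup_eq_top T
    rw [hT] at hfr
    rw [eq_top_iff, ← hfr]
    exact sup_le h hNM

theorem dvd_card_component (hP : IsPMinimal p P) (hOp : pCore p P = ⊥) {K : Subgroup P}
    (hK : IsComponent K) : p ∣ Nat.card K := by
  by_contra hKp
  obtain ⟨S⟩ : Nonempty (Sylow p P) := inferInstance
  obtain ⟨M, ⟨hM, hSM⟩, -⟩ := (hP S).2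
  have hcop : (Nat.card K).Coprime p := ((Nat.Prime.coprime_iff_not_dvd hp.out).mpr hKp).symm
  set N := pPrimeCore p P with hN
  have hKN : K ≤ N := H26.Subnormal.le_pPrimeCore hK.1 hcop
  have hNc : (Nat.card N).Coprime p := H1.Cores.coprime_card_pPrimeCore p
  have hNp : ¬ p ∣ Nat.card N := (Nat.Prime.coprime_iff_not_dvd hp.out).mp hNc.symm
  have hSN : (S : Subgroup P) ≤ normalizer (N : Set P) := by rw [normalizer_eq_top]; exact le_top
  have hcop : (Nat.card (S : Subgroup P)).Coprime (Nat.card N) :=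
    H27.GenSub.coprime_of_isPGroup S.isPGroup' hNp
  have hsol : Group.IsSolvable (S : Subgroup P) := H27.GenSub.isSolvable_of_isPGroup S.isPGroup'
  have hKF : ¬ K ≤ fittingSubgroup P := by
    intro h
    refine H26.Components.not_isSolvable_of_le hK h ?_
    have := H1.Cores.isNilpotent_fittingSubgroup (G := P)
    infer_instance
  have hNM : N ≤ M := by
    apply H27.GenSub.le_of_forall_sylow
    intro q hq
    haveI : Fact q.Prime := ⟨hq⟩
    obtain ⟨Q, hQ, hSQ⟩ := H1.Coprime2.exists_invariant_sylow (S : Subgroup P) N hSN hcop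
      (Or.inl hsol) q
    refine ⟨Q, hQ, ?_⟩
    have hS' : (S : Subgroup P) ≤ (S : Subgroup P) ⊔ Q := le_sup_left
    rcases H53.PMin.eq_top_or_le hP hM hSM hS' with h | h
    · exfalso
      have hQn : Q.Normal := by
        rw [← normalizer_eq_top_iff, eq_top_iff, ← h]
        exact sup_le hSQ le_normalizer
      have h1 := H53.PMin.pResidual_le_of_sup_eq_top (p := p) S.isPGroup' h
      apply hKF
      refine le_trans ?_ ((H1.Cores.le_pCore hQn hQ.isPGroup).trans
        (H1.Cores.pCore_le_fittingSubgroup q))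
      refine le_trans ?_ h1
      intro x hx
      apply Subgroup.subset_closure
      exact Nat.Coprime.coprime_dvd_left ((orderOf_dvd_natCard (⟨x, hx⟩ : K)) |> fun h => by
        rwa [Subgroup.orderOf_mk] at h) (((Nat.Prime.coprime_iff_not_dvd hp.out).mpr hKp).symm)
    · exact le_sup_right.trans h
  have h1 := hKN.trans (normal_le_normalCore.mpr hNM)
  exact hKF (h1.trans (core_le_fitting hP hOp hM hSM))

/-- the subgroup generated by the `S`-conjugates -/
def SC (S H : Subgroup P) : Subgroup P := ⨆ s : ↥S, H.map (MulAut.conj (s : P)).toMonoidHom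

omit [Finite P] in
theorem le_SC (S H : Subgroup P) : H ≤ SC S H := by
  refine le_trans ?_ (le_iSup (fun s : ↥S => H.map (MulAut.conj (s : P)).toMonoidHom) 1)
  intro x hx
  exact ⟨x, hx, by simp⟩

omit [Finite P] in
theorem le_normalizer_SC (S H : Subgroup P) : S ≤ normalizer (SC S H : Set P) := by
  apply H54.Basic.le_normalizer_of_conj
  intro t ht x hx
  have h1 : (SC S H).map (MulAut.conj t).toMonoidHom ≤ SC S H := by
    rw [SC, (Subgroup.gc_map_comap _).l_iSup]
    apply iSup_le
    intro s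
    refine le_trans ?_ (le_iSup (fun s : ↥S => H.map (MulAut.conj (s : P)).toMonoidHom)
      (⟨t, ht⟩ * s))
    rw [Subgroup.map_map]
    apply le_of_eq
    congr 1
    ext y
    simp [mul_assoc]
  exact h1 ⟨x, hx, rfl⟩

omit [Finite P] in
theorem SC_le {S H L : Subgroup P} (h : ∀ s ∈ S, H.map (MulAut.conj s).toMonoidHom ≤ L) :
    SC S H ≤ L := iSup_le fun s => h s s.2

theorem le_pResidual_of_perfect {H : Subgroup P} (hperf : ⁅H, H⁆ = H) : H ≤ pResidual p P := by
  have h1 : IsPGroup p (P ⧸ pResidual p P) := by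
    intro x
    obtain ⟨g, rfl⟩ := QuotientGroup.mk'_surjective (pResidual p P) x
    obtain ⟨k, hk⟩ := H52.PRes.exists_pow_coprime (p := p) g
    refine ⟨k, ?_⟩
    rw [← map_pow]
    exact (QuotientGroup.eq_one_iff _).mpr (Subgroup.subset_closure hk)
  have h2 : Group.IsNilpotent (P ⧸ pResidual p P) := h1.isNilpotent
  have h3 : Group.IsSolvable (P ⧸ pResidual p P) := inferInstance
  have h4 : H.map (QuotientGroup.mk' (pResidual p P)) = ⊥ := by
    by_contra hne
    have h5 := Group.IsSolvable.commutator_lt_of_ne_bot hne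
    rw [← map_commutator, hperf] at h5
    exact lt_irrefl _ h5
  rwa [Subgroup.map_eq_bot_iff, QuotientGroup.ker_mk'] at h4

theorem pResidual_eq (hP : IsPMinimal p P) (hOp : pCore p P = ⊥) (S : Sylow p P) {K : Subgroup P}
    (hK : IsComponent K) : pResidual p P = layer P ∧ layer P = generalizedFittingSubgroup P ∧
      layer P = SC (S : Subgroup P) K := by
  obtain ⟨M, ⟨hM, hSM⟩, -⟩ := (hP S).2
  have hKF : ¬ K ≤ fittingSubgroup P := by
    intro h
    refine H26.Components.not_isSolvable_of_le hK h ?_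
    have := H1.Cores.isNilpotent_fittingSubgroup (G := P)
    infer_instance
  have hnc : ¬ K ≤ M.normalCore := fun h => hKF (h.trans (core_le_fitting hP hOp hM hSM))
  have hKE : K ≤ layer P := H26.Components.le_layer hK
  have hEn : (layer P).Normal := inferInstance
  have h1 : pResidual p P ≤ layer P := by
    rcases H53.PMin.normal_le_or hP hM hSM hEn with h | h
    · exact h
    · exact absurd (hKE.trans h) hnc
  have hres : ∀ x : P, (orderOf x).Coprime p → x ∈ pResidual p P :=
    fun x hx => Subgroup.subset_closure hx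
  have hSE : (S : Subgroup P) ⊔ layer P = ⊤ := by
    rw [eq_top_iff, ← H53.PMin.sup_pResidual S]
    exact sup_le_sup_left h1 _
  -- SC K
  have hSCn : (SC (S : Subgroup P) K).Normal := by
    rw [← normalizer_eq_top_iff, eq_top_iff, ← hSE]
    refine sup_le (le_normalizer_SC _ _) ?_
    apply H54.Basic.le_normalizer_of_conj
    intro t ht x hx
    have h1 : (SC (S : Subgroup P) K).map (MulAut.conj t).toMonoidHom ≤ SC (S : Subgroup P) K := by
      rw [SC, (Subgroup.gc_map_comap _).l_iSup]
      apply iSup_le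
      intro s
      refine le_trans ?_ (le_iSup (fun s : ↥(S : Subgroup P) => K.map (MulAut.conj (s : P)).toMonoidHom) s)
      have hc := (H26.Components.map_conj_iff (s : P)).mpr hK
      have := H26.Components.layer_le_normalizer hc ht
      exact (H52.Syl.cj_eq_of_mem_normalizer this).le
    exact h1 ⟨x, hx, rfl⟩
  have h2 : pResidual p P ≤ SC (S : Subgroup P) K := by
    rcases H53.PMin.normal_le_or hP hM hSM hSCn with h | h
    · exact h
    · exact absurd ((le_SC _ _).trans h) hnc
  -- E is perfect, P/pResidual is a p-group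
  have h3 : layer P ≤ pResidual p P := by
    have hperf : ⁅layer P, layer P⁆ = layer P := H26.Components.commutator_layer_self
    exact le_pResidual_of_perfect hperf
  have h4 : SC (S : Subgroup P) K ≤ layer P := by
    apply SC_le
    intro s _
    exact H26.Components.le_layer ((H26.Components.map_conj_iff s).mpr hK)
  have h5 : fittingSubgroup P ≤ layer P := by
    refine le_trans ?_ h1
    have h6 := H1.Cores.not_dvd_relIndex_pCore_fittingSubgroup (G := P) p
    rw [hOp, relIndex_bot_left] at h6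
    intro x hx
    apply hres
    exact Nat.Coprime.coprime_dvd_left ((orderOf_dvd_natCard (⟨x, hx⟩ : fittingSubgroup P)) |> fun h => by
        rwa [Subgroup.orderOf_mk] at h) (((Nat.Prime.coprime_iff_not_dvd hp.out).mpr h6).symm)
  refine ⟨le_antisymm h1 h3, ?_, le_antisymm (h3.trans h2) h4⟩
  exact le_antisymm H26.Components.layer_le_gFitting (sup_le le_rfl h5)


theorem main_le (hP : IsPMinimal p P) (hOp : pCore p P = ⊥) (S : Sylow p P) {K : Subgroup P}
    (hK : IsComponent K) {M : Subgroup P} (hM : IsCoatom M) (hSM : (S : Subgroup P) ≤ M)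
    {H : Subgroup P} (hHK : H ≤ K) (hSH : (S : Subgroup P) ⊓ K ≤ H)
    (hTH : (S : Subgroup P) ⊓ normalizer (K : Set P) ≤ normalizer (H : Set P)) (hne : H ≠ K) :
    H ≤ M := by
  obtain ⟨h1, h2, h3⟩ := pResidual_eq hP hOp S hK
  rcases H53.PMin.eq_top_or_le hP hM hSM (K := (S : Subgroup P) ⊔ H) le_sup_left with h | h
  swap
  · exact le_sup_right.trans h
  exfalso
  apply hne
  set C : Subgroup P := layer P ⊓ centralizer (K : Set P) with hC
  set W : Subgroup P := H ⊔ C with hW
  have hEn : (layer P).Normal := inferInstance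
  have hKE : K ≤ layer P := H26.Components.le_layer hK
  have hHn : H ≤ normalizer (C : Set P) := by
    refine H1.Coprime2.le_normalizer_inf (by rw [normalizer_eq_top]; exact le_top) ?_
    exact H1.Coprime2.le_normalizer_centralizer (hHK.trans le_normalizer)
  -- conjugates of H lie in W
  have hYW : SC (S : Subgroup P) H ≤ W := by
    apply SC_le
    intro s hs
    by_cases hsK : K.map (MulAut.conj s).toMonoidHom = K
    · have hsn : s ∈ normalizer (K : Set P) := mem_normalizer_of_cj_eq hsK
      have := cj_eq_of_mem_normalizer (hTH (Subgroup.mem_inf.mpr ⟨hs, hsn⟩))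
      exact this.le.trans le_sup_left
    · have hc := (H26.Components.map_conj_iff s).mpr hK
      have h4 := H26.Components.commutator_eq_bot_of_ne hc hK hsK
      rw [commutator_eq_bot_iff_le_centralizer] at h4
      refine le_trans ?_ (le_sup_right : C ≤ W)
      refine le_inf ?_ ((Subgroup.map_mono hHK).trans h4)
      exact (Subgroup.map_mono hHK).trans (H26.Components.le_layer hc)
  -- layer = K C
  have hEKC : layer P ≤ K ⊔ C := by
    rw [h3]
    apply SC_le
    intro s hs
    by_cases hsK : K.map (MulAut.conj s).toMonoidHom = K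
    · rw [hsK]; exact le_sup_left
    · have hc := (H26.Components.map_conj_iff s).mpr hK
      have h4 := H26.Components.commutator_eq_bot_of_ne hc hK hsK
      rw [commutator_eq_bot_iff_le_centralizer] at h4
      refine le_trans ?_ (le_sup_right : C ≤ K ⊔ C)
      exact le_inf (H26.Components.le_layer hc) h4
  have hSylK : SylIn p ((S : Subgroup P) ⊓ K) K := (sylIn_top S).inf_subnormal hK.1
  -- S ∩ E ≤ W
  have hSE : (S : Subgroup P) ⊓ layer P ≤ W := by
    intro x hx
    have hxE : x ∈ layer P := hx.2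
    have hxS : x ∈ (S : Subgroup P) := hx.1
    have hxK : x ∈ normalizer (K : Set P) := H26.Components.layer_le_normalizer hK hxE
    have h5 : x ∈ ((S : Subgroup P) ⊓ K) ⊔ C := by
      apply mem_sup_centralizer hSylK (C := C) inf_le_right
        (inf_le_inf_right _ hKE) (hEKC hxE)
      · obtain ⟨n, hn⟩ := S.isPGroup' ⟨x, hxS⟩
        exact ⟨n, congrArg Subtype.val hn⟩
      · exact normalizer_inf_le (Subgroup.mem_inf.mpr ⟨le_normalizer hxS, hxK⟩)
    exact (sup_le_sup_right hSH C) h5
  -- K ≤ W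
  have hKW : K ≤ W := by
    intro k hk
    have hk1 : k ∈ (S : Subgroup P) ⊔ SC (S : Subgroup P) H := by
      have : (S : Subgroup P) ⊔ SC (S : Subgroup P) H = ⊤ := by
        rw [eq_top_iff, ← h]
        exact sup_le_sup_left (le_SC _ _) _
      rw [this]; exact mem_top k
    rw [sup_comm] at hk1
    obtain ⟨y, hy, s, hs, rfl⟩ := (H54.Basic.mem_sup_iff (le_normalizer_SC _ _)).mp hk1
    have hyE : y ∈ layer P := by
      have : SC (S : Subgroup P) H ≤ layer P := by
        rw [h3]
        exact SC_le fun s hs => (Subgroup.map_mono hHK).trans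
          (le_iSup (fun s : ↥(S : Subgroup P) => K.map (MulAut.conj (s : P)).toMonoidHom) ⟨s, hs⟩)
      exact this hy
    have hsE : s ∈ layer P := by
      have : s = y⁻¹ * (y * s) := by group
      rw [this]
      exact mul_mem (inv_mem hyE) (hKE hk)
    exact mul_mem (hYW hy) (hSE (Subgroup.mem_inf.mpr ⟨hs, hsE⟩))
  -- K = [K,K] ≤ H
  apply le_antisymm hHK
  have hperf := H26.Components.isPerfect hK
  rw [← hperf, commutator_le]
  intro a ha b hb
  have hdec : ∀ a ∈ K, ∃ h ∈ H, ∃ z ∈ centralizer (K : Set P), z * h = a := by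
    intro a ha
    obtain ⟨z, hz, h, hh, rfl⟩ := (H54.Basic.mem_sup_iff hHn).mp (by rw [sup_comm]; exact hKW ha)
    exact ⟨h, hh, z, hz.2, rfl⟩
  obtain ⟨h, hh, z, hz, rfl⟩ := hdec a ha
  obtain ⟨h', hh', z', hz', rfl⟩ := hdec b hb
  rw [mem_centralizer_iff] at hz hz'
  have e1 := hz h (hHK hh)
  have e2 := hz h' (hHK hh')
  have e3 := hz' h (hHK hh)
  have e4 := hz' h' (hHK hh')
  have hz'K : z' ∈ K := by
    have : z' = (z' * h') * h'⁻¹ := by group
    rw [this]; exact mul_mem hb (inv_mem (hHK hh'))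
  have e5 := hz z' hz'K
  have c1 : Commute z h := e1.symm
  have c2 : Commute z h' := e2.symm
  have c3 : Commute z' h := e3.symm
  have c4 : Commute z' h' := e4.symm
  have c5 : Commute z z' := e5.symm
  have key : z * h * (z' * h') * (z * h)⁻¹ * (z' * h')⁻¹ = h * h' * h⁻¹ * h'⁻¹ := by
    have f1 : z * h * (z' * h') = (z * z') * (h * h') := by
      calc z * h * (z' * h') = z * (h * z') * h' := by group
        _ = z * (z' * h) * h' := by rw [c3.eq]
        _ = _ := by group
    have f2 : (z' * h') * (z * h) = (z * z') * (h' * h) := by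
      calc (z' * h') * (z * h) = z' * (h' * z) * h := by group
        _ = z' * (z * h') * h := by rw [c2.eq]
        _ = (z' * z) * (h' * h) := by group
        _ = _ := by rw [c5.eq]
    have f3 : z * h * (z' * h') * (z * h)⁻¹ * (z' * h')⁻¹ =
        (z * h * (z' * h')) * ((z' * h') * (z * h))⁻¹ := by group
    have c6 : Commute (z * z') (h * h' * (h' * h)⁻¹) := by
      have d1 : Commute z (h * h' * (h' * h)⁻¹) :=
        (c1.mul_right c2).mul_right (c2.mul_right c1).inv_right
      have d2 : Commute z' (h * h' * (h' * h)⁻¹) :=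
        (c3.mul_right c4).mul_right (c4.mul_right c3).inv_right
      exact d1.mul_left d2
    rw [f3, f1, f2, mul_inv_rev, ← mul_assoc, mul_assoc (z * z') (h * h'), c6.eq]
    group
  rw [commutatorElement_def, key]
  exact mul_mem (mul_mem (mul_mem hh hh') (inv_mem hh)) (inv_mem hh')

theorem isPMinimal_sup (hP : IsPMinimal p P) (hOp : pCore p P = ⊥) (S : Sylow p P) {K : Subgroup P}
    (hK : IsComponent K) :
    IsPMinimal p ↥(K ⊔ ((S : Subgroup P) ⊓ normalizer (K : Set P))) := by
  obtain ⟨M, ⟨hM, hSM⟩, -⟩ := (hP S).2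
  obtain ⟨h1, h2, h3⟩ := pResidual_eq hP hOp S hK
  set T : Subgroup P := (S : Subgroup P) ⊓ normalizer (K : Set P) with hT
  set L : Subgroup P := K ⊔ T with hL
  have hTn : T ≤ normalizer (K : Set P) := inf_le_right
  have hTS : T ≤ (S : Subgroup P) := inf_le_left
  have hTL : T ≤ L := le_sup_right
  have hKL : K ≤ L := le_sup_left
  have hSK : (S : Subgroup P) ⊓ K ≤ T := inf_le_inf_left _ le_normalizer
  have hSylK : SylIn p ((S : Subgroup P) ⊓ K) K := (sylIn_top S).inf_subnormal hK.1
  have hLn : L ≤ normalizer (K : Set P) := sup_le le_normalizer hTn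
  -- T is Sylow in L
  have hTSyl : SylIn p T L := by
    obtain ⟨T', hT', hTT'⟩ := exists_sylIn_le hTL (S.isPGroup'.to_le hTS)
    -- T' = (T' ∩ K) T
    have h4 : T' ≤ T := by
      intro x hx
      have hxL := hT'.le hx
      obtain ⟨k, hk, t, ht, rfl⟩ := (H54.Basic.mem_sup_iff hTn).mp hxL
      have hkT' : k ∈ T' := by
        have : k = (k * t) * t⁻¹ := by group
        rw [this]; exact mul_mem hx (inv_mem (hTT' ht))
      have h5 : (S : Subgroup P) ⊓ K ≤ T' ⊓ K := le_inf (hSK.trans hTT') inf_le_right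
      have h6 := hSylK.max (Q := T' ⊓ K) inf_le_right (hT'.isPGroup.to_le inf_le_left) h5
      have h7 : k ∈ (S : Subgroup P) ⊓ K := by rw [← h6]; exact Subgroup.mem_inf.mpr ⟨hkT', hk⟩
      exact mul_mem (hSK h7) ht
    rwa [le_antisymm hTT' h4]
  obtain ⟨TT, hTT⟩ := hTSyl.subgroupOf
  apply H51.PMinimal.isPMinimal_of_one TT
  rw [hTT]
  have hKM : ¬ K ≤ M := by
    intro h
    apply H53.PMin.not_pResidual_le (p := p) hM hSM
    rw [h1, h3]
    apply SC_le
    intro s hs
    rintro _ ⟨x, hx, rfl⟩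
    exact M.mul_mem (M.mul_mem (hSM hs) (h hx)) (M.inv_mem (hSM hs))
  have hMT : T ⊔ (M ⊓ K) ≤ L := sup_le hTL (inf_le_right.trans hKL)
  have hTMn : T ≤ normalizer ((M ⊓ K : Subgroup P) : Set P) :=
    H1.Coprime2.le_normalizer_inf ((hTS.trans hSM).trans le_normalizer) hTn
  have key : ∀ H : Subgroup P, T ≤ H → H ≤ L → H ≠ L → H ≤ T ⊔ (M ⊓ K) := by
    intro H hTH hHL hne
    have h4 : H ⊓ K ≤ M := by
      apply main_le hP hOp S hK hM hSM (H := H ⊓ K) inf_le_right
      · exact le_inf (hSK.trans hTH) inf_le_right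
      · exact H1.Coprime2.le_normalizer_inf (hTH.trans le_normalizer) hTn
      · intro h
        apply hne
        apply le_antisymm hHL
        exact sup_le (by rw [← h]; exact inf_le_left) hTH
    intro x hx
    obtain ⟨k, hk, t, ht, rfl⟩ := (H54.Basic.mem_sup_iff hTn).mp (hHL hx)
    have hkH : k ∈ H := by
      have : k = (k * t) * t⁻¹ := by group
      rw [this]; exact mul_mem hx (inv_mem (hTH ht))
    exact mul_mem (mem_sup_right (Subgroup.mem_inf.mpr
      ⟨h4 (Subgroup.mem_inf.mpr ⟨hkH, hk⟩), hk⟩)) (mem_sup_left ht)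
  have hMTne : T ⊔ (M ⊓ K) ≠ L := by
    intro h
    apply hKM
    refine (hKL.trans h.ge).trans (sup_le (hTS.trans hSM) inf_le_left)
  refine ⟨?_, (T ⊔ (M ⊓ K)).subgroupOf L, ⟨⟨?_, ?_⟩, ?_⟩, ?_⟩
  · -- T not normal in L
    intro hn
    have h4 : L ≤ normalizer (T : Set P) := by
      rwa [normal_subgroupOf_iff_le_normalizer hTL] at hn
    have h5 : K ≤ normalizer ((T ⊓ K : Subgroup P) : Set P) :=
      H1.Coprime2.le_normalizer_inf (hKL.trans h4) le_normalizer
    have h6 : T ⊓ K = (S : Subgroup P) ⊓ K := by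
      apply le_antisymm (inf_le_inf_right _ hTS)
      exact le_inf hSK inf_le_right
    rw [h6] at h5
    have h7 : ((S : Subgroup P) ⊓ K).IsSubnormal :=
      H26.Subnormal.of_normal_subgroupOf hK.1 inf_le_right
        (by rwa [normal_subgroupOf_iff_le_normalizer inf_le_right])
    have h8 := H26.Subnormal.le_pCore h7 (S.isPGroup'.to_le inf_le_left)
    rw [hOp, le_bot_iff] at h8
    have h9 := hSylK.relIndex
    rw [h8, relIndex_bot_left] at h9
    exact h9 (dvd_card_component hP hOp hK)
  · rw [Ne, subgroupOf_eq_top]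
    intro h
    exact hMTne (le_antisymm hMT h)
  · intro V hV
    rw [eq_top_iff]
    by_contra hne
    have h4 : V.map L.subtype ≤ T ⊔ (M ⊓ K) := by
      apply key
      · refine le_trans ?_ (Subgroup.map_mono hV.le)
        rw [subgroupOf_map_subtype, inf_eq_left.mpr hMT]
        exact le_sup_left
      · exact map_subtype_le _
      · intro h
        apply hne
        intro x _
        have : (x : P) ∈ V.map L.subtype := by rw [h]; exact x.2
        obtain ⟨y, hy, hyx⟩ := this
        have : y = x := Subtype.ext hyx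
        rwa [← this]
    apply hV.not_ge
    intro x hx
    exact h4 ⟨x, hx, rfl⟩
  · intro x hx
    exact (le_sup_left : T ≤ T ⊔ (M ⊓ K)) hx
  · rintro V ⟨hV, hTV⟩
    have h4 : V.map L.subtype ≤ T ⊔ (M ⊓ K) := by
      apply key
      · intro t ht
        exact ⟨⟨t, hTL ht⟩, hTV ht, rfl⟩
      · exact map_subtype_le _
      · intro h
        apply hV.1
        rw [eq_top_iff]
        intro x _
        have : (x : P) ∈ V.map L.subtype := by rw [h]; exact x.2
        obtain ⟨y, hy, hyx⟩ := this
        have : y = x := Subtype.ext hyx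
        rwa [← this]
    have h5 : V ≤ (T ⊔ (M ⊓ K)).subgroupOf L := fun x hx => h4 ⟨x, hx, rfl⟩
    by_contra hne
    have h6 := hV.2 _ (lt_of_le_of_ne h5 hne)
    rw [subgroupOf_eq_top] at h6
    exact hMTne (le_antisymm hMT h6)

end pmin

end H54.PMinComp
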