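import Mathlib

/-! `(Sym(3) × Sym(5))⁺` and elementary facts on it (helper54). -/

set_option autoImplicit false
set_option maxRecDepth 100000

namespace H54.QA

open Equiv Subgroup

abbrev KK : Subgroup (Equiv.Perm (Fin 3) × Equiv.Perm (Fin 5)) :=
  (((Equiv.Perm.sign).comp (MonoidHom.fst (Equiv.Perm (Fin 3)) (Equiv.Perm (Fin 5)))) *
        ((Equiv.Perm.sign).comp (MonoidHom.snd (Equiv.Perm (Fin 3)) (Equiv.Perm (Fin 5))))).ker

theorem mem_KK (a : Perm (Fin 3)) (b : Perm (Fin 5)) : (a, b) ∈ KK ↔ Perm.sign a * Perm.sign b = 1 := Iff.rfl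

def c3 : Perm (Fin 3) := swap 0 1 * swap 1 2
def s3 : Perm (Fin 3) := swap 0 1
def d5 : Perm (Fin 5) := swap 1 2 * swap 2 3
def e5 : Perm (Fin 5) := swap 2 3 * swap 3 4

def cc : KK := ⟨(c3, 1), by rw [mem_KK]; decide⟩
def dd : KK := ⟨(1, d5), by rw [mem_KK]; decide⟩
def ee : KK := ⟨(1, e5), by rw [mem_KK]; decide⟩
/-- `V = Alt₄`-four-group on the labels `1,2,3,4`. -/
def a1 : KK := ⟨(1, swap 1 2 * swap 3 4), by rw [mem_KK]; decide⟩
def a2 : KK := ⟨(1, swap 1 3 * swap 2 4), by rw [mem_KK]; decide⟩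
def a3 : KK := ⟨(1, swap 1 4 * swap 2 3), by rw [mem_KK]; decide⟩
/-- `δ₁`: centralises `cc`, inverts `dd`. -/
def d1 : KK := ⟨(1, swap 0 4 * swap 1 2), by rw [mem_KK]; decide⟩
/-- `δ₂`: inverts `cc`, centralises `dd`. -/
def d2 : KK := ⟨(s3, swap 0 4), by rw [mem_KK]; decide⟩
def t0 : KK := ⟨(s3, swap 0 1), by rw [mem_KK]; decide⟩
def t1 : KK := ⟨(s3, swap 1 2), by rw [mem_KK]; decide⟩
def t2 : KK := ⟨(s3, swap 2 3), by rw [mem_KK]; decide⟩
def t3 : KK := ⟨(s3, swap 3 4), by rw [mem_KK]; decide⟩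

theorem kext {x y : KK} (h : (x : Perm (Fin 3) × Perm (Fin 5)) = y) : x = y := Subtype.ext h

theorem cc3 : cc ^ 3 = 1 := kext (by decide +kernel)
theorem dd3 : dd ^ 3 = 1 := kext (by decide +kernel)
theorem ee3 : ee ^ 3 = 1 := kext (by decide +kernel)
theorem cc_ne : cc ≠ 1 := fun h => absurd (congrArg (Subtype.val) h) (by decide +kernel)
theorem dd_ne : dd ≠ 1 := fun h => absurd (congrArg (Subtype.val) h) (by decide +kernel)
theorem cc_dd : cc * dd = dd * cc := kext (by decide +kernel)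
theorem d1_cc : d1 * cc = cc * d1 := kext (by decide +kernel)
theorem d1_dd : d1 * dd * d1⁻¹ = dd⁻¹ := kext (by decide +kernel)
theorem d2_cc : d2 * cc * d2⁻¹ = cc⁻¹ := kext (by decide +kernel)
theorem d2_dd : d2 * dd = dd * d2 := kext (by decide +kernel)

/-- commuting with `cc`. -/
theorem k_cc : ∀ (a : Perm (Fin 3)) (b : Perm (Fin 5)), Perm.sign a * Perm.sign b = 1 → a * c3 = c3 * a →
    (a = 1 ∨ a = c3 ∨ a = c3⁻¹) ∧ Perm.sign b = 1 := by
  have h1 : ∀ (a : Perm (Fin 3)), a * c3 = c3 * a → (a = 1 ∨ a = c3 ∨ a = c3⁻¹) ∧ Perm.sign a = 1 := by decide +kernel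
  intro a b h h2
  obtain ⟨h3, h4⟩ := h1 a h2
  rw [h4, one_mul] at h
  exact ⟨h3, h⟩

theorem b_dd : ∀ (b : Perm (Fin 5)), Perm.sign b = 1 → b * d5 = d5 * b → b = 1 ∨ b = d5 ∨ b = d5⁻¹ := by
  decide +kernel

theorem b_inv : ∀ (b : Perm (Fin 5)), Perm.sign b = 1 → b * b = 1 → b ≠ 1 →
    ∃ c : Perm (Fin 5), Perm.sign c = 1 ∧ c * b * c⁻¹ = swap 1 2 * swap 3 4 := by decide +kernel

/-- the centraliser of `cc` and `a1` has `12` elements. -/
def Cu : Subgroup KK := centralizer {cc, a1}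

theorem mem_Cu (k : KK) : k ∈ Cu ↔ (k : Perm (Fin 3) × Perm (Fin 5)) * cc = cc * k ∧
    (k : Perm (Fin 3) × Perm (Fin 5)) * a1 = a1 * k := by
  rw [Cu, mem_centralizer_iff]
  constructor
  · intro h
    exact ⟨(congrArg Subtype.val (h cc (by simp))).symm, (congrArg Subtype.val (h a1 (by simp))).symm⟩
  · rintro ⟨h1, h2⟩ x hx
    rcases hx with rfl | rfl
    · exact (kext h1).symm
    · exact (kext h2).symm

instance : DecidablePred (· ∈ Cu) := fun p => decidable_of_iff _ (mem_Cu p).symm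

theorem card_Cu : Nat.card Cu = 12 := by
  rw [Nat.card_eq_fintype_card]; decide +kernel

end H54.QA
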