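import Mathlib
import Cfsg.Agent.Lib.H54.QA1
import Cfsg.Agent.Lib.H54.PA7

/-! The set-up for the 3-local characterization of `Alt(8)` (helper54). -/

set_option autoImplicit false
set_option linter.unusedSectionVars false
set_option linter.style.haveILetI false

namespace H54.QA

open Equiv Subgroup
open scoped Pointwise

section Gen

variable {G : Type*} [Group G] [Finite G]

theorem exSyl {p : ℕ} [Fact p.Prime] (H E : Subgroup G) (hE : E ≤ H) (hEp : IsPGroup p E) :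
    ∃ P : Subgroup G, E ≤ P ∧ P ≤ H ∧ IsPGroup p P ∧ ¬ p ∣ P.relIndex H := by
  obtain ⟨R, hR⟩ := (hEp.comap_subtype (K := H)).exists_le_sylow
  refine ⟨(R : Subgroup H).map H.subtype, ?_, ?_, ?_, ?_⟩
  · intro x hx
    exact ⟨⟨x, hE hx⟩, hR hx, rfl⟩
  · rintro _ ⟨y, _, rfl⟩; exact y.2
  · exact R.2.map _
  · have h1 : ((R : Subgroup H).map H.subtype).subgroupOf H = R := by
      rw [← comap_subtype, comap_map_eq_self_of_injective H.subtype_injective]
    rw [relIndex, h1]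
    exact R.not_dvd_index

theorem conjP {p : ℕ} [Fact p.Prime] (H Q : Subgroup G) (hQH : Q ≤ H) (hQp : IsPGroup p Q)
    (hidx : ¬ p ∣ Q.relIndex H) {E : Subgroup G} (hE : E ≤ H) (hEp : IsPGroup p E) :
    ∃ h ∈ H, ∀ x ∈ E, h * x * h⁻¹ ∈ Q := by
  set P : Sylow p H := IsPGroup.toSylow (hQp.comap_subtype (K := H)) hidx with hP
  obtain ⟨R, hR⟩ := (hEp.comap_subtype (K := H)).exists_le_sylow
  obtain ⟨s, hs⟩ := MulAction.exists_smul_eq H R P
  have h5 : MulAut.conj s • (R : Subgroup H) = (P : Subgroup H) :=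
    congrArg (fun Q : Sylow p H => (Q : Subgroup H)) hs
  refine ⟨s, s.2, fun x hx => ?_⟩
  have h7 : (⟨x, hE hx⟩ : H) ∈ (R : Subgroup H) := hR hx
  have h8 := Subgroup.smul_mem_pointwise_smul _ (MulAut.conj s) _ h7
  rw [h5] at h8
  exact h8

theorem comm_norm {x g : G} (h : g * x = x * g) : g ∈ normalizer (zpowers x : Set G) := by
  apply centralizer_le_normalizer
  rw [mem_centralizer_iff]
  intro y hy
  obtain ⟨k, rfl⟩ := mem_zpowers_iff.1 hy
  exact ((show Commute g x from h).zpow_right k).eq.symm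

theorem inv_norm {x g : G} (h : g * x * g⁻¹ ∈ zpowers x) : g ∈ normalizer (zpowers x : Set G) := by
  apply mem_normalizer_fintype
  intro y hy
  obtain ⟨k, rfl⟩ := mem_zpowers_iff.1 hy
  rw [← conj_zpow]
  exact zpow_mem h k

theorem zp3 {x y : G} (hx3 : x ^ 3 = 1) (hy : y ∈ zpowers x) : y = 1 ∨ y = x ∨ y = x⁻¹ := by
  obtain ⟨n, rfl⟩ := mem_zpowers_iff.1 hy
  obtain ⟨k, hk⟩ : ∃ k : ℤ, n = 3 * k + n % 3 := ⟨n / 3, by omega⟩
  have h1 : x ^ n = x ^ (n % 3) := by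
    conv_lhs => rw [hk]
    rw [zpow_add, zpow_mul]
    have : x ^ (3 : ℤ) = 1 := by exact_mod_cast hx3
    rw [this]; simp
  rw [h1]
  have h5 : n % 3 = 0 ∨ n % 3 = 1 ∨ n % 3 = 2 := by omega
  rcases h5 with h5 | h5 | h5
  · left; rw [h5]; simp
  · right; left; rw [h5]; simp
  · right; right
    rw [h5, eq_inv_iff_mul_eq_one]
    have : x ^ (2 : ℤ) * x = x ^ 3 := by rw [zpow_ofNat]; group
    rw [this, hx3]

theorem ord3 {x : G} (hx3 : x ^ 3 = 1) (hx1 : x ≠ 1) : orderOf x = 3 := orderOf_eq_prime hx3 hx1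

end Gen

/-- the set-up. -/
structure Dat {G : Type*} [Group G] (ψ : KK →* G) (n : G) : Prop where
  inj : Function.Injective ψ
  range : ∀ g, g ∈ normalizer (zpowers (ψ cc) : Set G) → ∃ k, ψ k = g
  sw1 : n * ψ cc * n⁻¹ = ψ dd
  sw2 : n * ψ dd * n⁻¹ = ψ cc
  cy : Nat.card (centralizer ({ψ cc * ψ dd} : Set G)) = 18
  c27 : ¬ 27 ∣ Nat.card G

variable {G : Type*} [Group G] [Finite G] {ψ : KK →* G} {n : G}

/-- the element `(1, b)`. -/
def bb (b : Perm (Fin 5)) (hb : Perm.sign b = 1) : KK := ⟨(1, b), by rw [mem_KK, hb]; simp⟩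

theorem kcc {k : KK} (hk : k * cc = cc * k) : ∃ (b : Perm (Fin 5)) (hb : Perm.sign b = 1),
    (k = bb b hb ∨ k = cc * bb b hb ∨ k = cc⁻¹ * bb b hb) := by
  obtain ⟨⟨a, b⟩, hab⟩ := k
  have h1 : a * c3 = c3 * a := congrArg Prod.fst (congrArg Subtype.val hk)
  obtain ⟨h2, h3⟩ := k_cc a b hab h1
  refine ⟨b, h3, ?_⟩
  rcases h2 with rfl | rfl | rfl
  · left; rfl
  · right; left; apply kext; change (c3, b) = (c3, 1) * (1, b); simp
  · right; right; apply kext; change (c3⁻¹, b) = (c3, 1)⁻¹ * (1, b); simp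

theorem cc_bb (b : Perm (Fin 5)) (hb : Perm.sign b = 1) : cc * bb b hb = bb b hb * cc := by
  apply kext; change (c3, 1) * (1, b) = (1, b) * (c3, 1); simp

theorem Dat.c1 (h : Dat ψ n) {g : G} (hg : g * ψ cc = ψ cc * g) : ∃ k, ψ k = g ∧ k * cc = cc * k := by
  obtain ⟨k, rfl⟩ := h.range g (comm_norm hg)
  refine ⟨k, rfl, h.inj ?_⟩
  rw [map_mul, map_mul]; exact hg

theorem Dat.conj_c1 (h : Dat ψ n) {g : G} (hg : g * ψ dd = ψ dd * g) :
    ∃ k, g = n * ψ k * n⁻¹ ∧ k * cc = cc * k := by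
  have h1 : (n⁻¹ * g * n) * ψ cc = ψ cc * (n⁻¹ * g * n) := by
    have h2 : ψ cc = n⁻¹ * ψ dd * n := by rw [← h.sw1]; group
    rw [h2]
    calc n⁻¹ * g * n * (n⁻¹ * ψ dd * n) = n⁻¹ * (g * ψ dd) * n := by group
      _ = n⁻¹ * (ψ dd * g) * n := by rw [hg]
      _ = _ := by group
  obtain ⟨k, hk, hk2⟩ := h.c1 h1
  exact ⟨k, by rw [hk]; group, hk2⟩

theorem Dat.z3 (h : Dat ψ n) : ψ cc ^ 3 = 1 := by rw [← map_pow, cc3, map_one]
theorem Dat.zne (h : Dat ψ n) : ψ cc ≠ 1 := fun h1 => cc_ne (h.inj (by rw [h1, map_one]))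
theorem Dat.w3 (h : Dat ψ n) : ψ dd ^ 3 = 1 := by rw [← map_pow, dd3, map_one]
theorem Dat.wne (h : Dat ψ n) : ψ dd ≠ 1 := fun h1 => dd_ne (h.inj (by rw [h1, map_one]))
theorem Dat.zw (h : Dat ψ n) : ψ cc * ψ dd = ψ dd * ψ cc := by rw [← map_mul, ← map_mul, cc_dd]

theorem Dat.cD (h : Dat ψ n) {g : G} (hg : g * ψ cc = ψ cc * g) (hg2 : g * ψ dd = ψ dd * g) : g ^ 3 = 1 := by
  obtain ⟨k, rfl, hk⟩ := h.c1 hg
  have hk2 : k * dd = dd * k := h.inj (by rw [map_mul, map_mul]; exact hg2)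
  obtain ⟨b, hb, hb2⟩ := kcc hk
  have hbd : b * d5 = d5 * b := by
    have h1 : (k : Perm (Fin 3) × Perm (Fin 5)).2 = b := by
      rcases hb2 with rfl | rfl | rfl
      · rfl
      · exact one_mul _
      · change (1 : Perm (Fin 5))⁻¹ * b = b; simp
    have h2 := congrArg (fun x : KK => (x : Perm (Fin 3) × Perm (Fin 5)).2) hk2
    change (k : Perm (Fin 3) × Perm (Fin 5)).2 * d5 = d5 * (k : Perm (Fin 3) × Perm (Fin 5)).2 at h2
    rw [h1] at h2; exact h2
  have hb3 : bb b hb ^ 3 = 1 := by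
    apply kext
    change ((1 : Perm (Fin 3)) ^ 3, b ^ 3) = 1
    have hd : d5 ^ 3 = 1 := by decide +kernel
    rcases b_dd b hb hbd with rfl | rfl | rfl
    · simp
    · rw [hd]; simp
    · rw [inv_pow, hd]; simp
  rw [← map_pow]
  have hc := cc_bb b hb
  have h4 : k ^ 3 = 1 := by
    rcases hb2 with rfl | rfl | rfl
    · exact hb3
    · rw [(show Commute cc (bb b hb) from hc).mul_pow, cc3, hb3, one_mul]
    · rw [((show Commute cc (bb b hb) from hc).inv_left).mul_pow, inv_pow, cc3, hb3]; simp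
  rw [h4, map_one]

/-- involutions commuting with `ψ cc`. -/
theorem Dat.u1 (h : Dat ψ n) {t : G} (ht2 : t * t = 1) (ht : t * ψ cc = ψ cc * t) :
    ∃ (b : Perm (Fin 5)) (hb : Perm.sign b = 1), t = ψ (bb b hb) ∧ b * b = 1 := by
  obtain ⟨k, rfl, hk⟩ := h.c1 ht
  have hkk : k * k = 1 := h.inj (by rw [map_mul, map_one]; exact ht2)
  obtain ⟨b, hb, hb2⟩ := kcc hk
  have h0 := congrArg (fun x : KK => (x : Perm (Fin 3) × Perm (Fin 5))) hkk
  have h3 : c3 * c3 ≠ 1 := by decide +kernel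
  have h4 : c3⁻¹ * c3⁻¹ ≠ 1 := by decide +kernel
  rcases hb2 with rfl | rfl | rfl
  · refine ⟨b, hb, rfl, ?_⟩
    exact congrArg Prod.snd h0
  · exfalso
    apply h3
    have h5 := congrArg Prod.fst h0
    change (c3 * 1) * (c3 * 1) = 1 at h5
    simpa using h5
  · exfalso
    apply h4
    have h5 := congrArg Prod.fst h0
    change (c3⁻¹ * 1) * (c3⁻¹ * 1) = 1 at h5
    simpa using h5

theorem Dat.u1c (h : Dat ψ n) {t : G} (ht2 : t * t = 1) (ht1 : t ≠ 1) (ht : t * ψ cc = ψ cc * t) :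
    ∃ g, g * t * g⁻¹ = ψ a1 := by
  obtain ⟨b, hb, rfl, hbb⟩ := h.u1 ht2 ht
  have hb1 : b ≠ 1 := by
    rintro rfl
    apply ht1
    have : bb 1 hb = 1 := rfl
    rw [this, map_one]
  obtain ⟨c, hc, hc2⟩ := b_inv b hb hbb hb1
  refine ⟨ψ (bb c hc), ?_⟩
  rw [← map_inv, ← map_mul, ← map_mul]
  congr 1
  apply kext
  change ((1 : Perm (Fin 3)) * 1 * 1⁻¹, c * b * c⁻¹) = (1, swap 1 2 * swap 3 4)
  rw [hc2]; simp

/-- an involution commuting with a conjugate of `ψ cc` is conjugate to `ψ a1`. -/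
theorem Dat.u1d (h : Dat ψ n) {t x g : G} (ht2 : t * t = 1) (ht1 : t ≠ 1) (hx : x = g * ψ cc * g⁻¹) (ht : t * x = x * t) :
    ∃ g, g * t * g⁻¹ = ψ a1 := by
  have h1 : (g⁻¹ * t * g) * (g⁻¹ * t * g) = 1 := by
    calc (g⁻¹ * t * g) * (g⁻¹ * t * g) = g⁻¹ * (t * t) * g := by group
      _ = 1 := by rw [ht2]; group
  have h2 : g⁻¹ * t * g ≠ 1 := by
    intro h3; apply ht1
    calc t = g * (g⁻¹ * t * g) * g⁻¹ := by group
      _ = 1 := by rw [h3]; group
  have h3 : (g⁻¹ * t * g) * ψ cc = ψ cc * (g⁻¹ * t * g) := by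
    rw [hx] at ht
    calc (g⁻¹ * t * g) * ψ cc = g⁻¹ * (t * (g * ψ cc * g⁻¹)) * g := by group
      _ = g⁻¹ * ((g * ψ cc * g⁻¹) * t) * g := by rw [ht]
      _ = _ := by group
  obtain ⟨g', hg'⟩ := h.u1c h1 h2 h3
  refine ⟨g' * g⁻¹, ?_⟩
  rw [← hg']; group

theorem a1_cc : a1 * cc = cc * a1 := kext (by decide +kernel)

theorem map_Cu (h : Dat ψ n) : centralizer ({ψ cc} : Set G) ⊓ centralizer ({ψ a1} : Set G) = Cu.map ψ := by
  ext g
  rw [mem_inf, mem_centralizer_singleton_iff, mem_centralizer_singleton_iff]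
  constructor
  · rintro ⟨h1, h2⟩
    obtain ⟨k, rfl, hk⟩ := h.c1 h1
    refine ⟨k, ?_, rfl⟩
    change k ∈ Cu
    rw [mem_Cu]
    exact ⟨congrArg Subtype.val hk, congrArg Subtype.val (show k * a1 = a1 * k from h.inj (by rw [map_mul, map_mul]; exact h2))⟩
  · rintro ⟨k, hk, rfl⟩
    have hk' := (mem_Cu k).1 hk
    constructor
    · rw [← map_mul, ← map_mul]; exact congrArg ψ (kext hk'.1)
    · rw [← map_mul, ← map_mul]; exact congrArg ψ (kext hk'.2)

theorem card_map_Cu (h : Dat ψ n) : Nat.card (Cu.map ψ) = 12 := by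
  rw [← card_Cu]
  exact (Nat.card_congr (Cu.equivMapOfInjective ψ h.inj).toEquiv).symm

theorem Dat.u2 (h : Dat ψ n) : ¬ 3 ∣ (zpowers (ψ cc)).relIndex (centralizer ({ψ a1} : Set G)) ∧
    zpowers (ψ cc) ≤ centralizer ({ψ a1} : Set G) := by
  haveI : Fact (Nat.Prime 3) := ⟨Nat.prime_three⟩
  have h0 : zpowers (ψ cc) ≤ centralizer ({ψ a1} : Set G) := by
    rw [zpowers_le, mem_centralizer_singleton_iff, ← map_mul, ← map_mul, a1_cc]
  refine ⟨?_, h0⟩
  have hz : Nat.card (zpowers (ψ cc)) = 3 := by rw [Nat.card_zpowers, ord3 h.z3 h.zne]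
  have hzp : IsPGroup 3 (zpowers (ψ cc)) := IsPGroup.of_card (n := 1) (by rw [hz]; norm_num)
  obtain ⟨P, h1, h2, h3, h4⟩ := exSyl (p := 3) _ _ h0 hzp
  have hP : P = zpowers (ψ cc) := by
    obtain ⟨k, hk⟩ := IsPGroup.iff_card.1 h3
    have hk2 : k ≤ 2 := by
      by_contra hc
      apply h.c27
      calc 27 = 3 ^ 3 := by norm_num
        _ ∣ 3 ^ k := pow_dvd_pow 3 (by omega)
        _ = Nat.card P := hk.symm
        _ ∣ Nat.card G := card_subgroup_dvd_card P
    have hk0 : k ≠ 0 := by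
      rintro rfl
      have := card_le_of_le h1
      rw [hk, hz] at this; norm_num at this
    have hk1 : k ≠ 2 := by
      rintro rfl
      have hcomm := IsPGroup.isMulCommutative_of_card_eq_prime_sq (p := 3) hk
      have h5 : P ≤ Cu.map ψ := by
        rw [← map_Cu h]
        refine le_inf ?_ h2
        intro x hx
        rw [mem_centralizer_singleton_iff]
        have := hcomm.1.1 ⟨x, hx⟩ ⟨ψ cc, h1 (mem_zpowers _)⟩
        exact congrArg Subtype.val this
      have h6 := card_dvd_of_le h5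
      rw [hk, card_map_Cu h] at h6
      norm_num at h6
    have : k = 1 := by omega
    subst this
    symm
    apply eq_of_le_of_card_ge h1
    rw [hk, hz]
    norm_num
  rw [← hP]; exact h4

/-- no involution conjugate to `ψ a1` commutes with `ψ cc * ψ dd`. -/
theorem Dat.u3 (h : Dat ψ n) {t g : G} (hg : g * t * g⁻¹ = ψ a1) (ht : t * (ψ cc * ψ dd) = (ψ cc * ψ dd) * t) : False := by
  haveI : Fact (Nat.Prime 3) := ⟨Nat.prime_three⟩
  obtain ⟨y, hy⟩ : ∃ y, y = g * (ψ cc * ψ dd) * g⁻¹ := ⟨_, rfl⟩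
  have hy3 : y ^ 3 = 1 := by
    rw [hy, conj_pow, (show Commute (ψ cc) (ψ dd) from h.zw).mul_pow, h.z3, h.w3]; simp
  have hy1 : y ≠ 1 := by
    intro h1
    rw [hy] at h1
    have h2 : ψ cc * ψ dd = 1 := by
      calc ψ cc * ψ dd = g⁻¹ * (g * (ψ cc * ψ dd) * g⁻¹) * g := by group
        _ = 1 := by rw [h1]; group
    rw [← map_mul] at h2
    have h3 : cc * dd = 1 := h.inj (by rw [h2, map_one])
    exact absurd (congrArg Subtype.val h3) (by decide +kernel)
  have hyX : y ∈ centralizer ({ψ a1} : Set G) := by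
    rw [mem_centralizer_singleton_iff, ← hg, hy]
    calc g * (ψ cc * ψ dd) * g⁻¹ * (g * t * g⁻¹) = g * ((ψ cc * ψ dd) * t) * g⁻¹ := by group
      _ = g * (t * (ψ cc * ψ dd)) * g⁻¹ := by rw [ht]
      _ = _ := by group
  have hz : Nat.card (zpowers (ψ cc)) = 3 := by rw [Nat.card_zpowers, ord3 h.z3 h.zne]
  have hzp : IsPGroup 3 (zpowers (ψ cc)) := IsPGroup.of_card (n := 1) (by rw [hz]; norm_num)
  have hyp : IsPGroup 3 (zpowers y) := IsPGroup.of_card (n := 1) (by rw [Nat.card_zpowers, ord3 hy3 hy1]; norm_num)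
  obtain ⟨x, _, hx2⟩ := conjP (p := 3) _ _ h.u2.2 hzp h.u2.1 (E := zpowers y) (zpowers_le.2 hyX) hyp
  have h5 : x * y * x⁻¹ ∈ zpowers (ψ cc) := hx2 y (mem_zpowers y)
  have h6 : x * y * x⁻¹ ≠ 1 := by
    intro h7; apply hy1
    calc y = x⁻¹ * (x * y * x⁻¹) * x := by group
      _ = 1 := by rw [h7]; group
  have hc : ∀ (a b c : G), c * a * c⁻¹ = b → Nat.card (centralizer ({a} : Set G)) = Nat.card (centralizer ({b} : Set G)) := by
    intro a b c hb
    have he : centralizer ({b} : Set G) = (centralizer ({a} : Set G)).map (MulAut.conj c).toMonoidHom := by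
      ext q
      rw [mem_centralizer_singleton_iff, Subgroup.mem_map]
      constructor
      · intro hq
        refine ⟨c⁻¹ * q * c, ?_, ?_⟩
        · rw [mem_centralizer_singleton_iff]
          rw [← hb] at hq
          calc c⁻¹ * q * c * a = c⁻¹ * (q * (c * a * c⁻¹)) * c := by group
            _ = c⁻¹ * ((c * a * c⁻¹) * q) * c := by rw [hq]
            _ = _ := by group
        · change c * (c⁻¹ * q * c) * c⁻¹ = q; group
      · rintro ⟨r, hr, rfl⟩
        rw [mem_centralizer_singleton_iff] at hr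
        change c * r * c⁻¹ * b = b * (c * r * c⁻¹)
        rw [← hb]
        calc c * r * c⁻¹ * (c * a * c⁻¹) = c * (r * a) * c⁻¹ := by group
          _ = c * (a * r) * c⁻¹ := by rw [hr]
          _ = _ := by group
    rw [he]
    exact Nat.card_congr ((centralizer ({a} : Set G)).equivMapOfInjective _ (MulAut.conj c).injective).toEquiv
  have hxy : x * g * (ψ cc * ψ dd) * (x * g)⁻¹ = x * y * x⁻¹ := by rw [hy]; group
  have h8 : Nat.card (centralizer ({ψ cc} : Set G)) = 18 := by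
    rcases zp3 h.z3 h5 with h7 | h7 | h7
    · exact absurd h7 h6
    · rw [← h.cy]
      exact (hc (ψ cc * ψ dd) (ψ cc) (x * g) (hxy.trans h7)).symm
    · rw [← h.cy]
      have h9 : centralizer ({ψ cc} : Set G) = centralizer ({(ψ cc)⁻¹} : Set G) := by
        ext q
        rw [mem_centralizer_singleton_iff, mem_centralizer_singleton_iff]
        exact ⟨fun h1 => ((show Commute q (ψ cc) from h1).inv_right).eq,
          fun h1 => by have := ((show Commute q (ψ cc)⁻¹ from h1).inv_right).eq; rwa [inv_inv] at this⟩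
      rw [h9]
      exact (hc (ψ cc * ψ dd) (ψ cc)⁻¹ (x * g) (hxy.trans h7)).symm
  have h9 : Cu.map ψ ≤ centralizer ({ψ cc} : Set G) := by rw [← map_Cu h]; exact inf_le_left
  have h10 := card_dvd_of_le h9
  rw [card_map_Cu h, h8] at h10
  norm_num at h10

end H54.QA
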