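import Mathlib
import Cfsg.Agent.Lib.H54.QA2
import Cfsg.Agent.Lib.H2.GenCent

/-! 3-local characterization of `Alt(8)`: the centraliser of `V` (helper54). -/

set_option autoImplicit false
set_option linter.unusedSectionVars false
set_option linter.unusedVariables false
set_option linter.style.haveILetI false
set_option maxRecDepth 100000

namespace H54.QA

open Equiv Subgroup
open scoped Pointwise

def n5 (b : Perm (Fin 5)) : Perm (Fin 5) := d5 * b * d5⁻¹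
def m5 (b : Perm (Fin 5)) : Perm (Fin 5) := d5 * d5 * b * (d5 * d5)⁻¹
def good5 (b : Perm (Fin 5)) : Prop := b ≠ 1 ∧ b * b = 1 ∧ b * n5 b * m5 b = 1
instance : DecidablePred good5 := fun b => by unfold good5; infer_instance
def o3 (b : Perm (Fin 5)) : Prop := b * b * b = 1 ∧ b ≠ 1
instance : DecidablePred o3 := fun b => by unfold o3; infer_instance

theorem bA : ∀ b : Perm (Fin 5), Perm.sign b = 1 → b ≠ 1 → good5 b ∨ o3 b ∨ o3 (b * n5 b) ∨ o3 (b * m5 b) ∨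
    o3 (b * (n5 b)⁻¹) ∨ o3 (b * b * n5 b) ∨ o3 (b * n5 b * b * m5 b) := by decide +kernel

theorem bB : ∀ b : Perm (Fin 5), Perm.sign b = 1 → good5 b → ∀ c : Perm (Fin 5), Perm.sign c = 1 → good5 c →
    c = b ∨ c = n5 b ∨ c = m5 b ∨ o3 (b * c) ∨ o3 (b * n5 c) ∨ o3 (b * m5 c) := by decide +kernel

theorem b_class (B : Perm (Fin 5) → Prop) (hs : ∀ b, B b → Perm.sign b = 1) (hm : ∀ b c, B b → B c → B (b * c))
    (hi : ∀ b, B b → B b⁻¹) (hd : ∀ b, B b → B (n5 b)) (h3 : ∀ b, B b → ¬ o3 b) :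
    (∀ b, B b → b = 1) ∨ ∃ w, B w ∧ good5 w ∧ ∀ b, B b → b = 1 ∨ b = w ∨ b = n5 w ∨ b = m5 w := by
  have hm5 : ∀ b, B b → B (m5 b) := by
    intro b hb
    have := hd _ (hd _ hb)
    have e : m5 b = n5 (n5 b) := by unfold m5 n5; group
    rw [e]; exact this
  have hg : ∀ b, B b → b ≠ 1 → good5 b := by
    intro b hb hb1
    rcases bA b (hs b hb) hb1 with h | h | h | h | h | h | h
    · exact h
    · exact absurd h (h3 _ hb)
    · exact absurd h (h3 _ (hm _ _ hb (hd _ hb)))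
    · exact absurd h (h3 _ (hm _ _ hb (hm5 _ hb)))
    · exact absurd h (h3 _ (hm _ _ hb (hi _ (hd _ hb))))
    · exact absurd h (h3 _ (hm _ _ (hm _ _ hb hb) (hd _ hb)))
    · exact absurd h (h3 _ (hm _ _ (hm _ _ (hm _ _ hb (hd _ hb)) hb) (hm5 _ hb)))
  by_cases h1 : ∀ b, B b → b = 1
  · left; exact h1
  · right
    push Not at h1
    obtain ⟨w, hw, hw1⟩ := h1
    refine ⟨w, hw, hg w hw hw1, fun b hb => ?_⟩
    by_cases hb1 : b = 1
    · left; exact hb1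
    · right
      rcases bB w (hs w hw) (hg w hw hw1) b (hs b hb) (hg b hb hb1) with h | h | h | h | h | h
      · left; exact h
      · right; left; exact h
      · right; right; exact h
      · exact absurd h (h3 _ (hm _ _ hw hb))
      · exact absurd h (h3 _ (hm _ _ hw (hd _ hb)))
      · exact absurd h (h3 _ (hm _ _ hw (hm5 _ hb)))

theorem kV : ∀ (a : Perm (Fin 3)) (b : Perm (Fin 5)), Perm.sign a * Perm.sign b = 1 → b * (swap 1 2 * swap 3 4) = (swap 1 2 * swap 3 4) * b →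
    b * (swap 1 3 * swap 2 4) = (swap 1 3 * swap 2 4) * b → a * c3 = c3 * a := by
  have h1 : ∀ (a : Perm (Fin 3)), Perm.sign a = 1 → a * c3 = c3 * a := by decide +kernel
  have h2 : ∀ b : Perm (Fin 5), b * (swap 1 2 * swap 3 4) = (swap 1 2 * swap 3 4) * b →
    b * (swap 1 3 * swap 2 4) = (swap 1 3 * swap 2 4) * b → Perm.sign b = 1 := by decide +kernel
  intro a b h h3 h4
  apply h1
  rw [h2 b h3 h4, mul_one] at h
  exact h

theorem kCu : ∀ (a : Perm (Fin 3)) (b : Perm (Fin 5)), Perm.sign a * Perm.sign b = 1 → a * c3 = c3 * a →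
    b * (swap 1 2 * swap 3 4) = (swap 1 2 * swap 3 4) * b → (a ^ 6 = 1 ∧ b ^ 6 = 1) ∧
      (a ^ 2 = 1 → b ^ 2 = 1 → a = 1 ∧ (b = 1 ∨ b = swap 1 2 * swap 3 4 ∨ b = swap 1 3 * swap 2 4 ∨ b = swap 1 4 * swap 2 3)) := by
  have h1 : ∀ (a : Perm (Fin 3)), a * c3 = c3 * a → Perm.sign a = 1 ∧ a ^ 6 = 1 ∧ (a ^ 2 = 1 → a = 1) := by decide +kernel
  have h2 : ∀ b : Perm (Fin 5), Perm.sign b = 1 → b * (swap 1 2 * swap 3 4) = (swap 1 2 * swap 3 4) * b →
    b ^ 6 = 1 ∧ (b = 1 ∨ b = swap 1 2 * swap 3 4 ∨ b = swap 1 3 * swap 2 4 ∨ b = swap 1 4 * swap 2 3) := by decide +kernel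
  intro a b h h3 h4
  obtain ⟨h5, h6, h7⟩ := h1 a h3
  rw [h5, one_mul] at h
  obtain ⟨h8, h9⟩ := h2 b h h4
  exact ⟨⟨h6, h8⟩, fun h10 h11 => ⟨h7 h10, h9⟩⟩

theorem dec1 : dd * a1 * dd⁻¹ = a3 ∨ dd * a1 * dd⁻¹ = a2 := by
  first
  | left; exact kext (by decide +kernel)
  | right; exact kext (by decide +kernel)

theorem dd_a1 : dd * a1 * dd⁻¹ = a3 := kext (by decide +kernel)
theorem dd_a2 : dd * a2 * dd⁻¹ = a1 := kext (by decide +kernel)
theorem cc_a1 : cc * a1 = a1 * cc := kext (by decide +kernel)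
theorem cc_a2 : cc * a2 = a2 * cc := kext (by decide +kernel)
theorem a12 : a1 * a2 = a3 := kext (by decide +kernel)
theorem a1a2 : a1 * a2 = a2 * a1 := kext (by decide +kernel)
theorem a1a1 : a1 * a1 = 1 := kext (by decide +kernel)
theorem a2a2 : a2 * a2 = 1 := kext (by decide +kernel)

variable {G : Type*} [Group G] [Finite G] {ψ : KK →* G} {n : G}

/-- the centraliser of `V`. -/
def XV (ψ : KK →* G) : Subgroup G := centralizer ({ψ a1, ψ a2} : Set G)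

theorem mem_XV (g : G) : g ∈ XV ψ ↔ g * ψ a1 = ψ a1 * g ∧ g * ψ a2 = ψ a2 * g := by
  rw [XV, mem_centralizer_iff]
  constructor
  · intro h
    exact ⟨(h _ (by simp)).symm, (h _ (by simp)).symm⟩
  · rintro ⟨h1, h2⟩ x hx
    rcases hx with rfl | rfl
    · exact h1.symm
    · exact h2.symm

theorem XV_le : XV ψ ≤ centralizer ({ψ a1} : Set G) := by
  intro g hg
  rw [mem_centralizer_singleton_iff]
  exact ((mem_XV g).1 hg).1

theorem z_XV : ψ cc ∈ XV ψ := by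
  rw [mem_XV, ← map_mul, ← map_mul, ← map_mul, ← map_mul, cc_a1, cc_a2]
  exact ⟨rfl, rfl⟩

theorem Dat.idx (h : Dat ψ n) {X : Subgroup G} (h1 : zpowers (ψ cc) ≤ X) (h2 : X ≤ centralizer ({ψ a1} : Set G)) :
    ¬ 3 ∣ (zpowers (ψ cc)).relIndex X := by
  intro h3
  apply h.u2.1
  rw [← relIndex_mul_relIndex _ X _ h1 h2]
  exact h3.mul_right _

theorem zpw (h : Dat ψ n) : IsPGroup 3 (zpowers (ψ cc)) :=
  IsPGroup.of_card (n := 1) (by rw [Nat.card_zpowers, ord3 h.z3 h.zne]; norm_num)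

/-- the 3-complement of `C(V)`. -/
theorem Dat.exT (h : Dat ψ n) : ∃ T : Subgroup G, T ≤ XV ψ ∧ (∀ g, g ∈ T ↔ g ∈ XV ψ ∧ (orderOf g).Coprime 3) ∧
    (∀ g ∈ XV ψ, ∃ s ∈ T, ∃ x ∈ zpowers (ψ cc), g = s * x) := by
  haveI : Fact (Nat.Prime 3) := ⟨Nat.prime_three⟩
  have hz : zpowers (ψ cc) ≤ XV ψ := zpowers_le.2 z_XV
  obtain ⟨T, hT1, hT2, hT3, hT4, hT5, hT6⟩ := H54.PT.trS (XV ψ) (zpowers (ψ cc)) hz (zpw h)
    (fun x hx y hy => by
      obtain ⟨i, rfl⟩ := mem_zpowers_iff.1 hx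
      obtain ⟨j, rfl⟩ := mem_zpowers_iff.1 hy
      rw [← zpow_add, ← zpow_add, add_comm])
    (h.idx (le_inf le_normalizer hz) (inf_le_right.trans XV_le))
  have hc : ∀ x ∈ zpowers (ψ cc), x ∈ T → x = 1 := by
    intro x hx hxT
    refine hT3 x hx ?_ hxT
    intro m hm hmn
    obtain ⟨k, rfl⟩ := h.range m hmn
    obtain ⟨⟨a, b⟩, hab⟩ := k
    obtain ⟨h1, h2⟩ := (mem_XV _).1 hm
    rw [← map_mul, ← map_mul] at h1 h2
    have h1' := congrArg (fun x : KK => (x : Perm (Fin 3) × Perm (Fin 5)).2) (h.inj h1)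
    have h2' := congrArg (fun x : KK => (x : Perm (Fin 3) × Perm (Fin 5)).2) (h.inj h2)
    have h3 : (⟨(a, b), hab⟩ : KK) * cc = cc * ⟨(a, b), hab⟩ := by
      apply kext
      change (a * c3, b * 1) = (c3 * a, 1 * b)
      rw [kV a b hab h1' h2', mul_one, one_mul]
    obtain ⟨i, rfl⟩ := mem_zpowers_iff.1 hx
    have h4 : Commute (ψ ⟨(a, b), hab⟩) (ψ cc) := by
      change ψ _ * ψ cc = ψ cc * ψ _
      rw [← map_mul, h3, map_mul]
    exact (h4.zpow_right i).eq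
  have h3T : ∀ g ∈ T, (orderOf g).Coprime 3 := by
    intro g hg
    rw [Nat.coprime_comm, Nat.Prime.coprime_iff_not_dvd Nat.prime_three]
    intro h3
    have h4 : orderOf (g ^ (orderOf g / 3)) = 3 := orderOf_pow_orderOf_div (orderOf_pos g).ne' h3
    have h5 : g ^ (orderOf g / 3) ∈ T := pow_mem hg _
    obtain ⟨x, hx, hx2⟩ := conjP (p := 3) (XV ψ) _ hz (zpw h) (h.idx hz XV_le) (E := zpowers (g ^ (orderOf g / 3)))
      (zpowers_le.2 (hT1 h5)) (IsPGroup.of_card (n := 1) (by rw [Nat.card_zpowers, h4]; norm_num))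
    have h6 := hc _ (hx2 _ (mem_zpowers _)) (hT2 x hx _ h5)
    have h7 : g ^ (orderOf g / 3) = 1 := by
      calc g ^ (orderOf g / 3) = x⁻¹ * (x * g ^ (orderOf g / 3) * x⁻¹) * x := by group
        _ = 1 := by rw [h6]; group
    rw [h7, orderOf_one] at h4
    norm_num at h4
  refine ⟨T, hT1, fun g => ⟨fun hg => ⟨hT1 hg, h3T g hg⟩, fun hg => hT5 g hg.1 hg.2⟩, hT6⟩

theorem Dat.TC (h : Dat ψ n) {g : G} (h1 : g * ψ cc = ψ cc * g) (h2 : g * ψ a1 = ψ a1 * g) (h3 : (orderOf g).Coprime 3) :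
    g = 1 ∨ g = ψ a1 ∨ g = ψ a2 ∨ g = ψ a3 := by
  obtain ⟨k, rfl, hk⟩ := h.c1 h1
  have hk2 : k * a1 = a1 * k := h.inj (by rw [map_mul, map_mul]; exact h2)
  obtain ⟨⟨a, b⟩, hab⟩ := k
  have e1 : a * c3 = c3 * a := congrArg Prod.fst (congrArg Subtype.val hk)
  have e2 : b * (swap 1 2 * swap 3 4) = (swap 1 2 * swap 3 4) * b := congrArg Prod.snd (congrArg Subtype.val hk2)
  obtain ⟨⟨e3, e4⟩, e5⟩ := kCu a b hab e1 e2
  have e6 : ψ ⟨(a, b), hab⟩ ^ 6 = 1 := by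
    rw [← map_pow]
    have : (⟨(a, b), hab⟩ : KK) ^ 6 = 1 := by
      apply kext
      change (a ^ 6, b ^ 6) = (1, 1)
      rw [e3, e4]
    rw [this, map_one]
  have e7 : ψ ⟨(a, b), hab⟩ ^ 2 = 1 := by
    have := orderOf_dvd_of_pow_eq_one e6
    have h6 : orderOf (ψ ⟨(a, b), hab⟩) ∣ 2 * 3 := by norm_num; exact this
    exact orderOf_dvd_iff_pow_eq_one.1 (h3.dvd_of_dvd_mul_right h6)
  have e8 : (⟨(a, b), hab⟩ : KK) ^ 2 = 1 := h.inj (by rw [map_pow, map_one]; exact e7)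
  have e9 := congrArg (fun x : KK => (x : Perm (Fin 3) × Perm (Fin 5))) e8
  obtain ⟨rfl, hb⟩ := e5 (congrArg Prod.fst e9) (congrArg Prod.snd e9)
  rcases hb with rfl | rfl | rfl | rfl
  · left
    have : (⟨((1 : Perm (Fin 3)), (1 : Perm (Fin 5))), hab⟩ : KK) = 1 := rfl
    rw [this, map_one]
  · right; left; rfl
  · right; right; left; rfl
  · right; right; right; rfl

end H54.QA
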