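import Mathlib
import Cfsg.Agent.Lib.H54.QA3

/-! 3-local characterization of `Alt(8)`: the 3-complement `T` of `C(V)` (helper54). -/

set_option autoImplicit false
set_option linter.unusedSectionVars false
set_option linter.unusedVariables false
set_option linter.style.haveILetI false
set_option maxRecDepth 100000

namespace H54.QA

open Equiv Subgroup
open scoped Pointwise

section Gen
variable {G : Type*} [Group G] [Finite G]

theorem ordc (x g : G) : orderOf (x * g * x⁻¹) = orderOf g := (MulAut.conj x).orderOf_eq g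

theorem cardC {a b c : G} (hb : c * a * c⁻¹ = b) :
    Nat.card (centralizer ({a} : Set G)) = Nat.card (centralizer ({b} : Set G)) := by
  have he : centralizer ({b} : Set G) = (centralizer ({a} : Set G)).map (MulAut.conj c).toMonoidHom := by
    ext q
    rw [mem_centralizer_singleton_iff, Subgroup.mem_map]
    constructor
    · intro hq
      refine ⟨c⁻¹ * q * c, ?_, ?_⟩
      · rw [mem_centralizer_singleton_iff]
        rw [← hb] at hq
        calc c⁻¹ * q * c * a = c⁻¹ * (q * (c * a * c⁻¹)) * c := by group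
          _ = c⁻¹ * ((c * a * c⁻¹) * q) * c := by rw [hq]
          _ = _ := by group
      · change c * (c⁻¹ * q * c) * c⁻¹ = q; group
    · rintro ⟨r, hr, rfl⟩
      rw [mem_centralizer_singleton_iff] at hr
      change c * r * c⁻¹ * b = b * (c * r * c⁻¹)
      rw [← hb]
      calc c * r * c⁻¹ * (c * a * c⁻¹) = c * (r * a) * c⁻¹ := by group
        _ = c * (a * r) * c⁻¹ := by rw [hr]
        _ = _ := by group
  rw [he]
  exact Nat.card_congr ((centralizer ({a} : Set G)).equivMapOfInjective _ (MulAut.conj c).injective).toEquiv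

theorem cop_of_elem {T : Subgroup G} {p : ℕ} (hp : p.Prime) (h : ∀ g ∈ T, (orderOf g).Coprime p) : (Nat.card T).Coprime p := by
  haveI : Fact p.Prime := ⟨hp⟩
  rw [Nat.coprime_comm, Nat.Prime.coprime_iff_not_dvd hp]
  intro h3
  obtain ⟨x, hx⟩ := exists_prime_orderOf_dvd_card' (G := T) p h3
  have h1 := h x x.2
  rw [orderOf_coe, hx, Nat.coprime_self] at h1
  exact hp.one_lt.ne' h1

theorem cyc_inv_comm {x g : G} (h : g * x⁻¹ = x⁻¹ * g) : g * x = x * g := by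
  have := ((show Commute g x⁻¹ from h).inv_right).eq
  rwa [inv_inv] at this

end Gen

variable {G : Type*} [Group G] [Finite G] {ψ : KK →* G} {n : G} {T : Subgroup G}

theorem a3_XV {g : G} (hg : g ∈ XV ψ) : g * ψ a3 = ψ a3 * g := by
  obtain ⟨h1, h2⟩ := (mem_XV g).1 hg
  rw [← a12, map_mul]
  exact ((show Commute g (ψ a1) from h1).mul_right (show Commute g (ψ a2) from h2)).eq

theorem norm_XV {k : KK} (h1 : k⁻¹ * a1 * k = a1 ∨ k⁻¹ * a1 * k = a2 ∨ k⁻¹ * a1 * k = a3)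
    (h2 : k⁻¹ * a2 * k = a1 ∨ k⁻¹ * a2 * k = a2 ∨ k⁻¹ * a2 * k = a3) {g : G} (hg : g ∈ XV ψ) :
    ψ k * g * (ψ k)⁻¹ ∈ XV ψ := by
  have key : ∀ a : KK, (k⁻¹ * a * k = a1 ∨ k⁻¹ * a * k = a2 ∨ k⁻¹ * a * k = a3) →
      (ψ k * g * (ψ k)⁻¹) * ψ a = ψ a * (ψ k * g * (ψ k)⁻¹) := by
    intro a ha
    have h3 : g * ψ (k⁻¹ * a * k) = ψ (k⁻¹ * a * k) * g := by
      rcases ha with h | h | h <;> rw [h]
      · exact ((mem_XV g).1 hg).1
      · exact ((mem_XV g).1 hg).2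
      · exact a3_XV hg
    rw [map_mul, map_mul, map_inv] at h3
    calc (ψ k * g * (ψ k)⁻¹) * ψ a = ψ k * (g * ((ψ k)⁻¹ * ψ a * ψ k)) * (ψ k)⁻¹ := by group
      _ = ψ k * (((ψ k)⁻¹ * ψ a * ψ k) * g) * (ψ k)⁻¹ := by rw [h3]
      _ = _ := by group
  rw [mem_XV]
  exact ⟨key a1 h1, key a2 h2⟩

/-- the description of `T`. -/
def IsT (ψ : KK →* G) (T : Subgroup G) : Prop := ∀ g, g ∈ T ↔ g ∈ XV ψ ∧ (orderOf g).Coprime 3

theorem IsT.conj (hT : IsT ψ T) {x g : G} (hx : x ∈ XV ψ) (hg : g ∈ T) : x * g * x⁻¹ ∈ T := by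
  rw [hT] at hg ⊢
  rw [ordc]
  exact ⟨mul_mem (mul_mem hx hg.1) (inv_mem hx), hg.2⟩

theorem IsT.conjk (hT : IsT ψ T) {k : KK} (h1 : k⁻¹ * a1 * k = a1 ∨ k⁻¹ * a1 * k = a2 ∨ k⁻¹ * a1 * k = a3)
    (h2 : k⁻¹ * a2 * k = a1 ∨ k⁻¹ * a2 * k = a2 ∨ k⁻¹ * a2 * k = a3) {g : G} (hg : g ∈ T) : ψ k * g * (ψ k)⁻¹ ∈ T := by
  rw [hT] at hg ⊢
  rw [ordc]
  exact ⟨norm_XV h1 h2 hg.1, hg.2⟩

theorem ddn1 : dd⁻¹ * a1 * dd = a1 ∨ dd⁻¹ * a1 * dd = a2 ∨ dd⁻¹ * a1 * dd = a3 := by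
  right; left; exact kext (by decide +kernel)
theorem ddn2 : dd⁻¹ * a2 * dd = a1 ∨ dd⁻¹ * a2 * dd = a2 ∨ dd⁻¹ * a2 * dd = a3 := by
  right; right; exact kext (by decide +kernel)
theorem ddm1 : dd⁻¹⁻¹ * a1 * dd⁻¹ = a1 ∨ dd⁻¹⁻¹ * a1 * dd⁻¹ = a2 ∨ dd⁻¹⁻¹ * a1 * dd⁻¹ = a3 := by
  right; right; exact kext (by decide +kernel)
theorem ddm2 : dd⁻¹⁻¹ * a2 * dd⁻¹ = a1 ∨ dd⁻¹⁻¹ * a2 * dd⁻¹ = a2 ∨ dd⁻¹⁻¹ * a2 * dd⁻¹ = a3 := by
  left; exact kext (by decide +kernel)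

theorem Dat.cy' (h : Dat ψ n) : Nat.card (centralizer ({ψ cc * (ψ dd)⁻¹} : Set G)) = 18 := by
  rw [← h.cy]
  refine (cardC (c := ψ d1) ?_).symm
  have h1 : ψ d1 * ψ cc = ψ cc * ψ d1 := by rw [← map_mul, ← map_mul, d1_cc]
  have h2 : ψ d1 * ψ dd * (ψ d1)⁻¹ = (ψ dd)⁻¹ := by rw [← map_inv, ← map_inv, ← map_mul, ← map_mul, d1_dd]
  calc ψ d1 * (ψ cc * ψ dd) * (ψ d1)⁻¹ = (ψ d1 * ψ cc) * (ψ d1)⁻¹ * (ψ d1 * ψ dd * (ψ d1)⁻¹) := by group
    _ = ψ cc * (ψ dd)⁻¹ := by rw [h1, h2]; group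

theorem Dat.Ty (h : Dat ψ n) (hT : IsT ψ T) {y : G} (hy : Nat.card (centralizer ({y} : Set G)) = 18)
    (hy1 : ψ cc * y = y * ψ cc) (hy2 : ψ dd * y = y * ψ dd) {g : G} (hg : g ∈ T) (hgy : g * y = y * g) : g = 1 := by
  by_contra hg1
  obtain ⟨S, hS⟩ : ∃ S, S = T ⊓ centralizer ({y} : Set G) := ⟨_, rfl⟩
  have hSm : ∀ x, x ∈ S ↔ x ∈ T ∧ x * y = y * x := by
    intro x; rw [hS, mem_inf, mem_centralizer_singleton_iff]
  have h1 : Nat.card S ∣ 18 := by rw [← hy, hS]; exact card_dvd_of_le inf_le_right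
  have h2 : (Nat.card S).Coprime 3 := cop_of_elem Nat.prime_three (fun x hx => ((hT x).1 ((hSm x).1 hx).1).2)
  have h3 : Nat.card S ∣ 2 := by
    have h4 : Nat.card S ∣ 2 * 3 ^ 2 := by norm_num; exact h1
    exact (h2.pow_right 2).dvd_of_dvd_mul_right h4
  have h5 : Nat.card S = 2 := by
    rcases (Nat.dvd_prime Nat.prime_two).1 h3 with h6 | h6
    · exfalso; apply hg1
      have := card_eq_one.1 h6
      have hgS : g ∈ S := (hSm g).2 ⟨hg, hgy⟩
      rw [this] at hgS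
      exact mem_bot.1 hgS
    · exact h6
  have hgS : g ∈ S := (hSm g).2 ⟨hg, hgy⟩
  have hu : ∀ x ∈ S, x ≠ 1 → x = g := by
    intro x hx hx1
    obtain ⟨a, b, hab, he⟩ := Nat.card_eq_two_iff.1 h5
    have e1 : (⟨x, hx⟩ : S) = a ∨ (⟨x, hx⟩ : S) = b := by
      have : (⟨x, hx⟩ : S) ∈ ({a, b} : Set S) := by rw [he]; trivial
      simpa using this
    have e2 : (⟨g, hgS⟩ : S) = a ∨ (⟨g, hgS⟩ : S) = b := by
      have : (⟨g, hgS⟩ : S) ∈ ({a, b} : Set S) := by rw [he]; trivial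
      simpa using this
    have e3 : (1 : S) = a ∨ (1 : S) = b := by
      have : (1 : S) ∈ ({a, b} : Set S) := by rw [he]; trivial
      simpa using this
    have f1 : (⟨x, hx⟩ : S) ≠ 1 := fun hh => hx1 (congrArg Subtype.val hh)
    have f2 : (⟨g, hgS⟩ : S) ≠ 1 := fun hh => hg1 (congrArg Subtype.val hh)
    have e4 : (⟨x, hx⟩ : S) = ⟨g, hgS⟩ := by
      rcases e3 with e3 | e3
      · rw [e3] at f1 f2
        rw [e1.resolve_left f1, e2.resolve_left f2]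
      · rw [e3] at f1 f2
        rw [e1.resolve_right f1, e2.resolve_right f2]
    exact congrArg Subtype.val e4
  have hcz : ∀ d : G, (∀ x ∈ T, d * x * d⁻¹ ∈ T) → d * y = y * d → g * d = d * g := by
    intro d hd hdy
    have h6 : d * g * d⁻¹ ∈ S := by
      rw [hSm]
      refine ⟨hd g hg, ?_⟩
      have e1 : d⁻¹ * y = y * d⁻¹ := ((show Commute d y from hdy).inv_left).eq
      calc d * g * d⁻¹ * y = d * g * (d⁻¹ * y) := by group
        _ = d * (g * y) * d⁻¹ := by rw [e1]; group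
        _ = (d * y) * g * d⁻¹ := by rw [hgy]; group
        _ = _ := by rw [hdy]; group
    have h7 : d * g * d⁻¹ ≠ 1 := by
      intro h8; apply hg1
      calc g = d⁻¹ * (d * g * d⁻¹) * d := by group
        _ = 1 := by rw [h8]; group
    have h8 := hu _ h6 h7
    calc g * d = (d * g * d⁻¹) * d := by rw [h8]
      _ = _ := by group
  have g1 := hcz (ψ cc) (fun x hx => hT.conj z_XV hx) hy1
  have g2 := hcz (ψ dd) (fun x hx => hT.conjk ddn1 ddn2 hx) hy2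
  have g3 := h.cD g1 g2
  have g4 : orderOf g ∣ 3 := orderOf_dvd_of_pow_eq_one g3
  have g5 := ((hT g).1 hg).2
  have g6 : orderOf g = 1 := Nat.eq_one_of_dvd_coprimes g5 dvd_rfl g4
  exact hg1 (orderOf_eq_one_iff.1 g6)

theorem Dat.Wclass (h : Dat ψ n) (hT : IsT ψ T) : (∀ g ∈ T, g * ψ dd = ψ dd * g → g = 1) ∨
    ∃ w ∈ T, w * ψ dd = ψ dd * w ∧ w ≠ 1 ∧ w * w = 1 ∧
      w * (ψ cc * w * (ψ cc)⁻¹) * (ψ cc * ψ cc * w * (ψ cc * ψ cc)⁻¹) = 1 ∧
      ∀ g ∈ T, g * ψ dd = ψ dd * g → g = 1 ∨ g = w ∨ g = ψ cc * w * (ψ cc)⁻¹ ∨ g = ψ cc * ψ cc * w * (ψ cc * ψ cc)⁻¹ := by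
  have hcomm : ∀ b (hb : Perm.sign b = 1), n * ψ (bb b hb) * n⁻¹ * ψ dd = ψ dd * (n * ψ (bb b hb) * n⁻¹) := by
    intro b hb
    rw [← h.sw1]
    have : ψ (bb b hb) * ψ cc = ψ cc * ψ (bb b hb) := by rw [← map_mul, ← map_mul, cc_bb]
    calc n * ψ (bb b hb) * n⁻¹ * (n * ψ cc * n⁻¹) = n * (ψ (bb b hb) * ψ cc) * n⁻¹ := by group
      _ = n * (ψ cc * ψ (bb b hb)) * n⁻¹ := by rw [this]
      _ = _ := by group
  have hback : ∀ g ∈ T, g * ψ dd = ψ dd * g → ∃ b, ∃ (hb : Perm.sign b = 1), g = n * ψ (bb b hb) * n⁻¹ := by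
    intro g hg hgd
    obtain ⟨k, hk, hk2⟩ := h.conj_c1 hgd
    obtain ⟨b, hb, hb2⟩ := kcc hk2
    refine ⟨b, hb, ?_⟩
    have h3 : (orderOf g).Coprime 3 := ((hT g).1 hg).2
    rw [hk, ordc] at h3
    rw [orderOf_injective ψ h.inj] at h3
    have hk1 : k ^ orderOf k = 1 := pow_orderOf_eq_one k
    have h5 := congrArg (fun x : KK => (x : Perm (Fin 3) × Perm (Fin 5)).1) hk1
    have h6 : (k : Perm (Fin 3) × Perm (Fin 5)).1 ^ orderOf k = 1 := by
      have : ((k ^ orderOf k : KK) : Perm (Fin 3) × Perm (Fin 5)).1 = (k : Perm (Fin 3) × Perm (Fin 5)).1 ^ orderOf k := by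
        rw [coe_pow, Prod.pow_fst]
      rw [← this]; exact h5
    have hc3 : orderOf c3 = 3 := orderOf_eq_prime (by decide +kernel) (by decide +kernel)
    have hno : ∀ a : Perm (Fin 3), a = c3 ∨ a = c3⁻¹ → ¬ a ^ orderOf k = 1 := by
      intro a ha h7
      have h8 : orderOf a = 3 := by rcases ha with rfl | rfl; exact hc3; rw [orderOf_inv, hc3]
      have h9 := orderOf_dvd_of_pow_eq_one h7
      rw [h8] at h9
      exact absurd h9 ((Nat.Prime.coprime_iff_not_dvd Nat.prime_three).1 h3.symm)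
    rcases hb2 with h7 | h7 | h7
    · rw [hk, h7]
    · exfalso
      have h8 : (k : Perm (Fin 3) × Perm (Fin 5)).1 = c3 := by rw [h7]; exact mul_one _
      exact hno _ (Or.inl h8) h6
    · exfalso
      have h8 : (k : Perm (Fin 3) × Perm (Fin 5)).1 = c3⁻¹ := by rw [h7]; exact mul_one _
      exact hno _ (Or.inr h8) h6
  have hn5 : ∀ b (hb : Perm.sign b = 1) (hb' : Perm.sign (n5 b) = 1),
      n * ψ (bb (n5 b) hb') * n⁻¹ = ψ cc * (n * ψ (bb b hb) * n⁻¹) * (ψ cc)⁻¹ := by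
    intro b hb hb'
    have e1 : bb (n5 b) hb' = dd * bb b hb * dd⁻¹ := by
      apply kext; change (1, n5 b) = (1, d5) * (1, b) * (1, d5)⁻¹; simp [n5]
    rw [e1, map_mul, map_mul, map_inv, ← h.sw2]
    group
  have hm5 : ∀ b (hb : Perm.sign b = 1) (hb' : Perm.sign (m5 b) = 1),
      n * ψ (bb (m5 b) hb') * n⁻¹ = ψ cc * ψ cc * (n * ψ (bb b hb) * n⁻¹) * (ψ cc * ψ cc)⁻¹ := by
    intro b hb hb'
    have e1 : bb (m5 b) hb' = dd * dd * bb b hb * (dd * dd)⁻¹ := by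
      apply kext; change (1, m5 b) = (1, d5) * (1, d5) * (1, b) * ((1, d5) * (1, d5))⁻¹; simp [m5]
    rw [e1, map_mul, map_mul, map_inv, map_mul, ← h.sw2]
    group
  have sgn : ∀ b : Perm (Fin 5), Perm.sign b = 1 → Perm.sign (n5 b) = 1 ∧ Perm.sign (m5 b) = 1 := by
    intro b hb
    unfold n5 m5
    rw [map_mul, map_mul, map_mul, map_mul, map_mul, map_inv, map_inv, map_mul, hb]
    rcases Int.units_eq_one_or (Perm.sign d5) with e | e <;> rw [e] <;> decide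
  obtain ⟨B, hB⟩ : ∃ B : Perm (Fin 5) → Prop, B = fun b => ∃ hb : Perm.sign b = 1, n * ψ (bb b hb) * n⁻¹ ∈ T := ⟨_, rfl⟩
  have hcl := b_class B (fun b hb => by rw [hB] at hb; exact hb.1) ?_ ?_ ?_ ?_
  · rcases hcl with h1 | ⟨w, hw, hgw, hall⟩
    · left
      intro g hg hgd
      obtain ⟨b, hb, hb2⟩ := hback g hg hgd
      have h2 : b = 1 := h1 b (by rw [hB]; exact ⟨hb, by rw [← hb2]; exact hg⟩)
      subst h2
      have : bb 1 hb = 1 := rfl
      rw [hb2, this, map_one]; group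
    · right
      rw [hB] at hw
      obtain ⟨hw1, hw2⟩ := hw
      obtain ⟨g1, g2, g3⟩ := hgw
      have hs := sgn w hw1
      refine ⟨n * ψ (bb w hw1) * n⁻¹, hw2, hcomm w hw1, ?_, ?_, ?_, ?_⟩
      · intro h2
        apply g1
        have h3 : ψ (bb w hw1) = 1 := by
          calc ψ (bb w hw1) = n⁻¹ * (n * ψ (bb w hw1) * n⁻¹) * n := by group
            _ = 1 := by rw [h2]; group
        have h4 : bb w hw1 = 1 := h.inj (by rw [h3, map_one])
        exact congrArg (fun x : KK => (x : Perm (Fin 3) × Perm (Fin 5)).2) h4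
      · have h4 : bb w hw1 * bb w hw1 = 1 := by
          apply kext; change ((1 : Perm (Fin 3)) * 1, w * w) = (1, 1); rw [g2]; simp
        calc n * ψ (bb w hw1) * n⁻¹ * (n * ψ (bb w hw1) * n⁻¹) = n * (ψ (bb w hw1) * ψ (bb w hw1)) * n⁻¹ := by group
          _ = 1 := by rw [← map_mul, h4, map_one]; group
      · rw [← hn5 w hw1 hs.1, ← hm5 w hw1 hs.2]
        have h4 : bb w hw1 * bb (n5 w) hs.1 * bb (m5 w) hs.2 = 1 := by
          apply kext; change ((1 : Perm (Fin 3)) * 1 * 1, w * n5 w * m5 w) = (1, 1); rw [g3]; simp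
        calc n * ψ (bb w hw1) * n⁻¹ * (n * ψ (bb (n5 w) hs.1) * n⁻¹) * (n * ψ (bb (m5 w) hs.2) * n⁻¹)
            = n * (ψ (bb w hw1) * ψ (bb (n5 w) hs.1) * ψ (bb (m5 w) hs.2)) * n⁻¹ := by group
          _ = 1 := by rw [← map_mul, ← map_mul, h4, map_one]; group
      · intro g hg hgd
        obtain ⟨b, hb, hb2⟩ := hback g hg hgd
        rcases hall b (by rw [hB]; exact ⟨hb, by rw [← hb2]; exact hg⟩) with rfl | rfl | rfl | rfl
        · left
          have : bb 1 hb = 1 := rfl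
          rw [hb2, this, map_one]; group
        · right; left; exact hb2
        · right; right; left; rw [hb2, ← hn5 w hw1 hs.1]
        · right; right; right; rw [hb2, ← hm5 w hw1 hs.2]
  · intro b c hb hc
    rw [hB] at hb hc ⊢
    obtain ⟨hb1, hb2⟩ := hb
    obtain ⟨hc1, hc2⟩ := hc
    refine ⟨by rw [map_mul, hb1, hc1]; rfl, ?_⟩
    have := mul_mem hb2 hc2
    have e1 : n * ψ (bb b hb1) * n⁻¹ * (n * ψ (bb c hc1) * n⁻¹) = n * ψ (bb b hb1 * bb c hc1) * n⁻¹ := by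
      rw [map_mul]; group
    rw [e1] at this
    exact this
  · intro b hb
    rw [hB] at hb ⊢
    obtain ⟨hb1, hb2⟩ := hb
    refine ⟨by rw [map_inv, hb1]; rfl, ?_⟩
    have := inv_mem hb2
    have e1 : (n * ψ (bb b hb1) * n⁻¹)⁻¹ = n * ψ (bb b hb1)⁻¹ * n⁻¹ := by
      rw [map_inv]; group
    rw [e1] at this
    exact this
  · intro b hb
    rw [hB] at hb ⊢
    obtain ⟨hb1, hb2⟩ := hb
    refine ⟨(sgn b hb1).1, ?_⟩
    rw [hn5 b hb1]
    exact hT.conj z_XV hb2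
  · intro b hb ho
    rw [hB] at hb
    obtain ⟨hb1, hb2⟩ := hb
    obtain ⟨o1, o2⟩ := ho
    have h3 := ((hT _).1 hb2).2
    rw [ordc, orderOf_injective ψ h.inj] at h3
    have h4 : bb b hb1 ^ 3 = 1 := by
      apply kext; change ((1 : Perm (Fin 3)) ^ 3, b ^ 3) = (1, 1); rw [one_pow, pow_succ, pow_two, o1]
    have h5 : bb b hb1 ≠ 1 := fun h6 => o2 (congrArg (fun x : KK => (x : Perm (Fin 3) × Perm (Fin 5)).2) h6)
    rw [orderOf_eq_prime h4 h5] at h3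
    norm_num at h3

end H54.QA
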