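import Mathlib
import Cfsg.Agent.Lib.H54.QA4

/-! 3-local characterization of `Alt(8)`: generation of `T` (helper54). -/

set_option autoImplicit false
set_option linter.unusedSectionVars false
set_option linter.unusedVariables false
set_option linter.style.haveILetI false
set_option maxRecDepth 100000

namespace H54.QA

open Equiv Subgroup
open scoped Pointwise

theorem sup_mul {G : Type*} [Group G] {A B : Subgroup G} (hc : ∀ a ∈ A, ∀ b ∈ B, a * b = b * a) {x : G} (hx : x ∈ A ⊔ B) :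
    ∃ a ∈ A, ∃ b ∈ B, x = a * b := by
  let P : Subgroup G :=
    { carrier := {x | ∃ a ∈ A, ∃ b ∈ B, x = a * b}
      one_mem' := ⟨1, one_mem _, 1, one_mem _, by simp⟩
      mul_mem' := by
        rintro _ _ ⟨a, ha, b, hb, rfl⟩ ⟨c, hc', d, hd, rfl⟩
        refine ⟨a * c, mul_mem ha hc', b * d, mul_mem hb hd, ?_⟩
        calc a * b * (c * d) = a * (b * c) * d := by group
          _ = a * (c * b) * d := by rw [hc c hc' b hb]
          _ = _ := by group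
      inv_mem' := by
        rintro _ ⟨a, ha, b, hb, rfl⟩
        refine ⟨a⁻¹, inv_mem ha, b⁻¹, inv_mem hb, ?_⟩
        rw [mul_inv_rev]
        exact (hc a⁻¹ (inv_mem ha) b⁻¹ (inv_mem hb)).symm }
  have h1 : A ⊔ B ≤ P := by
    apply sup_le
    · intro a ha; exact ⟨a, ha, 1, one_mem _, by simp⟩
    · intro b hb; exact ⟨1, one_mem _, b, hb, by simp⟩
  exact h1 hx

variable {G : Type*} [Group G] [Finite G] {ψ : KK →* G} {n : G} {T : Subgroup G}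

/-- `⟨ζ, ζ'⟩`. -/
def DD (ψ : KK →* G) : Subgroup G where
  carrier := {x | ∃ i j : ℤ, x = ψ cc ^ i * ψ dd ^ j}
  one_mem' := ⟨0, 0, by simp⟩
  mul_mem' := by
    rintro _ _ ⟨i, j, rfl⟩ ⟨k, l, rfl⟩
    refine ⟨i + k, j + l, ?_⟩
    have hc : Commute (ψ cc) (ψ dd) := by change ψ cc * ψ dd = ψ dd * ψ cc; rw [← map_mul, ← map_mul, cc_dd]
    rw [zpow_add, zpow_add]
    have := ((hc.zpow_left k).zpow_right j).eq
    calc ψ cc ^ i * ψ dd ^ j * (ψ cc ^ k * ψ dd ^ l) = ψ cc ^ i * (ψ dd ^ j * ψ cc ^ k) * ψ dd ^ l := by group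
      _ = ψ cc ^ i * (ψ cc ^ k * ψ dd ^ j) * ψ dd ^ l := by rw [this]
      _ = _ := by group
  inv_mem' := by
    rintro _ ⟨i, j, rfl⟩
    refine ⟨-i, -j, ?_⟩
    have hc : Commute (ψ cc) (ψ dd) := by change ψ cc * ψ dd = ψ dd * ψ cc; rw [← map_mul, ← map_mul, cc_dd]
    have := ((hc.zpow_left (-i)).zpow_right (-j)).eq
    rw [mul_inv_rev, ← zpow_neg, ← zpow_neg, this]

theorem DDcases (h : Dat ψ n) {x : G} (hx : x ∈ DD ψ) : ∃ a b, (a = 1 ∨ a = ψ cc ∨ a = (ψ cc)⁻¹) ∧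
    (b = 1 ∨ b = ψ dd ∨ b = (ψ dd)⁻¹) ∧ x = a * b := by
  obtain ⟨i, j, rfl⟩ := hx
  exact ⟨ψ cc ^ i, ψ dd ^ j, zp3 h.z3 (zpow_mem (mem_zpowers _) _), zp3 h.w3 (zpow_mem (mem_zpowers _) _), rfl⟩

theorem DDcomm : IsMulCommutative (DD ψ) := by
  refine ⟨⟨?_⟩⟩
  rintro ⟨x, hx⟩ ⟨y, hy⟩
  apply Subtype.ext
  change x * y = y * x
  obtain ⟨i, j, rfl⟩ := hx
  obtain ⟨k, l, rfl⟩ := hy
  have hc : Commute (ψ cc) (ψ dd) := by change ψ cc * ψ dd = ψ dd * ψ cc; rw [← map_mul, ← map_mul, cc_dd]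
  have e1 : Commute (ψ cc ^ i * ψ dd ^ j) (ψ cc ^ k) :=
    Commute.mul_left ((Commute.refl (ψ cc)).zpow_zpow i k) ((hc.symm.zpow_left j).zpow_right k)
  have e2 : Commute (ψ cc ^ i * ψ dd ^ j) (ψ dd ^ l) :=
    Commute.mul_left ((hc.zpow_left i).zpow_right l) ((Commute.refl (ψ dd)).zpow_zpow j l)
  exact (e1.mul_right e2).eq

theorem z_DD : ψ cc ∈ DD ψ := ⟨1, 0, by simp⟩
theorem w_DD : ψ dd ∈ DD ψ := ⟨0, 1, by simp⟩

theorem DD_exp (h : Dat ψ n) {x : G} (hx : x ∈ DD ψ) : x ^ 3 = 1 := by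
  obtain ⟨i, j, rfl⟩ := hx
  have hc : Commute (ψ cc) (ψ dd) := h.zw
  rw [((hc.zpow_left i).zpow_right j).mul_pow]
  have e1 : (ψ cc ^ i) ^ 3 = 1 := by
    rw [← zpow_natCast, ← zpow_mul, mul_comm, zpow_mul]; rw [zpow_natCast, h.z3, one_zpow]
  have e2 : (ψ dd ^ j) ^ 3 = 1 := by
    rw [← zpow_natCast, ← zpow_mul, mul_comm, zpow_mul]; rw [zpow_natCast, h.w3, one_zpow]
  rw [e1, e2, one_mul]

theorem DD_nc (h : Dat ψ n) : ¬ IsCyclic (DD ψ) := by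
  intro hcy
  obtain ⟨g, hg⟩ := hcy.exists_generator
  have h2 : g ^ 3 = 1 := Subtype.ext (DD_exp h g.2)
  have hg1 := hg ⟨ψ cc, z_DD⟩
  have hg2 := hg ⟨ψ dd, w_DD⟩
  have hne : ψ dd ≠ ψ cc ∧ ψ dd ≠ (ψ cc)⁻¹ := by
    constructor
    · intro h3
      exact absurd (congrArg Subtype.val (h.inj h3)) (by decide +kernel)
    · intro h3
      rw [← map_inv] at h3
      exact absurd (congrArg Subtype.val (h.inj h3)) (by decide +kernel)
  rcases zp3 h2 hg1 with e1 | e1 | e1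
  · exact h.zne (congrArg Subtype.val e1)
  · rcases zp3 h2 hg2 with e2 | e2 | e2
    · exact h.wne (congrArg Subtype.val e2)
    · exact hne.1 (congrArg Subtype.val (e2.trans e1.symm))
    · apply hne.2
      rw [← e1] at e2
      exact congrArg Subtype.val e2
  · rcases zp3 h2 hg2 with e2 | e2 | e2
    · exact h.wne (congrArg Subtype.val e2)
    · apply hne.2
      have : g = (⟨ψ cc, z_DD⟩ : DD ψ)⁻¹ := by rw [e1, inv_inv]
      rw [this] at e2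
      exact congrArg Subtype.val e2
    · exact hne.1 (congrArg Subtype.val (e2.trans e1.symm))

theorem Dat.Tgen (h : Dat ψ n) (hT : IsT ψ T) {t : G} (ht : t ∈ T) :
    ∃ v w, (v = 1 ∨ v = ψ a1 ∨ v = ψ a2 ∨ v = ψ a3) ∧ w ∈ T ∧ w * ψ dd = ψ dd * w ∧ t = v * w := by
  have hn1 : ∀ x ∈ T, ψ cc * x * (ψ cc)⁻¹ ∈ T := fun x hx => hT.conj z_XV hx
  have hn2 : ∀ x ∈ T, ψ dd * x * (ψ dd)⁻¹ ∈ T := fun x hx => hT.conjk ddn1 ddn2 hx
  have hN : DD ψ ≤ normalizer (T : Set G) := by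
    have e1 : ψ cc ∈ normalizer (T : Set G) := mem_normalizer_fintype (fun x hx => hn1 x hx)
    have e2 : ψ dd ∈ normalizer (T : Set G) := mem_normalizer_fintype (fun x hx => hn2 x hx)
    rintro _ ⟨i, j, rfl⟩
    exact mul_mem (zpow_mem e1 _) (zpow_mem e2 _)
  have hcT : (Nat.card T).Coprime 3 := cop_of_elem Nat.prime_three (fun x hx => ((hT x).1 hx).2)
  have hcop : (Nat.card (DD ψ)).Coprime (Nat.card T) := by
    haveI : Fact (Nat.Prime 3) := ⟨Nat.prime_three⟩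
    have h1 : IsPGroup 3 (DD ψ) := fun x => ⟨1, by rw [pow_one]; exact Subtype.ext (DD_exp h x.2)⟩
    obtain ⟨k, hk⟩ := IsPGroup.iff_card.1 h1
    rw [hk]
    exact Nat.Coprime.pow_left _ hcT.symm
  have hgen := H2.GenCent.main (DD ψ) T DDcomm (DD_nc h) hN hcop
  have hle : H2.GenCent.gen (DD ψ) T ≤ (T ⊓ centralizer ({ψ cc} : Set G)) ⊔ (T ⊓ centralizer ({ψ dd} : Set G)) := by
    unfold H2.GenCent.gen
    apply iSup₂_le
    rintro x ⟨hx, hx1⟩ y hy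
    have hyx : y * x = x * y := mem_centralizer_singleton_iff.1 hy.2
    have hyT : y ∈ T := hy.1
    obtain ⟨a, b, ha, hb, rfl⟩ := DDcases h hx
    have c1 : ψ cc * (ψ cc * ψ dd) = (ψ cc * ψ dd) * ψ cc := by
      rw [mul_assoc, ← h.zw]
    have c2 : ψ dd * (ψ cc * ψ dd) = (ψ cc * ψ dd) * ψ dd := by
      rw [← mul_assoc, ← h.zw]
    have hcm : Commute (ψ cc) (ψ dd) := h.zw
    have c3' : ψ cc * (ψ cc * (ψ dd)⁻¹) = (ψ cc * (ψ dd)⁻¹) * ψ cc :=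
      ((Commute.refl (ψ cc)).mul_right hcm.inv_right).eq
    have c4 : ψ dd * (ψ cc * (ψ dd)⁻¹) = (ψ cc * (ψ dd)⁻¹) * ψ dd :=
      (hcm.symm.mul_right (Commute.refl (ψ dd)).inv_right).eq
    have k1 : y * (ψ cc * ψ dd) = (ψ cc * ψ dd) * y → y ∈ (T ⊓ centralizer ({ψ cc} : Set G)) ⊔ (T ⊓ centralizer ({ψ dd} : Set G)) := by
      intro hh
      rw [h.Ty hT h.cy c1 c2 hyT hh]; exact one_mem _
    have k2 : y * (ψ cc * (ψ dd)⁻¹) = (ψ cc * (ψ dd)⁻¹) * y → y ∈ (T ⊓ centralizer ({ψ cc} : Set G)) ⊔ (T ⊓ centralizer ({ψ dd} : Set G)) := by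
      intro hh
      rw [h.Ty hT h.cy' c3' c4 hyT hh]; exact one_mem _
    rcases ha with rfl | rfl | rfl <;> rcases hb with rfl | rfl | rfl
    · exact absurd (one_mul 1) hx1
    · rw [one_mul] at hyx
      exact mem_sup_right ⟨hyT, mem_centralizer_singleton_iff.2 hyx⟩
    · rw [one_mul] at hyx
      exact mem_sup_right ⟨hyT, mem_centralizer_singleton_iff.2 (cyc_inv_comm hyx)⟩
    · rw [mul_one] at hyx
      exact mem_sup_left ⟨hyT, mem_centralizer_singleton_iff.2 hyx⟩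
    · exact k1 hyx
    · exact k2 hyx
    · rw [mul_one] at hyx
      exact mem_sup_left ⟨hyT, mem_centralizer_singleton_iff.2 (cyc_inv_comm hyx)⟩
    · apply k2
      apply cyc_inv_comm
      have e1 : (ψ cc * (ψ dd)⁻¹)⁻¹ = (ψ cc)⁻¹ * ψ dd := by
        rw [mul_inv_rev, inv_inv]; exact (hcm.symm.inv_right).eq
      rw [e1]; exact hyx
    · apply k1
      apply cyc_inv_comm
      have e1 : (ψ cc * ψ dd)⁻¹ = (ψ cc)⁻¹ * (ψ dd)⁻¹ := by
        rw [mul_inv_rev]; exact (hcm.symm.inv_inv).eq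
      rw [e1]; exact hyx
  rw [hgen] at hle
  have hcent : ∀ a ∈ T ⊓ centralizer ({ψ cc} : Set G), a = 1 ∨ a = ψ a1 ∨ a = ψ a2 ∨ a = ψ a3 := by
    intro a ha
    have h1 := (hT a).1 ha.1
    exact h.TC (mem_centralizer_singleton_iff.1 ha.2) ((mem_XV a).1 h1.1).1 h1.2
  obtain ⟨a, ha, b, hb, rfl⟩ := sup_mul (by
    intro a ha b hb
    have hbX := ((hT b).1 hb.1).1
    rcases hcent a ha with rfl | rfl | rfl | rfl
    · simp
    · exact ((mem_XV b).1 hbX).1.symm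
    · exact ((mem_XV b).1 hbX).2.symm
    · exact (a3_XV hbX).symm) (hle ht)
  exact ⟨a, b, hcent a ha, hb.1, mem_centralizer_singleton_iff.1 hb.2, rfl⟩

end H54.QA
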