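import Mathlib
import Cfsg.Prelude.Def_CaseTheorems
import Cfsg.Agent.Lib.H3.ThompsonTransfer

/-! Dihedral and quasi-dihedral Sylow 2-subgroups with a central involution (helper54). -/

set_option autoImplicit false
set_option linter.unusedSectionVars false
set_option linter.unusedVariables false
set_option linter.style.haveILetI false

namespace H54.QA

open Subgroup
open scoped Pointwise

theorem cyc_core {Γ : Type*} [Group Γ] [Finite Γ] (M : Subgroup Γ) (hM : M.Normal) (hcyc : ∀ P : Sylow 2 M, IsCyclic P) :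
    ∃ K : Subgroup Γ, K.Normal ∧ Odd (Nat.card K) ∧ ∀ x ∈ M, Odd (orderOf x) → x ∈ K := by
  haveI : Fact (Nat.Prime 2) := ⟨Nat.prime_two⟩
  rcases Nat.even_or_odd (Nat.card M) with hev | hodd
  · obtain ⟨P⟩ : Nonempty (Sylow 2 M) := inferInstance
    have hmin : (Nat.card M).minFac = 2 := by
      rw [Nat.minFac_eq_two_iff]; exact hev.two_dvd
    have hP := IsCyclic.normalizer_le_centralizer hmin (hcyc P)
    set K0 := (MonoidHom.transferSylow P hP).ker with hK0
    have hodd : Odd (Nat.card K0) := by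
      rw [← Nat.not_even_iff_odd, even_iff_two_dvd]
      exact MonoidHom.not_dvd_card_ker_transferSylow P hP
    have hx : ∀ x : M, Odd (orderOf x) → x ∈ K0 := by
      intro x hx
      rw [hK0, MonoidHom.mem_ker, ← orderOf_eq_one_iff]
      have h1 : orderOf (MonoidHom.transferSylow P hP x) ∣ orderOf x := orderOf_map_dvd _ _
      have h2 : orderOf (MonoidHom.transferSylow P hP x) ∣ Nat.card P := orderOf_dvd_natCard _
      obtain ⟨k, hk⟩ := IsPGroup.iff_card.1 P.2
      rw [hk] at h2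
      have h3 : (orderOf x).Coprime (2 ^ k) := (Nat.Coprime.pow_right k (Nat.coprime_two_right.2 hx))
      exact Nat.eq_one_of_dvd_coprimes h3 h1 h2
    refine ⟨K0.map M.subtype, ⟨?_⟩, ?_, ?_⟩
    · rintro _ ⟨y, hy, rfl⟩ g
      refine ⟨⟨g * y * g⁻¹, hM.conj_mem _ y.2 g⟩, ?_, rfl⟩
      apply hx
      rw [← orderOf_coe]
      change Odd (orderOf (g * (y : Γ) * g⁻¹))
      have e0 : orderOf (g * (y : Γ) * g⁻¹) = orderOf (y : Γ) := (MulAut.conj g).orderOf_eq (y : Γ)
      rw [e0, orderOf_coe]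
      have h4 : orderOf y ∣ Nat.card K0 := by
        have : orderOf (⟨y, hy⟩ : K0) ∣ Nat.card K0 := orderOf_dvd_natCard _
        rwa [← orderOf_coe] at this
      exact hodd.of_dvd_nat h4
    · have : Nat.card (K0.map M.subtype) = Nat.card K0 :=
        (Nat.card_congr (K0.equivMapOfInjective _ M.subtype_injective).toEquiv).symm
      rw [this]; exact hodd
    · intro x hxM hxo
      exact ⟨⟨x, hxM⟩, hx _ (by rw [← orderOf_coe]; exact hxo), rfl⟩
  · exact ⟨M, hM, hodd, fun x hx _ => hx⟩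

theorem dih_core {Γ : Type*} [Group Γ] [Finite Γ] (P : Sylow 2 Γ) (Q : Subgroup Γ) (hQP : Q ≤ P)
    (hidx : Q.relIndex P = 2) (hcyc : IsCyclic Q) (z : Γ) (hz : ∀ g, g * z = z * g)
    (hinv : ∀ x ∈ Q, x * x = 1 → x ≠ 1 → x = z) (hzQ : z ∈ Q) (hout : ∀ x ∈ (P : Subgroup Γ), x ∉ Q → x * x = 1) :
    ∃ K : Subgroup Γ, K.Normal ∧ Odd (Nat.card K) ∧ ∀ x, Odd (orderOf x) → x ∈ K := by
  haveI : Fact (Nat.Prime 2) := ⟨Nat.prime_two⟩
  obtain ⟨M, hM⟩ : ∃ M : Subgroup Γ, M = sInf {N : Subgroup Γ | N.Normal ∧ N.index = 2} := ⟨_, rfl⟩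
  have hMn : M.Normal := by
    rw [hM]
    refine ⟨fun x hx g => ?_⟩
    rw [mem_sInf] at hx ⊢
    intro N hN
    exact hN.1.conj_mem x (hx N hN) g
  have hModd : ∀ x, Odd (orderOf x) → x ∈ M := by
    intro x hx
    rw [hM, mem_sInf]
    rintro N ⟨hN1, hN2⟩
    obtain ⟨m, hm⟩ := hx
    have h1 : x = (x ^ (m + 1)) ^ 2 := by
      rw [← pow_mul]
      have : (m + 1) * 2 = orderOf x + 1 := by omega
      rw [this, pow_succ, pow_orderOf_eq_one, one_mul]
    rw [h1]
    have := hN1
    exact Subgroup.sq_mem_of_index_two hN2 _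
  have hMP : ∀ u ∈ (P : Subgroup Γ), u ∈ M → u ∈ Q := by
    intro u huP huM
    by_contra huQ
    have hu2 : u ^ 2 = 1 := by rw [pow_two]; exact hout u huP huQ
    obtain ⟨N, hN1, hN2, hN3⟩ := H3.ThompsonTransfer.exists_index_two (P : Subgroup Γ) Q hQP
      (H3.ThompsonTransfer.odd_index_sylow P) hidx u hu2 (by
        intro g hg
        have h1 : g * u * g⁻¹ * (g * u * g⁻¹) = 1 := by
          calc g * u * g⁻¹ * (g * u * g⁻¹) = g * (u * u) * g⁻¹ := by group
            _ = 1 := by rw [← pow_two, hu2]; group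
        have h2 : g * u * g⁻¹ ≠ 1 := by
          intro h3
          apply huQ
          have : u = 1 := by
            calc u = g⁻¹ * (g * u * g⁻¹) * g := by group
              _ = 1 := by rw [h3]; group
          rw [this]; exact one_mem _
        have h3 := hinv _ hg h1 h2
        apply huQ
        have : u = z := by
          calc u = g⁻¹ * (g * u * g⁻¹) * g := by group
            _ = g⁻¹ * (z * g) := by rw [h3]; group
            _ = g⁻¹ * (g * z) := by rw [hz g]
            _ = z := by group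
        rw [this]; exact hzQ)
    apply hN3
    rw [hM, mem_sInf] at huM
    exact huM N ⟨hN1, hN2⟩
  have hc : ∀ R : Sylow 2 M, IsCyclic R := by
    intro R
    have hRp : IsPGroup 2 ((R : Subgroup M).map M.subtype) := R.2.map _
    obtain ⟨S, hS⟩ := hRp.exists_le_sylow
    obtain ⟨g, hg⟩ := MulAction.exists_smul_eq Γ S P
    have h5 : MulAut.conj g • (S : Subgroup Γ) = (P : Subgroup Γ) :=
      congrArg (fun Q : Sylow 2 Γ => (Q : Subgroup Γ)) hg
    have h6 : ∀ x : R, g * ((x : M) : Γ) * g⁻¹ ∈ Q := by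
      intro x
      apply hMP
      · have h7 : ((x : M) : Γ) ∈ (S : Subgroup Γ) := hS ⟨(x : M), x.2, rfl⟩
        have h8 := Subgroup.smul_mem_pointwise_smul _ (MulAut.conj g) _ h7
        rw [h5] at h8
        exact h8
      · exact hMn.conj_mem _ (x : M).2 g
    let f : R →* Q :=
      { toFun := fun x => ⟨g * ((x : M) : Γ) * g⁻¹, h6 x⟩
        map_one' := by apply Subtype.ext; simp
        map_mul' := fun x y => by
          apply Subtype.ext
          change g * (((x * y : R) : M) : Γ) * g⁻¹ = (g * ((x : M) : Γ) * g⁻¹) * (g * ((y : M) : Γ) * g⁻¹)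
          push_cast
          group }
    have hf : Function.Injective f := by
      intro x y hxy
      have h7 := congrArg Subtype.val hxy
      change g * ((x : M) : Γ) * g⁻¹ = g * ((y : M) : Γ) * g⁻¹ at h7
      have h8 : ((x : M) : Γ) = y := by simpa using h7
      exact Subtype.ext (Subtype.ext h8)
    exact isCyclic_of_injective f hf
  obtain ⟨K, hK1, hK2, hK3⟩ := cyc_core M hMn hc
  exact ⟨K, hK1, hK2, fun x hx => hK3 x (hModd x hx) hx⟩

/-- non-central involutions of a quasi-dihedral group are conjugate. -/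
theorem qd_conj {S : Type*} [Group S] [Finite S] (hS : Cfsg.IsQuasiDihedral S) {z v t : S} (hz : ∀ g, g * z = z * g)
    (hz2 : z * z = 1) (hz1 : z ≠ 1) (hv2 : v * v = 1) (hv1 : v ≠ 1) (hvz : v ≠ z) (ht2 : t * t = 1) (ht1 : t ≠ 1)
    (htz : t ≠ z) : ∃ g, g * v * g⁻¹ = t := by
  obtain ⟨m, hm, hcard, x, y, hx, hy, hxy⟩ := hS
  obtain ⟨N, hN⟩ : ∃ N : ℕ, N = 2 ^ (m - 2) := ⟨_, rfl⟩
  have hN1 : 2 ^ (m - 1) = 2 * N := by rw [hN, ← pow_succ']; congr 1; omega
  have hN2 : 2 ^ m = 4 * N := by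
    rw [hN, show (4 : ℕ) = 2 ^ 2 by norm_num, ← pow_add]; congr 1; omega
  have hNe : ∃ N' : ℕ, N = 2 * N' ∧ 0 < N' := by
    refine ⟨2 ^ (m - 3), ?_, by positivity⟩
    rw [hN, ← pow_succ']; congr 1; omega
  obtain ⟨N', hN3, hN4⟩ := hNe
  rw [hN2] at hx
  rw [hN1] at hxy
  have hyy : y * y = 1 := by rw [← pow_two, ← hy, pow_orderOf_eq_one]
  have hconj : ∀ k : ℤ, y * x ^ k * y⁻¹ = x ^ (k * (2 * N - 1)) := by
    intro k
    rw [← conj_zpow, hxy, ← zpow_natCast, ← zpow_mul]
    congr 1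
    have : ((2 * N - 1 : ℕ) : ℤ) = 2 * N - 1 := by
      rw [Nat.cast_sub (by omega)]; push_cast; ring
    rw [this]; ring
  have hx4 : ∀ k : ℤ, x ^ (4 * (N : ℤ) * k) = 1 := by
    intro k
    rw [zpow_mul]
    have : x ^ (4 * (N : ℤ)) = 1 := by
      have h1 := pow_orderOf_eq_one x
      rw [hx] at h1
      exact_mod_cast h1
    rw [this, one_zpow]
  have hyx : y ∉ zpowers x := by
    intro h1
    obtain ⟨k, hk⟩ := mem_zpowers_iff.1 h1
    have h2 : y * x * y⁻¹ = x := by
      rw [← hk]; group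
    rw [h2] at hxy
    have h3 : x ^ (2 * N - 2) = 1 := by
      have e1 : x ^ (2 * N - 1) = x ^ (2 * N - 2) * x := by rw [← pow_succ]; congr 1; omega
      rw [e1] at hxy
      exact mul_right_cancel (hxy.symm.trans (one_mul x).symm)
    have h4 := orderOf_dvd_of_pow_eq_one h3
    rw [hx] at h4
    have := Nat.le_of_dvd (by omega) h4
    omega
  have hidx : (zpowers x).index = 2 := by
    have h1 := (zpowers x).card_mul_index
    rw [Nat.card_zpowers, hx, hcard, pow_succ, hN2] at h1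
    have : 0 < 4 * N := by omega
    exact Nat.eq_of_mul_eq_mul_left this h1
  have hall : ∀ g : S, g ∉ zpowers x → ∃ k : ℤ, g = x ^ k * y := by
    intro g hg
    have h1 : g * y⁻¹ ∈ zpowers x := by
      rw [Subgroup.mul_mem_iff_of_index_two hidx]
      constructor
      · intro h; exact absurd h hg
      · intro h; exact absurd ((zpowers x).inv_mem_iff.1 h) hyx
    obtain ⟨k, hk⟩ := mem_zpowers_iff.1 h1
    exact ⟨k, by rw [hk]; group⟩
  have hinv : ∀ g, g ∈ zpowers x → g * g = 1 → g ≠ 1 → g = x ^ (2 * (N : ℤ)) := by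
    intro g hg h2 h1
    obtain ⟨k, rfl⟩ := mem_zpowers_iff.1 hg
    rw [← zpow_add] at h2
    have h3 : ((orderOf x : ℕ) : ℤ) ∣ (k + k) := orderOf_dvd_iff_zpow_eq_one.2 h2
    rw [hx] at h3
    obtain ⟨c, hc⟩ := h3
    push_cast at hc
    have hk : k = 2 * N * c := by linarith
    rcases Int.even_or_odd' c with ⟨d, hd | hd⟩
    · exfalso; apply h1
      rw [hk, hd]
      have := hx4 d
      rw [← this]; congr 1; ring
    · rw [hk, hd]
      have e1 : (2 * (N : ℤ) * (2 * d + 1)) = 4 * N * d + 2 * N := by ring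
      rw [e1, zpow_add, hx4, one_mul]
  have hzx : z ∈ zpowers x := by
    by_contra h1
    obtain ⟨k, hk⟩ := hall z h1
    have h2 := hz x
    rw [hk] at h2
    have h3 : y * x = x * y := by
      have e1 : x * (x ^ k * y) = x ^ k * (x * y) := by
        rw [← mul_assoc, ← mul_assoc, (Commute.self_zpow x k).eq]
      rw [e1] at h2
      have e2 : x ^ k * y * x = x ^ k * (y * x) := by group
      rw [e2] at h2
      exact (mul_left_cancel h2).symm
    have h4 : y * x * y⁻¹ = x := by rw [h3]; group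
    rw [h4] at hxy
    have h5 : x ^ (2 * N - 2) = 1 := by
      have e1 : x ^ (2 * N - 1) = x ^ (2 * N - 2) * x := by rw [← pow_succ]; congr 1; omega
      rw [e1] at hxy
      exact mul_right_cancel (hxy.symm.trans (one_mul x).symm)
    have h6 := orderOf_dvd_of_pow_eq_one h5
    rw [hx] at h6
    have := Nat.le_of_dvd (by omega) h6
    omega
  have hznv : ∀ g, g * g = 1 → g ≠ 1 → g ≠ z → ∃ k : ℤ, g = x ^ (2 * k) * y := by
    intro g h2 h1 h3
    have h4 : g ∉ zpowers x := by
      intro h5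
      exact h3 ((hinv g h5 h2 h1).trans (hinv z hzx hz2 hz1).symm)
    obtain ⟨k, rfl⟩ := hall g h4
    have h5 : x ^ k * y * (x ^ k * y) = x ^ (k * (2 * N)) := by
      have e1 : x ^ k * y * (x ^ k * y) = x ^ k * (y * x ^ k * y⁻¹) * (y * y) := by group
      rw [e1, hconj, hyy, mul_one, ← zpow_add]
      congr 1; ring
    rw [h5] at h2
    have h6 : ((orderOf x : ℕ) : ℤ) ∣ (k * (2 * N)) := orderOf_dvd_iff_zpow_eq_one.2 h2
    rw [hx] at h6
    obtain ⟨c, hc⟩ := h6
    push_cast at hc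
    refine ⟨c, ?_⟩
    have hk : k = 2 * c := by
      have hNpos : (0 : ℤ) < 2 * N := by have : 0 < N := by omega
                                         positivity
      have : k * (2 * (N : ℤ)) = (2 * c) * (2 * N) := by rw [hc]; ring
      exact mul_right_cancel₀ hNpos.ne' this
    rw [hk]
  obtain ⟨j, rfl⟩ := hznv v hv2 hv1 hvz
  obtain ⟨i, rfl⟩ := hznv t ht2 ht1 htz
  refine ⟨x ^ ((i - j) * (1 - (N : ℤ))), ?_⟩
  obtain ⟨k, hk⟩ : ∃ k : ℤ, k = (i - j) * (1 - (N : ℤ)) := ⟨_, rfl⟩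
  rw [← hk]
  have e1 : x ^ k * (x ^ (2 * j) * y) * (x ^ k)⁻¹ = x ^ (k + 2 * j) * (y * x ^ (-k) * y⁻¹) * y := by
    rw [zpow_add]; group
  rw [e1, hconj, ← zpow_add]
  congr 1
  have e2 : k + 2 * j + -k * (2 * N - 1) = 2 * i + 4 * N * ((i - j) * (N' - 1)) := by
    rw [hk]
    have : (N : ℤ) = 2 * N' := by rw [hN3]; push_cast; ring
    rw [this]; ring
  rw [e2, zpow_add, hx4, mul_one]

end H54.QA
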