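import Mathlib
import Cfsg.Agent.Lib.H54.RA0
import Cfsg.Agent.Lib.H54.QA5
import Cfsg.Agent.Lib.H54.QA4

/-! S3330: the data from the hypotheses, part 1 (helper54). -/

set_option autoImplicit false
set_option linter.unusedSectionVars false
set_option linter.unusedVariables false
set_option maxRecDepth 100000

namespace H54.RS

open Equiv Subgroup H54.RA

def cc : PP := (c3, 1)
def dd : PP := (1, d5)

/-- normalizer of `dd` -/
def MP : Subgroup PP where
  carrier := {k | k * dd * k⁻¹ = dd ∨ k * dd * k⁻¹ = dd⁻¹}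
  one_mem' := by left; group
  mul_mem' := by
    intro a b ha hb
    have e : a * b * dd * (a * b)⁻¹ = a * (b * dd * b⁻¹) * a⁻¹ := by group
    rw [Set.mem_setOf_eq, e]
    rcases hb with hb | hb
    · rw [hb]; exact ha
    · rw [hb]
      have e2 : a * dd⁻¹ * a⁻¹ = (a * dd * a⁻¹)⁻¹ := by group
      rw [e2]
      rcases ha with ha | ha
      · right; rw [ha]
      · left; rw [ha, inv_inv]
  inv_mem' := by
    intro a ha
    rcases ha with ha | ha
    · left
      have : a⁻¹ * dd * a⁻¹⁻¹ = a⁻¹ * (a * dd * a⁻¹) * a := by rw [ha]; group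
      rw [this]; group
    · right
      have h1 : a⁻¹ * dd⁻¹ * a = dd := by
        have h2 : a⁻¹ * (a * dd * a⁻¹) * a = dd := by group
        rw [ha] at h2; exact h2
      calc a⁻¹ * dd * a⁻¹⁻¹ = (a⁻¹ * dd⁻¹ * a)⁻¹ := by group
        _ = dd⁻¹ := by rw [h1]

theorem mem_MP (k : PP) : k ∈ MP ↔ k * dd * k⁻¹ = dd ∨ k * dd * k⁻¹ = dd⁻¹ := Iff.rfl

instance : DecidablePred (· ∈ MP) := fun p => decidable_of_iff _ (mem_MP p).symm

theorem card_MP : Nat.card MP = 72 := by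
  rw [Nat.card_eq_fintype_card]; decide +kernel

theorem cc3 : cc ^ 3 = 1 := by decide +kernel
theorem dd3 : dd ^ 3 = 1 := by decide +kernel
theorem cc_ne : cc ≠ 1 := by decide +kernel
theorem dd_ne : dd ≠ 1 := by decide +kernel
theorem cc_dd : cc * dd = dd * cc := by decide +kernel
/-- centralizes `cc`, inverts `dd` -/
def d1 : PP := (1, swap 1 2)
/-- inverts `cc`, centralizes `dd` -/
def d2 : PP := (swap 0 1, 1)
def tt : PP := (1, t5)
theorem d1_cc : d1 * cc = cc * d1 := by decide +kernel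
theorem d1_dd : d1 * dd * d1⁻¹ = dd⁻¹ := by decide +kernel
theorem d2_cc : d2 * cc * d2⁻¹ = cc⁻¹ := by decide +kernel
theorem d2_dd : d2 * dd = dd * d2 := by decide +kernel
theorem tt_cc : tt * cc = cc * tt := by decide +kernel
theorem tt_dd : tt * dd = dd * tt := by decide +kernel
theorem tt_d1 : tt * d1 = d1 * tt := by decide +kernel
theorem tt_d2 : tt * d2 = d2 * tt := by decide +kernel
theorem tt2 : tt * tt = 1 := by decide +kernel
theorem tt_ne : tt ≠ 1 := by decide +kernel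
theorem d12 : d1 * d1 = 1 := by decide +kernel
theorem d22 : d2 * d2 = 1 := by decide +kernel

theorem d1_MP : d1 ∈ MP := Or.inr d1_dd

theorem k_norm3 : ∀ a : Perm (Fin 3), a * c3 * a⁻¹ = c3 ∨ a * c3 * a⁻¹ = c3⁻¹ := by decide +kernel

theorem k_norm (k : PP) : k * cc * k⁻¹ = cc ∨ k * cc * k⁻¹ = cc⁻¹ := by
  obtain ⟨a, b⟩ := k
  rcases k_norm3 a with h | h
  · left
    refine Prod.ext h ?_
    change b * 1 * b⁻¹ = 1; group
  · right
    refine Prod.ext h ?_
    change b * 1 * b⁻¹ = 1⁻¹; group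

def DK : Subgroup PP := zpowers cc ⊔ zpowers dd

theorem mem_DK {x : PP} (hx : x ∈ DK) : ∃ c d : PP, (c = 1 ∨ c = cc ∨ c = cc⁻¹) ∧ (d = 1 ∨ d = dd ∨ d = dd⁻¹) ∧ x = c * d := by
  have hc : ∀ v ∈ zpowers cc, ∀ p ∈ zpowers dd, v * p = p * v := by
    intro v hv p hp
    obtain ⟨a, rfl⟩ := mem_zpowers_iff.1 hv
    obtain ⟨b, rfl⟩ := mem_zpowers_iff.1 hp
    exact ((show Commute cc dd from cc_dd).zpow_zpow a b).eq
  obtain ⟨c, hc, d, hd, rfl⟩ := H54.QA.sup_mul hc hx
  exact ⟨c, d, H54.QA.zp3 cc3 hc, H54.QA.zp3 dd3 hd, rfl⟩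

theorem card_DK : Nat.card DK = 9 := by
  have h1 := H3.CardSup.card_sup_mul_card_inf (zpowers cc) (zpowers dd) (by
    rw [zpowers_le]
    exact H54.QA.comm_norm cc_dd)
  have h2 : zpowers cc ⊓ zpowers dd = ⊥ := by
    rw [eq_bot_iff]
    rintro x ⟨hx, hy⟩
    rw [mem_bot]
    rcases H54.QA.zp3 cc3 hx with rfl | rfl | rfl
    · rfl
    · exfalso
      rcases H54.QA.zp3 dd3 hy with e | e | e <;> exact absurd e (by decide +kernel)
    · exfalso
      rcases H54.QA.zp3 dd3 hy with e | e | e <;> exact absurd e (by decide +kernel)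
  rw [h2, card_bot, mul_one, Nat.card_zpowers, Nat.card_zpowers, H54.QA.ord3 cc3 cc_ne, H54.QA.ord3 dd3 dd_ne] at h1
  exact h1

/-- `MP` normalises `DK`. -/
theorem MP_DK {k : PP} (hk : k ∈ MP) : ∀ x ∈ DK, k * x * k⁻¹ ∈ DK := by
  intro x hx
  obtain ⟨c, d, hc, hd, rfl⟩ := mem_DK hx
  have e : k * (c * d) * k⁻¹ = (k * c * k⁻¹) * (k * d * k⁻¹) := by group
  have hcc : cc ∈ DK := mem_sup_left (mem_zpowers _)
  have hdd : dd ∈ DK := mem_sup_right (mem_zpowers _)
  have h1 : k * cc * k⁻¹ ∈ DK := by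
    rcases k_norm k with h | h
    · rw [h]; exact hcc
    · rw [h]; exact inv_mem hcc
  have h2 : k * dd * k⁻¹ ∈ DK := by
    rcases hk with h | h
    · rw [h]; exact hdd
    · rw [h]; exact inv_mem hdd
  rw [e]
  apply mul_mem
  · rcases hc with rfl | rfl | rfl
    · simp
    · exact h1
    · have : k * cc⁻¹ * k⁻¹ = (k * cc * k⁻¹)⁻¹ := by group
      rw [this]; exact inv_mem h1
  · rcases hd with rfl | rfl | rfl
    · simp
    · exact h2
    · have : k * dd⁻¹ * k⁻¹ = (k * dd * k⁻¹)⁻¹ := by group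
      rw [this]; exact inv_mem h2

theorem MP_of {k : PP} (h : k * dd * k⁻¹ ∈ DK) : k ∈ MP := by
  obtain ⟨c, d, hc, hd, he⟩ := mem_DK h
  have h1 : c = 1 := by
    have h2 := congrArg Prod.fst he
    change k.1 * 1 * k.1⁻¹ = c.1 * d.1 at h2
    have h3 : d.1 = 1 := by
      rcases hd with rfl | rfl | rfl <;> decide +kernel
    rw [h3, mul_one, mul_one, mul_inv_cancel] at h2
    rcases hc with rfl | rfl | rfl
    · rfl
    · exact absurd h2 (by decide +kernel)
    · exact absurd h2 (by decide +kernel)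
  rw [h1, one_mul] at he
  rcases hd with rfl | rfl | rfl
  · exfalso
    apply dd_ne
    calc dd = k⁻¹ * (k * dd * k⁻¹) * k := by group
      _ = 1 := by rw [he]; group
  · left; exact he
  · right; exact he

theorem xfact {x : PP} (hx : x ∈ DK) (h1 : d1 * x * d1⁻¹ = x ∨ d1 * x * d1⁻¹ = x⁻¹) :
    (x = 1 ∨ x = cc ∨ x = cc⁻¹) ∨ (x = dd ∨ x = dd⁻¹) := by
  obtain ⟨c, d, hc, hd, rfl⟩ := mem_DK hx
  rcases hc with rfl | rfl | rfl <;> rcases hd with rfl | rfl | rfl
  all_goals first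
    | (left; left; decide +kernel)
    | (left; right; left; decide +kernel)
    | (left; right; right; decide +kernel)
    | (right; left; decide +kernel)
    | (right; right; decide +kernel)
    | (exfalso; rcases h1 with h1 | h1 <;> exact absurd h1 (by decide +kernel))

/-- the elements of `PP` centralizing `cc` and `dd`. -/
theorem cdd {k : PP} (h1 : k * cc = cc * k) (h2 : k * dd = dd * k) :
    ∃ x ∈ DK, k = x ∨ k = x * tt := by
  have key : ∀ b : Perm (Fin 5), b * d5 = d5 * b → (b = 1 ∨ b = d5 ∨ b = d5⁻¹) ∨ (b = t5 ∨ b = d5 * t5 ∨ b = d5⁻¹ * t5) := by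
    decide +kernel
  have key3 : ∀ a : Perm (Fin 3), a * c3 = c3 * a → a = 1 ∨ a = c3 ∨ a = c3⁻¹ := by decide +kernel
  obtain ⟨a, b⟩ := k
  have ha := key3 a (congrArg Prod.fst h1)
  have hb := key b (congrArg Prod.snd h2)
  have hcc : cc ∈ DK := mem_sup_left (mem_zpowers _)
  have hdd : dd ∈ DK := mem_sup_right (mem_zpowers _)
  have hcz : ∃ c ∈ DK, c = (a, 1) := by
    rcases ha with rfl | rfl | rfl
    · exact ⟨1, one_mem _, rfl⟩
    · exact ⟨cc, hcc, rfl⟩
    · exact ⟨cc⁻¹, inv_mem hcc, Prod.ext rfl inv_one⟩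
  obtain ⟨c, hc, rfl⟩ := hcz
  rcases hb with hb | hb
  · have hdz : ∃ d ∈ DK, d = (1, b) := by
      rcases hb with rfl | rfl | rfl
      · exact ⟨1, one_mem _, rfl⟩
      · exact ⟨dd, hdd, rfl⟩
      · exact ⟨dd⁻¹, inv_mem hdd, Prod.ext inv_one rfl⟩
    obtain ⟨d, hd, rfl⟩ := hdz
    exact ⟨_, mul_mem hc hd, Or.inl (Prod.ext (mul_one a).symm (one_mul b).symm)⟩
  · have hdz : ∃ d ∈ DK, d * tt = (1, b) := by
      rcases hb with rfl | rfl | rfl
      · exact ⟨1, one_mem _, Prod.ext (one_mul _) (one_mul _)⟩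
      · exact ⟨dd, hdd, Prod.ext (one_mul _) rfl⟩
      · exact ⟨dd⁻¹, inv_mem hdd, Prod.ext (by change (1 : Perm (Fin 3))⁻¹ * 1 = 1; simp) rfl⟩
    obtain ⟨d, hd, hdt⟩ := hdz
    refine ⟨_, mul_mem hc hd, Or.inr ?_⟩
    rw [mul_assoc, hdt]
    exact Prod.ext (mul_one a).symm (one_mul b).symm

end H54.RS
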