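import Mathlib
import Cfsg.Agent.Lib.H54.RS1

/-! S3330: the data from the hypotheses, part 2 (helper54). -/

set_option autoImplicit false
set_option linter.unusedSectionVars false
set_option linter.unusedVariables false
set_option maxRecDepth 100000

namespace H54.RS

open Equiv Subgroup H54.RA

variable {G : Type*} [Group G] [Finite G] {ψ : PP →* G}

theorem card_rel {A B : Subgroup G} (h : A ≤ B) : Nat.card A * A.relIndex B = Nat.card B := by
  have h1 := Subgroup.card_mul_index (A.subgroupOf B)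
  rw [Nat.card_congr (Subgroup.subgroupOfEquivOfLe h).toEquiv] at h1
  exact h1

theorem five_dvd (hψ : Function.Injective ψ) {y c : G}
    (h1 : ψ (1, swap 0 1 * swap 1 2 * swap 2 3 * swap 3 4) * (c * y * c⁻¹) =
      (c * y * c⁻¹) * ψ (1, swap 0 1 * swap 1 2 * swap 2 3 * swap 3 4)) :
    5 ∣ Nat.card (centralizer ({y} : Set G)) := by
  rw [H54.QA.cardC (a := y) (b := c * y * c⁻¹) (c := c) rfl]
  obtain ⟨q, hq⟩ : ∃ q : PP, q = (1, swap 0 1 * swap 1 2 * swap 2 3 * swap 3 4) := ⟨_, rfl⟩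
  have hq5 : q ^ 5 = 1 := by rw [hq]; decide +kernel
  have hq1 : q ≠ 1 := by rw [hq]; decide +kernel
  rw [← hq] at h1
  have ho : orderOf (ψ q) = 5 := by
    rw [orderOf_injective ψ hψ]
    haveI : Fact (Nat.Prime 5) := ⟨by norm_num⟩
    exact orderOf_eq_prime hq5 hq1
  have h3 : zpowers (ψ q) ≤ centralizer ({c * y * c⁻¹} : Set G) := by
    rw [zpowers_le, mem_centralizer_singleton_iff]
    exact h1
  have h4 := card_dvd_of_le h3
  rwa [Nat.card_zpowers, ho] at h4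

theorem sqD : ∀ q : DihedralGroup 4 × Multiplicative (ZMod 2), q * q = 1 ∨ q * q = (DihedralGroup.r 2, 1) := by
  decide +kernel

theorem rfact : ∀ r : Perm (Fin 3), r * r = 1 → r * c3 * r⁻¹ = c3⁻¹ → r = swap 0 1 ∨ c3 * r * c3⁻¹ = swap 0 1 ∨
    c3⁻¹ * r * c3⁻¹⁻¹ = swap 0 1 := by decide +kernel

theorem bfact : ∀ b : Perm (Fin 5), b * b = 1 → b * d5 = d5 * b → b = 1 ∨ b = t5 := by decide +kernel

theorem mkRD (hψ : Function.Injective ψ) (hr : ∀ g, g ∈ normalizer (zpowers (ψ cc) : Set G) → ∃ k, ψ k = g)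
    {D : Subgroup G} (hD9 : Nat.card D = 9) (hcD : ψ cc ∈ D) (hdD : ψ dd ∈ D)
    (h144 : Nat.card (normalizer (D : Set G)) = 144)
    (eN : Subgroup.normalizer (D : Set G) ⧸ D.subgroupOf (Subgroup.normalizer (D : Set G)) ≃*
      DihedralGroup 4 × Multiplicative (ZMod 2)) {y : G} (hyD : y ∈ D)
    (hy : Nat.card (centralizer ({y} : Set G)) = 36) (hyn : ∀ g ∈ centralizer ({y} : Set G), ∀ x ∈ D, g * x * g⁻¹ ∈ D)
    (h27 : ¬ 27 ∣ Nat.card G) : ∃ n, UD ψ n ∨ TD ψ n := by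
  have hDK : DK.map ψ = D := by
    apply eq_of_le_of_card_ge
    · rintro _ ⟨x, hx, rfl⟩
      obtain ⟨c, d, hc, hd, rfl⟩ := mem_DK hx
      rw [map_mul]
      apply mul_mem
      · rcases hc with rfl | rfl | rfl
        · rw [map_one]; exact one_mem _
        · exact hcD
        · rw [map_inv]; exact inv_mem hcD
      · rcases hd with rfl | rfl | rfl
        · rw [map_one]; exact one_mem _
        · exact hdD
        · rw [map_inv]; exact inv_mem hdD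
    · rw [hD9, Nat.card_congr (DK.equivMapOfInjective ψ hψ).toEquiv.symm, card_DK]
  have hDDD : DD ψ = D := by
    rw [← hDK, DK, Subgroup.map_sup, MonoidHom.map_zpowers, MonoidHom.map_zpowers]; rfl
  have hDmem : ∀ x ∈ D, ∃ c d : PP, (c = 1 ∨ c = cc ∨ c = cc⁻¹) ∧ (d = 1 ∨ d = dd ∨ d = dd⁻¹) ∧ x = ψ (c * d) := by
    intro x hx
    rw [← hDK] at hx
    obtain ⟨k, hk, rfl⟩ := hx
    obtain ⟨c, d, hc, hd, rfl⟩ := mem_DK hk
    exact ⟨c, d, hc, hd, rfl⟩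
  have hBc : Nat.card (MP.map ψ) = 72 := by
    rw [Nat.card_congr (MP.equivMapOfInjective ψ hψ).toEquiv.symm, card_MP]
  have nD : ∀ x, x ∈ normalizer (D : Set G) ↔ ∀ d ∈ D, x * d * x⁻¹ ∈ D := by
    intro x
    constructor
    · intro hx d hd
      exact (mem_normalizer_iff.1 hx d).1 hd
    · intro hx
      exact mem_normalizer_fintype hx
  have hBN : MP.map ψ ≤ normalizer (D : Set G) := by
    rintro _ ⟨k, hk, rfl⟩
    rw [nD, ← hDK]
    rintro _ ⟨x, hx, rfl⟩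
    exact ⟨k * x * k⁻¹, MP_DK hk x hx, by rw [map_mul, map_mul, map_inv]⟩
  have hNB : ∀ k, ψ k ∈ normalizer (D : Set G) → k ∈ MP := by
    intro k hk
    apply MP_of
    have h1 := (nD _).1 hk _ hdD
    rw [← map_inv, ← map_mul, ← map_mul, ← hDK] at h1
    obtain ⟨x, hx, hx2⟩ := h1
    rw [← hψ hx2]; exact hx
  have hidx : ((MP.map ψ).subgroupOf (normalizer (D : Set G))).index = 2 := by
    have h1 := card_rel hBN
    rw [hBc, h144] at h1
    have h2 : (MP.map ψ).relIndex (normalizer (D : Set G)) = 2 := by omega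
    exact h2
  haveI hnorm := Subgroup.normal_of_index_eq_two hidx
  have hnor : ∀ x ∈ normalizer (D : Set G), ∀ k ∈ MP, ∃ k' ∈ MP, ψ k' = x⁻¹ * ψ k * x := by
    intro x hx k hk
    have h1 := hnorm.conj_mem ⟨ψ k, hBN ⟨k, hk, rfl⟩⟩ (by rw [mem_subgroupOf]; exact ⟨k, hk, rfl⟩) ⟨x⁻¹, inv_mem hx⟩
    rw [mem_subgroupOf] at h1
    obtain ⟨k', hk', he⟩ := h1
    refine ⟨k', hk', he.trans ?_⟩
    change x⁻¹ * ψ k * x⁻¹⁻¹ = _
    rw [inv_inv]
  have hsq : ∀ x ∈ normalizer (D : Set G), ∃ k, ψ k = x * x := by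
    intro x hx
    have h1 := Subgroup.mul_self_mem_of_index_two hidx ⟨x, hx⟩
    rw [mem_subgroupOf] at h1
    obtain ⟨k', hk', he⟩ := h1
    exact ⟨k', he⟩
  obtain ⟨n, hn, hnB⟩ : ∃ n ∈ normalizer (D : Set G), n ∉ MP.map ψ := by
    by_contra hc
    push Not at hc
    have h1 : normalizer (D : Set G) ≤ MP.map ψ := hc
    have h2 := card_le_of_le h1
    rw [h144, hBc] at h2
    omega
  have hnr : ¬ ∃ k, ψ k = n := by
    rintro ⟨k, rfl⟩
    exact hnB ⟨k, hNB k hn, rfl⟩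
  have key : n * ψ cc * n⁻¹ = ψ dd ∨ n * ψ cc * n⁻¹ = (ψ dd)⁻¹ := by
    have h1 := (nD _).1 hn _ hcD
    rw [← hDK] at h1
    obtain ⟨x, hx, hx2⟩ := h1
    obtain ⟨k, hk, hk2⟩ := hnor n hn d1 d1_MP
    have h3 : ψ d1 = n * ψ k * n⁻¹ := by rw [hk2]; group
    have h4 : d1 * x * d1⁻¹ = x ∨ d1 * x * d1⁻¹ = x⁻¹ := by
      rcases k_norm k with h5 | h5
      · left
        apply hψ
        rw [map_mul, map_mul, map_inv, hx2, h3]
        calc n * ψ k * n⁻¹ * (n * ψ cc * n⁻¹) * (n * ψ k * n⁻¹)⁻¹ = n * (ψ k * ψ cc * (ψ k)⁻¹) * n⁻¹ := by group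
          _ = n * ψ cc * n⁻¹ := by rw [← map_inv, ← map_mul, ← map_mul, h5]
      · right
        apply hψ
        rw [map_mul, map_mul, map_inv, map_inv, hx2, h3]
        calc n * ψ k * n⁻¹ * (n * ψ cc * n⁻¹) * (n * ψ k * n⁻¹)⁻¹ = n * (ψ k * ψ cc * (ψ k)⁻¹) * n⁻¹ := by group
          _ = (n * ψ cc * n⁻¹)⁻¹ := by rw [← map_inv, ← map_mul, ← map_mul, h5, map_inv]; group
    rcases xfact hx h4 with h5 | h5 | h5
    · exfalso
      apply hnr
      apply hr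
      apply H54.QA.inv_norm
      rw [← hx2]
      rcases h5 with rfl | rfl | rfl
      · rw [map_one]; exact one_mem _
      · exact mem_zpowers _
      · rw [map_inv]; exact inv_mem (mem_zpowers _)
    · left; rw [← hx2, h5]
    · right; rw [← hx2, h5, map_inv]
  have key2 : n * ψ dd * n⁻¹ = ψ cc ∨ n * ψ dd * n⁻¹ = (ψ cc)⁻¹ := by
    obtain ⟨k, hk⟩ := hsq n hn
    have h1 : n * (n * ψ cc * n⁻¹) * n⁻¹ = ψ (k * cc * k⁻¹) := by
      rw [map_mul, map_mul, map_inv, hk]; group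
    have h2 : n * (n * ψ cc * n⁻¹) * n⁻¹ = ψ cc ∨ n * (n * ψ cc * n⁻¹) * n⁻¹ = (ψ cc)⁻¹ := by
      rcases k_norm k with h5 | h5
      · left; rw [h1, h5]
      · right; rw [h1, h5, map_inv]
    rcases key with h3 | h3
    · rw [h3] at h2; exact h2
    · rw [h3] at h2
      have h4 : n * ψ dd * n⁻¹ = (n * (ψ dd)⁻¹ * n⁻¹)⁻¹ := by group
      rw [h4]
      rcases h2 with h2 | h2
      · right; rw [h2]
      · left; rw [h2, inv_inv]
  -- adjust the signs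
  have hd1N : ψ d1 ∈ normalizer (D : Set G) := hBN ⟨d1, d1_MP, rfl⟩
  have hd2N : ψ d2 ∈ normalizer (D : Set G) := hBN ⟨d2, by left; rw [d2_dd, mul_inv_cancel_right], rfl⟩
  obtain ⟨m, hm1, hm2, hmN⟩ : ∃ m, m * ψ cc * m⁻¹ = ψ dd ∧ m * ψ dd * m⁻¹ = ψ cc ∧ m ∈ normalizer (D : Set G) := by
    have e1 : ψ d1 * ψ cc * (ψ d1)⁻¹ = ψ cc := by
      rw [← map_inv, ← map_mul, ← map_mul, d1_cc, mul_inv_cancel_right]
    have e2 : ψ d1 * ψ dd * (ψ d1)⁻¹ = (ψ dd)⁻¹ := by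
      rw [← map_inv, ← map_mul, ← map_mul, d1_dd, map_inv]
    have e3 : ψ d2 * ψ cc * (ψ d2)⁻¹ = (ψ cc)⁻¹ := by
      rw [← map_inv, ← map_mul, ← map_mul, d2_cc, map_inv]
    have e4 : ψ d2 * ψ dd * (ψ d2)⁻¹ = ψ dd := by
      rw [← map_inv, ← map_mul, ← map_mul, d2_dd, mul_inv_cancel_right]
    have e2' : ψ d1 * (ψ dd)⁻¹ * (ψ d1)⁻¹ = ψ dd := by
      calc ψ d1 * (ψ dd)⁻¹ * (ψ d1)⁻¹ = (ψ d1 * ψ dd * (ψ d1)⁻¹)⁻¹ := by group
        _ = ψ dd := by rw [e2, inv_inv]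
    have e3' : ψ d2 * (ψ cc)⁻¹ * (ψ d2)⁻¹ = ψ cc := by
      calc ψ d2 * (ψ cc)⁻¹ * (ψ d2)⁻¹ = (ψ d2 * ψ cc * (ψ d2)⁻¹)⁻¹ := by group
        _ = ψ cc := by rw [e3, inv_inv]
    have e1' : ψ d1 * (ψ cc)⁻¹ * (ψ d1)⁻¹ = (ψ cc)⁻¹ := by
      calc ψ d1 * (ψ cc)⁻¹ * (ψ d1)⁻¹ = (ψ d1 * ψ cc * (ψ d1)⁻¹)⁻¹ := by group
        _ = (ψ cc)⁻¹ := by rw [e1]
    rcases key with h1 | h1 <;> rcases key2 with h2 | h2
    · exact ⟨n, h1, h2, hn⟩
    · refine ⟨ψ d2 * n, ?_, ?_, mul_mem hd2N hn⟩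
      · calc ψ d2 * n * ψ cc * (ψ d2 * n)⁻¹ = ψ d2 * (n * ψ cc * n⁻¹) * (ψ d2)⁻¹ := by group
          _ = ψ dd := by rw [h1, e4]
      · calc ψ d2 * n * ψ dd * (ψ d2 * n)⁻¹ = ψ d2 * (n * ψ dd * n⁻¹) * (ψ d2)⁻¹ := by group
          _ = ψ cc := by rw [h2, e3']
    · refine ⟨ψ d1 * n, ?_, ?_, mul_mem hd1N hn⟩
      · calc ψ d1 * n * ψ cc * (ψ d1 * n)⁻¹ = ψ d1 * (n * ψ cc * n⁻¹) * (ψ d1)⁻¹ := by group
          _ = ψ dd := by rw [h1, e2']
      · calc ψ d1 * n * ψ dd * (ψ d1 * n)⁻¹ = ψ d1 * (n * ψ dd * n⁻¹) * (ψ d1)⁻¹ := by group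
          _ = ψ cc := by rw [h2, e1]
    · refine ⟨ψ d2 * (ψ d1 * n), ?_, ?_, mul_mem hd2N (mul_mem hd1N hn)⟩
      · calc ψ d2 * (ψ d1 * n) * ψ cc * (ψ d2 * (ψ d1 * n))⁻¹
            = ψ d2 * (ψ d1 * (n * ψ cc * n⁻¹) * (ψ d1)⁻¹) * (ψ d2)⁻¹ := by group
          _ = ψ dd := by rw [h1, e2', e4]
      · calc ψ d2 * (ψ d1 * n) * ψ dd * (ψ d2 * (ψ d1 * n))⁻¹
            = ψ d2 * (ψ d1 * (n * ψ dd * n⁻¹) * (ψ d1)⁻¹) * (ψ d2)⁻¹ := by group
          _ = ψ cc := by rw [h2, e1', e3']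
  -- the centralizer of `D`
  have hDab : ∀ a ∈ D, ∀ b ∈ D, a * b = b * a := by
    intro a ha b hb
    obtain ⟨c, d, hc, hd, rfl⟩ := hDmem a ha
    obtain ⟨c', d', hc', hd', rfl⟩ := hDmem b hb
    rw [← map_mul, ← map_mul]
    congr 1
    have e : Commute cc dd := cc_dd
    rcases hc with rfl | rfl | rfl <;> rcases hd with rfl | rfl | rfl <;> rcases hc' with rfl | rfl | rfl <;>
      rcases hd' with rfl | rfl | rfl <;> decide +kernel
  have hD3 : ∀ a ∈ D, a * a * a = 1 := by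
    intro a ha
    obtain ⟨c, d, hc, hd, rfl⟩ := hDmem a ha
    rw [← map_mul, ← map_mul, ← map_one ψ]
    congr 1
    rcases hc with rfl | rfl | rfl <;> rcases hd with rfl | rfl | rfl <;> decide +kernel
  have hD2 : ∀ a ∈ D, a * a = 1 → a = 1 := by
    intro a ha h2
    have h3 := hD3 a ha
    rwa [h2, one_mul] at h3
  have htD : ∀ a ∈ D, ψ tt * a = a * ψ tt := by
    intro a ha
    obtain ⟨c, d, hc, hd, rfl⟩ := hDmem a ha
    rw [← map_mul, ← map_mul]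
    congr 1
    rcases hc with rfl | rfl | rfl <;> rcases hd with rfl | rfl | rfl <;> decide +kernel
  have ht2 : ψ tt * ψ tt = 1 := by rw [← map_mul, tt2, map_one]
  have htne : ψ tt ≠ 1 := fun h => tt_ne (hψ (by rw [h, map_one]))
  have htnD : ψ tt ∉ D := fun h => htne (hD2 _ h ht2)
  have hCD : ∀ g, g * ψ cc = ψ cc * g → g * ψ dd = ψ dd * g → ∃ x ∈ D, g = x ∨ g = x * ψ tt := by
    intro g h1 h2
    obtain ⟨k, rfl⟩ := hr g (H54.QA.comm_norm h1)
    obtain ⟨x, hx, hx2⟩ := cdd (k := k) (hψ (by rw [map_mul, map_mul, h1])) (hψ (by rw [map_mul, map_mul, h2]))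
    refine ⟨ψ x, by rw [← hDK]; exact ⟨x, hx, rfl⟩, ?_⟩
    rcases hx2 with rfl | rfl
    · left; rfl
    · right; rw [map_mul]
  have huniq : ∀ g, g * ψ cc = ψ cc * g → g * ψ dd = ψ dd * g → g * g = 1 → g ≠ 1 → g = ψ tt := by
    intro g h1 h2 h3 h4
    obtain ⟨x, hx, rfl | rfl⟩ := hCD g h1 h2
    · exact absurd (hD2 _ hx h3) h4
    · have h5 : x * x = 1 := by
        calc x * x = x * ψ tt * (x * ψ tt) := by
              rw [mul_assoc x (ψ tt), ← mul_assoc (ψ tt) x, htD x hx, mul_assoc x (ψ tt), ht2, mul_one]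
          _ = 1 := h3
      rw [hD2 x hx h5, one_mul]
  have hNt : ∀ g ∈ normalizer (D : Set G), g * ψ tt = ψ tt * g := by
    intro g hg
    have h0 : g * ψ tt * g⁻¹ = ψ tt := by
      apply huniq
      · have h1 : g⁻¹ * ψ cc * g ∈ D := by
          have := (nD _).1 (inv_mem hg) _ hcD
          rwa [inv_inv] at this
        calc g * ψ tt * g⁻¹ * ψ cc = g * (ψ tt * (g⁻¹ * ψ cc * g)) * g⁻¹ := by group
          _ = g * ((g⁻¹ * ψ cc * g) * ψ tt) * g⁻¹ := by rw [htD _ h1]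
          _ = _ := by group
      · have h1 : g⁻¹ * ψ dd * g ∈ D := by
          have := (nD _).1 (inv_mem hg) _ hdD
          rwa [inv_inv] at this
        calc g * ψ tt * g⁻¹ * ψ dd = g * (ψ tt * (g⁻¹ * ψ dd * g)) * g⁻¹ := by group
          _ = g * ((g⁻¹ * ψ dd * g) * ψ tt) * g⁻¹ := by rw [htD _ h1]
          _ = _ := by group
      · calc g * ψ tt * g⁻¹ * (g * ψ tt * g⁻¹) = g * (ψ tt * ψ tt) * g⁻¹ := by group
          _ = 1 := by rw [ht2]; group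
      · intro h1
        apply htne
        calc ψ tt = g⁻¹ * (g * ψ tt * g⁻¹) * g := by group
          _ = 1 := by rw [h1]; group
    calc g * ψ tt = g * ψ tt * g⁻¹ * g := by group
      _ = ψ tt * g := by rw [h0]
  -- `n1`
  obtain ⟨n1, hn1, hn2, hnN, hnn⟩ : ∃ n1, n1 * ψ cc * n1⁻¹ = ψ dd ∧ n1 * ψ dd * n1⁻¹ = ψ cc ∧
      n1 ∈ normalizer (D : Set G) ∧ (n1 * n1 = 1 ∨ n1 * n1 = ψ tt) := by
    have q1 : m * m * ψ cc = ψ cc * (m * m) := by
      calc m * m * ψ cc = m * (m * ψ cc * m⁻¹) * m⁻¹ * (m * m) := by group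
        _ = _ := by rw [hm1, hm2]
    have q2 : m * m * ψ dd = ψ dd * (m * m) := by
      calc m * m * ψ dd = m * (m * ψ dd * m⁻¹) * m⁻¹ * (m * m) := by group
        _ = _ := by rw [hm2, hm1]
    obtain ⟨x, hx, hx2⟩ := hCD _ q1 q2
    have hmt := hNt m hmN
    have hxm : m * x = x * m := by
      rcases hx2 with h | h
      · rw [← h]; group
      · have h3 : x = m * m * ψ tt := by rw [h, mul_assoc, ht2, mul_one]
        rw [h3]
        calc m * (m * m * ψ tt) = m * m * (m * ψ tt) := by group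
          _ = m * m * (ψ tt * m) := by rw [hmt]
          _ = _ := by group
    have hxc := hDab x hx _ hcD
    have hxd := hDab x hx _ hdD
    refine ⟨m * x, ?_, ?_, mul_mem hmN (by rw [nD]; intro d hd; rw [hDab x hx d hd]; rwa [mul_inv_cancel_right]), ?_⟩
    · calc m * x * ψ cc * (m * x)⁻¹ = m * (x * ψ cc) * x⁻¹ * m⁻¹ := by group
        _ = m * (ψ cc * x) * x⁻¹ * m⁻¹ := by rw [hxc]
        _ = m * ψ cc * m⁻¹ := by group
        _ = _ := hm1
    · calc m * x * ψ dd * (m * x)⁻¹ = m * (x * ψ dd) * x⁻¹ * m⁻¹ := by group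
        _ = m * (ψ dd * x) * x⁻¹ * m⁻¹ := by rw [hxd]
        _ = m * ψ dd * m⁻¹ := by group
        _ = _ := hm2
    · have h3 : m * x * (m * x) = m * m * (x * x) := by
        calc m * x * (m * x) = m * (x * m) * x := by group
          _ = m * (m * x) * x := by rw [hxm]
          _ = _ := by group
      rw [h3]
      rcases hx2 with h | h
      · left; rw [h, ← mul_assoc, hD3 x hx]
      · right
        rw [h, mul_assoc x, htD _ (mul_mem hx hx), ← mul_assoc, ← mul_assoc, hD3 x hx, one_mul]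
  have hr0N := hd2N
  have hn1n1 : n1 * n1 = 1 := by
    rcases hnn with h | h
    · exact h
    · exfalso
      obtain ⟨b, hb⟩ : ∃ b, b = ψ d2 * n1 := ⟨_, rfl⟩
      have hbN : b ∈ normalizer (D : Set G) := by rw [hb]; exact mul_mem hd2N hnN
      have e3 : ψ d2 * ψ cc * (ψ d2)⁻¹ = (ψ cc)⁻¹ := by
        rw [← map_inv, ← map_mul, ← map_mul, d2_cc, map_inv]
      have e4 : ψ d2 * ψ dd * (ψ d2)⁻¹ = ψ dd := by
        rw [← map_inv, ← map_mul, ← map_mul, d2_dd, mul_inv_cancel_right]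
      have hbb : b * b * ψ cc * (b * b)⁻¹ = (ψ cc)⁻¹ := by
        calc b * b * ψ cc * (b * b)⁻¹ = ψ d2 * (n1 * (ψ d2 * (n1 * ψ cc * n1⁻¹) * (ψ d2)⁻¹) * n1⁻¹) * (ψ d2)⁻¹ := by
              rw [hb]; group
          _ = (ψ cc)⁻¹ := by rw [hn1, e4, hn2, e3]
      have hcne : ψ cc ≠ (ψ cc)⁻¹ := by
        rw [← map_inv]
        intro h9
        exact absurd (hψ h9) (by decide +kernel)
      have hnoc : ¬ (b * b * ψ cc = ψ cc * (b * b)) := by
        intro h9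
        apply hcne
        rw [← hbb, h9]; group
      haveI : (D.subgroupOf (normalizer (D : Set G))).Normal := Subgroup.normal_in_normalizer
      obtain ⟨a', ha'⟩ : ∃ a' : normalizer (D : Set G) ⧸ D.subgroupOf (normalizer (D : Set G)),
        a' = QuotientGroup.mk' _ ⟨n1, hnN⟩ := ⟨_, rfl⟩
      obtain ⟨b', hb'⟩ : ∃ b' : normalizer (D : Set G) ⧸ D.subgroupOf (normalizer (D : Set G)),
        b' = QuotientGroup.mk' _ ⟨b, hbN⟩ := ⟨_, rfl⟩
      have ha1 : a' * a' ≠ 1 := by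
        rw [ha', ← map_mul]
        intro h9
        have h10 := (QuotientGroup.eq_one_iff _).1 h9
        rw [mem_subgroupOf] at h10
        apply htnD
        rw [← h]; exact h10
      have hb1 : b' * b' ≠ 1 := by
        rw [hb', ← map_mul]
        intro h9
        have h10 := (QuotientGroup.eq_one_iff _).1 h9
        rw [mem_subgroupOf] at h10
        exact hnoc (hDab _ h10 _ hcD)
      have hab : a' * a' = b' * b' := by
        apply eN.injective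
        rw [map_mul, map_mul]
        rcases sqD (eN a') with h9 | h9
        · exact absurd (eN.injective (by rw [map_mul, h9, map_one])) ha1
        · rcases sqD (eN b') with h10 | h10
          · exact absurd (eN.injective (by rw [map_mul, h10, map_one])) hb1
          · rw [h9, h10]
      have h11 : ψ tt * (b * b)⁻¹ ∈ D ∨ (ψ tt)⁻¹ * (b * b) ∈ D := by
        right
        rw [ha', hb', ← map_mul, ← map_mul] at hab
        have h12 := QuotientGroup.eq.1 hab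
        rw [mem_subgroupOf] at h12
        rw [← h]; exact h12
      rcases h11 with h11 | h11
      · apply hnoc
        have h13 := hDab _ h11 _ hcD
        have h14 := htD _ hcD
        have c1 : Commute (ψ tt * (b * b)⁻¹) (ψ cc) := h13
        have c2 : Commute (ψ tt) (ψ cc) := h14
        have c3' : Commute ((ψ tt)⁻¹ * (ψ tt * (b * b)⁻¹)) (ψ cc) := c2.inv_left.mul_left c1
        rw [inv_mul_cancel_left] at c3'
        have c4 := c3'.inv_left
        rw [inv_inv] at c4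
        exact c4.eq
      · apply hnoc
        have c1 : Commute ((ψ tt)⁻¹ * (b * b)) (ψ cc) := hDab _ h11 _ hcD
        have c2 : Commute (ψ tt) (ψ cc) := htD _ hcD
        have c3' := c2.mul_left c1
        rw [mul_inv_cancel_left] at c3'
        exact c3'.eq
  have h1t := hNt n1 hnN
  -- the image of `d1`
  obtain ⟨r, b, hrb, hrr, hri, hbb, hbd⟩ : ∃ (r : Perm (Fin 3)) (b : Perm (Fin 5)), n1 * ψ d1 * n1⁻¹ = ψ (r, b) ∧ r * r = 1 ∧
      r * c3 * r⁻¹ = c3⁻¹ ∧ b * b = 1 ∧ b * d5 = d5 * b := by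
    have e1 : ψ d1 * ψ cc = ψ cc * ψ d1 := by
      rw [← map_mul, ← map_mul, d1_cc]
    have e2 : ψ d1 * ψ dd * (ψ d1)⁻¹ = (ψ dd)⁻¹ := by
      rw [← map_inv, ← map_mul, ← map_mul, d1_dd, map_inv]
    have f1 : (n1 * ψ d1 * n1⁻¹) * ψ cc * (n1 * ψ d1 * n1⁻¹)⁻¹ = (ψ cc)⁻¹ := by
      calc (n1 * ψ d1 * n1⁻¹) * ψ cc * (n1 * ψ d1 * n1⁻¹)⁻¹
          = n1 * (ψ d1 * (n1⁻¹ * ψ cc * n1) * (ψ d1)⁻¹) * n1⁻¹ := by group
        _ = n1 * (ψ d1 * ψ dd * (ψ d1)⁻¹) * n1⁻¹ := by rw [← hn2]; group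
        _ = (n1 * ψ dd * n1⁻¹)⁻¹ := by rw [e2]; group
        _ = _ := by rw [hn2]
    have f2 : (n1 * ψ d1 * n1⁻¹) * ψ dd = ψ dd * (n1 * ψ d1 * n1⁻¹) := by
      calc (n1 * ψ d1 * n1⁻¹) * ψ dd = n1 * (ψ d1 * ψ cc) * n1⁻¹ := by rw [← hn1]; group
        _ = n1 * (ψ cc * ψ d1) * n1⁻¹ := by rw [e1]
        _ = (n1 * ψ cc * n1⁻¹) * (n1 * ψ d1 * n1⁻¹) := by group
        _ = _ := by rw [hn1]
    obtain ⟨k, hk⟩ := hr (n1 * ψ d1 * n1⁻¹) (H54.QA.inv_norm (by rw [f1]; exact inv_mem (mem_zpowers _)))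
    rw [← hk] at f1 f2
    have g1 : k * cc * k⁻¹ = cc⁻¹ := by
      apply hψ
      rw [map_mul, map_mul, map_inv, map_inv, f1]
    have g2 : k * dd = dd * k := by
      apply hψ
      rw [map_mul, map_mul, f2]
    have g3 : k * k = 1 := by
      apply hψ
      rw [map_mul, hk, map_one]
      calc n1 * ψ d1 * n1⁻¹ * (n1 * ψ d1 * n1⁻¹) = n1 * (ψ d1 * ψ d1) * n1⁻¹ := by group
        _ = 1 := by rw [← map_mul, d12, map_one]; group
    exact ⟨k.1, k.2, hk.symm, congrArg Prod.fst g3, congrArg Prod.fst g1, congrArg Prod.snd g3, congrArg Prod.snd g2⟩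
  have hbt := bfact b hbb hbd
  obtain ⟨c, d, hcr, hcd, hcm, hdm⟩ : ∃ (c : Perm (Fin 3)) (d : PP), c * r * c⁻¹ = swap 0 1 ∧ n1 * ψ (c, 1) * n1⁻¹ = ψ d ∧
      (ψ (c, 1) ∈ D) ∧ (n1 * ψ d * n1⁻¹ = ψ (c, 1) ∧ ψ d ∈ D ∧ d.1 = 1 ∧ d.2 * d5 = d5 * d.2 ∧ d.2 * b = b * d.2) := by
    rcases rfact r hrr hri with h9 | h9 | h9
    · refine ⟨1, 1, by rw [h9]; group, ?_, ?_, ?_, ?_, rfl, ?_, ?_⟩
      · change n1 * ψ 1 * n1⁻¹ = ψ 1
        rw [map_one]; group
      · change ψ 1 ∈ D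
        rw [map_one]; exact one_mem _
      · change n1 * ψ 1 * n1⁻¹ = ψ 1
        rw [map_one]; group
      · rw [map_one]; exact one_mem _
      · change 1 * d5 = d5 * 1; rw [one_mul, mul_one]
      · change 1 * b = b * 1; rw [one_mul, mul_one]
    · refine ⟨c3, dd, h9, hn1, hcD, hn2, hdD, rfl, rfl, hbd.symm⟩
    · refine ⟨c3⁻¹, dd⁻¹, h9, ?_, ?_, ?_, ?_, ?_, ?_, ?_⟩
      · have e : ((c3⁻¹, 1) : PP) = cc⁻¹ := Prod.ext rfl inv_one.symm
        rw [e, map_inv, map_inv]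
        calc n1 * (ψ cc)⁻¹ * n1⁻¹ = (n1 * ψ cc * n1⁻¹)⁻¹ := by group
          _ = _ := by rw [hn1]
      · have e : ((c3⁻¹, 1) : PP) = cc⁻¹ := Prod.ext rfl inv_one.symm
        rw [e, map_inv]; exact inv_mem hcD
      · have e : ((c3⁻¹, 1) : PP) = cc⁻¹ := Prod.ext rfl inv_one.symm
        rw [e, map_inv, map_inv]
        calc n1 * (ψ dd)⁻¹ * n1⁻¹ = (n1 * ψ dd * n1⁻¹)⁻¹ := by group
          _ = _ := by rw [hn2]
      · rw [map_inv]; exact inv_mem hdD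
      · exact inv_one
      · change d5⁻¹ * d5 = d5 * d5⁻¹; group
      · change d5⁻¹ * b = b * d5⁻¹
        exact ((show Commute b d5 from hbd).inv_right).symm.eq
  obtain ⟨hdn, hdD', hd1', hd5', hdb'⟩ := hdm
  obtain ⟨v, hv⟩ : ∃ v, v = ψ (c, 1) * (ψ d)⁻¹ := ⟨_, rfl⟩
  have hvD : v ∈ D := by rw [hv]; exact mul_mem hcm (inv_mem hdD')
  have hvn : n1 * v * n1⁻¹ = v⁻¹ := by
    rw [hv]
    calc n1 * (ψ (c, 1) * (ψ d)⁻¹) * n1⁻¹ = (n1 * ψ (c, 1) * n1⁻¹) * (n1 * ψ d * n1⁻¹)⁻¹ := by group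
      _ = (ψ (c, 1) * (ψ d)⁻¹)⁻¹ := by rw [hcd, hdn]; group
  obtain ⟨n2, hn2'⟩ : ∃ n2, n2 = v * n1 := ⟨_, rfl⟩
  have hvc := hDab v hvD _ hcD
  have hvd := hDab v hvD _ hdD
  have hvt := htD v hvD
  have k1 : n2 * ψ cc * n2⁻¹ = ψ dd := by
    calc n2 * ψ cc * n2⁻¹ = v * (n1 * ψ cc * n1⁻¹) * v⁻¹ := by rw [hn2']; group
      _ = v * ψ dd * v⁻¹ := by rw [hn1]
      _ = _ := by rw [hvd]; group
  have k2 : n2 * ψ dd * n2⁻¹ = ψ cc := by
    calc n2 * ψ dd * n2⁻¹ = v * (n1 * ψ dd * n1⁻¹) * v⁻¹ := by rw [hn2']; group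
      _ = v * ψ cc * v⁻¹ := by rw [hn2]
      _ = _ := by rw [hvc]; group
  have k3 : n2 * ψ tt = ψ tt * n2 := by
    calc n2 * ψ tt = v * (n1 * ψ tt) := by rw [hn2']; group
      _ = v * (ψ tt * n1) := by rw [h1t]
      _ = (ψ tt * v) * n1 := by rw [hvt]; group
      _ = _ := by rw [hn2']; group
  have k4 : n2 * n2 = 1 := by
    calc n2 * n2 = v * (n1 * v * n1⁻¹) * (n1 * n1) := by rw [hn2']; group
      _ = 1 := by rw [hvn, hn1n1]; group
  have k5 : n2 * ψ d1 * n2⁻¹ = ψ (swap 0 1, b) := by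
    calc n2 * ψ d1 * n2⁻¹ = v * (n1 * ψ d1 * n1⁻¹) * v⁻¹ := by rw [hn2']; group
      _ = v * ψ (r, b) * v⁻¹ := by rw [hrb]
      _ = ψ (((c, 1) * d⁻¹) * (r, b) * ((c, 1) * d⁻¹)⁻¹) := by
        rw [hv, map_mul, map_mul, map_inv, map_mul, map_inv]
      _ = _ := by
        congr 1
        refine Prod.ext ?_ ?_
        · change (c * d.1⁻¹) * r * (c * d.1⁻¹)⁻¹ = swap 0 1
          rw [hd1', inv_one, mul_one]; exact hcr
        · change (1 * d.2⁻¹) * b * (1 * d.2⁻¹)⁻¹ = b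
          rw [one_mul, inv_inv, mul_assoc, ← hdb']; group
  -- the element `y`
  obtain ⟨c', d', hc', hd', hyv⟩ := hDmem y hyD
  have q5c : Commute ((1, swap 0 1 * swap 1 2 * swap 2 3 * swap 3 4) : PP) cc := by
    change _ * _ = _ * _
    decide +kernel
  obtain ⟨q, hq⟩ : ∃ q : PP, q = (1, swap 0 1 * swap 1 2 * swap 2 3 * swap 3 4) := ⟨_, rfl⟩
  rw [← hq] at q5c
  have q5c' : Commute (ψ q) (ψ cc) := q5c.map ψ
  have h5no : ∀ (a x : G), a * y * a⁻¹ = x → Commute (ψ q) x → False := by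
    intro a x hx h2
    have h4 := five_dvd (ψ := ψ) hψ (y := y) (c := a) (by rw [hx, ← hq]; exact h2.eq)
    rw [hy] at h4
    norm_num at h4
  have hfin : ∃ k ∈ MP, ψ k * y * (ψ k)⁻¹ = ψ (c3, d5) := by
    have hd2MP : d2 ∈ MP := by left; rw [d2_dd, mul_inv_cancel_right]
    rcases hd' with rfl | rfl | rfl
    · exfalso
      rw [mul_one] at hyv
      rcases hc' with rfl | rfl | rfl
      · exact h5no 1 1 (by rw [hyv, map_one]; group) (Commute.one_right _)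
      · exact h5no 1 (ψ cc) (by rw [hyv]; group) q5c'
      · exact h5no 1 (ψ cc)⁻¹ (by rw [hyv, map_inv]; group) q5c'.inv_right
    · rcases hc' with rfl | rfl | rfl
      · exfalso
        rw [one_mul] at hyv
        exact h5no n2 (ψ cc) (by rw [hyv, k2]) q5c'
      · refine ⟨1, one_mem _, ?_⟩
        rw [hyv, map_one, one_mul, inv_one, mul_one]
        congr 1
      · refine ⟨d2, hd2MP, ?_⟩
        rw [hyv, ← map_inv, ← map_mul, ← map_mul]
        congr 1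
        decide +kernel
    · rcases hc' with rfl | rfl | rfl
      · exfalso
        rw [one_mul, map_inv] at hyv
        refine h5no n2 (ψ cc)⁻¹ ?_ q5c'.inv_right
        calc n2 * y * n2⁻¹ = (n2 * ψ dd * n2⁻¹)⁻¹ := by rw [hyv]; group
          _ = _ := by rw [k2]
      · refine ⟨d1, d1_MP, ?_⟩
        rw [hyv, ← map_inv, ← map_mul, ← map_mul]
        congr 1
        decide +kernel
      · refine ⟨d1 * d2, mul_mem d1_MP hd2MP, ?_⟩
        rw [hyv, ← map_inv, ← map_mul, ← map_mul]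
        congr 1
        decide +kernel
  obtain ⟨k, hkM, hky⟩ := hfin
  have hkN : ψ k ∈ normalizer (D : Set G) := hBN ⟨k, hkM, rfl⟩
  have hcyD : ∀ g : G, g * ψ (c3, d5) = ψ (c3, d5) * g → g ∈ normalizer (D : Set G) := by
    intro g hg
    have h2 : (ψ k)⁻¹ * g * ψ k ∈ centralizer ({y} : Set G) := by
      rw [mem_centralizer_singleton_iff]
      have h3 : y = (ψ k)⁻¹ * ψ (c3, d5) * ψ k := by rw [← hky]; group
      rw [h3]
      calc (ψ k)⁻¹ * g * ψ k * ((ψ k)⁻¹ * ψ (c3, d5) * ψ k) = (ψ k)⁻¹ * (g * ψ (c3, d5)) * ψ k := by group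
        _ = (ψ k)⁻¹ * (ψ (c3, d5) * g) * ψ k := by rw [hg]
        _ = _ := by group
    have h3 : (ψ k)⁻¹ * g * ψ k ∈ normalizer (D : Set G) := (nD _).2 (hyn _ h2)
    have h4 : g = ψ k * ((ψ k)⁻¹ * g * ψ k) * (ψ k)⁻¹ := by group
    rw [h4]
    exact mul_mem (mul_mem hkN h3) (inv_mem hkN)
  have hRD : RD ψ n2 := by
    refine ⟨hψ, hr, k1, k2, k3, k4, ?_, ?_, ?_, h27⟩
    · rw [← hy]
      exact (H54.QA.cardC (c := ψ k) hky).symm
    · intro g hg
      exact hNt g (hcyD g hg)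
    · intro g hg
      rw [hDDD]; exact hcyD g hg
  refine ⟨n2, ?_⟩
  rcases hbt with rfl | rfl
  · left; exact ⟨hRD, k5⟩
  · right; exact ⟨hRD, k5⟩

end H54.RS
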