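import Mathlib
import Cfsg.Agent.Lib.H54.RS2

/-! S3330: the data from the hypotheses, part 3 (helper54). -/

set_option autoImplicit false
set_option linter.unusedSectionVars false
set_option linter.unusedVariables false
set_option maxRecDepth 100000

namespace H54.RS

open Equiv Subgroup H54.RA

def e5 : Perm (Fin 5) := swap 2 3 * swap 3 4

theorem afact3 : ∀ a : Perm (Fin 3), a * a * a = 1 → a = 1 ∨ a = c3 ∨ a = c3⁻¹ := by decide +kernel
theorem bfact3 : ∀ b : Perm (Fin 5), b * b * b = 1 → (d5 * b * d5⁻¹ = b ∨ d5 * b * d5⁻¹ = b⁻¹) →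
    (e5 * b * e5⁻¹ = b ∨ e5 * b * e5⁻¹ = b⁻¹) → b = 1 := by decide +kernel

theorem k_char {k : PP} (h3 : k ^ 3 = 1) (hk1 : k ≠ 1) (hn : ∀ x : PP, x * k * x⁻¹ = k ∨ x * k * x⁻¹ = k⁻¹) :
    k = cc ∨ k = cc⁻¹ := by
  obtain ⟨a, b⟩ := k
  have ha : a * a * a = 1 := by
    have := congrArg Prod.fst h3
    rw [pow_succ, pow_two] at this; exact this
  have hb : b * b * b = 1 := by
    have := congrArg Prod.snd h3
    rw [pow_succ, pow_two] at this; exact this
  have h1 : d5 * b * d5⁻¹ = b ∨ d5 * b * d5⁻¹ = b⁻¹ := by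
    rcases hn dd with h | h
    · left; exact congrArg Prod.snd h
    · right; exact congrArg Prod.snd h
  have h2 : e5 * b * e5⁻¹ = b ∨ e5 * b * e5⁻¹ = b⁻¹ := by
    rcases hn (1, e5) with h | h
    · left; exact congrArg Prod.snd h
    · right; exact congrArg Prod.snd h
  have hb1 := bfact3 b hb h1 h2
  subst hb1
  rcases afact3 a ha with rfl | rfl | rfl
  · exact absurd rfl hk1
  · left; rfl
  · right; exact Prod.ext rfl inv_one.symm

theorem setup {G : Type*} [Group G] [Finite G]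
    (P : Sylow 3 G) (D : Subgroup G) (hDP : D = P) (y z : G) (hgen : Subgroup.closure {y, z} = D)
    (hcomm : IsMulCommutative D) (hcard : Nat.card D = 9) (hexp : ∀ a ∈ D, a ^ 3 = 1)
    (hC : Nat.card (Subgroup.centralizer (D : Set G)) = 18)
    (eN : Subgroup.normalizer (D : Set G) ⧸ D.subgroupOf (Subgroup.normalizer (D : Set G)) ≃* DihedralGroup 4 × Multiplicative (ZMod 2))
    (hyn : (D.subgroupOf (Subgroup.centralizer ({y} : Set G))).Normal)
    (hycard : Nat.card (Subgroup.centralizer ({y} : Set G)) = 36)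
    (eL : Subgroup.normalizer (Subgroup.zpowers z : Set G) ≃* Equiv.Perm (Fin 3) × Equiv.Perm (Fin 5)) :
    ∃ (ψ : PP →* G) (n : G), UD ψ n ∨ TD ψ n := by
  have : Fact (Nat.Prime 3) := ⟨Nat.prime_three⟩
  have hyD : y ∈ D := by rw [← hgen]; exact subset_closure (by simp)
  have hzD : z ∈ D := by rw [← hgen]; exact subset_closure (by simp)
  have hDc : ∀ a ∈ D, ∀ b ∈ D, a * b = b * a := by
    intro a ha b hb
    exact congrArg Subtype.val (hcomm.is_comm.comm ⟨a, ha⟩ ⟨b, hb⟩)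
  have h27 : ¬ 27 ∣ Nat.card G := by
    intro h
    have h1 := P.card_mul_index
    have h2 := P.not_dvd_index
    rw [← hDP] at h1 h2
    rw [hcard] at h1
    rw [← h1] at h
    apply h2
    have h3 : 9 * 3 ∣ 9 * D.index := by simpa using h
    exact (Nat.mul_dvd_mul_iff_left (by norm_num)).1 h3
  have h144 : Nat.card (normalizer (D : Set G)) = 144 := by
    have h1 := (D.subgroupOf (normalizer (D : Set G))).card_eq_card_quotient_mul_card_subgroup
    rw [Nat.card_congr eN.toEquiv, Nat.card_congr (subgroupOfEquivOfLe (le_normalizer (H := D))).toEquiv, hcard,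
      Nat.card_prod, DihedralGroup.nat_card, Nat.card_eq_fintype_card (α := Multiplicative (ZMod 2)), Fintype.card_multiplicative,
      ZMod.card] at h1
    omega
  have hz1 : z ≠ 1 := by
    rintro rfl
    have h1 : D ≤ zpowers y := by
      rw [← hgen, closure_le]
      rintro x (rfl | hx)
      · exact mem_zpowers _
      · rw [Set.mem_singleton_iff.1 hx]; exact one_mem _
    have h2 := card_le_of_le h1
    rw [hcard, Nat.card_zpowers] at h2
    have h3 : orderOf y ∣ 3 := orderOf_dvd_of_pow_eq_one (hexp y hyD)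
    have := Nat.le_of_dvd (by norm_num) h3
    omega
  have hz3 : z ^ 3 = 1 := hexp z hzD
  -- the homomorphism
  obtain ⟨ψ0, hψ0, hr0, hm0⟩ : ∃ ψ0 : PP →* G, Function.Injective ψ0 ∧
      (∀ g, g ∈ normalizer (zpowers z : Set G) → ∃ k, ψ0 k = g) ∧ (∀ k, ψ0 k ∈ normalizer (zpowers z : Set G)) := by
    refine ⟨(normalizer (zpowers z : Set G)).subtype.comp eL.symm.toMonoidHom, ?_, ?_, ?_⟩
    · exact (normalizer (zpowers z : Set G)).subtype_injective.comp eL.symm.injective
    · intro g hg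
      refine ⟨eL ⟨g, hg⟩, ?_⟩
      change ((eL.symm (eL ⟨g, hg⟩) : normalizer (zpowers z : Set G)) : G) = g
      rw [eL.symm_apply_apply]
    · intro k; exact (eL.symm k).2
  obtain ⟨k0, hk0⟩ := hr0 z (H54.QA.comm_norm rfl)
  have hk03 : k0 ^ 3 = 1 := hψ0 (by rw [map_pow, hk0, hz3, map_one])
  have hk01 : k0 ≠ 1 := by rintro rfl; rw [map_one] at hk0; exact hz1 hk0.symm
  have hkn : ∀ x : PP, x * k0 * x⁻¹ = k0 ∨ x * k0 * x⁻¹ = k0⁻¹ := by
    intro x
    have h1 := (mem_normalizer_iff.1 (hm0 x) z).1 (mem_zpowers z)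
    rcases H54.QA.zp3 hz3 h1 with h2 | h2 | h2
    · exfalso
      apply hz1
      calc z = (ψ0 x)⁻¹ * (ψ0 x * z * (ψ0 x)⁻¹) * ψ0 x := by group
        _ = 1 := by rw [h2]; group
    · left; apply hψ0; rw [map_mul, map_mul, map_inv, hk0]; exact h2
    · right; apply hψ0; rw [map_mul, map_mul, map_inv, map_inv, hk0]; exact h2
  have hcz : ψ0 cc = z ∨ ψ0 cc = z⁻¹ := by
    rcases k_char hk03 hk01 hkn with h | h
    · left; rw [← h, hk0]
    · right; rw [← hk0, h, map_inv, inv_inv]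
  have hzz : zpowers (ψ0 cc) = zpowers z := by
    rcases hcz with h | h
    · rw [h]
    · rw [h, zpowers_inv]
  have hcD : ψ0 cc ∈ D := by
    rcases hcz with h | h
    · rw [h]; exact hzD
    · rw [h]; exact inv_mem hzD
  have hDle : D ≤ centralizer ({ψ0 cc} : Set G) := by
    intro x hx
    rw [mem_centralizer_singleton_iff]
    exact hDc _ hx _ hcD
  have hEle : zpowers (ψ0 dd) ≤ centralizer ({ψ0 cc} : Set G) := by
    rw [zpowers_le, mem_centralizer_singleton_iff, ← map_mul, ← map_mul, cc_dd]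
  have hDp : IsPGroup 3 D := IsPGroup.of_card (n := 2) (by rw [hcard]; norm_num)
  have hEp : IsPGroup 3 (zpowers (ψ0 dd)) := by
    have h1 : orderOf (ψ0 dd) = 3 := by
      rw [orderOf_injective ψ0 hψ0, H54.QA.ord3 dd3 dd_ne]
    exact IsPGroup.of_card (n := 1) (by rw [Nat.card_zpowers, h1]; norm_num)
  have hidx : ¬ 3 ∣ D.relIndex (centralizer ({ψ0 cc} : Set G)) := by
    intro h
    apply h27
    have h1 := card_rel hDle
    rw [hcard] at h1
    have h2 : 9 * 3 ∣ Nat.card (centralizer ({ψ0 cc} : Set G)) := by rw [← h1]; exact Nat.mul_dvd_mul_left 9 h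
    exact (by simpa using h2 : 27 ∣ _).trans (card_subgroup_dvd_card _)
  obtain ⟨h, hh, hhD⟩ := H54.QA.conjP _ D hDle hDp hidx hEle hEp
  have hhc : h * ψ0 cc = ψ0 cc * h := by
    have := mem_centralizer_singleton_iff.1 hh
    first
      | exact this
      | exact this.symm
  have hcc' : h * ψ0 cc * h⁻¹ = ψ0 cc := by rw [hhc, mul_inv_cancel_right]
  obtain ⟨ψ, hψd⟩ : ∃ ψ : PP →* G, ∀ k, ψ k = h * ψ0 k * h⁻¹ := ⟨(MulAut.conj h).toMonoidHom.comp ψ0, fun k => rfl⟩
  have hψc : ψ cc = ψ0 cc := by rw [hψd, hcc']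
  have hψi : Function.Injective ψ := by
    intro a b hab
    rw [hψd, hψd] at hab
    apply hψ0
    calc ψ0 a = h⁻¹ * (h * ψ0 a * h⁻¹) * h := by group
      _ = h⁻¹ * (h * ψ0 b * h⁻¹) * h := by rw [hab]
      _ = ψ0 b := by group
  have hyn' : ∀ g ∈ centralizer ({y} : Set G), ∀ x ∈ D, g * x * g⁻¹ ∈ D := by
    intro g hg x hx
    have hxC : x ∈ centralizer ({y} : Set G) := by
      rw [mem_centralizer_singleton_iff]
      exact hDc _ hx _ hyD
    have h1 := hyn.conj_mem ⟨x, hxC⟩ (by rw [mem_subgroupOf]; exact hx) ⟨g, hg⟩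
    rw [mem_subgroupOf] at h1
    exact h1
  obtain ⟨n, hn⟩ := mkRD (ψ := ψ) hψi (by
    intro g hg
    rw [hψc, hzz] at hg
    have hhN : h ∈ normalizer (zpowers z : Set G) := by rw [← hzz]; exact H54.QA.comm_norm hhc
    obtain ⟨k, hk⟩ := hr0 (h⁻¹ * g * h) (mul_mem (mul_mem (inv_mem hhN) hg) hhN)
    exact ⟨k, by rw [hψd, hk]; group⟩) hcard (by rw [hψc]; exact hcD) (by rw [hψd]; exact hhD _ (mem_zpowers _)) h144 eN hyD hycard hyn' h27
  exact ⟨ψ, n, hn⟩

end H54.RS
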