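import Mathlib
import Cfsg.Agent.Lib.H98.TjDef
import Cfsg.Agent.Lib.H3.CardSup

/-! S3068: the piece `caseB` (helper54). -/

set_option autoImplicit false
set_option linter.unusedSectionVars false
set_option linter.unusedVariables false

namespace H54.TjB

open Cfsg H98.Tj
open scoped commutatorElement

universe u

/-- the subgroup of elements `f` of `N` with `⁅f, c⁆ ∈ W` for all `c ∈ C`. -/
def LL {G : Type u} [Group G] (N W C : Subgroup G)
    (hm : ∀ f ∈ N, ∀ g ∈ N, ∀ c ∈ C, ⁅f * g, c⁆ = ⁅f, c⁆ * ⁅g, c⁆) : Subgroup G where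
  carrier := {f | f ∈ N ∧ ∀ c ∈ C, ⁅f, c⁆ ∈ W}
  one_mem' := by
    refine ⟨one_mem _, fun c _ => ?_⟩
    rw [commutatorElement_one_left]; exact one_mem _
  mul_mem' := by
    rintro f g ⟨hf, hf2⟩ ⟨hg, hg2⟩
    refine ⟨mul_mem hf hg, fun c hc => ?_⟩
    rw [hm f hf g hg c hc]
    exact mul_mem (hf2 c hc) (hg2 c hc)
  inv_mem' := by
    rintro f ⟨hf, hf2⟩
    refine ⟨inv_mem hf, fun c hc => ?_⟩
    have h1 := hm f hf f⁻¹ (inv_mem hf) c hc
    rw [mul_inv_cancel, commutatorElement_one_left] at h1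
    rw [← inv_eq_of_mul_eq_one_right h1.symm]
    exact inv_mem (hf2 c hc)

theorem mem_LL {G : Type u} [Group G] {N W C : Subgroup G}
    {hm : ∀ f ∈ N, ∀ g ∈ N, ∀ c ∈ C, ⁅f * g, c⁆ = ⁅f, c⁆ * ⁅g, c⁆} {f : G} :
    f ∈ LL N W C hm ↔ f ∈ N ∧ ∀ c ∈ C, ⁅f, c⁆ ∈ W := Iff.rfl

theorem comm_inv {G : Type u} [Group G] {N C : Subgroup G}
    (hm : ∀ f ∈ N, ∀ g ∈ N, ∀ c ∈ C, ⁅f * g, c⁆ = ⁅f, c⁆ * ⁅g, c⁆) {f c : G} (hf : f ∈ N) (hc : c ∈ C) :
    ⁅f⁻¹, c⁆ = ⁅f, c⁆⁻¹ := by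
  have h1 := hm f hf f⁻¹ (inv_mem hf) c hc
  rw [mul_inv_cancel, commutatorElement_one_left] at h1
  exact (inv_eq_of_mul_eq_one_right h1.symm).symm

theorem sup_mul' {G : Type u} [Group G] {A B : Subgroup G} (hc : ∀ a ∈ A, ∀ b ∈ B, a * b = b * a) {x : G}
    (hx : x ∈ A ⊔ B) : ∃ a ∈ A, ∃ b ∈ B, x = a * b := by
  let P : Subgroup G :=
    { carrier := {x | ∃ a ∈ A, ∃ b ∈ B, x = a * b}
      one_mem' := ⟨1, one_mem _, 1, one_mem _, by simp⟩
      mul_mem' := by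
        rintro _ _ ⟨a, ha, b, hb, rfl⟩ ⟨c, hc', d, hd, rfl⟩
        refine ⟨a * c, mul_mem ha hc', b * d, mul_mem hb hd, ?_⟩
        calc a * b * (c * d) = a * (b * c) * d := by group
          _ = a * (c * b) * d := by rw [hc c hc' b hb]
          _ = _ := by group
      inv_mem' := by
        rintro _ ⟨a, ha, b, hb, rfl⟩
        refine ⟨a⁻¹, inv_mem ha, b⁻¹, inv_mem hb, ?_⟩
        rw [mul_inv_rev]
        exact (hc a⁻¹ (inv_mem ha) b⁻¹ (inv_mem hb)).symm }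
  have h1 : A ⊔ B ≤ P := by
    apply sup_le
    · intro a ha; exact ⟨a, ha, 1, one_mem _, by simp⟩
    · intro b hb; exact ⟨1, one_mem _, b, hb, by simp⟩
  exact h1 hx

/-- `A ⊔ B` is abelian if `A`, `B` are and commute. -/
theorem sup_ab {G : Type u} [Group G] {A B : Subgroup G} (hc : ∀ a ∈ A, ∀ b ∈ B, a * b = b * a)
    (hA : ∀ a ∈ A, ∀ b ∈ A, a * b = b * a) (hB : ∀ a ∈ B, ∀ b ∈ B, a * b = b * a) :
    (A ⊔ B) ≤ Subgroup.centralizer ((A ⊔ B : Subgroup G) : Set G) := by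
  intro x hx
  rw [Subgroup.mem_centralizer_iff]
  intro y hy
  obtain ⟨a, ha, b, hb, rfl⟩ := sup_mul' hc hx
  obtain ⟨c, hc', d, hd, rfl⟩ := sup_mul' hc hy
  have c1 : Commute a c := hA a ha c hc'
  have c2 : Commute b d := hB b hb d hd
  have c3 : Commute a d := hc a ha d hd
  have c4 : Commute c b := hc c hc' b hb
  exact (((c1.symm.mul_right c4).mul_left ((c3.symm.mul_right c2.symm)))).eq

theorem caseB {G : Type u} [Group G] [Finite G] {p : ℕ} [Fact p.Prime] (S : Sylow p G) {Q X F V A : Subgroup G}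
    (hQ : Q = pCore p G) (h : Cfg (S : Subgroup G) Q X F V A) (hcnt : Cnt Q A V)
    (hq : ∃ v ∈ V, ∃ a ∈ A, ⁅v, a⁆ ∉ Subgroup.centralizer (A : Set G)) :
    ∀ u ∈ A, iterCommutator F (Subgroup.zpowers u) 4 ≤ V := by
  obtain ⟨D, hD, hDc, hDQ'⟩ := hcnt.t
  have hDQ : D ≤ Q := hDQ' hq
  have hVF : V ≤ F := by rw [h.V_eq]; exact inf_le_left
  have hVX : V ≤ Subgroup.centralizer (X : Set G) := by rw [h.V_eq]; exact inf_le_right
  have hVS : V ≤ (S : Subgroup G) := hVF.trans (h.FX.trans (h.XQ.trans h.QS))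
  have hFS : F ≤ (S : Subgroup G) := h.FX.trans (h.XQ.trans h.QS)
  have hDA : D ≤ A := fun c hc => ((hD c).1 hc).1
  have hAc : ∀ a ∈ A, ∀ b ∈ A, a * b = b * a := fun a ha b hb =>
    (Subgroup.mem_centralizer_iff.1 (h.lex.aa.comm ha) b hb).symm
  have hVFc : ∀ v ∈ V, ∀ f ∈ F, v * f = f * v := fun v hv f hf =>
    (Subgroup.mem_centralizer_iff.1 (hVX hv) f (h.FX hf)).symm
  have hcA : ∀ x, x ∈ Subgroup.centralizer (A : Set G) ↔ ∀ a ∈ A, a * x = x * a := fun x => Subgroup.mem_centralizer_iff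
  have hVn := h.Vn
  have hFn := h.Fn
  -- the group `B`
  obtain ⟨B, hB⟩ : ∃ B, B = D ⊔ (V ⊓ Subgroup.centralizer (D : Set G)) := ⟨_, rfl⟩
  have hDV : ∀ a ∈ D, ∀ b ∈ V ⊓ Subgroup.centralizer (D : Set G), a * b = b * a := fun a ha b hb =>
    Subgroup.mem_centralizer_iff.1 hb.2 a ha
  have hBm : ∀ x ∈ B, ∃ c ∈ D, ∃ v ∈ V, x = c * v := by
    intro x hx
    rw [hB] at hx
    obtain ⟨a, ha, b, hb, e⟩ := sup_mul' hDV hx
    exact ⟨a, ha, b, hb.1, e⟩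
  have hBS : B ≤ (S : Subgroup G) := by
    rw [hB]
    exact sup_le (hDA.trans h.lex.aa.le) (inf_le_left.trans hVS)
  have hBc : B ≤ Subgroup.centralizer (B : Set G) := by
    rw [hB]
    exact sup_ab hDV (fun a ha b hb => hAc a (hDA ha) b (hDA hb)) (fun a ha b hb => hVFc a ha.1 b (hVF hb.1))
  have hBcard : Nat.card A ≤ Nat.card B := by
    have h1 := H3.CardSup.card_sup_mul_card_inf D (V ⊓ Subgroup.centralizer (D : Set G)) (by
      intro a ha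
      apply Subgroup.mem_normalizer_fintype
      intro x hx
      have e : a * x * a⁻¹ = x := by rw [hDV a ha x hx]; group
      rw [e]; exact hx)
    rw [← hB, hDc] at h1
    have h2 : Nat.card (D ⊓ (V ⊓ Subgroup.centralizer (D : Set G)) : Subgroup G) ≤
        Nat.card (V ⊓ Subgroup.centralizer (A : Set G) : Subgroup G) := by
      apply Subgroup.card_le_of_le
      rintro x ⟨hx1, hx2⟩
      exact ⟨hx2.1, h.lex.aa.comm (hDA hx1)⟩
    have h3 : 0 < Nat.card (V ⊓ Subgroup.centralizer (A : Set G) : Subgroup G) := Nat.card_pos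
    have h4 : Nat.card A * Nat.card (V ⊓ Subgroup.centralizer (A : Set G) : Subgroup G) ≤
        Nat.card B * Nat.card (V ⊓ Subgroup.centralizer (A : Set G) : Subgroup G) := by
      rw [← h1]; exact Nat.mul_le_mul_left _ h2
    exact Nat.le_of_mul_le_mul_right h4 h3
  have hBmax : ∀ s ∈ (S : Subgroup G), (∀ b ∈ B, b * s = s * b) → s ∈ B := by
    intro s hs hsb
    have hz : ∀ a ∈ B, ∀ b ∈ Subgroup.zpowers s, a * b = b * a := by
      rintro a ha _ ⟨k, rfl⟩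
      exact ((show Commute a s from hsb a ha).zpow_right k).eq
    have h1 := h.lex.aa.max (B ⊔ Subgroup.zpowers s) (sup_le hBS (Subgroup.zpowers_le.2 hs))
      (sup_ab hz (fun a ha b hb => (Subgroup.mem_centralizer_iff.1 (hBc ha) b hb).symm) (by
        rintro _ ⟨i, rfl⟩ _ ⟨j, rfl⟩
        exact ((Commute.refl s).zpow_zpow i j).eq))
    have h2 : B = B ⊔ Subgroup.zpowers s := Subgroup.eq_of_le_of_card_ge le_sup_left (h1.trans hBcard)
    rw [h2]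
    exact Subgroup.mem_sup_right (Subgroup.mem_zpowers s)
  -- homomorphisms
  have homF : ∀ f ∈ F, ∀ g ∈ F, ∀ c ∈ D, ⁅f * g, c⁆ = ⁅f, c⁆ * ⁅g, c⁆ := by
    intro f hf g hg c hc
    have h1 : ⁅g, c⁆ ∈ V := h.FQ (Subgroup.commutator_mem_commutator hg (hDQ hc))
    have h2 : ⁅f, c⁆ ∈ V := h.FQ (Subgroup.commutator_mem_commutator hf (hDQ hc))
    have e1 : ⁅f * g, c⁆ = f * ⁅g, c⁆ * f⁻¹ * ⁅f, c⁆ := by
      simp only [commutatorElement_def]; group
    rw [e1, ← hVFc _ h1 f hf, mul_assoc ⁅g, c⁆ f f⁻¹, mul_inv_cancel, mul_one, hVFc _ h1 _ (hVF h2)]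
  have homV : ∀ f ∈ V, ∀ g ∈ V, ∀ c ∈ A, ⁅f * g, c⁆ = ⁅f, c⁆ * ⁅g, c⁆ := by
    intro f hf g hg c hc
    have h1 : ⁅g, c⁆ ∈ V := by
      rw [commutatorElement_def, mul_assoc, mul_assoc, ← mul_assoc c]
      exact mul_mem hg (hVn.conj_mem _ (inv_mem hg) c)
    have h2 : ⁅f, c⁆ ∈ V := by
      rw [commutatorElement_def, mul_assoc, mul_assoc, ← mul_assoc c]
      exact mul_mem hf (hVn.conj_mem _ (inv_mem hf) c)
    have e1 : ⁅f * g, c⁆ = f * ⁅g, c⁆ * f⁻¹ * ⁅f, c⁆ := by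
      simp only [commutatorElement_def]; group
    rw [e1, ← hVFc _ h1 f (hVF hf), mul_assoc ⁅g, c⁆ f f⁻¹, mul_inv_cancel, mul_one, hVFc _ h1 _ (hVF h2)]
  have hVA : ∀ v ∈ V, ∀ a ∈ A, ⁅v, a⁆ ∈ V := by
    intro v hv a ha
    rw [commutatorElement_def, mul_assoc, mul_assoc, ← mul_assoc a]
    exact mul_mem hv (hVn.conj_mem _ (inv_mem hv) a)
  have hFA : ∀ v ∈ F, ∀ a ∈ A, ⁅v, a⁆ ∈ F := by
    intro v hv a ha
    rw [commutatorElement_def, mul_assoc, mul_assoc, ← mul_assoc a]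
    exact mul_mem hv (hFn.conj_mem _ (inv_mem hv) a)
  have swapF : ∀ f ∈ F, ∀ c ∈ D, ∀ a ∈ A, ⁅⁅f, a⁆, c⁆ = ⁅⁅f, c⁆, a⁆ := by
    intro f hf c hc a ha
    have h1 : ⁅f, a⁆ = f * (a * f⁻¹ * a⁻¹) := by rw [commutatorElement_def]; group
    have h2 : a * f⁻¹ * a⁻¹ ∈ F := hFn.conj_mem _ (inv_mem hf) a
    rw [h1, homF f hf _ h2 c hc]
    have h3 : ⁅a * f⁻¹ * a⁻¹, c⁆ = a * ⁅f⁻¹, c⁆ * a⁻¹ := by
      have h4 : c = a * c * a⁻¹ := by rw [hAc a ha c (hDA hc)]; group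
      conv_lhs => rw [h4]
      simp only [commutatorElement_def]; group
    rw [h3, comm_inv homF hf hc]
    simp only [commutatorElement_def]; group
  -- `[V, D] ≤ C(A)`
  have hVD : ∀ v ∈ V, ∀ c ∈ D, ⁅v, c⁆ ∈ Subgroup.centralizer (A : Set G) := by
    intro v hv c hc
    rw [hcA]
    intro a ha
    have h1 := swapF v (hVF hv) c hc a ha
    rw [((hD c).1 hc).2 v hv a ha] at h1
    exact (commutatorElement_eq_one_iff_mul_comm.1 h1.symm).symm
  obtain ⟨U2, hU2⟩ : ∃ U2, U2 = V ⊓ Subgroup.centralizer (A : Set G) := ⟨_, rfl⟩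
  obtain ⟨U1, hU1⟩ : ∃ U1, U1 = LL V U2 A homV := ⟨_, rfl⟩
  obtain ⟨U0, hU0⟩ : ∃ U0, U0 = LL V U1 A homV := ⟨_, rfl⟩
  have hstart : F ≤ LL F U0 D homF := by
    intro f hf
    refine ⟨hf, fun c hc => ?_⟩
    have hw : ⁅f, c⁆ ∈ V := h.FQ (Subgroup.commutator_mem_commutator hf (hDQ hc))
    rw [hU0]
    refine ⟨hw, fun a ha => ?_⟩
    rw [hU1]
    refine ⟨hVA _ hw a ha, fun a' ha' => ?_⟩
    rw [hU2]
    refine ⟨hVA _ (hVA _ hw a ha) a' ha', ?_⟩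
    obtain ⟨b, hb, e, he, hbe⟩ := hcnt.r _ hw a ha a' ha'
    change ⁅⁅⁅f, c⁆, a⁆, a'⁆ ∈ Subgroup.centralizer (A : Set G)
    rw [hbe]
    refine mul_mem ?_ he.2
    rw [← swapF f hf c hc b hb.1]
    exact hVD _ (h.FQ (Subgroup.commutator_mem_commutator hf hb.2)) c hc
  have step : ∀ W, ∀ u ∈ A, ⁅LL F (LL V W A homV) D homF, Subgroup.zpowers u⁆ ≤ LL F W D homF := by
    intro W u hu
    rw [Subgroup.commutator_le]
    intro f hf x hx
    have hxA : x ∈ A := (Subgroup.zpowers_le.2 hu) hx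
    refine ⟨hFA f hf.1 x hxA, fun c hc => ?_⟩
    rw [swapF f hf.1 c hc x hxA]
    exact (hf.2 c hc).2 x hxA
  intro u hu
  have h1 : iterCommutator F (Subgroup.zpowers u) 1 ≤ LL F U1 D homF := by
    refine (Subgroup.commutator_mono hstart le_rfl).trans ?_
    rw [hU0]
    exact step U1 u hu
  have h2 : iterCommutator F (Subgroup.zpowers u) 2 ≤ LL F U2 D homF := by
    refine (Subgroup.commutator_mono h1 le_rfl).trans ?_
    rw [hU1]
    exact step U2 u hu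
  have h3 : iterCommutator F (Subgroup.zpowers u) 3 ≤ LL F ⊥ D homF := by
    refine (Subgroup.commutator_mono h2 le_rfl).trans ?_
    rw [Subgroup.commutator_le]
    intro f hf x hx
    have hxA : x ∈ A := (Subgroup.zpowers_le.2 hu) hx
    refine ⟨hFA f hf.1 x hxA, fun c hc => ?_⟩
    rw [swapF f hf.1 c hc x hxA, Subgroup.mem_bot, commutatorElement_eq_one_iff_mul_comm]
    have h4 := hf.2 c hc
    rw [hU2] at h4
    exact ((hcA _).1 h4.2 x hxA).symm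
  change ⁅iterCommutator F (Subgroup.zpowers u) 3, Subgroup.zpowers u⁆ ≤ V
  rw [Subgroup.commutator_le]
  intro f hf x hx
  have hxA : x ∈ A := (Subgroup.zpowers_le.2 hu) hx
  have hf3 := h3 hf
  have hfB : f ∈ B := by
    apply hBmax f (hFS hf3.1)
    intro b hb
    obtain ⟨c, hc, v, hv, rfl⟩ := hBm b hb
    have e1 : f * c = c * f := commutatorElement_eq_one_iff_mul_comm.1 (Subgroup.mem_bot.1 (hf3.2 c hc))
    rw [mul_assoc, hVFc v hv f hf3.1, ← mul_assoc, ← e1, mul_assoc]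
  obtain ⟨c, hc, v, hv, rfl⟩ := hBm f hfB
  have e2 : ⁅c * v, x⁆ = c * ⁅v, x⁆ * c⁻¹ := by
    have h4 := hAc c (hDA hc) x hxA
    calc ⁅c * v, x⁆ = c * (v * x * v⁻¹ * x⁻¹) * (x * c⁻¹ * x⁻¹) := by rw [commutatorElement_def]; group
      _ = c * ⁅v, x⁆ * c⁻¹ := by
        rw [← commutatorElement_def]
        have h5 : x * c⁻¹ * x⁻¹ = c⁻¹ := by
          rw [show x * c⁻¹ * x⁻¹ = (x * c * x⁻¹)⁻¹ by group, ← h4]; group
        rw [h5]
  rw [e2]
  exact hVn.conj_mem _ (hVA v hv x hxA) c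

end H54.TjB
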