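import Mathlib
import Cfsg.Agent.Lib.H98.TjDef
import Cfsg.Agent.Lib.H39.Degree
import Cfsg.Agent.Lib.H54.TjB

/-! S3068: the pieces `cubicV`, `caseV` (helper54). -/

set_option autoImplicit false
set_option linter.unusedSectionVars false
set_option linter.unusedVariables false

namespace H54.TjV

open Cfsg H98.Tj H54.TjB
open scoped commutatorElement

universe u

theorem homV {G : Type u} [Group G] {V A : Subgroup G} (hVn : V.Normal) (hVc : V ≤ Subgroup.centralizer (V : Set G)) :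
    ∀ f ∈ V, ∀ g ∈ V, ∀ c ∈ A, ⁅f * g, c⁆ = ⁅f, c⁆ * ⁅g, c⁆ := by
  intro f hf g hg c hc
  have hc2 : ∀ a ∈ V, ∀ b ∈ V, a * b = b * a := fun a ha b hb => (Subgroup.mem_centralizer_iff.1 (hVc ha) b hb).symm
  have h1 : ⁅g, c⁆ ∈ V := by
    rw [commutatorElement_def, mul_assoc, mul_assoc, ← mul_assoc c]
    exact mul_mem hg (hVn.conj_mem _ (inv_mem hg) c)
  have h2 : ⁅f, c⁆ ∈ V := by
    rw [commutatorElement_def, mul_assoc, mul_assoc, ← mul_assoc c]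
    exact mul_mem hf (hVn.conj_mem _ (inv_mem hf) c)
  have e1 : ⁅f * g, c⁆ = f * ⁅g, c⁆ * f⁻¹ * ⁅f, c⁆ := by
    simp only [commutatorElement_def]; group
  rw [e1, hc2 f hf _ h1, mul_assoc ⁅g, c⁆ f f⁻¹, mul_inv_cancel, mul_one, hc2 _ h1 _ h2]

theorem nilQ {G : Type u} [Group G] [Finite G] {p : ℕ} [Fact p.Prime] : Group.IsNilpotent ↥(pCore p G) :=
  (H52.PCore.isPGroup_pCore (p := p) (G := G)).isNilpotent

theorem cubicV {G : Type u} [Group G] [Finite G] {p : ℕ} [Fact p.Prime] (S : Sylow p G) {Q V A : Subgroup G}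
    (hQ : Q = pCore p G) (hA : A ≤ (S : Subgroup G)) (hAc : A ≤ Subgroup.centralizer (A : Set G))
    (hVQ : V ≤ Q) (hVn : V.Normal) (hVc : V ≤ Subgroup.centralizer (V : Set G)) (hcnt : Cnt Q A V)
    {W W' : Subgroup G} (hW : IsChiefFactor W W') (hWV : W ≤ V) :
    ∀ u ∈ A, iterCommutator W (Subgroup.zpowers u) 3 ≤ W' := by
  have hQn : Q.Normal := by rw [hQ]; infer_instance
  have hQnil : Group.IsNilpotent ↥Q := by rw [hQ]; exact nilQ
  have hWQ : ⁅W, Q⁆ ≤ W' := H39.Chief.commutator_le_of_chief hW hQn hQnil (hWV.trans hVQ)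
  have hW'n : W'.Normal := hW.2.2.1
  have hVA : ∀ v ∈ V, ∀ a ∈ A, ⁅v, a⁆ ∈ V := by
    intro v hv a ha
    rw [commutatorElement_def, mul_assoc, mul_assoc, ← mul_assoc a]
    exact mul_mem hv (hVn.conj_mem _ (inv_mem hv) a)
  have hstart : W ≤ LL V (LL V (LL V W' A (homV hVn hVc)) A (homV hVn hVc)) A (homV hVn hVc) := by
    intro w hw
    refine ⟨hWV hw, fun a ha => ⟨hVA _ (hWV hw) a ha, fun a' ha' => ⟨hVA _ (hVA _ (hWV hw) a ha) a' ha', fun a'' ha'' => ?_⟩⟩⟩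
    obtain ⟨b, hb, e, he, hbe⟩ := hcnt.r w (hWV hw) a ha a' ha'
    rw [hbe]
    have h1 : ⁅w, b⁆ ∈ W' := hWQ (Subgroup.commutator_mem_commutator hw hb.2)
    have h2 : e * a'' = a'' * e := (Subgroup.mem_centralizer_iff.1 he.2 a'' ha'').symm
    have h3 : ⁅⁅w, b⁆ * e, a''⁆ = ⁅w, b⁆ * (a'' * ⁅w, b⁆⁻¹ * a''⁻¹) := by
      rw [commutatorElement_def (⁅w, b⁆ * e) a'']
      calc ⁅w, b⁆ * e * a'' * (⁅w, b⁆ * e)⁻¹ * a''⁻¹ = ⁅w, b⁆ * (e * a'') * e⁻¹ * ⁅w, b⁆⁻¹ * a''⁻¹ := by group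
        _ = ⁅w, b⁆ * (a'' * e) * e⁻¹ * ⁅w, b⁆⁻¹ * a''⁻¹ := by rw [h2]
        _ = _ := by group
    rw [h3]
    exact mul_mem h1 (hW'n.conj_mem _ (inv_mem h1) a'')
  have step : ∀ K, ∀ u ∈ A, ⁅LL V K A (homV hVn hVc), Subgroup.zpowers u⁆ ≤ K := by
    intro K u hu
    rw [Subgroup.commutator_le]
    intro f hf x hx
    exact hf.2 x ((Subgroup.zpowers_le.2 hu) hx)
  intro u hu
  have h1 : iterCommutator W (Subgroup.zpowers u) 1 ≤ LL V (LL V W' A (homV hVn hVc)) A (homV hVn hVc) :=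
    (Subgroup.commutator_mono hstart le_rfl).trans (step _ u hu)
  have h2 : iterCommutator W (Subgroup.zpowers u) 2 ≤ LL V W' A (homV hVn hVc) :=
    (Subgroup.commutator_mono h1 le_rfl).trans (step _ u hu)
  exact (Subgroup.commutator_mono h2 le_rfl).trans (step _ u hu)

/-- `{x ∈ X | [V, x] ≤ V'}` -/
def KX {G : Type u} [Group G] (X V V' : Subgroup G) (hn : V'.Normal) : Subgroup G where
  carrier := {x | x ∈ X ∧ ∀ v ∈ V, ⁅v, x⁆ ∈ V'}
  one_mem' := ⟨one_mem _, fun v _ => by rw [commutatorElement_one_right]; exact one_mem _⟩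
  mul_mem' := by
    rintro x y ⟨hx, hx2⟩ ⟨hy, hy2⟩
    refine ⟨mul_mem hx hy, fun v hv => ?_⟩
    have e : ⁅v, x * y⁆ = ⁅v, x⁆ * (x * ⁅v, y⁆ * x⁻¹) := by simp only [commutatorElement_def]; group
    rw [e]
    exact mul_mem (hx2 v hv) (hn.conj_mem _ (hy2 v hv) x)
  inv_mem' := by
    rintro x ⟨hx, hx2⟩
    refine ⟨inv_mem hx, fun v hv => ?_⟩
    have e : ⁅v, x⁻¹⁆ = x⁻¹ * ⁅v, x⁆⁻¹ * x⁻¹⁻¹ := by simp only [commutatorElement_def]; group
    rw [e]
    exact hn.conj_mem _ (inv_mem (hx2 v hv)) x⁻¹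

theorem caseV {G : Type u} [Group G] [Finite G] {p : ℕ} [Fact p.Prime] (S : Sylow p G) {Q V A X Y : Subgroup G}
    (hQ : Q = pCore p G) (hA : A ≤ (S : Subgroup G)) (hAc : A ≤ Subgroup.centralizer (A : Set G))
    (hVQ : V ≤ Q) (hVn : V.Normal) (hVc : V ≤ Subgroup.centralizer (V : Set G)) (hXn : X.Normal) (hXQ : X ≤ Q)
    (hcnt : Cnt Q A V) (hne : ¬ X ≤ Subgroup.centralizer (V : Set G))
    (hmin : ∀ K : Subgroup G, K.Normal → K ≤ V → K ≠ V → X ≤ Subgroup.centralizer (K : Set G))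
    (hXY : IsChiefFactor X Y) (huniq : ∀ K : Subgroup G, K.Normal → K ≤ X → K ≠ X → K ≤ Y) :
    ∀ u ∈ A, iterCommutator X (Subgroup.zpowers u) 5 ≤ Y := by
  have hQn : Q.Normal := by rw [hQ]; infer_instance
  have hQnil : Group.IsNilpotent ↥Q := by rw [hQ]; exact nilQ
  have hVbot : ⊥ < V := by
    rw [bot_lt_iff_ne_bot]
    rintro rfl
    apply hne
    intro x _
    rw [Subgroup.mem_centralizer_iff]
    intro y hy
    rw [Subgroup.coe_bot, Set.mem_singleton_iff] at hy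
    rw [hy, one_mul, mul_one]
  obtain ⟨V1, hV1, -⟩ := H39.Chief.exists_chief hVn (inferInstance : (⊥ : Subgroup G).Normal) hVbot
  have hVQ1 : ⁅V, Q⁆ ≤ V1 := H39.Chief.commutator_le_of_chief hV1 hQn hQnil hVQ
  have hXV1 : X ≤ Subgroup.centralizer (V1 : Set G) := hmin V1 hV1.2.2.1 hV1.1.le hV1.1.ne
  obtain ⟨V2, hV2⟩ : ∃ V2, V2 = ⁅V, X⁆ := ⟨_, rfl⟩
  have hV2n : V2.Normal := by rw [hV2]; exact Subgroup.commutator_normal V X
  have hV21 : V2 ≤ V1 := by rw [hV2]; exact (Subgroup.commutator_mono le_rfl hXQ).trans hVQ1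
  have hV2V : V2 ≤ V := hV21.trans hV1.1.le
  have hcen : ∀ {K L M : Subgroup G}, K ≤ L → M ≤ Subgroup.centralizer (L : Set G) → M ≤ Subgroup.centralizer (K : Set G) :=
    fun h1 h2 => h2.trans (Subgroup.centralizer_le h1)
  have hV2bot : ⊥ < V2 := by
    rw [bot_lt_iff_ne_bot]
    intro h
    apply hne
    rw [hV2, Subgroup.commutator_comm, Subgroup.commutator_eq_bot_iff_le_centralizer] at h
    exact h
  obtain ⟨V3, hV3, -⟩ := H39.Chief.exists_chief hV2n (inferInstance : (⊥ : Subgroup G).Normal) hV2bot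
  have hV3n : V3.Normal := hV3.2.2.1
  intro u hu
  have hnX : ∀ K : Subgroup G, K.Normal → Subgroup.zpowers u ≤ Subgroup.normalizer (K : Set G) := by
    intro K hK
    rw [Subgroup.normalizer_eq_top]; exact le_top
  have hpair := H39.Degree.pairing (X := X) (M := V) (M' := V1) (W := V2) (g := u) (le_of_eq hV2.symm)
    (hcen hV21 hXV1) (hcen hV2V hVc) (hV2V.trans (hcen hV2V hVc)) (hnX X hXn) (hnX V hVn) (hnX V2 hV2n)
    (Subgroup.le_centralizer_iff.1 hXV1) (i := 3) (cubicV S hQ hA hAc hVQ hVn hVc hcnt hV1 le_rfl u hu) 5 0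
  have hK : ∀ x ∈ iterCommutator X (Subgroup.zpowers u) 5, x ∈ KX X V V3 hV3n := by
    intro x hx
    refine ⟨H39.Degree.iter_anti (hnX X hXn) (Nat.zero_le 5) hx, fun v hv => ?_⟩
    exact cubicV S hQ hA hAc hVQ hVn hVc hcnt hV3 hV2V u hu (hpair x hx v hv)
  have hKn : (KX X V V3 hV3n).Normal := by
    constructor
    rintro x ⟨hx, hx2⟩ g
    refine ⟨hXn.conj_mem _ hx g, fun v hv => ?_⟩
    have e : ⁅v, g * x * g⁻¹⁆ = g * ⁅g⁻¹ * v * g⁻¹⁻¹, x⁆ * g⁻¹ := by simp only [commutatorElement_def]; group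
    rw [e]
    exact hV3n.conj_mem _ (hx2 _ (hVn.conj_mem _ hv g⁻¹)) g
  have hKX : KX X V V3 hV3n ≤ X := fun x hx => hx.1
  have hKne : KX X V V3 hV3n ≠ X := by
    intro h
    apply absurd hV3.1
    apply not_lt_of_ge
    rw [hV2, Subgroup.commutator_le]
    intro v hv x hx
    rw [← h] at hx
    exact hx.2 v hv
  exact fun x hx => huniq _ hKn hKX hKne (hK x hx)

end H54.TjV
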