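import Mathlib
import Cfsg.Agent.Lib.H54.TwoCyc2

set_option autoImplicit false
set_option linter.unusedSectionVars false
set_option linter.dupNamespace false

/-! Permutation groups with quasisimple generalized Fitting subgroup containing a Sylow 2-subgroup
of the alternating group: degrees 8 and 9, and the conclusion. -/

namespace H54.TwoCyc

open Equiv Equiv.Perm Cfsg Subgroup H54.ThreeCyc

variable {α : Type} [Fintype α] [DecidableEq α] {H : Subgroup (Perm α)}

theorem Mt.of_match {P : Subgroup (Perm α)} {μ : Perm α} (hμ : H42.SylowTwoPerm.IsMatch P μ)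
    (hPH : ∀ g ∈ P, g ∈ alternatingGroup α → g ∈ H) : Mt H μ where
  invol := hμ.invol
  fix := hμ.fix
  mem a b ha hb := hPH _ (mul_mem (hμ.mem a) (hμ.mem b))
    (H42.SylowTwoPerm.swap_swap_mem_alt ha.symm hb.symm)

/-- a Sylow 2-subgroup in degree at least 8 contains an 8-cycle -/
theorem exists_eight (h8 : 8 ≤ Fintype.card α) (P : Sylow 2 (Perm α)) :
    ∃ z ∈ (P : Subgroup (Perm α)), z.cycleType = {8} := by
  obtain ⟨ρ, hρ⟩ : ∃ ρ : Perm α, ρ.cycleType = {8} := by
    rw [Equiv.Perm.exists_with_cycleType_iff]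
    constructor
    · rw [Multiset.sum_singleton]; exact h8
    · intro a ha
      rw [Multiset.mem_singleton] at ha
      rw [ha]; norm_num
  have ho : orderOf ρ = 2 ^ 3 := by
    rw [← lcm_cycleType, hρ, Multiset.lcm_singleton]; rfl
  have hp : IsPGroup 2 (zpowers ρ) := by
    apply IsPGroup.of_card (n := 3)
    rw [Nat.card_zpowers, ho]
  obtain ⟨P', hP'⟩ := hp.exists_le_sylow
  obtain ⟨g, hg⟩ := MulAction.exists_smul_eq (Perm α) P' P
  refine ⟨g * ρ * g⁻¹, ?_, ?_⟩
  · rw [← hg]
    exact Subgroup.smul_mem_pointwise_smul ρ (MulAut.conj g) (P' : Subgroup (Perm α))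
      (hP' (mem_zpowers ρ))
  · rw [cycleType_conj, hρ]

theorem exists_big_nine (hF : IsQuasisimple (generalizedFittingSubgroup H)) {P : Sylow 2 (Perm α)}
    (hPH : ∀ g ∈ P, g ∈ alternatingGroup α → g ∈ H)
    (h8 : 8 ≤ Fintype.card α) (h9 : Fintype.card α ≤ 9) :
    ∃ x, Mv H x ∧ 5 ≤ (cmp H x).ncard := by
  classical
  by_contra hcon
  push Not at hcon
  have hfix := fix_of_small hF hcon
  obtain ⟨μ, hμP⟩ := H42.SylowTwoPerm.exists_isMatch P
  have hμ : Mt H μ := Mt.of_match hμP hPH
  obtain ⟨z, hzP, hz8⟩ := exists_eight h8 P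
  have hzc : IsCycle z := by
    rw [← card_cycleType_eq_one, hz8]; rfl
  have hzs : z.support.card = 8 := by
    rw [← sum_cycleType, hz8]; rfl
  have hzo : orderOf z = 8 := by
    rw [← lcm_cycleType, hz8, Multiset.lcm_singleton]; rfl
  have hzsign : sign z = -1 := by
    rw [hzc.sign, hzs]; rfl
  have hzμ : ∀ a, z (μ a) = μ (z a) := fun a => hμP.comm_of_mem P.isPGroup' hzP a
  -- at most one point outside the support of z
  have hout : ∀ a b, z a = a → z b = b → a = b := by
    have h1 : (Finset.univ \ z.support).card ≤ 1 := by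
      rw [Finset.card_sdiff_of_subset (Finset.subset_univ _), Finset.card_univ, hzs]; omega
    intro a b ha hb
    rw [Finset.card_le_one] at h1
    apply h1
    · rw [Finset.mem_sdiff, Perm.mem_support, not_not]; exact ⟨Finset.mem_univ _, ha⟩
    · rw [Finset.mem_sdiff, Perm.mem_support, not_not]; exact ⟨Finset.mem_univ _, hb⟩
  -- z preserves the moved points
  have hzMv : ∀ x, Mv H x → Mv H (z x) := by
    intro x hx
    obtain ⟨b, -, hb, -, h1, h2, -⟩ :=
      H42.SylowTwoPerm.exists_other_pairs hμ.fix (by omega) x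
    have hs : z * swap b (μ b) ∈ H := by
      apply hPH _ (mul_mem hzP (hμP.mem b))
      rw [mem_alternatingGroup, map_mul, hzsign, sign_swap hb.symm]; rfl
    have h3 : (z * swap b (μ b)) x = z x := by
      rw [Perm.mul_apply, swap_apply_of_ne_of_ne h1.symm]
      intro h
      apply h2
      rw [h, hμ.invol]
    rw [← h3]
    exact hx.apply hs
  by_cases hex : ∃ x, Mv H x
  · -- all points of the support of z are moved by 3-cycles
    have h1 : ∃ x, Mv H x ∧ z x ≠ x := by
      obtain ⟨x, hx⟩ := hex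
      by_cases hzx : z x = x
      · obtain ⟨c, hc, h3, hcx⟩ := id hx
        refine ⟨c x, hx.apply hc, ?_⟩
        intro h
        exact hcx (hout _ _ h hzx)
      · exact ⟨x, hx, hzx⟩
    obtain ⟨x, hx, hzx⟩ := h1
    have h2 : ∀ k : ℕ, Mv H ((z ^ k) x) := by
      intro k
      induction k with
      | zero => exact hx
      | succ k ih => rw [pow_succ', Perm.mul_apply]; exact hzMv _ ih
    have h3 : ∀ y, z y ≠ y → Mv H y := by
      intro y hy
      obtain ⟨k, hk⟩ := hzc.exists_pow_eq hzx hy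
      rw [← hk]; exact h2 k
    have h4 : ∀ e ∈ generalizedFittingSubgroup H, e = 1 := by
      intro e he
      apply Subtype.ext
      ext y
      show (e : Perm α) y = y
      by_cases hy : z y = y
      · by_cases hey : z ((e : Perm α) y) = (e : Perm α) y
        · exact hout _ _ hey hy
        · have h5 := hfix e he _ (h3 _ hey)
          exact (e : Perm α).injective h5
      · exact hfix e he y (h3 y hy)
    have := H26.Quasisimple.nontrivial hF
    obtain ⟨a, b, hab⟩ := this
    apply hab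
    apply Subtype.ext
    rw [h4 a a.2, h4 b b.2]
  -- no 3-cycles at all
  push Not at hex
  have key : ∀ {ν1 ν2 : Perm α}, Mt H ν1 → Mt H ν2 → ∀ x, ν1 x ≠ x → ν2 x ≠ x → ν1 x ≠ ν2 x →
      ν1 (ν2 x) ≠ ν2 x ∧ ν2 (ν1 x) ≠ ν1 x ∧
      (ν2 (ν1 x) = ν1 (ν2 x) ∨ ν1 (ν2 (ν1 x)) = ν2 (ν1 x)) ∧ ∀ y, ν1 y ≠ y → ν1 y ≠ ν2 y := by
    intro ν1 ν2 h1 h2 x ha hb hab
    exact (rel_of h1 h2 h8 (hex x) ha hb hab).2
  have hfx : ∀ {ν1 ν2 : Perm α}, Mt H ν1 → Mt H ν2 → ∀ x, ν1 x = x → ν2 x = x := by
    intro ν1 ν2 h1 h2 x ha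
    by_contra hb
    have h3 : ν1 (ν2 x) ≠ ν2 x := fun h => hb (h1.fix _ _ h ha)
    have h4 : ν1 (ν2 x) ≠ ν2 (ν2 x) := by
      rw [h2.invol]
      intro h
      apply hb
      rw [← h1.invol (ν2 x), h, ha]
    have h5 := (key h1 h2 (ν2 x) h3 (by rw [h2.invol]; exact Ne.symm hb) h4).1
    rw [h2.invol] at h5
    exact h5 ha
  have hcm : ∀ {ν1 ν2 : Perm α}, Mt H ν1 → Mt H ν2 → ∀ x, ν1 (ν2 x) = ν2 (ν1 x) := by
    intro ν1 ν2 h1 h2 x
    by_cases ha : ν1 x = x
    · have hb := hfx h1 h2 x ha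
      rw [ha, hb, ha]
    · have hb : ν2 x ≠ x := fun h => ha (hfx h2 h1 x h)
      by_cases hab : ν1 x = ν2 x
      · rw [← hab, h1.invol, hab, h2.invol]
      · obtain ⟨h3, h4, h5, -⟩ := key h1 h2 x ha hb hab
        rcases h5 with h5 | h5
        · exact h5.symm
        · exfalso
          have h6 : ν1 (ν1 x) ≠ ν2 (ν1 x) := by
            rw [h1.invol]
            intro h
            apply hab
            rw [h, h2.invol, ← h]
          exact (key h1 h2 (ν1 x) (by rw [h1.invol]; exact Ne.symm ha) h4 h6).1 h5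
  -- μ lies in H
  have hμH : μ ∈ H := by
    obtain ⟨x0, hx0⟩ : ∃ x0, z x0 ≠ x0 := by
      obtain ⟨x, hx, -⟩ := hzc
      exact ⟨x, hx⟩
    have h1 : z (μ x0) ≠ μ x0 := by
      rw [hzμ]; exact fun h => hx0 (μ.injective h)
    obtain ⟨k, hk⟩ := hzc.exists_pow_eq hx0 h1
    have hzk : ∀ j : ℕ, ∀ a, (z ^ j) (μ a) = μ ((z ^ j) a) := by
      intro j
      induction j with
      | zero => intro a; rfl
      | succ j ih => intro a; rw [pow_succ', Perm.mul_apply, ih, hzμ, Perm.mul_apply]
    have h2 : ∀ y, z y ≠ y → μ y = (z ^ k) y := by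
      intro y hy
      obtain ⟨j, hj⟩ := hzc.exists_pow_eq hx0 hy
      rw [← hj, ← hzk, ← hk, ← Perm.mul_apply, ← Perm.mul_apply, ← pow_add, ← pow_add, add_comm]
    have h3 : μ = z ^ k := by
      ext y
      by_cases hy : z y = y
      · have h4 : z (μ y) = μ y := by rw [hzμ, hy]
        have h5 : μ y = y := hout _ _ h4 hy
        rw [h5, Equiv.Perm.pow_apply_eq_self_of_apply_eq_self hy]
      · exact h2 y hy
    have h4 : z ^ (k + k) = 1 := by
      rw [pow_add, ← h3]
      ext a
      exact hμ.invol a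
    rw [← orderOf_dvd_iff_pow_eq_one, hzo] at h4
    have h5 : 2 ∣ k := by omega
    apply hPH _ (h3 ▸ pow_mem hzP k)
    rw [mem_alternatingGroup, h3, map_pow, hzsign]
    obtain ⟨j, rfl⟩ := h5
    rw [pow_mul]; simp
  -- the abelian normal subgroup
  have hE : ∀ e ∈ generalizedFittingSubgroup H, ∀ h ∈ H, ∀ a,
      (e : Perm α) ((h * μ * h⁻¹) a) = (h * μ * h⁻¹) ((e : Perm α) a) := by
    set A : Subgroup H := normalClosure {(⟨μ, hμH⟩ : H)} with hA
    have hAc : IsMulCommutative A := by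
      rw [hA, normalClosure]
      apply isMulCommutative_closure
      intro a ha b hb
      rw [Group.mem_conjugatesOfSet_iff] at ha hb
      obtain ⟨a', ha', hca⟩ := ha
      obtain ⟨b', hb', hcb⟩ := hb
      rw [Set.mem_singleton_iff] at ha' hb'
      subst ha'; subst hb'
      rw [isConj_iff] at hca hcb
      obtain ⟨c, rfl⟩ := hca
      obtain ⟨d, rfl⟩ := hcb
      apply Subtype.ext
      ext x
      exact hcm (hμ.conj c.2) (hμ.conj d.2) x
    have hAs : Group.IsSolvable A := by
      exact Group.isSolvable_of_comm (fun a b => hAc.is_comm.comm a b)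
    have hcen := (solv_le hF (normalClosure_normal (s := {(⟨μ, hμH⟩ : H)})).isSubnormal hAs).1
    intro e he h hh a
    have h1 : (⟨h * μ * h⁻¹, mul_mem (mul_mem hh hμH) (inv_mem hh)⟩ : H) ∈ A := by
      have h2 : (⟨μ, hμH⟩ : H) ∈ A := subset_normalClosure (Set.mem_singleton _)
      exact (normalClosure_normal (s := {(⟨μ, hμH⟩ : H)})).conj_mem _ h2 ⟨h, hh⟩
    have h3 := mem_centralizer_iff.mp (hcen h1) e he
    exact congrArg (fun g : H => (g : Perm α) a) h3
  apply not_four hF
  intro e he x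
  have heμ : ∀ a, (e : Perm α) (μ a) = μ ((e : Perm α) a) := by
    intro a
    have := hE e he 1 (one_mem _) a
    simpa using this
  by_cases hx : μ x = x
  · have h1 := heμ x
    rw [hx] at h1
    have h2 := hμ.fix _ _ h1.symm hx
    rw [h2, h2, h2, h2]
  by_cases hall : ∀ h ∈ H, ∀ a, h (μ a) = μ (h a)
  · exact four_of hF μ hμ.invol hall hμ.mem he hx
  · push Not at hall
    obtain ⟨h, hh, a, ha⟩ := hall
    have hν := hμ.conj hh
    have h1 : (h * μ * h⁻¹) (h a) ≠ μ (h a) := by
      rw [Perm.mul_apply, Perm.mul_apply, inv_ap]; exact ha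
    have h2 : μ (h a) ≠ h a := by
      intro h3
      apply h1
      rw [h3]
      exact hfx hμ hν _ h3
    have h3 : (h * μ * h⁻¹) (h a) ≠ h a := fun h4 => h2 (hfx hν hμ _ h4)
    obtain ⟨-, -, -, h4⟩ := key hμ hν _ h2 h3 h1.symm
    exact four_of' h9 hμ.invol hν.invol (fun a => hcm hμ hν a) h4 (fun y hy => hfx hν hμ y hy)
      heμ (hE e he h hh) hx

/-- few points outside the big class -/
theorem card_big (hF : IsQuasisimple (generalizedFittingSubgroup H)) {μ : Perm α} (hμ : Mt H μ)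
    (h8 : 8 ≤ Fintype.card α) {x : α} (hx : Mv H x) (h5 : 5 ≤ (cmp H x).ncard) :
    Fintype.card α ≤ (cmp H x).ncard + 3 := by
  classical
  by_contra hcon
  push Not at hcon
  have hmem : ∀ y, Mv H y ↔ y ∈ cmp H x := by
    intro y
    constructor
    · exact fun hy => big_all hF hx h5 hy
    · intro hy
      have h1 := big hF hx h5
      have h2 := altOn_cmp_le hx
      -- two further points of the class
      have h3 : 2 < (cmp H x).ncard := by omega
      obtain ⟨a, b, c, ha, hb, hc, hab, hac, hbc⟩ := (Set.two_lt_ncard_iff (Set.toFinite _)).mp h3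
      obtain ⟨u, hu, v, hv, huy, hvy, huv⟩ : ∃ u ∈ cmp H x, ∃ v ∈ cmp H x, u ≠ y ∧ v ≠ y ∧ u ≠ v := by
        by_cases h1 : a = y
        · exact ⟨b, hb, c, hc, fun h => hab (h1.trans h.symm), fun h => hac (h1.trans h.symm), hbc⟩
        · by_cases h2 : b = y
          · exact ⟨a, ha, c, hc, h1, fun h => hbc (h2.trans h.symm), hac⟩
          · exact ⟨a, ha, b, hb, h1, h2, hab⟩
      have h4 : IsThreeCycle (swap y u * swap y v) :=
        isThreeCycle_swap_mul_swap_same huy.symm hvy.symm huv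
      refine ⟨_, h2 ⟨mem_alternatingGroup.mpr h4.sign, ?_⟩, h4, ?_⟩
      · intro w hw
        have w1 : w ≠ y := fun h => hw (h ▸ hy)
        have w2 : w ≠ u := fun h => hw (h ▸ hu)
        have w3 : w ≠ v := fun h => hw (h ▸ hv)
        rw [Perm.mul_apply, swap_apply_of_ne_of_ne w1 w3, swap_apply_of_ne_of_ne w1 w2]
      · rw [Perm.mul_apply, swap_apply_left, swap_apply_of_ne_of_ne hvy huv.symm]
        exact hvy
  -- a block outside
  have hout : ∃ a b, ¬ Mv H a ∧ ¬ Mv H b ∧ μ a ≠ a ∧ μ b ≠ b ∧ b ≠ a ∧ b ≠ μ a := by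
    set W : Finset α := Finset.univ.filter fun a => ¬ Mv H a with hW
    have hWc : 4 ≤ W.card := by
      have h1 : (Finset.univ.filter fun a => Mv H a).card = (cmp H x).ncard := by
        rw [← Set.ncard_coe_finset]
        congr 1
        ext y
        simp [hmem]
      have h2 := Finset.card_filter_add_card_filter_not (s := (Finset.univ : Finset α)) (fun a => Mv H a)
      rw [Finset.card_univ] at h2
      rw [hW]
      omega
    obtain ⟨c1, c2⟩ := card_fix hμ.invol hμ.fix
    have h1 : 3 ≤ (W \ (Finset.univ \ μ.support)).card := by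
      have := Finset.le_card_sdiff (Finset.univ \ μ.support) W
      omega
    obtain ⟨a, ha⟩ : (W \ (Finset.univ \ μ.support)).Nonempty := by
      rw [← Finset.card_pos]; omega
    have h2 : 1 ≤ ((W \ (Finset.univ \ μ.support)) \ {a, μ a}).card := by
      have := Finset.le_card_sdiff {a, μ a} (W \ (Finset.univ \ μ.support))
      have h3 : ({a, μ a} : Finset α).card ≤ 2 := Finset.card_le_two
      omega
    obtain ⟨b, hb⟩ : ((W \ (Finset.univ \ μ.support)) \ {a, μ a}).Nonempty := by
      rw [← Finset.card_pos]; omega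
    simp only [hW, Finset.mem_sdiff, Finset.mem_filter, Finset.mem_univ, true_and, Perm.mem_support,
      not_not, Finset.mem_insert, Finset.mem_singleton, not_or] at ha hb
    exact ⟨a, b, ha.1, hb.1.1, ha.2, hb.1.2, hb.2.1, hb.2.2⟩
  obtain ⟨a, b, ha, hb, hμa, hμb, hba, hbμ⟩ := hout
  have ha' : ¬ Mv H (μ a) := by rwa [hμ.mv_iff h8]
  have hb' : ¬ Mv H (μ b) := by rwa [hμ.mv_iff h8]
  have hd := hμ.mem a b hμa hμb
  have h1 : (⟨_, hd⟩ : H) ∈ centralizer (generalizedFittingSubgroup H : Set H) := by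
    rw [mem_centralizer_iff]
    intro e he
    rw [SetLike.mem_coe, ← big hF hx h5, mem_subgroupOf, mem_altOn] at he
    apply Subtype.ext
    show (e : Perm α) * (swap a (μ a) * swap b (μ b)) = (swap a (μ a) * swap b (μ b)) * (e : Perm α)
    apply commute_altOn he.2
    intro y hy
    rw [← hmem] at hy
    have w1 : y ≠ a := fun h => ha (h ▸ hy)
    have w2 : y ≠ μ a := fun h => ha' (h ▸ hy)
    have w3 : y ≠ b := fun h => hb (h ▸ hy)
    have w4 : y ≠ μ b := fun h => hb' (h ▸ hy)
    rw [Perm.mul_apply, swap_apply_of_ne_of_ne w3 w4, swap_apply_of_ne_of_ne w1 w2]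
  have h2 := H26.Components.centralizer_gFitting_le h1
  rw [← big hF hx h5, mem_subgroupOf, mem_altOn] at h2
  have h3 := h2.2 a (fun h => ha ((hmem a).mpr h))
  have h4 : (swap a (μ a) * swap b (μ b) : Perm α) a = μ a := by
    rw [Perm.mul_apply, swap_apply_of_ne_of_ne hba.symm, swap_apply_left]
    intro h
    apply hbμ
    rw [h, hμ.invol]
  exact hμa (h4.symm.trans h3)

/-- the conclusion -/
theorem main {n : ℕ} (hn : 8 ≤ n) {H : Subgroup (Perm (Fin n))}
    (hF : IsQuasisimple (generalizedFittingSubgroup H)) {P : Sylow 2 (Perm (Fin n))}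
    (hPH : ∀ g ∈ P, g ∈ alternatingGroup (Fin n) → g ∈ H) :
    ∃ m : ℕ, (m = n - 3 ∨ m = n - 2 ∨ m = n - 1 ∨ m = n) ∧
      Nonempty (generalizedFittingSubgroup H ≃* alternatingGroup (Fin m)) := by
  obtain ⟨μ, hμP⟩ := H42.SylowTwoPerm.exists_isMatch P
  have hμ : Mt H μ := Mt.of_match hμP hPH
  have hc : Fintype.card (Fin n) = n := Fintype.card_fin n
  obtain ⟨x, hx, h5⟩ : ∃ x, Mv H x ∧ 5 ≤ (cmp H x).ncard := by
    rcases Nat.lt_or_ge n 10 with h | h
    · exact exists_big_nine hF hPH (by rw [hc]; exact hn) (by rw [hc]; omega)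
    · exact exists_big_ten hF hμ (by rw [hc]; exact h)
  refine ⟨(cmp H x).ncard, ?_, big_iso hF hx h5⟩
  have h1 := card_big hF hμ (by rw [hc]; exact hn) hx h5
  have h2 : (cmp H x).ncard ≤ n := by
    have := Set.ncard_le_ncard (Set.subset_univ (cmp H x))
    rwa [Set.ncard_univ, Nat.card_eq_fintype_card, Fintype.card_fin] at this
  rw [hc] at h1
  omega

end H54.TwoCyc
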